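import Cfsg.Agent.Lib.H39.DAQ6aAux

/-!
Counting formulas for doubly transitive groups with a two-point stabilizer of order `4 k`
in which an involution `t` has centralizer of order 4 (generic version of S3262 Q6a).
-/

set_option autoImplicit false

open MulAction H39.DA

universe u v

namespace H12.B4

variable {G : Type u} {Ω : Type v} [Group G] [MulAction G Ω] [Finite G] [Finite Ω]

theorem count_gen (k : ℕ) (h : TT G Ω) {a b : Ω} (hab : a ≠ b) {t : G} (ht : Inv t) (hts : t ∈ St G a b)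
    (hf : ∀ a b : Ω, a ≠ b → ∀ s s' : G, Inv s → s ∈ St G a b → Inv s' → s' ∈ St G a b → ∃ g ∈ St G a b, g * s * g⁻¹ = s')
    (hk : Nat.card (St G a b) = 4 * k) (h4 : Nat.card (VV a b t) = 4) :
    Nat.card G = 4 * k * (Nat.card Ω * (Nat.card Ω - 1)) ∧
    Nat.card (Subgroup.centralizer ({t} : Set G)) = 4 * (fx G Ω t * (fx G Ω t - 1)) ∧
    2 ≤ fx G Ω t ∧ fx G Ω t < Nat.card Ω ∧
    k * (Nat.card Ω - fx G Ω t) = fx G Ω t * (fx G Ω t - 1) * Nat.card {s : G // IsConj t s ∧ s • a = b ∧ s • b = a} ∧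
    Nat.card {s : G // IsConj t s} * (fx G Ω t * (fx G Ω t - 1)) = k * (Nat.card Ω * (Nat.card Ω - 1)) := by
  classical
  have hta : t • a = a := hts.1
  have htb : t • b = b := hts.2
  have c1 : Nat.card G = 4 * k * (Nat.card Ω * (Nat.card Ω - 1)) := by
    have h1 := Q6a.card_pairs (⊤ : Subgroup G) (Set.univ : Set Ω) (a := a) (b := b) trivial trivial hab
      (fun _ _ _ _ => trivial) (fun c _ d _ hcd => by
        obtain ⟨g, h1, h2⟩ := h.tr a b c d hab hcd
        exact ⟨g, trivial, h1, h2⟩)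
    rw [inf_top_eq, hk, Subgroup.card_top, Nat.card_congr (Equiv.Set.univ Ω)] at h1
    exact h1
  have c2 : Nat.card (Subgroup.centralizer ({t} : Set G)) = 4 * (fx G Ω t * (fx G Ω t - 1)) := by
    have h1 := Q6a.card_pairs (Subgroup.centralizer ({t} : Set G)) {x : Ω | t • x = x} (a := a) (b := b) hta htb hab
      (fun g hg x hx => by
        rw [Subgroup.mem_centralizer_singleton_iff] at hg
        change t • g • x = g • x
        rw [← mul_smul, ← hg, mul_smul, show t • x = x from hx])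
      (fun c hc d hd hcd => by
        obtain ⟨g, h1, h2, h3⟩ := Q6a.witt h ht hf a b c d hab hcd hta htb hc hd
        exact ⟨g, Subgroup.mem_centralizer_singleton_iff.2 h1, h2, h3⟩)
    rw [show (St G a b ⊓ Subgroup.centralizer ({t} : Set G) : Subgroup G) = VV a b t from rfl, h4] at h1
    exact h1
  have c3 : 2 ≤ fx G Ω t := by
    have h1 : 1 < Nat.card {x : Ω // t • x = x} :=
      Finite.one_lt_card_iff_nontrivial.2 ⟨⟨a, hta⟩, ⟨b, htb⟩, fun h0 => hab (congrArg Subtype.val h0)⟩
    exact h1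
  have c4 : fx G Ω t < Nat.card Ω := by
    have h1 : ∃ x : Ω, t • x ≠ x := by
      by_contra hc
      push Not at hc
      exact ht.1 (h.faith t hc)
    obtain ⟨x, hx⟩ := h1
    exact Finite.card_subtype_lt hx
  have c5 : Nat.card {s : G // IsConj t s} * (fx G Ω t * (fx G Ω t - 1)) = k * (Nat.card Ω * (Nat.card Ω - 1)) := by
    have h1 := Q6a.card_class (G := G) t
    rw [c2, c1] at h1
    have h2 : 4 * (Nat.card {s : G // IsConj t s} * (fx G Ω t * (fx G Ω t - 1))) =
        4 * (k * (Nat.card Ω * (Nat.card Ω - 1))) := by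
      calc _ = Nat.card {s : G // IsConj t s} * (4 * (fx G Ω t * (fx G Ω t - 1))) := by ring
        _ = 4 * k * (Nat.card Ω * (Nat.card Ω - 1)) := h1
        _ = _ := by ring
    exact Nat.eq_of_mul_eq_mul_left (by norm_num) h2
  refine ⟨c1, c2, c3, c4, ?_, c5⟩
  have h1 := Q6a.double h ht hab
  have hpos : 0 < Nat.card Ω * (Nat.card Ω - 1) := by
    apply Nat.mul_pos <;> omega
  have h2 : Nat.card Ω * (Nat.card Ω - 1) * (k * (Nat.card Ω - fx G Ω t)) =
      Nat.card Ω * (Nat.card Ω - 1) *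
        (fx G Ω t * (fx G Ω t - 1) * Nat.card {s : G // IsConj t s ∧ s • a = b ∧ s • b = a}) := by
    calc _ = (k * (Nat.card Ω * (Nat.card Ω - 1))) * (Nat.card Ω - fx G Ω t) := by ring
      _ = (Nat.card {s : G // IsConj t s} * (fx G Ω t * (fx G Ω t - 1))) * (Nat.card Ω - fx G Ω t) := by rw [c5]
      _ = (Nat.card {s : G // IsConj t s} * (Nat.card Ω - fx G Ω t)) * (fx G Ω t * (fx G Ω t - 1)) := by ring
      _ = _ := by rw [h1]; ring
  exact Nat.eq_of_mul_eq_mul_left hpos h2

end H12.B4
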