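import Cfsg.Agent.Lib.H39.DAQ6aAux

/-!
S3219: degree 28 is impossible (counting fixed-point-free elements).
-/

set_option autoImplicit false

open MulAction H39.DA

universe u v

namespace H12.B4

variable {G : Type u} {Ω : Type v} [Group G] [MulAction G Ω] [Finite G] [Finite Ω]

theorem burnside (htr : ∀ x y : Ω, ∃ g : G, g • x = y) [Nonempty Ω] [Fintype G] :
    ∑ g : G, fx G Ω g = Nat.card G := by
  classical
  have := Fintype.ofFinite Ω
  have hp : IsPretransitive G Ω := ⟨htr⟩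
  have h1 := MulAction.sum_card_fixedBy_eq_card_orbits_mul_card_group G Ω
  have h2 : Fintype.card (Quotient (orbitRel G Ω)) = 1 := by
    have : Subsingleton (Quotient (orbitRel G Ω)) := by
      constructor
      intro x y
      induction x using Quotient.inductionOn with | h x =>
      induction y using Quotient.inductionOn with | h y =>
      apply Quotient.sound
      obtain ⟨g, hg⟩ := htr y x
      exact ⟨g, hg⟩
    have hne : Nonempty (Quotient (orbitRel G Ω)) := by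
      obtain ⟨x⟩ := ‹Nonempty Ω›
      exact ⟨Quotient.mk _ x⟩
    exact Fintype.card_eq_one_iff_nonempty_unique.2 ⟨⟨⟨hne.some⟩, fun a => Subsingleton.elim _ _⟩⟩
  rw [h2, one_mul, ← Nat.card_eq_fintype_card] at h1
  rw [← h1]
  refine Finset.sum_congr rfl fun g _ => ?_
  unfold fx
  rw [Nat.card_eq_fintype_card]
  rfl

theorem card_pairs_fixed (g : G) : Nat.card {p : Ω × Ω // p.1 ≠ p.2 ∧ g • p.1 = p.1 ∧ g • p.2 = p.2} =
    fx G Ω g * (fx G Ω g - 1) := by
  unfold fx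
  rw [← Q6a.card_offdiag (Ω := {x : Ω // g • x = x})]
  exact Nat.card_congr
    { toFun := fun p => ⟨(⟨p.1.1, p.2.2.1⟩, ⟨p.1.2, p.2.2.2⟩), fun h0 => p.2.1 (congrArg Subtype.val h0)⟩
      invFun := fun q => ⟨(q.1.1.1, q.1.2.1), fun h0 => q.2 (Subtype.ext h0), q.1.1.2, q.1.2.2⟩
      left_inv := fun p => rfl
      right_inv := fun q => rfl }

theorem double3 (h8 : ∀ x y : Ω, x ≠ y → Nat.card {g : G // (g ≠ 1 ∧ ¬ Inv g) ∧ g ∈ St G x y} = 8)
    [Fintype {g : G // g ≠ 1 ∧ ¬ Inv g}] :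
    ∑ g : {g : G // g ≠ 1 ∧ ¬ Inv g}, fx G Ω (g : G) * (fx G Ω (g : G) - 1) = Nat.card Ω * (Nat.card Ω - 1) * 8 := by
  classical
  let P := {q : G × (Ω × Ω) // (q.1 ≠ 1 ∧ ¬ Inv q.1) ∧ q.2.1 ≠ q.2.2 ∧ q.1 • q.2.1 = q.2.1 ∧ q.1 • q.2.2 = q.2.2}
  have e1 : Nat.card P = ∑ g : {g : G // g ≠ 1 ∧ ¬ Inv g}, fx G Ω (g : G) * (fx G Ω (g : G) - 1) := by
    have e : P ≃ (Σ g : {g : G // g ≠ 1 ∧ ¬ Inv g}, {p : Ω × Ω // p.1 ≠ p.2 ∧ (g : G) • p.1 = p.1 ∧ (g : G) • p.2 = p.2}) :=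
      { toFun := fun q => ⟨⟨q.1.1, q.2.1⟩, ⟨q.1.2, q.2.2⟩⟩
        invFun := fun z => ⟨(z.1.1, z.2.1), z.1.2, z.2.2⟩
        left_inv := fun q => rfl
        right_inv := fun z => rfl }
    rw [Nat.card_congr e, Nat.card_sigma]
    exact Finset.sum_congr rfl fun g _ => card_pairs_fixed (g : G)
  have e2 : Nat.card P = Nat.card Ω * (Nat.card Ω - 1) * 8 := by
    have e : P ≃ (Σ p : {p : Ω × Ω // p.1 ≠ p.2}, {g : G // (g ≠ 1 ∧ ¬ Inv g) ∧ g ∈ St G p.1.1 p.1.2}) :=
      { toFun := fun q => ⟨⟨q.1.2, q.2.2.1⟩, ⟨q.1.1, q.2.1, ⟨q.2.2.2.1, q.2.2.2.2⟩⟩⟩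
        invFun := fun z => ⟨(z.2.1, z.1.1), z.2.2.1, z.1.2, z.2.2.2.1, z.2.2.2.2⟩
        left_inv := fun q => rfl
        right_inv := fun z => rfl }
    have hF : Fintype {p : Ω × Ω // p.1 ≠ p.2} := Fintype.ofFinite _
    rw [Nat.card_congr e, Nat.card_sigma]
    have h2 : ∀ p : {p : Ω × Ω // p.1 ≠ p.2}, Nat.card {g : G // (g ≠ 1 ∧ ¬ Inv g) ∧ g ∈ St G p.1.1 p.1.2} = 8 :=
      fun p => h8 _ _ p.2
    simp only [h2, Finset.sum_const, Finset.card_univ, smul_eq_mul]
    rw [← Nat.card_eq_fintype_card, Q6a.card_offdiag]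
  rw [← e1, e2]

theorem fpf_le (h : TT G Ω) (hn : Nat.card Ω = 28) {t : G}
    (h8 : ∀ x y : Ω, x ≠ y → Nat.card {g : G // (g ≠ 1 ∧ ¬ Inv g) ∧ g ∈ St G x y} = 8)
    (h3 : ∀ x y : Ω, x ≠ y → ∀ g ∈ St G x y, g ≠ 1 → ¬ Inv g → g ^ 3 = 1)
    (hi : ∀ x y : Ω, x ≠ y → ∀ g ∈ St G x y, Inv g → IsConj t g)
    (hf : fx G Ω t = 4) (hc : Nat.card {s : G // IsConj t s} = 189) :
    4 * Nat.card {g : G // ∀ x : Ω, g • x ≠ x} ≤ 8424 := by
  classical
  have hFG := Fintype.ofFinite G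
  have hne : Nonempty Ω := by
    obtain ⟨a, _⟩ := h.two
    exact ⟨a⟩
  have htr : ∀ x y : Ω, ∃ g : G, g • x = y := by
    intro x y
    have : 1 < Nat.card Ω := by omega
    have hnt := Finite.one_lt_card_iff_nontrivial.1 this
    obtain ⟨x', hx'⟩ := exists_ne x
    obtain ⟨y', hy'⟩ := exists_ne y
    obtain ⟨g, hg, _⟩ := h.tr x x' y y' hx'.symm hy'.symm
    exact ⟨g, hg⟩
  have b := burnside (G := G) (Ω := Ω) htr
  have two : ∀ g : G, 2 ≤ fx G Ω g → ∃ x y : Ω, x ≠ y ∧ g ∈ St G x y := by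
    intro g hg
    have h1 : 1 < Nat.card {x : Ω // g • x = x} := hg
    have hnt := Finite.one_lt_card_iff_nontrivial.1 h1
    obtain ⟨⟨x, hx⟩, ⟨y, hy⟩, hxy⟩ := hnt
    exact ⟨x, y, fun h0 => hxy (Subtype.ext h0), ⟨hx, hy⟩⟩
  have key : ∀ g : G, 4 * (fx G Ω g - 1) ≤ (if g = 1 then 108 else 0) + (if IsConj t g then 12 else 0) +
      (if g ≠ 1 ∧ ¬ Inv g then fx G Ω g * (fx G Ω g - 1) else 0) := by
    intro g
    by_cases hg2 : 2 ≤ fx G Ω g
    · obtain ⟨x, y, hxy, hg⟩ := two g hg2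
      by_cases hg1 : g = 1
      · subst hg1
        have : fx G Ω (1 : G) = 28 := by
          unfold fx
          rw [← hn]
          exact Nat.card_congr ⟨fun x => x.1, fun x => ⟨x, one_smul _ _⟩, fun _ => rfl, fun _ => rfl⟩
        rw [this]; simp
      · by_cases hgi : Inv g
        · have h5 := hi x y hxy g hg hgi
          have h6 : fx G Ω g = 4 := by rw [Q6a.card_fix_conj h5, hf]
          rw [h6, if_pos h5]; omega
        · have h5 := h3 x y hxy g hg hg1 hgi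
          have h6 : fx G Ω g ≡ 1 [MOD 3] := by
            have hz : IsPGroup 3 (Subgroup.zpowers g) := by
              rw [IsPGroup.iff_card]
              have : orderOf g = 3 := orderOf_eq_prime h5 hg1
              exact ⟨1, by rw [Nat.card_zpowers, this, pow_one]⟩
            have h7 := hz.card_modEq_card_fixedPoints Ω
            have h8' : Nat.card (MulAction.fixedPoints (Subgroup.zpowers g) Ω) = fx G Ω g := by
              unfold fx
              refine Nat.card_congr (Equiv.subtypeEquivRight fun x => ?_)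
              constructor
              · intro hx
                exact hx ⟨g, Subgroup.mem_zpowers g⟩
              · rintro hx ⟨z, k, rfl⟩
                change (g ^ k) • x = x
                exact MulAction.mem_stabilizer_iff.1 (Subgroup.zpow_mem (stabilizer G x) (show g ∈ stabilizer G x from hx) k)
            rw [h8', hn] at h7
            exact h7.symm.trans (by decide)
          have h7 : 4 ≤ fx G Ω g := by
            have h9 : fx G Ω g % 3 = 1 := h6
            omega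
          rw [if_pos (show g ≠ 1 ∧ ¬ Inv g from ⟨hg1, hgi⟩)]
          have := Nat.mul_le_mul_right (fx G Ω g - 1) h7
          omega
    · have : fx G Ω g - 1 = 0 := by omega
      rw [this]; simp
  have s1 : ∑ g : G, (fx G Ω g + (if fx G Ω g = 0 then 1 else 0)) = ∑ g : G, (1 + (fx G Ω g - 1)) := by
    refine Finset.sum_congr rfl fun g _ => ?_
    split_ifs with h0
    · rw [h0]
    · omega
  rw [Finset.sum_add_distrib, Finset.sum_add_distrib, b] at s1
  have s2 : ∑ g : G, (if fx G Ω g = 0 then 1 else 0) = Nat.card {g : G // ∀ x : Ω, g • x ≠ x} := by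
    rw [Finset.sum_boole, Nat.card_eq_fintype_card, Fintype.card_subtype]
    simp only [Nat.cast_id]
    congr 1
    ext g
    simp only [Finset.mem_filter, Finset.mem_univ, true_and]
    unfold fx
    rw [Finite.card_eq_zero_iff, isEmpty_subtype]
  have s3 : ∑ g : G, 1 = Nat.card G := by simp [Nat.card_eq_fintype_card]
  rw [s2, s3] at s1
  have s4 : Nat.card {g : G // ∀ x : Ω, g • x ≠ x} = ∑ g : G, (fx G Ω g - 1) := by omega
  rw [s4, Finset.mul_sum]
  refine (Finset.sum_le_sum fun g _ => key g).trans ?_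
  rw [Finset.sum_add_distrib, Finset.sum_add_distrib]
  have t1 : ∑ g : G, (if g = 1 then 108 else 0) = 108 := by simp
  have t2 : ∑ g : G, (if IsConj t g then 12 else 0) = 12 * 189 := by
    rw [← hc, Nat.card_eq_fintype_card, Fintype.card_subtype, Finset.sum_ite, Finset.sum_const_zero, add_zero,
      Finset.sum_const, smul_eq_mul, mul_comm]
  have t3 : ∑ g : G, (if g ≠ 1 ∧ ¬ Inv g then fx G Ω g * (fx G Ω g - 1) else 0) = 28 * 27 * 8 := by
    have hF : Fintype {g : G // g ≠ 1 ∧ ¬ Inv g} := Fintype.ofFinite _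
    have h9 := double3 (G := G) (Ω := Ω) h8
    rw [hn] at h9
    rw [← h9, ← Finset.sum_filter]
    exact (Finset.sum_subtype _ (fun x => by simp) _)
  rw [t1, t2, t3]

theorem kill28 (h : TT G Ω) (hn : Nat.card Ω = 28) {t : G}
    (h8 : ∀ x y : Ω, x ≠ y → Nat.card {g : G // (g ≠ 1 ∧ ¬ Inv g) ∧ g ∈ St G x y} = 8)
    (h3 : ∀ x y : Ω, x ≠ y → ∀ g ∈ St G x y, g ≠ 1 → ¬ Inv g → g ^ 3 = 1)
    (hi : ∀ x y : Ω, x ≠ y → ∀ g ∈ St G x y, Inv g → IsConj t g)
    (hf : fx G Ω t = 4) (hc : Nat.card {s : G // IsConj t s} = 189)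
    (h12 : 12 ≤ Nat.card {g : G // g ^ 4 = t ∧ ∀ x : Ω, g • x ≠ x}) : False := by
  classical
  have h1 := fpf_le h hn h8 h3 hi hf hc
  have h2 : 189 * 12 ≤ Nat.card {g : G // ∀ x : Ω, g • x ≠ x} := by
    let S := Σ s : {s : G // IsConj t s}, {g : G // g ^ 4 = (s : G) ∧ ∀ x : Ω, g • x ≠ x}
    have hS : Nat.card S ≤ Nat.card {g : G // ∀ x : Ω, g • x ≠ x} := by
      refine Nat.card_le_card_of_injective (fun z : S => (⟨z.2.1, z.2.2.2⟩ : {g : G // ∀ x : Ω, g • x ≠ x})) ?_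
      rintro ⟨⟨s, hs⟩, ⟨g, hg, hg'⟩⟩ ⟨⟨s', hs'⟩, ⟨g', hg1, hg1'⟩⟩ h0
      have h3 : g = g' := congrArg Subtype.val h0
      subst h3
      simp only at hg hg1
      have h4 : s = s' := hg.symm.trans hg1
      subst h4
      rfl
    have hF : Fintype {s : G // IsConj t s} := Fintype.ofFinite _
    have h4 : Nat.card S = ∑ s : {s : G // IsConj t s}, Nat.card {g : G // g ^ 4 = (s : G) ∧ ∀ x : Ω, g • x ≠ x} :=
      Nat.card_sigma
    have h5 : ∀ s : {s : G // IsConj t s}, 12 ≤ Nat.card {g : G // g ^ 4 = (s : G) ∧ ∀ x : Ω, g • x ≠ x} := by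
      rintro ⟨s, hs⟩
      refine h12.trans (le_of_eq ?_)
      obtain ⟨c, hc'⟩ := isConj_iff.1 hs
      refine Nat.card_congr (Equiv.subtypeEquiv (MulAut.conj c).toEquiv fun g => ?_)
      have h5 : ((MulAut.conj c).toEquiv g) = c * g * c⁻¹ := rfl
      rw [h5, conj_pow]
      change _ ↔ (c * g ^ 4 * c⁻¹ = s ∧ _)
      rw [← hc']
      constructor
      · rintro ⟨h6, h7⟩
        refine ⟨by rw [h6], fun x hx => h7 (c⁻¹ • x) ?_⟩
        rw [mul_smul, mul_smul] at hx
        exact eq_inv_smul_iff.2 hx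
      · rintro ⟨h6, h7⟩
        refine ⟨?_, fun x hx => h7 (c • x) ?_⟩
        · have := mul_right_cancel h6
          exact mul_left_cancel this
        · rw [mul_smul, mul_smul, inv_smul_smul, hx]
    have h6 : 189 * 12 ≤ Nat.card S := by
      rw [h4]
      have h7 := Finset.card_nsmul_le_sum (Finset.univ : Finset {s : G // IsConj t s}) _ 12 (fun s _ => h5 s)
      rw [Finset.card_univ, ← Nat.card_eq_fintype_card, hc, smul_eq_mul] at h7
      exact h7
    exact h6.trans hS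
  omega

end H12.B4
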