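import Cfsg.Agent.Lib.H39.DB0
set_option autoImplicit false
set_option linter.all false
open MulAction H39.DA
universe u v
namespace H12.B4

set_option maxRecDepth 100000 in
theorem a4_card8 : Nat.card {g : alternatingGroup (Fin 4) // g ≠ 1 ∧ ¬ (g ≠ 1 ∧ g * g = 1)} = 8 := by
  rw [Nat.card_eq_fintype_card]
  decide +kernel

set_option maxRecDepth 100000 in
theorem a4_cube : ∀ g : alternatingGroup (Fin 4), g ≠ 1 → ¬ (g ≠ 1 ∧ g * g = 1) → g ^ 3 = 1 := by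
  decide +kernel

variable {G : Type u} {Ω : Type v} [Group G] [MulAction G Ω]

theorem st_card8 (h : B4 G Ω) (x y : Ω) (hxy : x ≠ y) :
    Nat.card {g : G // (g ≠ 1 ∧ ¬ Inv g) ∧ g ∈ St G x y} = 8 := by
  obtain ⟨e⟩ := h.a4 x y hxy
  rw [← a4_card8]
  refine Nat.card_congr ?_
  have key : ∀ g : St G x y, (e g ≠ 1 ∧ ¬ (e g ≠ 1 ∧ e g * e g = 1)) ↔ ((g : G) ≠ 1 ∧ ¬ Inv (g : G)) := by
    intro g
    have h1 : e g = 1 ↔ (g : G) = 1 := by
      rw [← map_one e, e.injective.eq_iff]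
      exact ⟨fun h0 => congrArg Subtype.val h0, fun h0 => Subtype.ext h0⟩
    have h2 : e g * e g = 1 ↔ (g : G) * g = 1 := by
      rw [← map_mul, ← map_one e, e.injective.eq_iff]
      exact ⟨fun h0 => congrArg Subtype.val h0, fun h0 => Subtype.ext h0⟩
    unfold H39.DA.Inv
    rw [Ne, Ne, h1, h2]
  refine (Equiv.trans (?_ : {g : G // (g ≠ 1 ∧ ¬ Inv g) ∧ g ∈ St G x y} ≃ {g : St G x y // (g : G) ≠ 1 ∧ ¬ Inv (g : G)})
    (e.toEquiv.subtypeEquiv (fun g => (key g).symm)))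
  exact
    { toFun := fun g => ⟨⟨g.1, g.2.2⟩, g.2.1⟩
      invFun := fun g => ⟨g.1.1, g.2, g.1.2⟩
      left_inv := fun g => rfl
      right_inv := fun g => rfl }

theorem st_cube (h : B4 G Ω) (x y : Ω) (hxy : x ≠ y) (g : G) (hg : g ∈ St G x y) (h1 : g ≠ 1) (h2 : ¬ Inv g) :
    g ^ 3 = 1 := by
  obtain ⟨e⟩ := h.a4 x y hxy
  have h3 := a4_cube (e ⟨g, hg⟩) ?_ ?_
  · rw [← map_pow, ← map_one e, e.injective.eq_iff] at h3
    exact congrArg Subtype.val h3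
  · intro h0
    rw [← map_one e, e.injective.eq_iff] at h0
    exact h1 (congrArg Subtype.val h0)
  · rintro ⟨-, h0⟩
    rw [← map_mul, ← map_one e, e.injective.eq_iff] at h0
    exact h2 ⟨h1, congrArg Subtype.val h0⟩

end H12.B4
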