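import Cfsg.Agent.Lib.H12.B4K28

/-!
S3219: twelve fixed-point-free elements with fourth power `t`.
-/

set_option autoImplicit false

open MulAction H39.DA

universe u v

namespace H12.B4

theorem four_cycles : Fintype.card {π : Equiv.Perm (Fin 4) // ∀ x, π x ≠ x ∧ π (π x) ≠ x} = 6 := by decide

theorem four_pow : ∀ π : Equiv.Perm (Fin 4), (∀ x, π x ≠ x ∧ π (π x) ≠ x) → ∀ x, π (π (π (π x))) = x := by decide

theorem card_four {X : Type*} (hX : Nat.card X = 4) :
    Nat.card {π : Equiv.Perm X // ∀ x, π x ≠ x ∧ π (π x) ≠ x} = 6 := by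
  have : Finite X := Nat.finite_of_card_ne_zero (by omega)
  let e : X ≃ Fin 4 := Finite.equivFinOfCardEq hX
  rw [← four_cycles, ← Nat.card_eq_fintype_card]
  refine Nat.card_congr (Equiv.subtypeEquiv (Equiv.permCongr e) fun π => ?_)
  simp only [Equiv.permCongr_apply, Equiv.symm_apply_apply, ne_eq]
  constructor
  · intro h x
    obtain ⟨h1, h2⟩ := h (e.symm x)
    refine ⟨fun h3 => h1 ?_, fun h3 => h2 ?_⟩
    · have h4 := congrArg e.symm h3
      rwa [e.symm_apply_apply] at h4
    · have h4 := congrArg e.symm h3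
      rwa [e.symm_apply_apply] at h4
  · intro h x
    obtain ⟨h1, h2⟩ := h (e x)
    refine ⟨fun h3 => h1 ?_, fun h3 => h2 ?_⟩
    · rw [e.symm_apply_apply, h3]
    · rw [e.symm_apply_apply, h3]

theorem pow_four {X : Type*} (hX : Nat.card X = 4) (π : Equiv.Perm X) (h : ∀ x, π x ≠ x ∧ π (π x) ≠ x) (x : X) :
    π (π (π (π x))) = x := by
  have : Finite X := Nat.finite_of_card_ne_zero (by omega)
  let e : X ≃ Fin 4 := Finite.equivFinOfCardEq hX
  have h1 := four_pow (Equiv.permCongr e π) (fun x => by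
    obtain ⟨h1, h2⟩ := h (e.symm x)
    simp only [Equiv.permCongr_apply, Equiv.symm_apply_apply, ne_eq]
    refine ⟨fun h3 => h1 ?_, fun h3 => h2 ?_⟩
    · have h4 := congrArg e.symm h3
      rwa [e.symm_apply_apply] at h4
    · have h4 := congrArg e.symm h3
      rwa [e.symm_apply_apply] at h4) (e x)
  simp only [Equiv.permCongr_apply, Equiv.symm_apply_apply] at h1
  exact e.injective h1

variable {G : Type u} {Ω : Type v} [Group G] [MulAction G Ω] [Finite G] [Finite Ω]

theorem twelve {a b : Ω} (hab : a ≠ b) {t : G} (ht : Inv t) (hta : t • a = a) (htb : t • b = b)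
    (hX : fx G Ω t = 4) (hL : Nat.card (Subgroup.centralizer ({t} : Set G)) = 48)
    (hker : ∀ g : G, g * t = t * g → (∀ x : Ω, t • x = x → g • x = x) → g = 1 ∨ g = t)
    (hw : ∀ c d c' d' : Ω, c ≠ d → c' ≠ d' → t • c = c → t • d = d → t • c' = c' → t • d' = d' →
      ∃ g : G, g * t = t * g ∧ g • c = c' ∧ g • d = d')
    {v : G} (hv2 : v * v = 1) (hvt : v * t = t * v) (hv1 : v ≠ 1) (hvt' : v ≠ t) (hva : v • a = a)
    {σ ρ : G} (hρ : ρ * ρ = t)
    (hall : ∀ g : G, g • a = b → g • b = a → g * t = t * g → g = σ ∨ g = σ * t ∨ g = ρ ∨ g = ρ * t) :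
    12 ≤ Nat.card {g : G // g ^ 4 = t ∧ ∀ x : Ω, g • x ≠ x} := by
  classical
  have hρt : ρ * t = t * ρ := by rw [← hρ, mul_assoc]
  have hρt2 : ρ * t * (ρ * t) = t := by
    calc ρ * t * (ρ * t) = ρ * (t * ρ) * t := by group
      _ = ρ * (ρ * t) * t := by rw [hρt]
      _ = (ρ * ρ) * (t * t) := by group
      _ = t := by rw [hρ, ht.2, mul_one]
  -- commuting elements preserve the fixed points
  have pres : ∀ g : G, g * t = t * g → ∀ x : Ω, t • x = x → t • g • x = g • x := by
    intro g hg x hx
    rw [← mul_smul, ← hg, mul_smul, hx]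
  -- σ has a fixed point in Fix t
  have hσ : ∃ y : Ω, t • y = y ∧ σ • y = y := by
    have h1 : ∃ c : Ω, t • c = c ∧ v • c ≠ c := by
      by_contra hc
      push Not at hc
      rcases hker v hvt hc with h | h
      · exact hv1 h
      · exact hvt' h
    obtain ⟨c, hc, hvc⟩ := h1
    have hd := pres v hvt c hc
    have hvd : v • v • c = c := by rw [← mul_smul, hv2, one_smul]
    obtain ⟨l, hl, hl1, hl2⟩ := hw c (v • c) a b hvc.symm hab hc hd hta htb
    have i1 : l⁻¹ • a = c := by rw [← hl1, inv_smul_smul]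
    have i2 : l⁻¹ • b = v • c := by rw [← hl2, inv_smul_smul]
    have w1 : (l * v * l⁻¹) • a = b := by
      rw [mul_smul, mul_smul, i1, hl2]
    have w2 : (l * v * l⁻¹) • b = a := by
      rw [mul_smul, mul_smul, i2, hvd, hl1]
    have hlt : l⁻¹ * t = t * l⁻¹ := by
      have := congrArg (fun z => l⁻¹ * z * l⁻¹) hl
      simp only [mul_assoc] at this
      simpa [mul_assoc] using this.symm
    have w3 : l * v * l⁻¹ * t = t * (l * v * l⁻¹) := by
      calc l * v * l⁻¹ * t = l * v * (l⁻¹ * t) := by group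
        _ = l * (v * t) * l⁻¹ := by rw [hlt]; group
        _ = (l * t) * v * l⁻¹ := by rw [hvt]; group
        _ = t * (l * v * l⁻¹) := by rw [hl]; group
    have w4 : l * v * l⁻¹ * (l * v * l⁻¹) = 1 := by
      have : l * v * l⁻¹ * (l * v * l⁻¹) = l * (v * v) * l⁻¹ := by group
      rw [this, hv2]; group
    have w5 : (l * v * l⁻¹) • (l • a) = l • a := by
      rw [mul_smul, mul_smul, inv_smul_smul, hva]
    have w6 : t • l • a = l • a := pres l hl a hta
    rcases hall _ w1 w2 w3 with h | h | h | h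
    · exact ⟨l • a, w6, by rw [← h]; exact w5⟩
    · refine ⟨l • a, w6, ?_⟩
      have : σ • (l • a) = (σ * t) • (l • a) := by rw [mul_smul, w6]
      rw [this, ← h]; exact w5
    · exfalso
      rw [h, hρ] at w4
      exact ht.1 w4
    · exfalso
      rw [h, hρt2] at w4
      exact ht.1 w4
  -- the action on Fix t
  let X := {x : Ω // t • x = x}
  let L := Subgroup.centralizer ({t} : Set G)
  have hLm : ∀ g : L, (g : G) * t = t * g := fun g => Subgroup.mem_centralizer_singleton_iff.1 g.2
  let φ : L →* Equiv.Perm X :=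
    { toFun := fun g =>
        { toFun := fun x => ⟨(g : G) • x.1, pres g (hLm g) x.1 x.2⟩
          invFun := fun x => ⟨((g⁻¹ : L) : G) • x.1, pres _ (hLm g⁻¹) x.1 x.2⟩
          left_inv := fun x => Subtype.ext (by simp)
          right_inv := fun x => Subtype.ext (by simp) }
      map_one' := by ext x; simp
      map_mul' := fun g h => by ext x; simp [mul_smul] }
  have hφ : ∀ (g : L) (x : X), ((φ g x : X) : Ω) = (g : G) • (x : Ω) := fun g x => rfl
  have htL : t ∈ L := Subgroup.mem_centralizer_singleton_iff.2 rfl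
  have hX4 : Nat.card X = 4 := hX
  have hk2 : Nat.card φ.ker = 2 := by
    have h1 : (φ.ker : Set L) = {1, ⟨t, htL⟩} := by
      ext g
      simp only [SetLike.mem_coe, MonoidHom.mem_ker, Set.mem_insert_iff, Set.mem_singleton_iff]
      constructor
      · intro h1
        have h2 := hker g (hLm g) (fun x hx => by
          have h3 := congrArg (fun π : Equiv.Perm X => ((π ⟨x, hx⟩ : X) : Ω)) h1
          exact h3)
        rcases h2 with h2 | h2
        · exact Or.inl (Subtype.ext h2)
        · exact Or.inr (Subtype.ext h2)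
      · rintro (rfl | rfl)
        · exact map_one _
        · ext x
          exact x.2
    rw [← SetLike.coe_sort_coe, h1, Nat.card_coe_set_eq, Set.ncard_pair]
    intro h2
    exact ht.1 (congrArg Subtype.val h2).symm
  have hsurj : Function.Surjective φ := by
    have h1 := Subgroup.card_mul_index φ.ker
    rw [Subgroup.index_ker, hk2] at h1
    have h2 : Nat.card φ.range = 24 := by
      have : Nat.card L = 48 := hL
      omega
    have h3 : Nat.card (Equiv.Perm X) = 24 := by
      have : Finite X := inferInstance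
      rw [Nat.card_perm, hX4]; rfl
    have h4 : φ.range = ⊤ := Subgroup.eq_top_of_card_eq _ (by rw [h2, h3])
    exact MonoidHom.range_eq_top.1 h4
  let C := {π : Equiv.Perm X // ∀ x, π x ≠ x ∧ π (π x) ≠ x}
  have hC : Nat.card C = 6 := card_four hX4
  -- the main claim
  have main : ∀ g : L, (∀ x, φ g x ≠ x ∧ φ g (φ g x) ≠ x) → (g : G) ^ 4 = t ∧ ∀ x : Ω, (g : G) • x ≠ x := by
    intro g hg
    let h : G := (g : G) * g
    have hht : h * t = t * h := by
      change (g : G) * g * t = t * ((g : G) * g)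
      calc (g : G) * g * t = g * ((g : G) * t) := by group
        _ = (g : G) * (t * g) := by rw [hLm g]
        _ = ((g : G) * t) * g := by group
        _ = (t * g) * g := by rw [hLm g]
        _ = t * ((g : G) * g) := by group
    have hfp : ∀ x : Ω, t • x = x → h • x ≠ x := by
      intro x hx h0
      refine (hg ⟨x, hx⟩).2 (Subtype.ext ?_)
      rw [hφ, hφ, ← mul_smul]; exact h0
    have hh4 : h • h • a = a := by
      have h1 := congrArg Subtype.val (pow_four hX4 (φ g) hg ⟨a, hta⟩)
      rw [hφ, hφ, hφ, hφ] at h1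
      change ((g : G) * g) • ((g : G) * g) • a = a
      rw [mul_smul, mul_smul]; exact h1
    obtain ⟨l, hl, hl1, hl2⟩ := hw a (h • a) a b (hfp a hta).symm hab hta (pres h hht a hta) hta htb
    have i1 : l⁻¹ • a = a := by
      conv_lhs => rw [← hl1]
      rw [inv_smul_smul]
    have i2 : l⁻¹ • b = h • a := by rw [← hl2, inv_smul_smul]
    have w1 : (l * h * l⁻¹) • a = b := by
      rw [mul_smul, mul_smul, i1, hl2]
    have w2 : (l * h * l⁻¹) • b = a := by
      rw [mul_smul, mul_smul, i2, hh4, hl1]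
    have hlt : l⁻¹ * t = t * l⁻¹ := by
      have := congrArg (fun z => l⁻¹ * z * l⁻¹) hl
      simp only [mul_assoc] at this
      simpa [mul_assoc] using this.symm
    have w3 : l * h * l⁻¹ * t = t * (l * h * l⁻¹) := by
      calc l * h * l⁻¹ * t = l * h * (l⁻¹ * t) := by group
        _ = l * (h * t) * l⁻¹ := by rw [hlt]; group
        _ = (l * t) * h * l⁻¹ := by rw [hht]; group
        _ = t * (l * h * l⁻¹) := by rw [hl]; group
    have w5 : ∀ y : Ω, t • y = y → (l * h * l⁻¹) • y ≠ y := by
      intro y hy h0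
      rw [mul_smul, mul_smul] at h0
      exact hfp (l⁻¹ • y) (pres _ hlt y hy) (eq_inv_smul_iff.2 h0)
    obtain ⟨y, hy1, hy2⟩ := hσ
    have w6 : l * h * l⁻¹ * (l * h * l⁻¹) = t := by
      rcases hall _ w1 w2 w3 with h' | h' | h' | h'
      · exact absurd (by rw [h']; exact hy2) (w5 y hy1)
      · exact absurd (by rw [h', mul_smul, hy1]; exact hy2) (w5 y hy1)
      · rw [h', hρ]
      · rw [h', hρt2]
    have w7 : h * h = t := by
      have h1 : l * (h * h) * l⁻¹ = t := by rw [← w6]; group
      have h2 : h * h = l⁻¹ * t * l := by rw [← h1]; group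
      rw [h2, hlt]; group
    have w8 : (g : G) ^ 4 = t := by
      rw [← w7]
      change (g : G) ^ 4 = (g : G) * g * ((g : G) * g)
      simp only [pow_succ, pow_zero, one_mul, mul_assoc]
    refine ⟨w8, fun x hx => ?_⟩
    have hx4 : t • x = x := by
      rw [← w8]
      exact (MulAction.mem_stabilizer_iff.1 (Subgroup.pow_mem (stabilizer G x) (show (g : G) ∈ stabilizer G x from hx) 4))
    exact (hg ⟨x, hx4⟩).1 (Subtype.ext hx)
  -- the injection
  choose lift hlift using hsurj
  let τ : Bool → L := fun i => if i then ⟨t, htL⟩ else 1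
  have hτ : ∀ i, φ (τ i) = 1 := by
    intro i
    cases i
    · exact map_one _
    · ext x
      exact x.2
  have hτinj : Function.Injective τ := by
    intro i j hij
    have h1 : (⟨t, htL⟩ : L) ≠ 1 := fun h0 => ht.1 (congrArg Subtype.val h0)
    cases i <;> cases j
    · rfl
    · exact absurd hij.symm h1
    · exact absurd hij h1
    · rfl
  have hcard : Nat.card (C × Bool) = 12 := by
    rw [Nat.card_prod, hC]; simp
  rw [← hcard]
  have himg : ∀ z : C × Bool, φ (lift z.1.1 * τ z.2) = z.1.1 := by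
    intro z
    rw [map_mul, hlift, hτ, mul_one]
  refine Nat.card_le_card_of_injective
    (fun z : C × Bool => (⟨((lift z.1.1 * τ z.2 : L) : G), main _ (by rw [himg z]; exact z.1.2)⟩ :
      {g : G // g ^ 4 = t ∧ ∀ x : Ω, g • x ≠ x})) ?_
  rintro z z' h0
  have h1 : lift z.1.1 * τ z.2 = lift z'.1.1 * τ z'.2 := Subtype.ext (Subtype.mk.inj h0)
  have h2 : z.1 = z'.1 := Subtype.ext (by rw [← himg z, ← himg z', h1])
  have h3 : z.2 = z'.2 := by
    rw [h2] at h1
    exact hτinj (mul_left_cancel h1)
  exact Prod.ext h2 h3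

end H12.B4
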