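import Mathlib
import Cfsg.Agent.Lib.H12.ChiefRk
import Cfsg.Agent.Lib.H29.Aut2
import Cfsg.Agent.Lib.H28.Quot
import Cfsg.Agent.Lib.H37.PSolv

/-! `p`-chief factors of `p`-solvable groups of `p`-rank at most two (`p` odd). -/

set_option autoImplicit false

open Subgroup Cfsg
open scoped commutatorElement

namespace H12.ChiefMain

open H12.ChiefFac H12.ChiefRk

variable {G : Type*} [Group G] [Finite G] {p : ℕ} [hp : Fact p.Prime]

theorem isPGroup_of_coprime {K : Subgroup G} (h : ∀ x ∈ K, (orderOf x).Coprime p → x = 1) :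
    IsPGroup p K := by
  rintro ⟨x, hx⟩
  obtain ⟨a, m, hm, e⟩ := Nat.exists_eq_pow_mul_and_not_dvd
    (n := orderOf x) (orderOf_pos x).ne' p hp.out.ne_one
  refine ⟨a, Subtype.ext ?_⟩
  have h1 : orderOf (x ^ p ^ a) = m := by
    rw [orderOf_pow' x (pow_ne_zero _ hp.out.ne_zero), e,
      Nat.gcd_eq_right (Dvd.intro _ rfl), Nat.mul_div_cancel_left _ (pow_pos hp.out.pos _)]
  exact h (x ^ p ^ a) (pow_mem hx _) (by
    rw [h1]
    exact ((Nat.Prime.coprime_iff_not_dvd hp.out).2 hm).symm)

/-- a subgroup whose `p'`-elements act trivially on `O_p(G)` is a `p`-group -/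
theorem isPGroup_of_act (hC : centralizer (pCore p G : Set G) ≤ pCore p G) {K : Subgroup G}
    (h : ∀ x ∈ K, (orderOf x).Coprime p → x ∈ centralizer (pCore p G : Set G)) : IsPGroup p K := by
  apply isPGroup_of_coprime
  intro x hx hcop
  have h1 := hC (h x hx hcop)
  have h2 : IsPGroup p (zpowers x) := (H1.Cores.isPGroup_pCore p).to_le (by rwa [zpowers_le])
  have h3 : (Nat.card (zpowers x)).Coprime p := by rwa [Nat.card_zpowers]
  have h4 := H1.Cores.disjoint_of_isPGroup h2 h3
  rw [inf_idem, Subgroup.zpowers_eq_bot] at h4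
  exact h4

theorem not_dvd_aux : ¬ p ^ 2 ∣ (p ^ 2 - 1) * (p ^ 2 - p) := by
  intro h
  have h2 := hp.out.two_le
  have e1 : p ^ 2 - p = p * (p - 1) := by
    rw [sq, Nat.mul_sub, mul_one]
  rw [e1, sq p, mul_left_comm] at h
  have h3 : p ∣ (p * p - 1) * (p - 1) := Nat.dvd_of_mul_dvd_mul_left hp.out.pos h
  rcases hp.out.dvd_mul.1 h3 with h4 | h4
  · have h5 : p ∣ p * p := Dvd.intro _ rfl
    have h6 := (Nat.dvd_sub_iff_right (by nlinarith : 1 ≤ p * p) h5).1 h4
    exact hp.out.one_lt.ne' (Nat.dvd_one.1 h6)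
  · have := Nat.le_of_dvd (by omega) h4
    omega

theorem index_pCore (hp2 : p ≠ 2) (hr : PRankLE p 2 G)
    (hC : centralizer (pCore p G : Set G) ≤ pCore p G) : ¬ p ^ 2 ∣ (pCore p G).index := by
  have hPp := H1.Cores.isPGroup_pCore (G := G) p
  obtain ⟨e, he, φ, hφ⟩ := H29.Aut2.exists_hom hp2 hPp
    (H28.Rank.pRankLE_mono le_top (H28.Rank.pRankLE_top_iff.2 hr))
  set ψ : G →* Matrix.GeneralLinearGroup (Fin e) (ZMod p) :=
    φ.comp (MulAut.conjNormal (H := pCore p G)) with hψ
  have hK : ψ.ker ≤ pCore p G := by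
    apply H1.Cores.le_pCore inferInstance
    apply isPGroup_of_act hC
    intro x hx hcop
    have h1 : (MulAut.conjNormal (H := pCore p G) x) = 1 := by
      apply hφ
      · exact Nat.Coprime.coprime_dvd_left (orderOf_map_dvd _ _) hcop
      · exact hx
    rw [Subgroup.mem_centralizer_iff]
    intro y hy
    have h2 := congrArg (fun α : MulAut (pCore p G) => ((α ⟨y, hy⟩ : pCore p G) : G)) h1
    simp only [MulAut.conjNormal_apply, MulAut.one_apply] at h2
    rw [mul_inv_eq_iff_eq_mul] at h2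
    exact h2.symm
  intro hdvd
  have h1 : (pCore p G).index ∣ Nat.card (Matrix.GeneralLinearGroup (Fin e) (ZMod p)) := by
    have h2 := Subgroup.index_dvd_of_le hK
    rw [Subgroup.index_ker] at h2
    exact h2.trans (Subgroup.card_subgroup_dvd_card _)
  have h2 := hdvd.trans h1
  rw [Matrix.card_GL_field] at h2
  have hc : Fintype.card (ZMod p) = p := ZMod.card p
  rw [hc] at h2
  have hp1 := hp.out.two_le
  interval_cases e
  · simp only [Finset.univ_eq_empty, Finset.prod_empty] at h2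
    have := Nat.le_of_dvd (by norm_num) h2
    nlinarith
  · rw [Fin.prod_univ_one] at h2
    simp only [Fin.val_zero, pow_zero, pow_one] at h2
    have h3 := Nat.le_of_dvd (by omega) h2
    have h4 : p ≤ p ^ 2 := Nat.le_self_pow (by norm_num) p
    omega
  · rw [Fin.prod_univ_two] at h2
    simp only [Fin.val_zero, Fin.val_one, pow_zero, pow_one] at h2
    exact not_dvd_aux h2

/-- the case of a critical subgroup of order at most `p` -/
theorem eigen_case {H K : Subgroup G} (h : CF H K) (hH : H ≤ pCore p G)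
    (hD : HuppertA.Dp G p ≤ pCore p G) : K.relIndex H = p := by
  have hKn := h.kn
  have hHn := h.hn
  have hPp := H1.Cores.isPGroup_pCore (G := G) p
  obtain ⟨hN, hNb, hmin, hcard⟩ := h.minimal
  set N := H.map (QuotientGroup.mk' K) with hNdef
  have hNp : IsPGroup p N := (hPp.to_le hH).map _
  have hlt : ∀ R : Subgroup (G ⧸ K), R.Normal → IsPGroup p R → R ≤ centralizer (N : Set (G ⧸ K)) := by
    intro R hR hRp
    have h1 := H1.Coprime2.commutator_lt_of_isPGroup hRp hNp
      (by rw [Subgroup.normalizer_eq_top_iff.2 hN]; exact le_top) hNb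
    rcases hmin _ inferInstance h1.le with h2 | h2
    · rw [Subgroup.commutator_comm, Subgroup.commutator_eq_bot_iff_le_centralizer] at h2
      exact h2
    · exact absurd h2 h1.ne
  have hNN := hlt N hN hNp
  have hNc : ∀ x ∈ N, ∀ y ∈ N, x * y = y * x := fun x hx y hy =>
    (Subgroup.mem_centralizer_iff.1 (hNN hx) y hy).symm
  have hexp : ∀ x ∈ N, x ^ p = 1 := by
    obtain ⟨q, hq, hexp⟩ := MinNormal.exists_prime_exponent hN hNb hmin hNN
    have hqN : IsPGroup q N := MinNormal.isPGroup_of_exponent hexp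
    have hqp : q = p := by
      have := Fact.mk hq
      by_contra hne
      have h1 := IsPGroup.disjoint_of_ne q p hne N N hqN hNp
      exact hNb (disjoint_self.1 h1)
    rwa [hqp] at hexp
  have hPbar : (pCore p G).map (QuotientGroup.mk' K) ≤ centralizer (N : Set (G ⧸ K)) :=
    hlt _ (Subgroup.Normal.map inferInstance _ (QuotientGroup.mk'_surjective K)) (hPp.map _)
  have hDbar : HuppertA.Dp (G ⧸ K) p ≤ (HuppertA.Dp G p).map (QuotientGroup.mk' K) := by
    unfold HuppertA.Dp
    rw [Subgroup.map_sup]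
    refine sup_le_sup ?_ ?_
    · rw [_root_.commutator_def, _root_.commutator_def, Subgroup.map_commutator,
        Subgroup.map_top_of_surjective _ (QuotientGroup.mk'_surjective K)]
    · rw [Subgroup.closure_le]
      rintro _ ⟨x, rfl⟩
      obtain ⟨y, rfl⟩ := QuotientGroup.mk'_surjective K x
      exact ⟨y ^ (p - 1), Subgroup.subset_closure ⟨y, rfl⟩, map_pow _ _ _⟩
  have hz := Huppert.conj_mem_zpowers hNb hNc hmin hexp
    (hDbar.trans ((Subgroup.map_mono hD).trans hPbar))
  obtain ⟨x, hx, hx1⟩ : ∃ x ∈ N, x ≠ 1 := by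
    by_contra hcon
    push Not at hcon
    exact hNb ((Subgroup.eq_bot_iff_forall N).2 hcon)
  have hxn : (zpowers x).Normal := by
    constructor
    rintro y ⟨k, rfl⟩ g
    obtain ⟨m, hm⟩ := hz g
    change g * x ^ k * g⁻¹ ∈ zpowers x
    rw [← conj_zpow, hm x hx]
    exact zpow_mem (pow_mem (mem_zpowers x) m) k
  rcases hmin _ hxn (by rwa [zpowers_le]) with h1 | h1
  · exact absurd (Subgroup.zpowers_eq_bot.1 h1) hx1
  · rw [← hcard, ← h1, Nat.card_zpowers]
    exact orderOf_eq_prime (hexp x hx) hx1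

theorem core (hp2 : p ≠ 2) (hr : PRankLE p 2 G)
    (hC : centralizer (pCore p G : Set G) ≤ pCore p G) {H K : Subgroup G} (h : CF H K) {n : ℕ}
    (hn : K.relIndex H = p ^ n) : n ≤ 2 := by
  have hp1 := hp.out.one_lt
  have hPp := H1.Cores.isPGroup_pCore (G := G) p
  rcases h.inf_or (pCore p G) with ⟨h1, h2⟩ | ⟨h1, h2⟩
  swap
  · -- above `O_p(G)`
    by_contra hcon
    apply index_pCore hp2 hr hC
    have h3 : (K ⊔ pCore p G).relIndex (H ⊔ pCore p G) ∣ (pCore p G).index := by
      have hk := h1.kn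
      refine (Subgroup.relIndex_dvd_index_of_normal (K ⊔ pCore p G) _).trans ?_
      exact Subgroup.index_dvd_of_le le_sup_right
    rw [h2, hn] at h3
    exact (pow_dvd_pow p (by omega)).trans h3
  rw [← h2] at hn
  -- inside `O_p(G)`
  obtain ⟨H', hH'⟩ : ∃ H', H' = H ⊓ pCore p G := ⟨_, rfl⟩
  obtain ⟨K', hK'⟩ : ∃ K', K' = K ⊓ pCore p G := ⟨_, rfl⟩
  rw [← hH', ← hK'] at h1 hn
  have hHP : H' ≤ pCore p G := by rw [hH']; exact inf_le_right
  suffices hs : K'.relIndex H' ≤ p ^ 2 by
    rw [hn] at hs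
    exact (Nat.pow_le_pow_iff_right hp1).1 hs
  clear hH' hK' h2 h hn
  set P := pCore p G with hP
  obtain ⟨D₀, hD₀, hDp₀, hDc₀, hcrit⟩ := H3.CritOdd.exists_crit_odd hp2 hPp
  set D : Subgroup G := D₀.map P.subtype with hD
  have hDn : D.Normal := inferInstance
  have hDP : D ≤ P := Subgroup.map_subtype_le _
  have hDp : ∀ a ∈ D, a ^ p = 1 := by
    rintro _ ⟨a, ha, rfl⟩
    rw [← map_pow, hDp₀ a ha, map_one]
  have hcomm : ∀ x ∈ D, ∀ g ∈ P, ⁅x, g⁆ ∈ centralizer (D : Set G) := by
    rintro _ ⟨a, ha, rfl⟩ g hg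
    rw [Subgroup.mem_centralizer_iff]
    rintro _ ⟨b, hb, rfl⟩
    have h3 := Subgroup.mem_centralizer_iff.1 (hDc₀ a ha ⟨g, hg⟩) b hb
    exact congrArg Subtype.val h3
  by_cases hDc : Nat.card D ≤ p
  · -- eigenvalue case
    have hCD : centralizer (D : Set G) ≤ P := by
      rw [hP]
      apply H1.Cores.le_pCore inferInstance
      apply isPGroup_of_act hC
      intro x hx hcop
      have h3 : (MulAut.conjNormal (H := P) x) = 1 := by
        apply hcrit
        · exact Nat.Coprime.coprime_dvd_left (orderOf_map_dvd _ _) hcop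
        · intro d hd
          apply Subtype.ext
          rw [MulAut.conjNormal_apply]
          have h4 := Subgroup.mem_centralizer_iff.1 hx (d : G) ⟨d, hd, rfl⟩
          rw [← h4, mul_inv_cancel_right]
      rw [Subgroup.mem_centralizer_iff]
      intro y hy
      have h4 := congrArg (fun α : MulAut P => ((α ⟨y, hy⟩ : P) : G)) h3
      simp only [MulAut.conjNormal_apply, MulAut.one_apply] at h4
      rw [mul_inv_eq_iff_eq_mul] at h4
      exact h4.symm
    have hDp' : HuppertA.Dp G p ≤ P := by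
      refine le_trans ?_ hCD
      by_cases hDb : D = ⊥
      · rw [hDb]
        intro x _
        rw [Subgroup.mem_centralizer_iff]
        intro y hy
        rw [SetLike.mem_coe, Subgroup.mem_bot] at hy
        rw [hy, one_mul, mul_one]
      · apply HuppertA.Dp_le_centralizer
        obtain ⟨m, hm⟩ := IsPGroup.iff_card.1 (hPp.to_le hDP)
        rw [hm] at hDc ⊢
        have h3 : m ≤ 1 := by
          have : p ^ m ≤ p ^ 1 := by rwa [pow_one]
          exact (Nat.pow_le_pow_iff_right hp1).1 this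
        have h4 : m ≠ 0 := by
          rintro rfl
          rw [pow_zero] at hm
          exact hDb (Subgroup.card_eq_one.1 hm)
        have h5 : m = 1 := by omega
        rw [h5, pow_one]
    rw [eigen_case h1 hHP hDp']
    calc p = p ^ 1 := (pow_one p).symm
      _ ≤ p ^ 2 := Nat.pow_le_pow_right hp.out.pos (by norm_num)
  -- the facts on `D`
  have hfacts : (∀ c ∈ P, c ∈ centralizer (D : Set G) → c ^ p = 1 → c ∈ D) ∧
      Nat.card (D ⊓ centralizer (D : Set G) : Subgroup G) ≤ p ^ 2 ∧
      (centralizer (D : Set G)).relIndex P ≤ p ^ 2 := by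
    by_cases hab : ∀ a ∈ D, ∀ b ∈ D, a * b = b * a
    · exact facts_ab hr hPp hDP hab hDp hDc
    · push Not at hab
      obtain ⟨x, hx, y, hy, hxy⟩ := hab
      exact facts_nonab hr hPp hDP hcomm hDp hx hy hxy
  obtain ⟨hF2, hF3, hF4⟩ := hfacts
  rcases h1.inf_or (P ⊓ centralizer (D : Set G)) with ⟨h3, h4⟩ | ⟨h3, h4⟩
  · rw [← h4]
    have hle : H' ⊓ (P ⊓ centralizer (D : Set G)) ≤ centralizer (D : Set G) :=
      inf_le_right.trans inf_le_right
    apply thompson_cf hp2 (Z := D ⊓ centralizer (D : Set G)) h3 (hPp.to_le (inf_le_left.trans hHP)) _ _ hF3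
    · intro x hx hxp
      exact ⟨hF2 x (hHP hx.1) (hle hx) hxp, hle hx⟩
    · refine hle.trans ?_
      exact Subgroup.centralizer_le inf_le_left
  · rw [← h4]
    refine le_trans ?_ hF4
    have h5 : (K' ⊔ P ⊓ centralizer (D : Set G)).relIndex (H' ⊔ P ⊓ centralizer (D : Set G)) ∣
        (centralizer (D : Set G)).relIndex P := by
      have h6 : (H' ⊔ P ⊓ centralizer (D : Set G)) ≤ P := sup_le hHP inf_le_left
      have hkn := h3.kn
      have h7 : (P ⊓ centralizer (D : Set G)).relIndex (H' ⊔ P ⊓ centralizer (D : Set G)) *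
        (H' ⊔ P ⊓ centralizer (D : Set G)).relIndex P = (P ⊓ centralizer (D : Set G)).relIndex P :=
        Subgroup.relIndex_mul_relIndex _ _ _ le_sup_right h6
      have h8 : (P ⊓ centralizer (D : Set G)).relIndex P = (centralizer (D : Set G)).relIndex P :=
        Subgroup.inf_relIndex_left _ _
      rw [← h8, ← h7]
      refine Dvd.dvd.mul_right ?_ _
      exact Subgroup.relIndex_dvd_of_le_left _ le_sup_right
    exact Nat.le_of_dvd (Nat.pos_of_ne_zero (by
      rw [Subgroup.relIndex]; exact Subgroup.index_ne_zero_of_finite)) h5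

theorem main (hp2 : p ≠ 2) (hG : IsPSolvable p G) (hr : PRankLE p 2 G) {H K : Subgroup G}
    (h : CF H K) {n : ℕ} (hn : K.relIndex H = p ^ n) : n ≤ 2 := by
  set N := pPrimeCore p G with hN
  have hNc : (Nat.card N).Coprime p := H1.Cores.coprime_card_pPrimeCore p
  have hn0 : n ≠ 0 := by
    rintro rfl
    rw [pow_zero, Subgroup.relIndex_eq_one] at hn
    exact absurd hn (not_le_of_gt h.lt)
  rcases h.inf_or N with ⟨h1, h2⟩ | ⟨h1, h2⟩
  · exfalso
    have h3 : (K ⊓ N).relIndex (H ⊓ N) ∣ Nat.card N := by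
      refine (Subgroup.index_dvd_card _).trans ?_
      exact (Subgroup.card_dvd_of_le inf_le_right)
    rw [h2, hn] at h3
    have h4 : p ∣ Nat.card N := (dvd_pow_self p hn0).trans h3
    exact (Nat.Prime.coprime_iff_not_dvd hp.out).1 hNc.symm h4
  · obtain ⟨h3, h4⟩ := h1.quotient N le_sup_right
    rw [← h2, ← h4] at hn
    refine core hp2 ?_ ?_ h3 hn
    · exact H28.Quot.pRankLE_quotient _ ((Nat.Prime.coprime_iff_not_dvd hp.out).1 hNc.symm) hr
    · exact H37.PSolv.centralizer_pCore_le (H37.PSolv.quotient hG N)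
        (H1.Cores.pPrimeCore_quotient_pPrimeCore p)

end H12.ChiefMain
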