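import Mathlib.GroupTheory.Index
import Mathlib.Tactic.Abel
import Mathlib.Tactic.Ring
import Mathlib.GroupTheory.Sylow
import Mathlib.Data.Fintype.Lattice

/-!
# The abelian-by-abelian computation
-/

set_option autoImplicit false
set_option linter.all false

namespace H12.CopAbs

variable {V : Type*} [AddCommGroup V] {Q : Type*} [Group Q] (T : Q → V →+ V) (x : Q →* Q)
  (X : V →+ V)

structure Act : Prop where
  mul : ∀ a b v, T (a * b) v = T a (T b v)
  one : ∀ v, T 1 v = v
  com : ∀ a b v, T a (T b v) = T b (T a v)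
  hX : ∀ y v, X (T y v) = T (x y) (X v)
  R : ∀ y w, T (x (x y)) (X w) - T y (X w) - T (x y) (X (X w)) + T y (X (X w)) + T (x y) w
    - T (x (x y)) w = 0

variable {T x X}

theorem Act.inj (a : Act T x X) {g h : Q} (hgh : g ≠ h) (hf : ∀ y ≠ 1, ∀ w, T y w = w → w = 0)
    {v : V} (hv : T g v = T h v) : v = 0 := by
  apply hf (h⁻¹ * g)
  · intro h1
    exact hgh (inv_mul_eq_one.1 h1).symm
  · rw [a.mul, hv, ← a.mul, inv_mul_cancel, a.one]

theorem Act.caseV (a : Act T x X) (hf : ∀ y ≠ 1, ∀ w, T y w = w → w = 0) (y : Q)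
    (h1 : x y ≠ y) (h2 : x (x y) ≠ y) (w : V) : X w = X (X w) := by
  have A := a.R y (T y w)
  rw [a.hX, a.hX] at A
  have B := congrArg (T y) (a.R y w)
  simp only [map_add, map_sub, map_zero] at B
  have h : T (x (x y)) (T (x y) (X w - X (X w)) - T y (X w - X (X w)))
      - T y (T (x y) (X w - X (X w)) - T y (X w - X (X w))) = 0 := by
    have e : T (x (x y)) (T (x y) (X w - X (X w)) - T y (X w - X (X w)))
      - T y (T (x y) (X w - X (X w)) - T y (X w - X (X w)))
      = (T (x (x y)) (T (x y) (X w)) - T y (T (x y) (X w)) - T (x y) (T (x (x y)) (X (X w)))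
          + T y (T (x (x y)) (X (X w))) + T (x y) (T y w) - T (x (x y)) (T y w))
        - (T y (T (x (x y)) (X w)) - T y (T y (X w)) - T y (T (x y) (X (X w))) + T y (T y (X (X w)))
          + T y (T (x y) w) - T y (T (x (x y)) w)) := by
      simp only [map_sub]
      rw [a.com (x y) (x (x y)) (X (X w)), a.com (x y) y w, a.com (x (x y)) y w,
        a.com (x (x y)) y (X w), a.com (x (x y)) y (X (X w))]
      abel
    rw [e, A, B, sub_zero]
  have h3 := a.inj h2 hf (sub_eq_zero.1 h)
  have h4 := a.inj h1 hf (sub_eq_zero.1 h3)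
  exact sub_eq_zero.1 h4

theorem Act.caseW [Finite Q] (a : Act T x X) {p : ℕ} (hp : p % 2 = 1) (per : ∀ h, x^[p] h = h)
    (xs : Function.Surjective x) (Xb : Function.Bijective X)
    (irr : ∀ B : Subgroup Q, (∀ b ∈ B, x b ∈ B) → B = ⊥ ∨ B = ⊤)
    (hQ : ∀ v, (∀ b, T b v = v) → v = 0) (y : Q) (hy : y ≠ 1) (v : V) (hv : v ≠ 0)
    (hyv : T y v = v) : False := by
  classical
  -- the stabiliser
  let S : V → Subgroup Q := fun v =>
    { carrier := {q | T q v = v}
      one_mem' := a.one v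
      mul_mem' := by
        intro c d hc hd
        show T (c * d) v = v
        rw [a.mul, show T d v = v from hd, show T c v = v from hc]
      inv_mem' := by
        intro c hc
        show T c⁻¹ v = v
        have h1 : T c⁻¹ (T c v) = v := by rw [← a.mul, inv_mul_cancel, a.one]
        rwa [show T c v = v from hc] at h1 }
  have hS : ∀ q v, q ∈ S v ↔ T q v = v := fun q v => Iff.rfl
  obtain ⟨B, hB⟩ : ∃ B, Maximal (fun B => B ∈ {B : Subgroup Q | ∃ v, v ≠ 0 ∧ S v = B ∧ B ≠ ⊥}) B := by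
    apply Set.Finite.exists_maximal (Set.toFinite _)
    refine ⟨S v, v, hv, rfl, ?_⟩
    intro h
    have h1 : y ∈ S v := hyv
    rw [h] at h1
    exact hy h1
  obtain ⟨⟨v₀, hv₀, hSv, hBb⟩, hmax⟩ := hB
  have hmax' : ∀ w, w ≠ 0 → B ≤ S w → S w = B := by
    intro w hw hle
    apply le_antisymm ?_ hle
    apply hmax ⟨w, hw, rfl, ?_⟩ hle
    intro h
    rw [h] at hle
    exact hBb (le_bot_iff.1 hle)
  have hBt : B ≠ ⊤ := by
    intro h
    apply hv₀
    apply hQ
    intro b
    have : b ∈ S v₀ := by rw [hSv, h]; exact Subgroup.mem_top b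
    exact this
  have hni : ¬ ∀ b ∈ B, x b ∈ B := by
    intro h
    rcases irr B h with h1 | h1
    · exact hBb h1
    · exact hBt h1
  have hni2 : ¬ ∀ b ∈ B, x (x b) ∈ B := by
    intro h
    apply hni
    intro b hb
    have h1 : ∀ k : ℕ, x^[2 * k] b ∈ B := by
      intro k
      induction k with
      | zero => exact hb
      | succ k ih =>
        have : x^[2 * (k + 1)] b = x (x (x^[2 * k] b)) := by
          rw [show 2 * (k + 1) = 2 * k + 1 + 1 by ring, Function.iterate_succ_apply',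
            Function.iterate_succ_apply']
        rw [this]
        exact h _ ih
    have h2 := h1 ((p + 1) / 2)
    rw [show 2 * ((p + 1) / 2) = p + 1 by omega, Function.iterate_succ_apply', per] at h2
    exact h2
  -- the three intersections
  have I1 : ∀ w, (∀ b ∈ B, T b w = w) → (∀ b ∈ B, T (x b) w = w) → w = 0 := by
    intro w h1 h2
    by_contra hw
    have h3 := hmax' w hw (fun b hb => h1 b hb)
    apply hni
    intro b hb
    rw [← h3]
    exact h2 b hb
  have I2 : ∀ w, (∀ b ∈ B, T b w = w) → (∀ b ∈ B, T (x (x b)) w = w) → w = 0 := by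
    intro w h1 h2
    by_contra hw
    have h3 := hmax' w hw (fun b hb => h1 b hb)
    apply hni2
    intro b hb
    rw [← h3]
    exact h2 b hb
  have I3 : ∀ w, (∀ b ∈ B, T (x b) w = w) → (∀ b ∈ B, T (x (x b)) w = w) → w = 0 := by
    intro w h1 h2
    obtain ⟨w', rfl⟩ := Xb.2 w
    rw [I1 w', map_zero]
    · intro b hb
      apply Xb.1
      rw [a.hX, h1 b hb]
    · intro b hb
      apply Xb.1
      rw [a.hX, h2 b hb]
  -- the key relation
  have key : ∀ y, T (x y) v₀ = T (x (x y)) v₀ := by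
    intro y
    have hv1 : ∀ b ∈ B, T b v₀ = v₀ := by
      intro b hb
      rw [← hSv] at hb
      exact hb
    obtain ⟨α, hα⟩ : ∃ α, α = T (x y) v₀ - T (x (x y)) v₀ := ⟨_, rfl⟩
    obtain ⟨β, hβ⟩ : ∃ β, β = T (x (x y)) (X v₀) - T y (X v₀) := ⟨_, rfl⟩
    obtain ⟨γ, hγ⟩ : ∃ γ, γ = T y (X (X v₀)) - T (x y) (X (X v₀)) := ⟨_, rfl⟩
    have hsum : α + β + γ = 0 := by
      rw [← a.R y v₀, hα, hβ, hγ]; abel
    have hαB : ∀ b ∈ B, T b α = α := by
      intro b hb
      rw [hα, map_sub, a.com b (x y), a.com b (x (x y)), hv1 b hb]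
    have hβB : ∀ b ∈ B, T (x b) β = β := by
      intro b hb
      have e : T (x b) (X v₀) = X v₀ := by rw [← a.hX, hv1 b hb]
      rw [hβ, map_sub, a.com (x b) (x (x y)), a.com (x b) y, e]
    have hγB : ∀ b ∈ B, T (x (x b)) γ = γ := by
      intro b hb
      have e : T (x (x b)) (X (X v₀)) = X (X v₀) := by rw [← a.hX, ← a.hX, hv1 b hb]
      rw [hγ, map_sub, a.com (x (x b)) (x y), a.com (x (x b)) y, e]
    have hδ : ∀ b ∈ B, T b β = β ∧ T b γ = γ := by
      intro b hb
      have e1 : T b β - β = - (T b γ - γ) := by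
        have h1 := congrArg (T b) hsum
        rw [map_add, map_add, map_zero, hαB b hb] at h1
        have h2 : (α + T b β + T b γ) - (α + β + γ) = 0 := by rw [h1, hsum, sub_zero]
        rw [eq_neg_iff_add_eq_zero, ← h2]; abel
      have e2 : T b β - β = 0 := by
        apply I3
        · intro c hc
          rw [map_sub, a.com (x c) b, hβB c hc]
        · intro c hc
          rw [e1, map_neg, map_sub, a.com (x (x c)) b, hγB c hc]
      refine ⟨sub_eq_zero.1 e2, ?_⟩
      rw [e2] at e1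
      exact sub_eq_zero.1 (neg_eq_zero.1 e1.symm)
    have hβ0 : β = 0 := I1 β (fun b hb => (hδ b hb).1) hβB
    have hγ0 : γ = 0 := I2 γ (fun b hb => (hδ b hb).2) hγB
    rw [hβ0, hγ0, add_zero, add_zero] at hsum
    rw [hα] at hsum
    exact sub_eq_zero.1 hsum
  apply hni
  intro b hb
  obtain ⟨z, rfl⟩ := xs b
  have h1 : (x z)⁻¹ * x (x z) ∈ S v₀ := by
    rw [hS, a.mul, ← key z, ← a.mul, inv_mul_cancel, a.one]
  rw [hSv] at h1
  have h2 := B.mul_mem hb h1
  rwa [mul_inv_cancel_left] at h2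

theorem Act.main [Finite Q] (a : Act T x X) {p : ℕ} (hp : p % 2 = 1) (per : ∀ h, x^[p] h = h)
    (xs : Function.Surjective x) (Xb : Function.Bijective X)
    (irr : ∀ B : Subgroup Q, (∀ b ∈ B, x b ∈ B) → B = ⊥ ∨ B = ⊤)
    (hQ : ∀ v, (∀ b, T b v = v) → v = 0) (y : Q) (hy : x y ≠ y) (w : V) : X w = w := by
  by_cases hf : ∀ y ≠ 1, ∀ w, T y w = w → w = 0
  · have h2 : x (x y) ≠ y := by
      intro h2
      have h1 : ∀ k : ℕ, x^[2 * k] y = y := by
        intro k
        induction k with
        | zero => rfl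
        | succ k ih =>
          rw [show 2 * (k + 1) = 2 * k + 1 + 1 by ring, Function.iterate_succ_apply',
            Function.iterate_succ_apply', ih, h2]
      have h3 := h1 ((p + 1) / 2)
      rw [show 2 * ((p + 1) / 2) = p + 1 by omega, Function.iterate_succ_apply', per] at h3
      exact hy h3
    exact (Xb.1 (a.caseV hf y hy h2 w)).symm
  · exfalso
    push Not at hf
    obtain ⟨z, hz, v, hv, hv0⟩ := hf
    exact a.caseW hp per xs Xb irr hQ z hz v hv0 hv

end H12.CopAbs
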