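import Mathlib.GroupTheory.Transfer
import Mathlib.GroupTheory.Perm.Cycle.Type
import Mathlib.GroupTheory.Sylow
import Mathlib.GroupTheory.Solvable

/-!
# An automorphism of prime order acting coprimely: elementary toolkit
-/

set_option autoImplicit false
set_option linter.all false

namespace H12.CopGen

section Defs

variable {H : Type*} [Group H] (x : H →* H)

/-- `[h, P]` -/
def Lx (h : H) : Subgroup H := Subgroup.closure {c | ∃ i : ℕ, c = h⁻¹ * x^[i] h}

/-- `[Y, P]` -/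
def KY (Y : Subgroup H) : Subgroup H := Subgroup.closure {c | ∃ h ∈ Y, ∃ i : ℕ, c = h⁻¹ * x^[i] h}

/-- fixed points -/
def Fx : Subgroup H := x.eqLocus (MonoidHom.id H)

def Cx : Subgroup H := ⨆ h : H, Lx x h ⊓ Fx x

/-- invariance -/
def Inv (Y : Subgroup H) : Prop := ∀ y ∈ Y, x y ∈ Y

theorem mem_Fx {h : H} : h ∈ Fx x ↔ x h = h := Iff.rfl

variable {x}

theorem iter_mem {Y : Subgroup H} (hY : Inv x Y) (i : ℕ) {y : H} (hy : y ∈ Y) : x^[i] y ∈ Y := by
  induction i with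
  | zero => exact hy
  | succ i ih => rw [Function.iterate_succ_apply']; exact hY _ ih

theorem iter_fix {h : H} (hh : x h = h) (i : ℕ) : x^[i] h = h := Function.iterate_fixed hh i

theorem iter_mul (i : ℕ) (a b : H) : x^[i] (a * b) = x^[i] a * x^[i] b := iterate_map_mul x i a b

theorem iter_inv (i : ℕ) (a : H) : x^[i] a⁻¹ = (x^[i] a)⁻¹ := by
  induction i with
  | zero => rfl
  | succ i ih => rw [Function.iterate_succ_apply', ih, map_inv, Function.iterate_succ_apply' x i a]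

theorem y_mem_Lx (h : H) (i : ℕ) : h⁻¹ * x^[i] h ∈ Lx x h := Subgroup.subset_closure ⟨i, rfl⟩

theorem y_mem_KY {Y : Subgroup H} {h : H} (hh : h ∈ Y) (i : ℕ) : h⁻¹ * x^[i] h ∈ KY x Y :=
  Subgroup.subset_closure ⟨h, hh, i, rfl⟩

theorem y1_mem_KY {Y : Subgroup H} {h : H} (hh : h ∈ Y) : h⁻¹ * x h ∈ KY x Y := y_mem_KY hh 1

theorem y1_mem_Lx (h : H) : h⁻¹ * x h ∈ Lx x h := y_mem_Lx h 1

theorem Lx_le_KY {Y : Subgroup H} {h : H} (hh : h ∈ Y) : Lx x h ≤ KY x Y := by
  rw [Lx, Subgroup.closure_le]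
  rintro _ ⟨i, rfl⟩
  exact y_mem_KY hh i

theorem KY_mono {Y Z : Subgroup H} (h : Y ≤ Z) : KY x Y ≤ KY x Z := by
  rw [KY, Subgroup.closure_le]
  rintro _ ⟨y, hy, i, rfl⟩
  exact y_mem_KY (h hy) i

theorem KY_le {Y : Subgroup H} (hY : Inv x Y) : KY x Y ≤ Y := by
  rw [KY, Subgroup.closure_le]
  rintro _ ⟨y, hy, i, rfl⟩
  exact Y.mul_mem (Y.inv_mem hy) (iter_mem hY i hy)

/-- `KY` is generated by the `h⁻¹ x(h)` -/
theorem KY_le_of {Y Z : Subgroup H} (hY : Inv x Y) (h : ∀ y ∈ Y, y⁻¹ * x y ∈ Z) : KY x Y ≤ Z := by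
  rw [KY, Subgroup.closure_le]
  rintro _ ⟨y, hy, i, rfl⟩
  show y⁻¹ * x^[i] y ∈ Z
  induction i with
  | zero => simp [Z.one_mem]
  | succ i ih =>
    have e : y⁻¹ * x^[i + 1] y = (y⁻¹ * x^[i] y) * ((x^[i] y)⁻¹ * x (x^[i] y)) := by
      rw [Function.iterate_succ_apply']; group
    rw [e]
    exact Z.mul_mem ih (h _ (iter_mem hY i hy))

theorem Inv_closure {S : Set H} (h : ∀ s ∈ S, x s ∈ Subgroup.closure S) : Inv x (Subgroup.closure S) := by
  intro y hy
  induction hy using Subgroup.closure_induction with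
  | mem s hs => exact h s hs
  | one => rw [map_one]; exact Subgroup.one_mem _
  | mul a b _ _ ha hb => rw [map_mul]; exact Subgroup.mul_mem _ ha hb
  | inv a _ ha => rw [map_inv]; exact Subgroup.inv_mem _ ha

theorem Inv_Lx (h : H) : Inv x (Lx x h) := by
  apply Inv_closure
  rintro _ ⟨i, rfl⟩
  have e : x (h⁻¹ * x^[i] h) = (h⁻¹ * x^[1] h)⁻¹ * (h⁻¹ * x^[i + 1] h) := by
    rw [map_mul, map_inv, Function.iterate_succ_apply' x i h, Function.iterate_one]; group
  rw [e]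
  exact Subgroup.mul_mem _ (Subgroup.inv_mem _ (y_mem_Lx h 1)) (y_mem_Lx h (i + 1))

theorem Inv_KY {Y : Subgroup H} (hY : Inv x Y) : Inv x (KY x Y) := by
  apply Inv_closure
  rintro _ ⟨y, hy, i, rfl⟩
  have e : x (y⁻¹ * x^[i] y) = (y⁻¹ * x^[1] y)⁻¹ * (y⁻¹ * x^[i + 1] y) := by
    rw [map_mul, map_inv, Function.iterate_succ_apply' x i y, Function.iterate_one]; group
  rw [e]
  exact Subgroup.mul_mem _ (Subgroup.inv_mem _ (y_mem_KY hy 1)) (y_mem_KY hy (i + 1))

theorem Inv_sup {Y Z : Subgroup H} (hY : Inv x Y) (hZ : Inv x Z) : Inv x (Y ⊔ Z) := by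
  have h : Y ⊔ Z ≤ (Y ⊔ Z).comap x := by
    apply sup_le
    · intro y hy
      exact Subgroup.mem_sup_left (hY y hy)
    · intro y hy
      exact Subgroup.mem_sup_right (hZ y hy)
  exact fun y hy => h hy

theorem Inv_inf {Y Z : Subgroup H} (hY : Inv x Y) (hZ : Inv x Z) : Inv x (Y ⊓ Z) :=
  fun y hy => ⟨hY y hy.1, hZ y hy.2⟩

theorem Inv_top : Inv x (⊤ : Subgroup H) := fun y _ => Subgroup.mem_top _

theorem Inv_of_le_Fx {Y : Subgroup H} (hY : Y ≤ Fx x) : Inv x Y := by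
  intro y hy
  have := hY hy
  rw [mem_Fx] at this
  rwa [this]

/-- normalisation -/
theorem conj_mem_closure {S : Set H} (k : H) (h : ∀ s ∈ S, k⁻¹ * s * k ∈ Subgroup.closure S) :
    ∀ y ∈ Subgroup.closure S, k⁻¹ * y * k ∈ Subgroup.closure S := by
  intro y hy
  induction hy using Subgroup.closure_induction with
  | mem s hs => exact h s hs
  | one => simp [Subgroup.one_mem]
  | mul a b _ _ ha hb =>
    have e : k⁻¹ * (a * b) * k = (k⁻¹ * a * k) * (k⁻¹ * b * k) := by group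
    rw [e]; exact Subgroup.mul_mem _ ha hb
  | inv a _ ha =>
    have e : k⁻¹ * a⁻¹ * k = (k⁻¹ * a * k)⁻¹ := by group
    rw [e]; exact Subgroup.inv_mem _ ha

/-- `[Y,P]` is normal in `Y` -/
theorem KY_conj {Y : Subgroup H} {g : H} (hg : g ∈ Y) : ∀ y ∈ KY x Y, g⁻¹ * y * g ∈ KY x Y := by
  apply conj_mem_closure
  rintro _ ⟨y, hy, i, rfl⟩
  have e : g⁻¹ * (y⁻¹ * x^[i] y) * g = ((y * g)⁻¹ * x^[i] (y * g)) * (g⁻¹ * x^[i] g)⁻¹ := by
    rw [iter_mul]; group
  rw [e]
  exact Subgroup.mul_mem _ (y_mem_KY (Y.mul_mem hy hg) i) (Subgroup.inv_mem _ (y_mem_KY hg i))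

theorem KY_top_normal : (KY x (⊤ : Subgroup H)).Normal := by
  constructor
  intro n hn g
  have := KY_conj (x := x) (Subgroup.mem_top g⁻¹) n hn
  rwa [inv_inv] at this

/-- conjugation by fixed points -/
theorem Lx_conj {c : H} (hc : x c = c) (h : H) : ∀ y ∈ Lx x h, c⁻¹ * y * c ∈ Lx x (c⁻¹ * h * c) := by
  intro y hy
  induction hy using Subgroup.closure_induction with
  | mem s hs =>
    obtain ⟨i, rfl⟩ := hs
    have e : c⁻¹ * (h⁻¹ * x^[i] h) * c = (c⁻¹ * h * c)⁻¹ * x^[i] (c⁻¹ * h * c) := by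
      rw [iter_mul, iter_mul, iter_inv, iter_fix hc]; group
    rw [e]
    exact y_mem_Lx _ i
  | one => simp [Subgroup.one_mem]
  | mul a b _ _ ha hb =>
    have e : c⁻¹ * (a * b) * c = (c⁻¹ * a * c) * (c⁻¹ * b * c) := by group
    rw [e]; exact Subgroup.mul_mem _ ha hb
  | inv a _ ha =>
    have e : c⁻¹ * a⁻¹ * c = (c⁻¹ * a * c)⁻¹ := by group
    rw [e]; exact Subgroup.inv_mem _ ha

theorem Cx_le_Fx : Cx x ≤ Fx x := iSup_le fun _ => inf_le_right

theorem mem_Cx {h c : H} (h1 : c ∈ Lx x h) (h2 : x c = c) : c ∈ Cx x :=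
  (le_iSup (fun h : H => Lx x h ⊓ Fx x) h) ⟨h1, h2⟩

theorem Cx_conj {c : H} (hc : x c = c) : ∀ y ∈ Cx x, c⁻¹ * y * c ∈ Cx x := by
  have h : Cx x ≤ (Cx x).comap (MulAut.conj c⁻¹).toMonoidHom := by
    apply iSup_le
    rintro h y ⟨hy, hy2⟩
    have hy3 : x y = y := hy2
    show c⁻¹ * y * c⁻¹⁻¹ ∈ Cx x
    rw [inv_inv]
    apply mem_Cx (Lx_conj hc h y hy)
    rw [map_mul, map_mul, map_inv, hc, hy3]
  intro y hy
  have := h hy
  have h2 : c⁻¹ * y * c⁻¹⁻¹ ∈ Cx x := this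
  rwa [inv_inv] at h2

end Defs

section Coprime

variable {H : Type*} [Group H] [Finite H] {x : H →* H} {p : ℕ} (hp : p.Prime)
  (cop : (Nat.card H).Coprime p) (per : ∀ h, x^[p] h = h)

include hp per in
/-- fixed points in invariant sets of size prime to `p` -/
theorem exists_fix (S : Set H) (hS : ∀ s ∈ S, x s ∈ S) (hc : ¬ p ∣ S.ncard) : ∃ s ∈ S, x s = s := by
  classical
  haveI : Fact p.Prime := ⟨hp⟩
  haveI : Fintype S := Fintype.ofFinite _
  let f : Function.End S := fun s => ⟨x s, hS s s.2⟩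
  have hiter : ∀ (i : ℕ) (s : S), ((f ^ i) s : H) = x^[i] s := by
    intro i
    induction i with
    | zero => intro s; rfl
    | succ i ih =>
      intro s
      rw [pow_succ', Function.iterate_succ_apply', ← ih]
      rfl
  have hf : f ^ p ^ 1 = 1 := by
    funext s
    apply Subtype.ext
    rw [hiter, pow_one, per]
    rfl
  have h1 := Equiv.Perm.card_fixedPoints_modEq hf
  by_contra hcon
  push Not at hcon
  have h2 : Fintype.card (Function.fixedPoints f) = 0 := by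
    rw [Fintype.card_eq_zero_iff]
    constructor
    rintro ⟨s, hs⟩
    exact hcon s s.2 (congrArg Subtype.val hs)
  rw [h2] at h1
  apply hc
  have h3 : S.ncard = Fintype.card S := by
    rw [Set.ncard_eq_toFinset_card', Set.toFinset_card]
  rw [h3]
  exact (Nat.modEq_zero_iff_dvd).1 h1

include hp cop per in
/-- lifting fixed points modulo an invariant subgroup -/
theorem lift_fix (N : Subgroup H) (hN : Inv x N) (h : H) (hh : h⁻¹ * x h ∈ N) :
    ∃ n ∈ N, x (h * n) = h * n := by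
  have h1 := exists_fix hp per ((fun n => h * n) '' (N : Set H)) (by
    rintro _ ⟨n, hn, rfl⟩
    refine ⟨h⁻¹ * x h * x n, N.mul_mem hh (hN n hn), ?_⟩
    show h * (h⁻¹ * x h * x n) = x (h * n)
    rw [map_mul]; group) (by
    rw [Set.ncard_image_of_injective _ (mul_right_injective h)]
    intro hd
    have h2 : (N : Set H).ncard = Nat.card N := rfl
    rw [h2] at hd
    have h3 : p ∣ Nat.card H := hd.trans (Subgroup.card_subgroup_dvd_card N)
    have h4 := Nat.Coprime.eq_one_of_dvd (Nat.Coprime.symm cop) h3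
    exact hp.one_lt.ne' h4)
  obtain ⟨_, ⟨n, hn, rfl⟩, hfix⟩ := h1
  exact ⟨n, hn, hfix⟩

include hp cop per in
/-- `Y = [Y,P] C_Y(P)` -/
theorem decomp (Y : Subgroup H) (hY : Inv x Y) (y : H) (hy : y ∈ Y) :
    ∃ k ∈ KY x Y, ∃ c ∈ Y, x c = c ∧ y = k * c := by
  obtain ⟨n, hn, hfix⟩ := lift_fix hp cop per (KY x Y) (Inv_KY hY) y (y1_mem_KY hy)
  have hnY := KY_le hY hn
  refine ⟨y * n⁻¹ * y⁻¹, ?_, y * n, Y.mul_mem hy hnY, hfix, by group⟩
  have := KY_conj (x := x) (Y.inv_mem hy) n⁻¹ (Subgroup.inv_mem _ hn)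
  rwa [inv_inv] at this

include hp cop per in
/-- `[Y,P,P] = [Y,P]` -/
theorem KY_KY (Y : Subgroup H) (hY : Inv x Y) : KY x (KY x Y) = KY x Y := by
  apply le_antisymm (KY_le (Inv_KY hY))
  apply KY_le_of hY
  intro y hy
  obtain ⟨k, hk, c, hc, hcf, rfl⟩ := decomp hp cop per Y hY y hy
  have e : (k * c)⁻¹ * x (k * c) = (c⁻¹ * k * c)⁻¹ * x (c⁻¹ * k * c) := by
    rw [map_mul, map_mul, map_mul, map_inv, hcf]; group
  rw [e]
  exact y1_mem_KY (KY_conj hc k hk)

include hp cop in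
theorem pow_eq_one {h : H} (hh : h ^ p = 1) : h = 1 := by
  have h1 : orderOf h ∣ p := orderOf_dvd_of_pow_eq_one hh
  have h2 : orderOf h ∣ Nat.card H := orderOf_dvd_natCard h
  have h3 := Nat.eq_one_of_dvd_coprimes cop h2 h1
  exact orderOf_eq_one_iff.1 h3

include hp cop per in
/-- if `Z` is normalised by `L(h)` and absorbs `[L(h),P]` then it contains `L(h)`. -/
theorem KY_Lx (h : H) : KY x (Lx x h) = Lx x h := by
  apply le_antisymm (KY_le (Inv_Lx h))
  set K := KY x (Lx x h) with hK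
  -- modulo `K` the automorphism is trivial on `L(h)`
  have hKn : ∀ g ∈ Lx x h, ∀ k ∈ K, g⁻¹ * k * g ∈ K := fun g hg k hk => KY_conj hg k hk
  have hKn' : ∀ g ∈ Lx x h, ∀ k ∈ K, g * k * g⁻¹ ∈ K := by
    intro g hg k hk
    have := hKn g⁻¹ (Subgroup.inv_mem _ hg) k hk
    rwa [inv_inv] at this
  have hpow : ∀ i : ℕ, ∃ k ∈ K, h⁻¹ * x^[i] h = (h⁻¹ * x h) ^ i * k := by
    intro i
    induction i with
    | zero => exact ⟨1, K.one_mem, by simp⟩
    | succ i ih =>
      obtain ⟨k, hk, hki⟩ := ih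
      have h1 : (h⁻¹ * x^[i] h)⁻¹ * x (h⁻¹ * x^[i] h) ∈ K := y1_mem_KY (y_mem_Lx h i)
      refine ⟨k * ((h⁻¹ * x^[i] h)⁻¹ * x (h⁻¹ * x^[i] h)), K.mul_mem hk h1, ?_⟩
      -- `y_{i+1} = y_1 x(y_i)`
      have e : h⁻¹ * x^[i + 1] h = (h⁻¹ * x h) * x (h⁻¹ * x^[i] h) := by
        rw [map_mul, map_inv, Function.iterate_succ_apply']; group
      rw [e]
      calc (h⁻¹ * x h) * x (h⁻¹ * x^[i] h)
          = (h⁻¹ * x h) * ((h⁻¹ * x^[i] h) * ((h⁻¹ * x^[i] h)⁻¹ * x (h⁻¹ * x^[i] h))) := by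
            rw [mul_inv_cancel_left]
        _ = (h⁻¹ * x h) * (((h⁻¹ * x h) ^ i * k) * ((h⁻¹ * x^[i] h)⁻¹ * x (h⁻¹ * x^[i] h))) := by
            rw [← hki]
        _ = (h⁻¹ * x h) ^ (i + 1) * (k * ((h⁻¹ * x^[i] h)⁻¹ * x (h⁻¹ * x^[i] h))) := by
            rw [pow_succ']; simp only [mul_assoc]
  -- so `y_1 ∈ K`
  have hy1 : h⁻¹ * x h ∈ K := by
    obtain ⟨k, hk, hkp⟩ := hpow p
    rw [per, inv_mul_cancel] at hkp
    have h2 : (h⁻¹ * x h) ^ p ∈ K := by
      have : (h⁻¹ * x h) ^ p = k⁻¹ := eq_inv_of_mul_eq_one_left hkp.symm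
      rw [this]; exact K.inv_mem hk
    have h3 : (orderOf (h⁻¹ * x h)).Coprime p :=
      Nat.Coprime.coprime_dvd_left (orderOf_dvd_natCard _) cop
    obtain ⟨m, hm⟩ := exists_pow_eq_self_of_coprime h3.symm
    rw [← hm]
    exact K.pow_mem h2 m
  rw [Lx, Subgroup.closure_le]
  rintro _ ⟨i, rfl⟩
  obtain ⟨k, hk, hki⟩ := hpow i
  show h⁻¹ * x^[i] h ∈ K
  rw [hki]
  exact K.mul_mem (K.pow_mem hy1 i) hk

include hp per in
theorem x_bij : Function.Bijective x := by
  have h1 : Function.Injective x := by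
    intro a b hab
    have h2 : ∀ i, x^[i + 1] a = x^[i + 1] b := by
      intro i
      rw [Function.iterate_succ_apply, Function.iterate_succ_apply, hab]
    have h3 := h2 (p - 1)
    rw [Nat.sub_add_cancel hp.one_le, per, per] at h3
    exact h3
  exact Finite.injective_iff_bijective.1 h1

include hp cop per in
/-- in an abelian invariant subgroup, `[Y,P] ∩ C(P) = 1` -/
theorem abelian_disj (Y : Subgroup H) (hY : Inv x Y) (hab : ∀ a ∈ Y, ∀ b ∈ Y, a * b = b * a)
    (y : H) (hy : y ∈ KY x Y) (hfix : x y = y) : y = 1 := by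
  -- `y = d⁻¹ x(d)`
  have h1 : ∃ d ∈ Y, y = d⁻¹ * x d := by
    have hS : KY x Y ≤ ({ carrier := {y | ∃ d ∈ Y, y = d⁻¹ * x d}
                          one_mem' := ⟨1, Y.one_mem, by simp⟩
                          mul_mem' := by
                            rintro _ _ ⟨d, hd, rfl⟩ ⟨e, he, rfl⟩
                            refine ⟨d * e, Y.mul_mem hd he, ?_⟩
                            rw [map_mul, mul_inv_rev]
                            have h2 := hab _ (Y.inv_mem hd) _ (Y.inv_mem he)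
                            have h3 := hab (x d) (hY d hd) (e⁻¹) (Y.inv_mem he)
                            calc d⁻¹ * x d * (e⁻¹ * x e) = d⁻¹ * (x d * e⁻¹) * x e := by group
                              _ = d⁻¹ * (e⁻¹ * x d) * x e := by rw [h3]
                              _ = (d⁻¹ * e⁻¹) * (x d * x e) := by group
                              _ = _ := by rw [h2]
                          inv_mem' := by
                            rintro _ ⟨d, hd, rfl⟩
                            refine ⟨d⁻¹, Y.inv_mem hd, ?_⟩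
                            rw [map_inv, mul_inv_rev, inv_inv]
                            exact (hab _ (Y.inv_mem (hY d hd)) _ hd) } : Subgroup H) := by
      apply KY_le_of hY
      intro d hd
      exact ⟨d, hd, rfl⟩
    exact hS hy
  obtain ⟨d, hd, rfl⟩ := h1
  -- the telescoping product
  have h2 : ∀ i : ℕ, x^[i] d = d * (d⁻¹ * x d) ^ i := by
    intro i
    induction i with
    | zero => simp
    | succ i ih =>
      rw [Function.iterate_succ_apply', ih, map_mul, map_pow, hfix, pow_succ', ← mul_assoc d,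
        mul_inv_cancel_left]
  have h3 := h2 p
  rw [per] at h3
  have h4 : (d⁻¹ * x d) ^ p = 1 := by
    have : d * 1 = d * (d⁻¹ * x d) ^ p := by rw [mul_one]; exact h3
    exact (mul_left_cancel this).symm
  exact pow_eq_one hp cop h4

end Coprime

end H12.CopGen
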