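import Mathlib.GroupTheory.QuotientGroup.Basic
import Cfsg.Agent.Lib.H12.CopGen1

/-!
# The minimal counterexample: transfer lemmas
-/

set_option autoImplicit false
set_option linter.all false

open scoped commutatorElement

namespace H12.CopGen

structure Bad {H : Type*} [Group H] [Finite H] (x : H →* H) (p : ℕ) : Prop where
  hp : p.Prime
  p2 : p ≠ 2
  cop : (Nat.card H).Coprime p
  per : ∀ h, x^[p] h = h
  solv : Group.IsSolvable H
  top : KY x (⊤ : Subgroup H) = ⊤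
  sub : ∀ Y : Subgroup H, Inv x Y → Y ≠ ⊤ → KY x Y ⊓ Fx x ≤ Cx x
  quo : ∀ N : Subgroup H, N.Normal → Inv x N → N ≠ ⊥ →
    ∀ c, x c = c → ∃ c₀ ∈ Cx x, ∃ n ∈ N, x n = n ∧ c = c₀ * n
  bad : ¬ Fx x ≤ Cx x

section Transfer

variable {H : Type*} [Group H] {x : H →* H}

/-- restriction to an invariant subgroup -/
def res (x : H →* H) (Y : Subgroup H) (hY : Inv x Y) : ↥Y →* ↥Y :=
  (x.comp Y.subtype).codRestrict Y (fun y => hY y y.2)

theorem res_coe (Y : Subgroup H) (hY : Inv x Y) (y : Y) : ((res x Y hY y : Y) : H) = x y := rfl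

theorem res_iter (Y : Subgroup H) (hY : Inv x Y) (i : ℕ) (y : Y) :
    (((res x Y hY)^[i] y : Y) : H) = x^[i] y := by
  induction i with
  | zero => rfl
  | succ i ih => rw [Function.iterate_succ_apply', res_coe, ih, Function.iterate_succ_apply']

theorem res_KY (Y : Subgroup H) (hY : Inv x Y) :
    KY x Y ≤ (KY (res x Y hY) ⊤).map Y.subtype := by
  rw [KY, Subgroup.closure_le]
  rintro _ ⟨y, hy, i, rfl⟩
  refine ⟨(⟨y, hy⟩ : Y)⁻¹ * (res x Y hY)^[i] ⟨y, hy⟩, y_mem_KY (Subgroup.mem_top _) i, ?_⟩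
  show y⁻¹ * (((res x Y hY)^[i] ⟨y, hy⟩ : Y) : H) = y⁻¹ * x^[i] y
  rw [res_iter]

theorem res_Lx (Y : Subgroup H) (hY : Inv x Y) (h : Y) :
    (Lx (res x Y hY) h).map Y.subtype ≤ Lx x h := by
  rw [Lx, MonoidHom.map_closure, Subgroup.closure_le]
  rintro _ ⟨_, ⟨i, rfl⟩, rfl⟩
  show (h : H)⁻¹ * (((res x Y hY)^[i] h : Y) : H) ∈ Lx x h
  rw [res_iter]
  exact y_mem_Lx _ i

theorem res_Cx (Y : Subgroup H) (hY : Inv x Y) :
    (Cx (res x Y hY)).map Y.subtype ≤ Cx x := by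
  rw [Cx, Subgroup.map_iSup]
  apply iSup_le
  rintro h _ ⟨l, ⟨hl1, hl2⟩, rfl⟩
  have h1 : (Y.subtype l) ∈ Lx x (h : H) := res_Lx Y hY h ⟨l, hl1, rfl⟩
  apply mem_Cx h1
  have h2 : res x Y hY l = l := hl2
  have h3 := congrArg Subtype.val h2
  exact h3

theorem res_transfer (Y : Subgroup H) (hY : Inv x Y)
    (ih : KY (res x Y hY) ⊤ ⊓ Fx (res x Y hY) ≤ Cx (res x Y hY)) : KY x Y ⊓ Fx x ≤ Cx x := by
  rintro y ⟨hy1, hy2⟩
  obtain ⟨z, hz, rfl⟩ := res_KY Y hY hy1
  have h1 : res x Y hY z = z := Subtype.ext hy2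
  exact res_Cx Y hY ⟨z, ih ⟨hz, h1⟩, rfl⟩

/-- the quotient map -/
def qm (x : H →* H) (N : Subgroup H) [N.Normal] (hN : Inv x N) : H ⧸ N →* H ⧸ N :=
  QuotientGroup.map N N x hN

theorem qm_mk (N : Subgroup H) [N.Normal] (hN : Inv x N) (h : H) :
    qm x N hN (QuotientGroup.mk h) = QuotientGroup.mk (x h) := rfl

theorem qm_iter (N : Subgroup H) [N.Normal] (hN : Inv x N) (i : ℕ) (h : H) :
    (qm x N hN)^[i] (QuotientGroup.mk h) = QuotientGroup.mk (x^[i] h) := by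
  induction i with
  | zero => rfl
  | succ i ih => rw [Function.iterate_succ_apply', ih, qm_mk, Function.iterate_succ_apply']

theorem qm_KY (N : Subgroup H) [N.Normal] (hN : Inv x N) (htop : KY x (⊤ : Subgroup H) = ⊤) :
    KY (qm x N hN) (⊤ : Subgroup (H ⧸ N)) = ⊤ := by
  rw [eq_top_iff]
  have h1 : (KY x (⊤ : Subgroup H)).map (QuotientGroup.mk' N) ≤ KY (qm x N hN) (⊤ : Subgroup (H ⧸ N)) := by
    rw [KY, MonoidHom.map_closure, Subgroup.closure_le]
    rintro _ ⟨_, ⟨h, _, i, rfl⟩, rfl⟩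
    have h2 := y_mem_KY (x := qm x N hN) (Subgroup.mem_top (QuotientGroup.mk h : H ⧸ N)) i
    rw [qm_iter] at h2
    exact h2
  rw [htop, Subgroup.map_top_of_surjective _ (QuotientGroup.mk'_surjective N)] at h1
  exact h1

theorem qm_Lx (N : Subgroup H) [N.Normal] (hN : Inv x N) (h : H) :
    Lx (qm x N hN) (QuotientGroup.mk h) ≤ (Lx x h).map (QuotientGroup.mk' N) := by
  rw [Lx, Subgroup.closure_le]
  rintro _ ⟨i, rfl⟩
  refine ⟨h⁻¹ * x^[i] h, y_mem_Lx h i, ?_⟩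
  rw [qm_iter]
  rfl

theorem qm_Cx [Finite H] {p : ℕ} (hp : p.Prime) (cop : (Nat.card H).Coprime p)
    (per : ∀ h, x^[p] h = h) (N : Subgroup H) [N.Normal] (hN : Inv x N) :
    Cx (qm x N hN) ≤ (Cx x).map (QuotientGroup.mk' N) := by
  rw [Cx]
  apply iSup_le
  rintro h l ⟨hl1, hl2⟩
  obtain ⟨h, rfl⟩ := QuotientGroup.mk_surjective h
  obtain ⟨l, hl, rfl⟩ := qm_Lx N hN h hl1
  have h2 : QuotientGroup.mk (x l) = (QuotientGroup.mk l : H ⧸ N) := hl2
  have h3 : l⁻¹ * x l ∈ N := QuotientGroup.eq.1 h2.symm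
  obtain ⟨n, hn, hfix⟩ := lift_fix hp cop per (N ⊓ Lx x h) (Inv_inf hN (Inv_Lx h)) l
    ⟨h3, Subgroup.mul_mem _ (Subgroup.inv_mem _ hl) (Inv_Lx h l hl)⟩
  refine ⟨l * n, mem_Cx (Subgroup.mul_mem _ hl hn.2) hfix, ?_⟩
  show QuotientGroup.mk (l * n) = (QuotientGroup.mk l : H ⧸ N)
  exact (QuotientGroup.mk_mul_of_mem l hn.1)

theorem qm_transfer [Finite H] {p : ℕ} (hp : p.Prime) (cop : (Nat.card H).Coprime p)
    (per : ∀ h, x^[p] h = h) (N : Subgroup H) [N.Normal] (hN : Inv x N)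
    (htop : KY x (⊤ : Subgroup H) = ⊤)
    (ih : KY (qm x N hN) ⊤ ⊓ Fx (qm x N hN) ≤ Cx (qm x N hN)) :
    ∀ c, x c = c → ∃ c₀ ∈ Cx x, ∃ n ∈ N, x n = n ∧ c = c₀ * n := by
  intro c hc
  have h1 : (QuotientGroup.mk c : H ⧸ N) ∈ Cx (qm x N hN) := by
    apply ih
    refine ⟨?_, ?_⟩
    · rw [qm_KY N hN htop]; exact Subgroup.mem_top _
    · show qm x N hN (QuotientGroup.mk c) = QuotientGroup.mk c
      rw [qm_mk, hc]
  obtain ⟨c₀, hc₀, h2⟩ := qm_Cx hp cop per N hN h1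
  have h3 : c₀⁻¹ * c ∈ N := QuotientGroup.eq.1 h2
  have h4 : x c₀ = c₀ := Cx_le_Fx hc₀
  exact ⟨c₀, hc₀, c₀⁻¹ * c, h3, by rw [map_mul, map_inv, hc, h4], by group⟩

end Transfer

universe u

/-- the induction frame -/
theorem frame {p : ℕ} (hp : p.Prime) (hp2 : p ≠ 2)
    (key : ∀ (H : Type u) [Group H] [Finite H] (x : H →* H), Bad x p → False) :
    ∀ (n : ℕ) (H : Type u) [Group H] [Finite H] [Group.IsSolvable H] (x : H →* H),
      Nat.card H = n → (Nat.card H).Coprime p → (∀ h, x^[p] h = h) →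
      KY x (⊤ : Subgroup H) ⊓ Fx x ≤ Cx x := by
  intro n
  induction n using Nat.strong_induction_on with
  | _ n ih =>
    intro H _ _ _ x hn cop per
    have hsub : ∀ Y : Subgroup H, Inv x Y → Y ≠ ⊤ → KY x Y ⊓ Fx x ≤ Cx x := by
      intro Y hY hYt
      apply res_transfer Y hY
      apply ih (Nat.card Y) ?_ Y (res x Y hY) rfl
        (Nat.Coprime.coprime_dvd_left (Subgroup.card_subgroup_dvd_card Y) cop)
      · intro y
        apply Subtype.ext
        rw [res_iter, per]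
      · rw [← hn]
        refine lt_of_le_of_ne (Nat.card_le_card_of_injective _ Subtype.val_injective) ?_
        intro h
        exact hYt (Subgroup.eq_top_of_card_eq Y h)
    by_cases htop : KY x (⊤ : Subgroup H) = ⊤
    · by_contra hbad
      apply key H x
      refine ⟨hp, hp2, cop, per, inferInstance, htop, hsub, ?_, ?_⟩
      · intro N hNn hN hNb
        apply qm_transfer hp cop per N hN htop
        apply ih (Nat.card (H ⧸ N)) ?_ (H ⧸ N) (qm x N hN) rfl
        · have h1 : Nat.card (H ⧸ N) ∣ Nat.card H := Subgroup.card_quotient_dvd_card N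
          exact Nat.Coprime.coprime_dvd_left h1 cop
        · intro h
          obtain ⟨h, rfl⟩ := QuotientGroup.mk_surjective h
          rw [qm_iter, per]
        · rw [← hn, Subgroup.card_eq_card_quotient_mul_card_subgroup N]
          have h1 : 0 < Nat.card (H ⧸ N) := Nat.card_pos
          have h2 : 1 < Nat.card N := by
            rw [Subgroup.one_lt_card_iff_ne_bot]; exact hNb
          nlinarith
      · intro h
        apply hbad
        intro y hy
        exact h hy.2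
    · intro y hy
      apply hsub (KY x ⊤) (Inv_KY Inv_top) htop
      rw [KY_KY hp cop per ⊤ Inv_top]
      exact hy

namespace Bad

variable {H : Type*} [Group H] [Finite H] {x : H →* H} {p : ℕ} (b : Bad x p)

include b

theorem inj : Function.Injective x := (x_bij b.hp b.per).1

theorem surj : Function.Surjective x := (x_bij b.hp b.per).2

/-- no nontrivial normal invariant subgroup has all its fixed points in `Cx`. -/
theorem nb (N : Subgroup H) (hn : N.Normal) (hN : Inv x N) (h : N ⊓ Fx x ≤ Cx x) : N = ⊥ := by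
  by_contra hNb
  apply b.bad
  intro c hc
  obtain ⟨c₀, hc₀, n, hn1, hn2, rfl⟩ := b.quo N hn hN hNb c hc
  exact Subgroup.mul_mem _ hc₀ (h ⟨hn1, hn2⟩)

/-- Lemma Z -/
theorem central (A : Subgroup H) (hA : A.Normal) (hf : A ≤ Fx x) : A ≤ Subgroup.center H := by
  intro a ha
  rw [Subgroup.mem_center_iff]
  have h1 : KY x (⊤ : Subgroup H) ≤ Subgroup.centralizer {a} := by
    apply KY_le_of Inv_top
    intro h _
    rw [Subgroup.mem_centralizer_singleton_iff]
    have h2 : h * a * h⁻¹ ∈ A := hA.conj_mem a ha h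
    have h3 : x (h * a * h⁻¹) = h * a * h⁻¹ := hf h2
    have h4 : x a = a := hf ha
    rw [map_mul, map_mul, map_inv, h4] at h3
    -- x h a (x h)⁻¹ = h a h⁻¹
    have h5 : h⁻¹ * x h * a = h⁻¹ * (x h * a * (x h)⁻¹) * x h := by group
    rw [h5, h3]; group
  rw [b.top] at h1
  intro g
  exact Subgroup.mem_centralizer_singleton_iff.1 (h1 (Subgroup.mem_top g))

/-- fixed points lie in the commutator subgroup -/
theorem Fx_le_comm : Fx x ≤ ⁅(⊤ : Subgroup H), ⊤⁆ := by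
  intro c hc
  have hN : Inv x ⁅(⊤ : Subgroup H), ⊤⁆ := by
    have : ⁅(⊤ : Subgroup H), ⊤⁆ ≤ Subgroup.comap x ⁅(⊤ : Subgroup H), ⊤⁆ := by
      rw [Subgroup.commutator_le]
      intro a _ c _
      show x ⁅a, c⁆ ∈ (⁅(⊤ : Subgroup H), ⊤⁆ : Subgroup H)
      rw [map_commutatorElement]
      exact Subgroup.commutator_mem_commutator (Subgroup.mem_top _) (Subgroup.mem_top _)
    exact fun y hy => this hy
  have h1 := qm_KY ⁅(⊤ : Subgroup H), ⊤⁆ hN b.top
  have h2 : (QuotientGroup.mk c : H ⧸ ⁅(⊤ : Subgroup H), ⊤⁆) = 1 := by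
    apply abelian_disj (x := qm x _ hN) b.hp ?_ ?_ ⊤ Inv_top ?_ _ (by rw [h1]; exact Subgroup.mem_top _)
    · rw [qm_mk]
      exact congrArg _ hc
    · exact Nat.Coprime.coprime_dvd_left (Subgroup.card_quotient_dvd_card _) b.cop
    · intro h
      obtain ⟨h, rfl⟩ := QuotientGroup.mk_surjective h
      rw [qm_iter, b.per]
    · intro a _ d _
      obtain ⟨a, rfl⟩ := QuotientGroup.mk_surjective a
      obtain ⟨d, rfl⟩ := QuotientGroup.mk_surjective d
      rw [← QuotientGroup.mk_mul, ← QuotientGroup.mk_mul, QuotientGroup.eq]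
      have : (a * d)⁻¹ * (d * a) = ⁅d⁻¹, a⁻¹⁆ := by
        rw [commutatorElement_def]; group
      rw [this]
      exact Subgroup.commutator_mem_commutator (Subgroup.mem_top _) (Subgroup.mem_top _)
  exact (QuotientGroup.eq_one_iff c).1 h2

end Bad

/-- minimal normal invariant subgroups above `Z` -/
theorem exists_min {H : Type*} [Group H] [Finite H] (P : Subgroup H → Prop) (A : Subgroup H)
    (hA : P A) : ∃ M ≤ A, P M ∧ ∀ N, P N → N ≤ M → N = M := by
  classical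
  have h1 : ({N : Subgroup H | P N ∧ N ≤ A}).Finite := Set.toFinite _
  obtain ⟨M, hM⟩ := h1.exists_minimal ⟨A, hA, le_refl A⟩
  refine ⟨M, hM.1.2, hM.1.1, ?_⟩
  intro N hN hNM
  exact le_antisymm hNM (hM.2 ⟨hN, hNM.trans hM.1.2⟩ hNM)

theorem exists_max {H : Type*} [Group H] [Finite H] (P : Subgroup H → Prop) (A : Subgroup H)
    (hA : P A) : ∃ M, A ≤ M ∧ P M ∧ ∀ N, P N → M ≤ N → N = M := by
  classical
  have h1 : ({N : Subgroup H | P N ∧ A ≤ N}).Finite := Set.toFinite _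
  obtain ⟨M, hM⟩ := h1.exists_maximal ⟨A, hA, le_refl A⟩
  refine ⟨M, hM.1.2, hM.1.1, ?_⟩
  intro N hN hNM
  exact le_antisymm (hM.2 ⟨hN, hM.1.2.trans hNM⟩ hNM) hNM

end H12.CopGen
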