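import Cfsg.Agent.Lib.H12.CopGen2
import Cfsg.Agent.Lib.H12.CopAbs
import Cfsg.Agent.Lib.H3.PBasic

/-!
# The minimal counterexample: the case of a non-central minimal normal subgroup
-/

set_option autoImplicit false
set_option linter.all false

open scoped commutatorElement

namespace H12.CopGen

/-- minimal normal invariant subgroup -/
structure MinN {H : Type*} [Group H] (x : H →* H) (M : Subgroup H) : Prop where
  nor : M.Normal
  inv : Inv x M
  nbot : M ≠ ⊥
  min : ∀ N : Subgroup H, N.Normal → Inv x N → N ≤ M → N ≠ ⊥ → N = M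

theorem Inv_comm {H : Type*} [Group H] {x : H →* H} {A B : Subgroup H} (hA : Inv x A)
    (hB : Inv x B) : Inv x ⁅A, B⁆ := by
  have : ⁅A, B⁆ ≤ Subgroup.comap x ⁅A, B⁆ := by
    rw [Subgroup.commutator_le]
    intro a ha c hc
    show x ⁅a, c⁆ ∈ (⁅A, B⁆ : Subgroup H)
    rw [map_commutatorElement]
    exact Subgroup.commutator_mem_commutator (hA a ha) (hB c hc)
  exact fun y hy => this hy

theorem exists_inv_sylow {H : Type*} [Group H] [Finite H] {x : H →* H} {p : ℕ} (hp : p.Prime)
    (cop : (Nat.card H).Coprime p) (per : ∀ h, x^[p] h = h) (s : ℕ) [Fact s.Prime] :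
    ∃ R : Sylow s H, Inv x (R : Subgroup H) := by
  classical
  haveI : Fact p.Prime := ⟨hp⟩
  have hs := (x_bij hp per).2
  haveI : Fintype (Sylow s H) := Fintype.ofFinite _
  let f : Function.End (Sylow s H) := fun P => Sylow.mapSurjective hs P
  have hiter : ∀ (i : ℕ) (P : Sylow s H), (((f ^ i) P : Sylow s H) : Set H) = (x^[i]) '' (P : Set H) := by
    intro i
    induction i with
    | zero => intro P; simp; rfl
    | succ i ih =>
      intro P
      rw [pow_succ']
      show ((Sylow.mapSurjective hs ((f ^ i) P) : Subgroup H) : Set H) = _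
      rw [Sylow.coe_mapSurjective, Subgroup.coe_map]
      have h1 := ih P
      have h2 : ((((f ^ i) P : Sylow s H) : Subgroup H) : Set H) = (x^[i]) '' (P : Set H) := h1
      rw [h2, ← Set.image_comp, ← Function.iterate_succ']
  have hf : f ^ p ^ 1 = 1 := by
    funext P
    apply SetLike.coe_injective
    rw [pow_one, hiter]
    have : x^[p] = id := by funext h; exact per h
    rw [this, Set.image_id]
    rfl
  have h1 := Equiv.Perm.card_fixedPoints_modEq hf
  have h2 : ¬ p ∣ Nat.card (Sylow s H) := by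
    intro hd
    obtain ⟨P⟩ := (inferInstance : Nonempty (Sylow s H))
    have h3 : p ∣ Nat.card H := (hd.trans P.card_dvd_index).trans (Subgroup.index_dvd_card _)
    have h4 := Nat.Coprime.eq_one_of_dvd (Nat.Coprime.symm cop) h3
    exact hp.one_lt.ne' h4
  have h3 : Nonempty (Function.fixedPoints f) := by
    by_contra hcon
    rw [not_nonempty_iff] at hcon
    have h4 : Fintype.card (Function.fixedPoints f) = 0 := Fintype.card_eq_zero_iff.2 hcon
    rw [h4] at h1
    apply h2
    rw [Nat.card_eq_fintype_card]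
    exact (Nat.modEq_zero_iff_dvd).1 h1
  obtain ⟨R, hR⟩ := h3
  refine ⟨R, ?_⟩
  intro y hy
  have h4 : Sylow.mapSurjective hs R = R := hR
  have h5 : ((Sylow.mapSurjective hs R : Sylow s H) : Subgroup H) = R := by rw [h4]
  rw [Sylow.coe_mapSurjective] at h5
  rw [← h5]
  exact ⟨y, hy, rfl⟩

namespace Bad

variable {H : Type*} [Group H] [Finite H] {x : H →* H} {p : ℕ} (b : Bad x p)

include b

theorem exists_minN : ∃ M, MinN x M := by
  have h1 : (⊤ : Subgroup H) ≠ ⊥ := by
    intro h
    apply b.bad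
    intro c _
    have : c ∈ (⊤ : Subgroup H) := Subgroup.mem_top c
    rw [h, Subgroup.mem_bot] at this
    rw [this]
    exact Subgroup.one_mem _
  obtain ⟨M, _, ⟨h2, h3, h4⟩, h5⟩ := exists_min (fun N : Subgroup H => N.Normal ∧ Inv x N ∧ N ≠ ⊥) ⊤
    ⟨inferInstance, Inv_top, h1⟩
  exact ⟨M, h2, h3, h4, fun N a1 a2 a3 a4 => h5 N ⟨a1, a2, a4⟩ a3⟩

variable {M : Subgroup H} (hM : MinN x M)

include hM

theorem M_ab : ∀ a ∈ M, ∀ c ∈ M, a * c = c * a := by
  haveI := b.solv
  haveI := hM.nor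
  have h1 : ⁅M, M⁆ < M := Group.IsSolvable.commutator_lt_of_ne_bot hM.nbot
  have h2 : ⁅M, M⁆ = ⊥ := by
    by_contra h
    exact h1.ne (hM.min _ inferInstance (Inv_comm hM.inv hM.inv) h1.le h)
  intro a ha c hc
  have h3 : ⁅a, c⁆ ∈ ⁅M, M⁆ := Subgroup.commutator_mem_commutator ha hc
  rw [h2, Subgroup.mem_bot] at h3
  exact commutatorElement_eq_one_iff_mul_comm.1 h3

theorem M_exp : ∃ r, r.Prime ∧ ∀ m ∈ M, m ^ r = 1 := by
  have hab := b.M_ab hM
  have h0 : Nat.card M ≠ 1 := by
    intro h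
    exact hM.nbot (Subgroup.card_eq_one.1 h)
  obtain ⟨r, hr, hrd⟩ := Nat.exists_prime_and_dvd h0
  refine ⟨r, hr, ?_⟩
  haveI : Fact r.Prime := ⟨hr⟩
  have hcomm : ∀ a ∈ M, ∀ c ∈ M, (a * c) ^ r = a ^ r * c ^ r := by
    intro a ha c hc
    exact (show Commute a c from hab a ha c hc).mul_pow r
  let N : Subgroup H :=
    { carrier := {m | m ∈ M ∧ m ^ r = 1}
      one_mem' := ⟨M.one_mem, one_pow r⟩
      mul_mem' := by
        rintro a c ⟨ha, ha2⟩ ⟨hc, hc2⟩
        exact ⟨M.mul_mem ha hc, by rw [hcomm a ha c hc, ha2, hc2, one_mul]⟩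
      inv_mem' := by
        rintro a ⟨ha, ha2⟩
        exact ⟨M.inv_mem ha, by rw [inv_pow, ha2, inv_one]⟩ }
  have hN : N = M := by
    apply hM.min
    · constructor
      rintro n ⟨hn, hn2⟩ g
      refine ⟨hM.nor.conj_mem n hn g, ?_⟩
      rw [conj_pow, hn2]; group
    · rintro n ⟨hn, hn2⟩
      exact ⟨hM.inv n hn, by rw [← map_pow, hn2, map_one]⟩
    · exact fun n hn => hn.1
    · intro h
      obtain ⟨g, hg⟩ := exists_prime_orderOf_dvd_card' r hrd
      have h1 : (g : H) ∈ N := ⟨g.2, by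
        have := pow_orderOf_eq_one g
        rw [hg] at this
        have h2 := congrArg Subtype.val this
        exact h2⟩
      rw [h, Subgroup.mem_bot] at h1
      have h2 : g = 1 := Subtype.ext h1
      rw [h2, orderOf_one] at hg
      exact hr.one_lt.ne hg
  intro m hm
  rw [← hN] at hm
  exact hm.2

/-- in Case B, the minimal subgroup is not central. -/
theorem not_central (hMF : ¬ M ≤ Fx x) : ¬ M ≤ Subgroup.center H := by
  intro hc
  have hab := b.M_ab hM
  have h1 : KY x M ≤ M := KY_le hM.inv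
  have h2 : KY x M = M := by
    apply hM.min
    · constructor
      intro n hn g
      have h3 : g * n * g⁻¹ = n := by
        have := (Subgroup.mem_center_iff.1 (hc (h1 hn))) g
        rw [this]; group
      rw [h3]; exact hn
    · exact Inv_KY hM.inv
    · exact h1
    · intro h
      apply hMF
      intro m hm
      have h3 : m⁻¹ * x m ∈ KY x M := y1_mem_KY hm
      rw [h, Subgroup.mem_bot] at h3
      exact (inv_mul_eq_one.1 h3).symm
  apply hM.nbot
  apply b.nb M hM.nor hM.inv
  rintro m ⟨hm, hf⟩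
  rw [← h2] at hm
  rw [abelian_disj b.hp b.cop b.per M hM.inv hab m hm hf]
  exact Subgroup.one_mem _

theorem center_eq_top_of_comm_le {N₀ : Subgroup H} (hN₀ : N₀ < M)
    (hc : ¬ M ≤ Subgroup.center H) : ¬ ⁅(⊤ : Subgroup H), M⁆ ≤ N₀ := by
  intro h
  haveI := hM.nor
  by_cases h1 : ⁅(⊤ : Subgroup H), M⁆ = ⊥
  · apply hc
    intro m hm
    rw [Subgroup.mem_center_iff]
    intro g
    have h3 : ⁅g, m⁆ ∈ ⁅(⊤ : Subgroup H), M⁆ :=
      Subgroup.commutator_mem_commutator (Subgroup.mem_top g) hm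
    rw [h1, Subgroup.mem_bot] at h3
    exact commutatorElement_eq_one_iff_mul_comm.1 h3
  · have h2 : ⁅(⊤ : Subgroup H), M⁆ = M :=
      hM.min _ inferInstance (Inv_comm Inv_top hM.inv) (Subgroup.commutator_le_right _ _) h1
    rw [h2] at h
    exact absurd h (not_le_of_gt hN₀)

end Bad

end H12.CopGen
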