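import Cfsg.Agent.Lib.H12.CopGen3

/-!
# The minimal counterexample: the structure `H = MR` in the non-central case
-/

set_option autoImplicit false
set_option linter.all false

open scoped commutatorElement

namespace H12.CopGen

section Aux

variable {H : Type*} [Group H] {x : H →* H}

theorem KY_conj_fix {Y : Subgroup H} {c : H} (hc : x c = c) (hYc : ∀ y ∈ Y, c⁻¹ * y * c ∈ Y) :
    ∀ y ∈ KY x Y, c⁻¹ * y * c ∈ KY x Y := by
  apply conj_mem_closure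
  rintro _ ⟨y, hy, i, rfl⟩
  have e : c⁻¹ * (y⁻¹ * x^[i] y) * c = (c⁻¹ * y * c)⁻¹ * x^[i] (c⁻¹ * y * c) := by
    rw [iter_mul, iter_mul, iter_inv, iter_fix hc]; group
  rw [e]
  exact y_mem_KY (hYc y hy) i

theorem normal_of_comm_le {K : Subgroup H} (h : ⁅(⊤ : Subgroup H), ⊤⁆ ≤ K) : K.Normal := by
  constructor
  intro n hn g
  have e : g * n * g⁻¹ = ⁅g, n⁆ * n := by rw [commutatorElement_def]; group
  rw [e]
  exact K.mul_mem (h (Subgroup.commutator_mem_commutator (Subgroup.mem_top _) (Subgroup.mem_top _))) hn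

theorem comm_sup_ne_top [Group.IsSolvable H] (F : Subgroup H) [F.Normal] (hF : F ≠ ⊤) :
    F ⊔ ⁅(⊤ : Subgroup H), ⊤⁆ ≠ ⊤ := by
  intro h
  have h1 := congrArg (Subgroup.map (QuotientGroup.mk' F)) h
  rw [Subgroup.map_sup, Subgroup.map_commutator,
    Subgroup.map_top_of_surjective _ (QuotientGroup.mk'_surjective F),
    QuotientGroup.map_mk'_self, bot_sup_eq] at h1
  haveI : Nontrivial (H ⧸ F) := QuotientGroup.nontrivial_iff.2 hF
  exact (Group.IsSolvable.commutator_lt_top_of_nontrivial (H ⧸ F)).ne h1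

/-- the subgroup acting trivially on `M / N₀` -/
def TT (M N₀ : Subgroup H) (hM : M.Normal) : Subgroup H where
  carrier := {h | ∀ m ∈ M, h * m * h⁻¹ * m⁻¹ ∈ N₀}
  one_mem' := by
    intro m _
    simpa using N₀.one_mem
  mul_mem' := by
    intro g h hg hh m hm
    have e : g * h * m * (g * h)⁻¹ * m⁻¹
        = (g * (h * m * h⁻¹) * g⁻¹ * (h * m * h⁻¹)⁻¹) * (h * m * h⁻¹ * m⁻¹) := by group
    rw [e]
    exact N₀.mul_mem (hg _ (hM.conj_mem m hm h)) (hh m hm)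
  inv_mem' := by
    intro g hg m hm
    have h1 := hg (g⁻¹ * m * g⁻¹⁻¹) (hM.conj_mem m hm g⁻¹)
    have e : g⁻¹ * m * g⁻¹⁻¹ * m⁻¹ = (g * (g⁻¹ * m * g⁻¹⁻¹) * g⁻¹ * (g⁻¹ * m * g⁻¹⁻¹)⁻¹)⁻¹ := by group
    show g⁻¹ * m * g⁻¹⁻¹ * m⁻¹ ∈ N₀
    rw [e]
    exact N₀.inv_mem h1

theorem mem_TT {M N₀ : Subgroup H} {hM : M.Normal} {h : H} :
    h ∈ TT M N₀ hM ↔ ∀ m ∈ M, h * m * h⁻¹ * m⁻¹ ∈ N₀ := Iff.rfl

/-- product of subgroups of an abelian group -/
def prodSub (A B : Subgroup H) (hab : ∀ a ∈ A, ∀ c ∈ B, a * c = c * a) : Subgroup H where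
  carrier := {m | ∃ a ∈ A, ∃ c ∈ B, m = a * c}
  one_mem' := ⟨1, A.one_mem, 1, B.one_mem, by simp⟩
  mul_mem' := by
    rintro _ _ ⟨a, ha, c, hc, rfl⟩ ⟨a', ha', c', hc', rfl⟩
    refine ⟨a * a', A.mul_mem ha ha', c * c', B.mul_mem hc hc', ?_⟩
    have := hab a' ha' c hc
    calc a * c * (a' * c') = a * (c * a') * c' := by group
      _ = a * (a' * c) * c' := by rw [this]
      _ = _ := by group
  inv_mem' := by
    rintro _ ⟨a, ha, c, hc, rfl⟩
    refine ⟨a⁻¹, A.inv_mem ha, c⁻¹, B.inv_mem hc, ?_⟩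
    rw [mul_inv_rev]
    exact (hab _ (A.inv_mem ha) _ (B.inv_mem hc)).symm

theorem mem_prodSub {A B : Subgroup H} {hab : ∀ a ∈ A, ∀ c ∈ B, a * c = c * a} {m : H} :
    m ∈ prodSub A B hab ↔ ∃ a ∈ A, ∃ c ∈ B, m = a * c := Iff.rfl

end Aux

namespace Bad

variable {H : Type*} [Group H] [Finite H] {x : H →* H} {p : ℕ} (b : Bad x p)
  {M : Subgroup H} (hM : MinN x M)

include b hM

theorem no_M_le_KY {Y : Subgroup H} (hY : Inv x Y) (hYt : Y ≠ ⊤) : ¬ M ≤ KY x Y := by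
  intro h
  apply hM.nbot
  apply b.nb M hM.nor hM.inv
  rintro m ⟨hm, hf⟩
  exact b.sub Y hY hYt ⟨h hm, hf⟩

theorem no_M_le_Lx (h : H) : ¬ M ≤ Lx x h := by
  intro h1
  apply hM.nbot
  apply b.nb M hM.nor hM.inv
  rintro m ⟨hm, hf⟩
  exact mem_Cx (h1 hm) hf

theorem Inv_center : Inv x (Subgroup.center H) := by
  intro z hz
  rw [Subgroup.mem_center_iff] at hz ⊢
  intro g
  obtain ⟨g, rfl⟩ := b.surj g
  rw [← map_mul, hz g, map_mul]

theorem stepR (hMF : ¬ M ≤ Fx x) : ∃ (s : ℕ) (_ : Fact s.Prime) (R : Subgroup H), Inv x R ∧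
    IsPGroup s R ∧ R ≠ ⊤ ∧ R ≠ ⊥ ∧ M ⊔ R = ⊤ ∧ R ⊓ M = ⊥ ∧ R ⊓ Fx x ≤ Cx x ∧
    (∀ z ∈ R, (∀ m ∈ M, z * m = m * z) → z = 1) := by
  classical
  haveI := hM.nor
  haveI := b.solv
  have hcen := b.not_central hM hMF
  have hab := b.M_ab hM
  have hMt : M ≠ ⊤ := by
    intro h
    apply hcen
    intro m hm
    rw [Subgroup.mem_center_iff]
    intro g
    exact hab g (by rw [h]; exact Subgroup.mem_top g) m hm
  have hKM : KY x M ≤ M := KY_le hM.inv
  let N₀ : Subgroup H := prodSub (Cx x ⊓ M) (KY x M) (fun a ha c hc => hab a ha.2 c (hKM hc))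
  have hN₀M : N₀ ≤ M := by
    rintro _ ⟨a, ha, c, hc, rfl⟩
    exact M.mul_mem ha.2 (hKM hc)
  have hN₀ : N₀ < M := by
    refine lt_of_le_of_ne hN₀M ?_
    intro h
    apply hM.nbot
    apply b.nb M hM.nor hM.inv
    rintro m ⟨hm, hf⟩
    rw [← h] at hm
    obtain ⟨a, ha, c, hc, rfl⟩ := hm
    have hfa : x a = a := Cx_le_Fx ha.1
    have hf' : x (a * c) = a * c := hf
    have hfc : x c = c := by
      rw [map_mul, hfa] at hf'
      exact mul_left_cancel hf'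
    rw [abelian_disj b.hp b.cop b.per M hM.inv hab c hc hfc, mul_one]
    exact ha.1
  let T : Subgroup H := TT M N₀ hM.nor
  have hTt : T ≠ ⊤ := by
    intro h
    apply b.center_eq_top_of_comm_le hM hN₀ hcen
    rw [Subgroup.commutator_le]
    intro g _ m hm
    have h1 : g ∈ T := by rw [h]; exact Subgroup.mem_top g
    exact h1 m hm
  have hTconj : ∀ c, x c = c → ∀ t ∈ T, c⁻¹ * t * c ∈ T := by
    intro c hc t ht m hm
    have h1 := ht (c * m * c⁻¹) (hM.nor.conj_mem m hm c)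
    have e : c⁻¹ * t * c * m * (c⁻¹ * t * c)⁻¹ * m⁻¹
        = c⁻¹ * (t * (c * m * c⁻¹) * t⁻¹ * (c * m * c⁻¹)⁻¹) * c := by group
    rw [e]
    obtain ⟨a, ha, d, hd, had⟩ := h1
    have had' : t * (c * m * c⁻¹) * t⁻¹ * (c * m * c⁻¹)⁻¹ = a * d := had
    rw [had']
    have hMc : ∀ y ∈ M, c⁻¹ * y * c ∈ M := by
      intro y hy
      have := hM.nor.conj_mem y hy c⁻¹
      rwa [inv_inv] at this
    refine ⟨c⁻¹ * a * c, ⟨Cx_conj hc a ha.1, hMc a ha.2⟩, c⁻¹ * d * c, KY_conj_fix hc hMc d hd, by group⟩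
  have hT1 : ∀ Y : Subgroup H, Inv x Y → Y ≠ ⊤ → M ≤ Y → KY x Y ≤ T := by
    intro Y hY hYt hMY t ht m hm
    have hv1 : t * m * t⁻¹ * m⁻¹ ∈ M := M.mul_mem (hM.nor.conj_mem m hm t) (M.inv_mem hm)
    have hv2 : t * m * t⁻¹ * m⁻¹ ∈ KY x Y := by
      have e : t * m * t⁻¹ * m⁻¹ = t * (m⁻¹⁻¹ * t⁻¹ * m⁻¹) := by group
      rw [e]
      exact Subgroup.mul_mem _ ht (KY_conj (Y.inv_mem (hMY hm)) _ (Subgroup.inv_mem _ ht))
    obtain ⟨k, hk, c, hc, hcf, hkc⟩ := decomp b.hp b.cop b.per (KY x Y ⊓ M)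
      (Inv_inf (Inv_KY hY) hM.inv) _ ⟨hv2, hv1⟩
    refine ⟨c, ⟨b.sub Y hY hYt ⟨hc.1, hcf⟩, hc.2⟩, k, KY_mono inf_le_right hk, ?_⟩
    rw [hkc]
    exact hab _ (hKM (KY_mono inf_le_right hk)) _ hc.2
  -- the maximal normal subgroup
  obtain ⟨F, hMF', ⟨hFn, hFi, hFt⟩, hFmax⟩ := exists_max
    (fun F : Subgroup H => F.Normal ∧ Inv x F ∧ F ≠ ⊤) M ⟨hM.nor, hM.inv, hMt⟩
  haveI := hFn
  have hcF : ⁅(⊤ : Subgroup H), ⊤⁆ ≤ F := by
    have h1 := hFmax (F ⊔ ⁅(⊤ : Subgroup H), ⊤⁆) ⟨inferInstance, Inv_sup hFi (Inv_comm Inv_top Inv_top),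
      comm_sup_ne_top F hFt⟩ le_sup_left
    rw [← h1]
    exact le_sup_right
  have hFi1 : F.index ≠ 1 := by
    intro h
    exact hFt (Subgroup.index_eq_one.1 h)
  obtain ⟨s, hs, hsF⟩ := Nat.exists_prime_and_dvd hFi1
  haveI hsf : Fact s.Prime := ⟨hs⟩
  obtain ⟨R, hRi⟩ := exists_inv_sylow b.hp b.cop b.per s
  have hFR : F ⊔ (R : Subgroup H) = ⊤ := by
    by_contra hne
    have h1 := hFmax (F ⊔ (R : Subgroup H)) ⟨normal_of_comm_le (hcF.trans le_sup_left),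
      Inv_sup hFi hRi, hne⟩ le_sup_left
    have h2 : (R : Subgroup H) ≤ F := by rw [← h1]; exact le_sup_right
    exact R.not_dvd_index (hsF.trans (Subgroup.index_dvd_of_le h2))
  have hMR : M ⊔ (R : Subgroup H) = ⊤ := by
    by_contra hne
    apply hTt
    rw [eq_top_iff, ← b.top]
    apply KY_le_of Inv_top
    intro h _
    have hh : h ∈ F ⊔ (R : Subgroup H) := by rw [hFR]; exact Subgroup.mem_top h
    obtain ⟨f, hf, ρ, hρ, rfl⟩ := Subgroup.mem_sup_of_normal_left.1 hh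
    obtain ⟨k, hk, c, hc, hcf, rfl⟩ := decomp b.hp b.cop b.per (R : Subgroup H) hRi ρ hρ
    have e : (f * (k * c))⁻¹ * x (f * (k * c)) = c⁻¹ * (k⁻¹ * (f⁻¹ * x f) * x k) * c := by
      rw [map_mul, map_mul, hcf]; group
    rw [e]
    apply hTconj c hcf
    have hKR : KY x (R : Subgroup H) ≤ T :=
      (KY_mono le_sup_right).trans (hT1 (M ⊔ R) (Inv_sup hM.inv hRi) hne le_sup_left)
    have hKF : KY x F ≤ T := hT1 F hFi hFt hMF'
    exact T.mul_mem (T.mul_mem (T.inv_mem (hKR hk)) (hKF (y1_mem_KY hf))) (hKR (Inv_KY hRi k hk))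
  -- coprimality
  obtain ⟨r, hr, hrM⟩ := b.M_exp hM
  haveI : Fact r.Prime := ⟨hr⟩
  have hMp : IsPGroup r M := by
    intro m
    exact ⟨1, Subtype.ext (by rw [pow_one]; exact hrM m m.2)⟩
  have hsr : s ≠ r := by
    rintro rfl
    have h1 : IsPGroup s ↥(M ⊔ (R : Subgroup H)) := IsPGroup.to_sup_of_normal_left hMp R.isPGroup'
    rw [hMR] at h1
    have h2 : IsPGroup s H := by
      intro g
      obtain ⟨k, hk⟩ := h1 ⟨g, Subgroup.mem_top g⟩
      exact ⟨k, congrArg Subtype.val hk⟩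
    haveI : Group.IsNilpotent H := h2.isNilpotent
    have h3 := H3.PBasic.normal_inf_center_ne_bot M hM.nbot
    have h4 := hM.min (M ⊓ Subgroup.center H) inferInstance (Inv_inf hM.inv (b.Inv_center hM)) inf_le_left h3
    apply hcen
    rw [← h4]
    exact inf_le_right
  have hRM : (R : Subgroup H) ⊓ M = ⊥ :=
    (IsPGroup.disjoint_of_ne s r hsr _ _ R.isPGroup' hMp).eq_bot
  have hRt : (R : Subgroup H) ≠ ⊤ := by
    intro h
    rw [h, top_inf_eq] at hRM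
    exact hM.nbot hRM
  have hRb : (R : Subgroup H) ≠ ⊥ := by
    intro h
    rw [h, sup_bot_eq] at hMR
    exact hMt hMR
  have hKR : KY x (R : Subgroup H) = R := by
    apply le_antisymm (KY_le hRi)
    have h1 : M ⊔ KY x (R : Subgroup H) = ⊤ := by
      rw [eq_top_iff, ← b.top]
      apply KY_le_of Inv_top
      intro h _
      have hh : h ∈ (R : Subgroup H) ⊔ M := by rw [sup_comm, hMR]; exact Subgroup.mem_top h
      obtain ⟨ρ, hρ, m, hm, rfl⟩ := Subgroup.mem_sup_of_normal_right.1 hh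
      have e : (ρ * m)⁻¹ * x (ρ * m) = m⁻¹ * (ρ⁻¹ * x ρ) * x m := by
        rw [map_mul]; group
      rw [e]
      exact Subgroup.mul_mem _ (Subgroup.mul_mem _ (Subgroup.mem_sup_left (M.inv_mem hm))
        (Subgroup.mem_sup_right (y1_mem_KY hρ))) (Subgroup.mem_sup_left (hM.inv m hm))
    intro ρ hρ
    have hh : ρ ∈ M ⊔ KY x (R : Subgroup H) := by rw [h1]; exact Subgroup.mem_top ρ
    obtain ⟨m, hm, k, hk, hmk⟩ := Subgroup.mem_sup_of_normal_left.1 hh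
    have h2 : m ∈ (R : Subgroup H) ⊓ M := by
      refine ⟨?_, hm⟩
      have : m = ρ * k⁻¹ := by rw [← hmk]; group
      rw [this]
      exact Subgroup.mul_mem _ hρ (Subgroup.inv_mem _ (KY_le hRi hk))
    rw [hRM, Subgroup.mem_bot] at h2
    rw [h2, one_mul] at hmk
    rw [← hmk]
    exact hk
  have hRF : (R : Subgroup H) ⊓ Fx x ≤ Cx x := by
    have := b.sub R hRi hRt
    rwa [hKR] at this
  refine ⟨s, hsf, R, hRi, R.isPGroup', hRt, hRb, hMR, hRM, hRF, ?_⟩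
  -- faithful action on `M`
  let Z : Subgroup H := (R : Subgroup H) ⊓ Subgroup.centralizer (M : Set H)
  have hZ : Z = ⊥ := by
    have hnor : Z.Normal := by
      constructor
      rintro z ⟨hz1, hz2⟩ g
      have hh : g ∈ (R : Subgroup H) ⊔ M := by rw [sup_comm, hMR]; exact Subgroup.mem_top g
      obtain ⟨ρ, hρ, m, hm, rfl⟩ := Subgroup.mem_sup_of_normal_right.1 hh
      have hzm : m * z = z * m := Subgroup.mem_centralizer_iff.1 hz2 m hm
      have e : ρ * m * z * (ρ * m)⁻¹ = ρ * z * ρ⁻¹ := by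
        calc ρ * m * z * (ρ * m)⁻¹ = ρ * (m * z) * m⁻¹ * ρ⁻¹ := by group
          _ = ρ * (z * m) * m⁻¹ * ρ⁻¹ := by rw [hzm]
          _ = _ := by group
      rw [e]
      refine ⟨Subgroup.mul_mem _ (Subgroup.mul_mem _ hρ hz1) (Subgroup.inv_mem _ hρ), ?_⟩
      exact (inferInstance : (Subgroup.centralizer (M : Set H)).Normal).conj_mem z hz2 ρ
    apply b.nb Z hnor
    · apply Inv_inf hRi
      intro z hz
      rw [Subgroup.mem_centralizer_iff] at hz ⊢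
      intro m hm
      -- `m = x m'` with `m' ∈ M`
      have h1 : M.map x = M := by
        apply Subgroup.eq_of_le_of_card_ge
        · rintro _ ⟨m, hm, rfl⟩
          exact hM.inv m hm
        · rw [Subgroup.card_map_of_injective b.inj]
      have h2 : m ∈ M.map x := by rw [h1]; exact hm
      obtain ⟨m', hm', rfl⟩ := h2
      rw [← map_mul, hz m' hm', map_mul]
    · rintro z ⟨⟨hz1, _⟩, hz2⟩
      exact hRF ⟨hz1, hz2⟩
  intro z hz hzm
  have : z ∈ Z := ⟨hz, Subgroup.mem_centralizer_iff.2 (fun m hm => (hzm m hm).symm)⟩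
  rw [hZ, Subgroup.mem_bot] at this
  exact this

end Bad

end H12.CopGen
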