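import Cfsg.Agent.Lib.H12.CopGen4

/-!
# The minimal counterexample: end of the non-central case
-/

set_option autoImplicit false
set_option linter.all false

open scoped commutatorElement

namespace H12.CopGen

theorem rel {G : Type*} [Group G] (q q1 q2 u u1 u2 : G) (h01 : q * q1 = q1 * q)
    (h02 : q * q2 = q2 * q) (h12 : q1 * q2 = q2 * q1)
    (h : u⁻¹ * q⁻¹ * q1 * u1 * (u⁻¹ * q⁻¹ * q2 * u2) = u⁻¹ * q⁻¹ * q2 * u2 * (u⁻¹ * q⁻¹ * q1 * u1)) :
    (q2⁻¹ * u1 * q2) * (q2⁻¹ * u * q2)⁻¹ * (q⁻¹ * u2 * q)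
      = (q1⁻¹ * u2 * q1) * (q1⁻¹ * u * q1)⁻¹ * (q⁻¹ * u1 * q) := by
  have c1 : q1 * q⁻¹ = q⁻¹ * q1 := by
    calc q1 * q⁻¹ = q⁻¹ * (q * q1) * q⁻¹ := by group
      _ = q⁻¹ * (q1 * q) * q⁻¹ := by rw [h01]
      _ = _ := by group
  have c2 : q2 * q⁻¹ = q⁻¹ * q2 := by
    calc q2 * q⁻¹ = q⁻¹ * (q * q2) * q⁻¹ := by group
      _ = q⁻¹ * (q2 * q) * q⁻¹ := by rw [h02]
      _ = _ := by group
  calc (q2⁻¹ * u1 * q2) * (q2⁻¹ * u * q2)⁻¹ * (q⁻¹ * u2 * q)
      = q2⁻¹ * u1 * u⁻¹ * (q2 * q⁻¹) * u2 * q := by group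
    _ = q2⁻¹ * u1 * u⁻¹ * (q⁻¹ * q2) * u2 * q := by rw [c2]
    _ = (q1 * q2)⁻¹ * q * u * (u⁻¹ * q⁻¹ * q1 * u1 * (u⁻¹ * q⁻¹ * q2 * u2)) * q := by group
    _ = (q2 * q1)⁻¹ * q * u * (u⁻¹ * q⁻¹ * q2 * u2 * (u⁻¹ * q⁻¹ * q1 * u1)) * q := by rw [h, h12]
    _ = q1⁻¹ * u2 * u⁻¹ * (q⁻¹ * q1) * u1 * q := by group
    _ = q1⁻¹ * u2 * u⁻¹ * (q1 * q⁻¹) * u1 * q := by rw [c1]
    _ = _ := by group

namespace Bad

variable {H : Type*} [Group H] [Finite H] {x : H →* H} {p : ℕ} (b : Bad x p)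
  {M : Subgroup H} (hM : MinN x M)

include b hM

/-- (i) no central fixed points in `R` -/
theorem stepZ {R : Subgroup H} (hMR : M ⊔ R = ⊤) (hRF : R ⊓ Fx x ≤ Cx x)
    (hRc : ∀ z ∈ R, (∀ m ∈ M, z * m = m * z) → z = 1) (z : H) (hz : z ∈ R)
    (hzR : ∀ ρ ∈ R, z * ρ = ρ * z) (hzf : x z = z) : z = 1 := by
  classical
  have hab := b.M_ab hM
  haveI := hM.nor
  by_contra hz1
  let Z : Subgroup H := M ⊓ Subgroup.centralizer {z}
  have hmZ : ∀ m, m ∈ Z ↔ m ∈ M ∧ m * z = z * m := by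
    intro m
    constructor
    · rintro ⟨h1, h2⟩
      exact ⟨h1, Subgroup.mem_centralizer_singleton_iff.1 h2⟩
    · rintro ⟨h1, h2⟩
      exact ⟨h1, Subgroup.mem_centralizer_singleton_iff.2 h2⟩
  have hZn : Z.Normal := by
    constructor
    intro m hm g
    rw [hmZ] at hm ⊢
    obtain ⟨hm1, hm2⟩ := hm
    refine ⟨hM.nor.conj_mem m hm1 g, ?_⟩
    have hh : g ∈ R ⊔ M := by rw [sup_comm, hMR]; exact Subgroup.mem_top g
    obtain ⟨ρ, hρ, c, hc, rfl⟩ := Subgroup.mem_sup_of_normal_right.1 hh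
    have h1 : c * m = m * c := hab c hc m hm1
    have e : ρ * c * m * (ρ * c)⁻¹ = ρ * m * ρ⁻¹ := by
      calc ρ * c * m * (ρ * c)⁻¹ = ρ * (c * m) * c⁻¹ * ρ⁻¹ := by group
        _ = ρ * (m * c) * c⁻¹ * ρ⁻¹ := by rw [h1]
        _ = _ := by group
    rw [e]
    have h2 := hzR ρ hρ
    have h3 : ρ⁻¹ * z = z * ρ⁻¹ := by
      have : z = ρ * z * ρ⁻¹ := by rw [← h2]; group
      calc ρ⁻¹ * z = ρ⁻¹ * (ρ * z * ρ⁻¹) := by rw [← this]
        _ = _ := by group
    calc ρ * m * ρ⁻¹ * z = ρ * m * (ρ⁻¹ * z) := by group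
      _ = ρ * m * (z * ρ⁻¹) := by rw [h3]
      _ = ρ * (m * z) * ρ⁻¹ := by group
      _ = ρ * (z * m) * ρ⁻¹ := by rw [hm2]
      _ = (ρ * z) * m * ρ⁻¹ := by group
      _ = (z * ρ) * m * ρ⁻¹ := by rw [h2]
      _ = _ := by group
  have hZi : Inv x Z := by
    intro m hm
    rw [hmZ] at hm ⊢
    refine ⟨hM.inv m hm.1, ?_⟩
    have := congrArg x hm.2
    rw [map_mul, map_mul, hzf] at this
    exact this
  have hZb : Z = ⊥ := by
    by_contra h
    have h1 := hM.min Z hZn hZi inf_le_left h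
    apply hz1
    apply hRc z hz
    intro m hm
    rw [← h1, hmZ] at hm
    exact hm.2.symm
  -- the map `u ↦ u⁻¹ z⁻¹ u z` on `M ∩ Fx`
  have hst : ∀ u ∈ M ⊓ Fx x, u⁻¹ * z⁻¹ * u * z ∈ M ⊓ Fx x := by
    rintro u ⟨hu1, hu2⟩
    have hu2' : x u = u := hu2
    constructor
    · have : u⁻¹ * z⁻¹ * u * z = u⁻¹ * (z⁻¹ * u * z⁻¹⁻¹) := by group
      rw [this]
      exact M.mul_mem (M.inv_mem hu1) (hM.nor.conj_mem u hu1 z⁻¹)
    · show x (u⁻¹ * z⁻¹ * u * z) = u⁻¹ * z⁻¹ * u * z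
      rw [map_mul, map_mul, map_mul, map_inv, map_inv, hu2', hzf]
  let f : ↥(M ⊓ Fx x) → ↥(M ⊓ Fx x) := fun u => ⟨(u : H)⁻¹ * z⁻¹ * u * z, hst u u.2⟩
  have hf : Function.Injective f := by
    intro u v huv
    have h1 : (u : H)⁻¹ * z⁻¹ * u * z = (v : H)⁻¹ * z⁻¹ * v * z := congrArg Subtype.val huv
    have hu := u.2.1
    have hv := v.2.1
    have h2 : (v : H) * (u : H)⁻¹ ∈ Z := by
      rw [hmZ]
      refine ⟨M.mul_mem hv (M.inv_mem hu), ?_⟩
      -- v u⁻¹ z⁻¹ u = z⁻¹ v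
      have h3 : (u : H)⁻¹ * z⁻¹ * u = (v : H)⁻¹ * z⁻¹ * v := mul_right_cancel h1
      have h4 : (v : H) * (u : H)⁻¹ * z⁻¹ * ((u : H) * (v : H)⁻¹) = z⁻¹ := by
        calc (v : H) * (u : H)⁻¹ * z⁻¹ * ((u : H) * (v : H)⁻¹)
            = v * ((u : H)⁻¹ * z⁻¹ * u) * (v : H)⁻¹ := by group
          _ = v * ((v : H)⁻¹ * z⁻¹ * v) * (v : H)⁻¹ := by rw [h3]
          _ = z⁻¹ := by group
      have h5 : (v : H) * (u : H)⁻¹ * z⁻¹ = z⁻¹ * ((v : H) * (u : H)⁻¹) := by
        calc (v : H) * (u : H)⁻¹ * z⁻¹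
            = ((v : H) * (u : H)⁻¹ * z⁻¹ * ((u : H) * (v : H)⁻¹)) * ((v : H) * (u : H)⁻¹) := by group
          _ = z⁻¹ * ((v : H) * (u : H)⁻¹) := by rw [h4]
      calc (v : H) * (u : H)⁻¹ * z = z * (z⁻¹ * ((v : H) * (u : H)⁻¹)) * z := by group
        _ = z * ((v : H) * (u : H)⁻¹ * z⁻¹) * z := by rw [h5]
        _ = _ := by group
    rw [hZb, Subgroup.mem_bot] at h2
    apply Subtype.ext
    exact (mul_inv_eq_one.1 h2).symm
  have hfs : Function.Surjective f := Finite.surjective_of_injective hf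
  apply hM.nbot
  apply b.nb M hM.nor hM.inv
  intro m hm
  obtain ⟨u, hu⟩ := hfs ⟨m, hm⟩
  have h1 : (u : H)⁻¹ * z⁻¹ * u * z = m := congrArg Subtype.val hu
  rw [← h1]
  have hzC : z ∈ Cx x := hRF ⟨hz, hzf⟩
  have hu2 : x (u : H) = u := u.2.2
  exact Subgroup.mul_mem _ (Cx_conj hu2 z⁻¹ (Subgroup.inv_mem _ hzC)) hzC

/-- `H = MQ` -/
theorem stepQ (hMF : ¬ M ≤ Fx x) : ∃ Q : Subgroup H, Inv x Q ∧ Q ≠ ⊥ ∧ M ⊔ Q = ⊤ ∧ Q ⊓ M = ⊥ ∧
    (∀ a ∈ Q, ∀ c ∈ Q, a * c = c * a) ∧ (∀ z ∈ Q, x z = z → z = 1) ∧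
    (∀ z ∈ Q, (∀ m ∈ M, z * m = m * z) → z = 1) ∧
    (∀ B : Subgroup H, Inv x B → B ≤ Q → B ≠ ⊥ → B = Q) := by
  obtain ⟨s, hs, R, hRi, hRp, hRt, hRb, hMR, hRM, hRF, hRc⟩ := b.stepR hM hMF
  haveI := hs
  haveI := hM.nor
  have hab := b.M_ab hM
  -- the centre of `R`
  have hRinv : R.map x = R := by
    apply Subgroup.eq_of_le_of_card_ge
    · rintro _ ⟨m, hm, rfl⟩
      exact hRi m hm
    · rw [Subgroup.card_map_of_injective b.inj]
  let Z : Subgroup H := R ⊓ Subgroup.centralizer (R : Set H)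
  have hmZ : ∀ z, z ∈ Z ↔ z ∈ R ∧ ∀ ρ ∈ R, z * ρ = ρ * z := by
    intro z
    constructor
    · rintro ⟨h1, h2⟩
      exact ⟨h1, fun ρ hρ => (Subgroup.mem_centralizer_iff.1 h2 ρ hρ).symm⟩
    · rintro ⟨h1, h2⟩
      exact ⟨h1, Subgroup.mem_centralizer_iff.2 (fun ρ hρ => (h2 ρ hρ).symm)⟩
  have hZi : Inv x Z := by
    intro z hz
    rw [hmZ] at hz ⊢
    refine ⟨hRi z hz.1, ?_⟩
    intro ρ hρ
    rw [← hRinv] at hρ
    obtain ⟨ρ', hρ', rfl⟩ := hρ
    have := congrArg x (hz.2 ρ' hρ')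
    rw [map_mul, map_mul] at this
    exact this
  have hZb : Z ≠ ⊥ := by
    intro h
    haveI : Nontrivial R := (Subgroup.nontrivial_iff_ne_bot R).2 hRb
    haveI := hRp.center_nontrivial
    obtain ⟨⟨z, hz⟩, hz1⟩ := exists_ne (1 : Subgroup.center R)
    have h1 : (z : H) ∈ Z := by
      rw [hmZ]
      refine ⟨z.2, ?_⟩
      intro ρ hρ
      have := (Subgroup.mem_center_iff.1 hz) ⟨ρ, hρ⟩
      exact (congrArg Subtype.val this).symm
    rw [h, Subgroup.mem_bot] at h1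
    apply hz1
    apply Subtype.ext
    apply Subtype.ext
    exact h1
  obtain ⟨Q, hQZ, ⟨hQi, hQb⟩, hQmin⟩ := exists_min (fun N : Subgroup H => Inv x N ∧ N ≠ ⊥) Z ⟨hZi, hZb⟩
  have hQR : Q ≤ R := fun q hq => ((hmZ q).1 (hQZ hq)).1
  have hQc : ∀ z ∈ Q, ∀ ρ ∈ R, z * ρ = ρ * z := fun q hq => ((hmZ q).1 (hQZ hq)).2
  have hQf : ∀ z ∈ Q, x z = z → z = 1 := fun z hz hzf =>
    b.stepZ hM hMR hRF hRc z (hQR hz) (hQc z hz) hzf
  have hKQ : KY x Q = Q := by
    apply hQmin _ ⟨Inv_KY hQi, ?_⟩ (KY_le hQi)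
    intro h
    apply hQb
    rw [Subgroup.eq_bot_iff_forall]
    intro q hq
    apply hQf q hq
    have h1 : q⁻¹ * x q ∈ KY x Q := y1_mem_KY hq
    rw [h, Subgroup.mem_bot] at h1
    exact (inv_mul_eq_one.1 h1).symm
  have hQM : Q ⊓ M = ⊥ := by
    rw [eq_bot_iff, ← hRM]
    exact inf_le_inf_right M hQR
  refine ⟨Q, hQi, hQb, ?_, hQM, fun a ha c hc => hQc a ha c (hQR hc), hQf,
    fun z hz => hRc z (hQR hz), fun B hB hBQ hBb => hQmin B ⟨hB, hBb⟩ hBQ⟩
  by_contra hne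
  have h1 : ⁅M, Q⁆ ≤ M := Subgroup.commutator_le_left M Q
  have h2 : ⁅M, Q⁆ = M := by
    apply hM.min _ ?_ (Inv_comm hM.inv hQi) h1
    · intro h
      apply hQb
      rw [Subgroup.eq_bot_iff_forall]
      intro q hq
      apply hRc q (hQR hq)
      intro m hm
      have h3 : ⁅m, q⁆ ∈ ⁅M, Q⁆ := Subgroup.commutator_mem_commutator hm hq
      rw [h, Subgroup.mem_bot] at h3
      exact (commutatorElement_eq_one_iff_mul_comm.1 h3).symm
    · -- normality
      have hle : ∀ g : H, ⁅M, Q⁆ ≤ Subgroup.comap (MulAut.conj g).toMonoidHom ⁅M, Q⁆ := by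
        intro g
        rw [Subgroup.commutator_le]
        intro m hm q hq
        show g * ⁅m, q⁆ * g⁻¹ ∈ (⁅M, Q⁆ : Subgroup H)
        have hh : g ∈ M ⊔ R := by rw [hMR]; exact Subgroup.mem_top g
        obtain ⟨c, hc, ρ, hρ, rfl⟩ := Subgroup.mem_sup_of_normal_left.1 hh
        have h3 : ρ * ⁅m, q⁆ * ρ⁻¹ = ⁅ρ * m * ρ⁻¹, q⁆ := by
          have h4 := hQc q hq ρ hρ
          have h5 : ρ * q * ρ⁻¹ = q := by rw [← h4]; group
          have h6 : ρ * q⁻¹ * ρ⁻¹ = q⁻¹ := by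
            have : ρ * q⁻¹ * ρ⁻¹ = (ρ * q * ρ⁻¹)⁻¹ := by group
            rw [this, h5]
          rw [commutatorElement_def, commutatorElement_def]
          calc ρ * (m * q * m⁻¹ * q⁻¹) * ρ⁻¹
              = (ρ * m * ρ⁻¹) * (ρ * q * ρ⁻¹) * (ρ * m * ρ⁻¹)⁻¹ * (ρ * q⁻¹ * ρ⁻¹) := by group
            _ = _ := by rw [h5, h6]
        have h4 : ⁅ρ * m * ρ⁻¹, q⁆ ∈ (⁅M, Q⁆ : Subgroup H) :=
          Subgroup.commutator_mem_commutator (hM.nor.conj_mem m hm ρ) hq
        have h5 : c * ρ * ⁅m, q⁆ * (c * ρ)⁻¹ = c * (ρ * ⁅m, q⁆ * ρ⁻¹) * c⁻¹ := by group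
        rw [h5, h3, hab c hc _ (h1 h4), mul_inv_cancel_right]
        exact h4
      constructor
      intro n hn g
      exact hle g hn
  have h3 : M ≤ KY x (M ⊔ Q) := by
    rw [← h2]
    have h4 : ⁅M, Q⁆ ≤ KY x (M ⊔ Q) := by
      rw [Subgroup.commutator_le]
      intro m hm q hq
      have hq' : q ∈ KY x (M ⊔ Q) := by
        rw [← hKQ] at hq
        exact KY_mono le_sup_right hq
      rw [commutatorElement_def]
      have h5 := KY_conj (x := x) (Subgroup.inv_mem _ (Subgroup.mem_sup_left hm : m ∈ M ⊔ Q)) q hq'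
      rw [inv_inv] at h5
      exact Subgroup.mul_mem _ h5 (Subgroup.inv_mem _ hq')
    calc ⁅M, Q⁆ ≤ KY x (M ⊔ Q) := h4
      _ = _ := by rw [h2]
  exact b.no_M_le_KY hM (Inv_sup hM.inv hQi) hne h3

/-- Case B -/
theorem caseB : M ≤ Fx x := by
  classical
  by_contra hMF
  obtain ⟨Q, hQi, hQb, hMQ, hQM, hQab, hQf, hQc, hQmin⟩ := b.stepQ hM hMF
  haveI := hM.nor
  have hab := b.M_ab hM
  have hxiter : ∀ y, x^[2] y = x (x y) := fun y => rfl
  -- quotient by `M` is abelian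
  have hquo : ⁅(⊤ : Subgroup H), ⊤⁆ ≤ M := by
    rw [Subgroup.commutator_le]
    intro g _ h _
    have hg : g ∈ M ⊔ Q := by rw [hMQ]; exact Subgroup.mem_top g
    have hh : h ∈ M ⊔ Q := by rw [hMQ]; exact Subgroup.mem_top h
    obtain ⟨m, hm, q, hq, rfl⟩ := Subgroup.mem_sup_of_normal_left.1 hg
    obtain ⟨n, hn, r, hr, rfl⟩ := Subgroup.mem_sup_of_normal_left.1 hh
    have e : ⁅m * q, n * r⁆ = m * (q * n * q⁻¹) * ((q * r * q⁻¹) * m⁻¹ * (q * r * q⁻¹)⁻¹) *
        (q * r * q⁻¹ * r⁻¹) * n⁻¹ := by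
      rw [commutatorElement_def]; group
    rw [e, hQab q hq r hr]
    have e2 : r * q * q⁻¹ * r⁻¹ = 1 := by group
    rw [e2, mul_one]
    exact M.mul_mem (M.mul_mem (M.mul_mem hm (hM.nor.conj_mem n hn q))
      (hM.nor.conj_mem _ (M.inv_mem hm) _)) (M.inv_mem hn)
  -- `L(ym)` is abelian
  have hLab : ∀ y ∈ Q, y ≠ 1 → ∀ m ∈ M, ∀ a ∈ Lx x (y * m), ∀ c ∈ Lx x (y * m), a * c = c * a := by
    intro y hy hy1 m hm
    have h1 : Lx x (y * m) ⊔ M = ⊤ := by
      have hLy : Lx x y ≤ Lx x (y * m) ⊔ M := by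
        rw [Lx, Subgroup.closure_le]
        rintro _ ⟨i, rfl⟩
        have e : y⁻¹ * x^[i] y = m * ((y * m)⁻¹ * x^[i] (y * m)) * (x^[i] m)⁻¹ := by
          rw [iter_mul]; group
        show y⁻¹ * x^[i] y ∈ Lx x (y * m) ⊔ M
        rw [e]
        exact Subgroup.mul_mem _ (Subgroup.mul_mem _ (Subgroup.mem_sup_right hm)
          (Subgroup.mem_sup_left (y_mem_Lx _ i))) (Subgroup.inv_mem _
            (Subgroup.mem_sup_right (iter_mem hM.inv i hm)))
      have hLQ : Lx x y = Q := by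
        apply hQmin _ (Inv_Lx y)
        · exact (Lx_le_KY hy).trans (KY_le hQi)
        · intro h
          apply hy1
          apply hQf y hy
          have h1 : y⁻¹ * x y ∈ Lx x y := y1_mem_Lx y
          rw [h, Subgroup.mem_bot] at h1
          exact (inv_mul_eq_one.1 h1).symm
      rw [eq_top_iff, ← hMQ]
      apply sup_le le_sup_right
      rw [← hLQ]
      exact hLy
    have h2 : Lx x (y * m) ⊓ M = ⊥ := by
      by_contra h
      apply b.no_M_le_Lx hM (y * m)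
      have h3 : Lx x (y * m) ⊓ M = M := by
        apply hM.min _ ?_ (Inv_inf (Inv_Lx _) hM.inv) inf_le_right h
        constructor
        rintro n ⟨hn1, hn2⟩ g
        refine ⟨?_, hM.nor.conj_mem n hn2 g⟩
        have hg : g ∈ Lx x (y * m) ⊔ M := by rw [h1]; exact Subgroup.mem_top g
        obtain ⟨l, hl, c, hc, rfl⟩ := Subgroup.mem_sup_of_normal_right.1 hg
        have e : l * c * n * (l * c)⁻¹ = l * n * l⁻¹ := by
          have h4 := hab c hc n hn2
          calc l * c * n * (l * c)⁻¹ = l * (c * n) * c⁻¹ * l⁻¹ := by group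
            _ = l * (n * c) * c⁻¹ * l⁻¹ := by rw [h4]
            _ = _ := by group
        rw [e]
        exact Subgroup.mul_mem _ (Subgroup.mul_mem _ hl hn1) (Subgroup.inv_mem _ hl)
      rw [← h3]
      exact inf_le_left
    intro a ha c hc
    have h3 : ⁅a, c⁆ ∈ Lx x (y * m) ⊓ M := by
      refine ⟨?_, hquo (Subgroup.commutator_mem_commutator (Subgroup.mem_top _) (Subgroup.mem_top _))⟩
      rw [commutatorElement_def]
      exact Subgroup.mul_mem _ (Subgroup.mul_mem _ (Subgroup.mul_mem _ ha hc) (Subgroup.inv_mem _ ha))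
        (Subgroup.inv_mem _ hc)
    rw [h2, Subgroup.mem_bot] at h3
    exact commutatorElement_eq_one_iff_mul_comm.1 h3
  -- the abstract action
  letI iM : CommGroup M := { (inferInstance : Group M) with
    mul_comm := fun a c => Subtype.ext (hab a a.2 c c.2) }
  have hcj : ∀ (q : Q) (m : M), (q : H)⁻¹ * m * q ∈ M := by
    intro q m
    have := hM.nor.conj_mem (m : H) m.2 (q : H)⁻¹
    rwa [inv_inv] at this
  let Tm : Q → M →* M := fun q =>
    { toFun := fun m => ⟨(q : H)⁻¹ * m * q, hcj q m⟩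
      map_one' := Subtype.ext (by simp)
      map_mul' := fun a c => Subtype.ext (by
        show (q : H)⁻¹ * ((a : H) * c) * q = (q : H)⁻¹ * a * q * ((q : H)⁻¹ * c * q)
        group) }
  let T : Q → Additive M →+ Additive M := fun q => MonoidHom.toAdditive (Tm q)
  let xQ : Q →* Q := res x Q hQi
  let X : Additive M →+ Additive M := MonoidHom.toAdditive (res x M hM.inv)
  have hcomT : ∀ (q : Q) (m : M), ((T q (Additive.ofMul m)).toMul : H) = (q : H)⁻¹ * m * q :=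
    fun q m => rfl
  have hX' : ∀ (m : M), ((X (Additive.ofMul m)).toMul : H) = x m := fun m => rfl
  have ext' : ∀ u v : Additive M, ((u.toMul : M) : H) = ((v.toMul : M) : H) → u = v := by
    intro u v h
    have : u.toMul = v.toMul := Subtype.ext h
    exact this
  have hTc : ∀ (a c : Q) (v : Additive M), T (a * c) v = T c (T a v) := by
    intro a c v
    apply ext'
    show ((a : H) * c)⁻¹ * (v.toMul : H) * (a * c) = (c : H)⁻¹ * ((a : H)⁻¹ * v.toMul * a) * c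
    group
  have hQcomm : ∀ a c : Q, a * c = c * a := fun a c => Subtype.ext (hQab a a.2 c c.2)
  have act : CopAbs.Act T xQ X := by
    refine ⟨?_, ?_, ?_, ?_, ?_⟩
    · intro a c v
      rw [hQcomm a c, hTc]
    · intro v
      apply ext'
      show (1 : H)⁻¹ * (v.toMul : H) * 1 = v.toMul
      group
    · intro a c v
      rw [← hTc, ← hTc, hQcomm]
    · intro y v
      apply ext'
      show x ((y : H)⁻¹ * (v.toMul : H) * y) = (x y)⁻¹ * x (v.toMul : H) * x y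
      rw [map_mul, map_mul, map_inv]
    · intro y w
      by_cases hy1 : y = 1
      · subst hy1
        have h1 : ∀ v, T 1 v = v := by
          intro v
          apply ext'
          show (1 : H)⁻¹ * (v.toMul : H) * 1 = v.toMul
          group
        rw [map_one, map_one]
        simp only [h1]
        abel
      · have hy1' : (y : H) ≠ 1 := fun h => hy1 (Subtype.ext h)
        obtain ⟨m, rfl⟩ : ∃ m : M, Additive.ofMul m = w := ⟨w.toMul, rfl⟩
        have hcm := hLab y y.2 hy1' m m.2 _ (y_mem_Lx _ 1) _ (y_mem_Lx _ 2)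
        rw [Function.iterate_one, hxiter] at hcm
        -- notation
        obtain ⟨q, hq⟩ : ∃ q : H, q = y := ⟨_, rfl⟩
        obtain ⟨u, hu⟩ : ∃ u : H, u = m := ⟨_, rfl⟩
        rw [← hq, ← hu] at hcm
        have hqQ : q ∈ Q := by rw [hq]; exact y.2
        have huM : u ∈ M := by rw [hu]; exact m.2
        have hq1 := hQi q hqQ
        have hq2 := hQi _ hq1
        have hu1 := hM.inv u huM
        have hu2 := hM.inv _ hu1
        have hcj' : ∀ c ∈ Q, ∀ v ∈ M, c⁻¹ * v * c ∈ M := fun c hc v hv => hcj ⟨c, hc⟩ ⟨v, hv⟩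
        have h12 := hQab (x q) hq1 (x (x q)) hq2
        have h01 := hQab q hqQ (x q) hq1
        have h02 := hQab q hqQ (x (x q)) hq2
        have key := rel q (x q) (x (x q)) u (x u) (x (x u)) h01 h02 h12 (by
          rw [map_mul, map_mul] at hcm
          calc u⁻¹ * q⁻¹ * x q * x u * (u⁻¹ * q⁻¹ * x (x q) * x (x u))
              = (q * u)⁻¹ * (x q * x u) * ((q * u)⁻¹ * (x (x q) * x (x u))) := by group
            _ = (q * u)⁻¹ * (x (x q) * x (x u)) * ((q * u)⁻¹ * (x q * x u)) := hcm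
            _ = _ := by group)
        have key' : T (xQ (xQ y)) (X (Additive.ofMul m)) + -T (xQ (xQ y)) (Additive.ofMul m)
            + T y (X (X (Additive.ofMul m))) = T (xQ y) (X (X (Additive.ofMul m))) +
              -T (xQ y) (Additive.ofMul m) + T y (X (Additive.ofMul m)) := by
          apply ext'
          show ((x (x (y : H)))⁻¹ * x (m : H) * x (x (y : H))) *
            ((x (x (y : H)))⁻¹ * (m : H) * x (x (y : H)))⁻¹ * ((y : H)⁻¹ * x (x (m : H)) * y)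
            = ((x (y : H))⁻¹ * x (x (m : H)) * x (y : H)) *
            ((x (y : H))⁻¹ * (m : H) * x (y : H))⁻¹ * ((y : H)⁻¹ * x (m : H) * y)
          rw [← hq, ← hu]
          exact key
        have h3 := sub_eq_zero.2 key'
        rw [← h3]
        abel
  have hMc : M ⊓ Subgroup.center H = ⊥ := by
    by_contra h
    have h1 := hM.min (M ⊓ Subgroup.center H) inferInstance (Inv_inf hM.inv (b.Inv_center hM)) inf_le_left h
    apply b.not_central hM hMF
    rw [← h1]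
    exact inf_le_right
  obtain ⟨y, hy1⟩ : ∃ y : Q, y ≠ 1 := by
    haveI : Nontrivial Q := (Subgroup.nontrivial_iff_ne_bot Q).2 hQb
    exact exists_ne 1
  have hxQ : xQ y ≠ y := by
    intro h
    apply hy1
    apply Subtype.ext
    exact hQf y y.2 (congrArg Subtype.val h)
  have hperQ : ∀ h, xQ^[p] h = h := by
    intro h
    apply Subtype.ext
    rw [res_iter, b.per]
  have hxQi : Function.Injective xQ := by
    intro c d hcd
    apply Subtype.ext
    exact b.inj (congrArg Subtype.val hcd)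
  have hXi : Function.Injective X := by
    intro c d hcd
    apply ext'
    exact b.inj (congrArg (fun v : Additive M => ((v.toMul : M) : H)) hcd)
  haveI : Finite (Additive M) := inferInstanceAs (Finite M)
  have hmain := act.main (p := p) (b.hp.eq_two_or_odd.resolve_left b.p2) hperQ
    (Finite.surjective_of_injective hxQi) (Finite.injective_iff_bijective.1 hXi) (by
      intro B hB
      by_cases hBb : B.map Q.subtype = ⊥
      · left
        rwa [Subgroup.map_eq_bot_iff_of_injective _ Q.subtype_injective] at hBb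
      · right
        have h1 := hQmin (B.map Q.subtype) (by
          rintro _ ⟨c, hc, rfl⟩
          exact ⟨xQ c, hB c hc, rfl⟩) (by
          rintro _ ⟨c, hc, rfl⟩
          exact c.2) hBb
        rw [eq_top_iff]
        intro c _
        have h2 : (c : H) ∈ B.map Q.subtype := by rw [h1]; exact c.2
        obtain ⟨d, hd, hdc⟩ := h2
        have : d = c := Subtype.ext hdc
        rw [← this]; exact hd) (by
      intro v hv
      have h1 : (v.toMul : H) ∈ M ⊓ Subgroup.center H := by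
        refine ⟨v.toMul.2, ?_⟩
        apply Subgroup.mem_center_iff.2
        intro g
        have hg : g ∈ M ⊔ Q := by rw [hMQ]; exact Subgroup.mem_top g
        obtain ⟨m, hm, q, hq, rfl⟩ := Subgroup.mem_sup_of_normal_left.1 hg
        have h2 : q⁻¹ * (v.toMul : H) * q = v.toMul :=
          congrArg (fun v : Additive M => ((v.toMul : M) : H)) (hv ⟨q, hq⟩)
        have h3 := hab m hm _ v.toMul.2
        calc m * q * (v.toMul : H) = m * q * (q⁻¹ * (v.toMul : H) * q) := by rw [h2]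
          _ = (m * (v.toMul : H)) * q := by group
          _ = _ := by rw [h3]; group
      rw [hMc, Subgroup.mem_bot] at h1
      exact ext' _ _ h1) y hxQ
  apply hMF
  intro m hm
  exact congrArg (fun v : Additive M => ((v.toMul : M) : H)) (hmain (Additive.ofMul ⟨m, hm⟩))

end Bad

end H12.CopGen
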