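import Cfsg.Agent.Lib.H12.CopGen5
import Mathlib.GroupTheory.Transfer
import Mathlib.GroupTheory.Abelianization.Defs

/-!
# The minimal counterexample: the central case, reduction to `r`-groups
-/

set_option autoImplicit false
set_option linter.all false

open scoped commutatorElement

namespace H12.CopGen

theorem comm_central {G : Type*} [Group G] (a n c m : G) (hn : ∀ g, g * n = n * g)
    (hm : ∀ g, g * m = m * g) : ⁅a * n, c * m⁆ = ⁅a, c⁆ := by
  rw [commutatorElement_def, commutatorElement_def, mul_inv_rev, mul_inv_rev]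
  calc a * n * (c * m) * (n⁻¹ * a⁻¹) * (m⁻¹ * c⁻¹)
      = a * (n * c) * m * n⁻¹ * a⁻¹ * m⁻¹ * c⁻¹ := by group
    _ = a * (c * n) * m * n⁻¹ * a⁻¹ * m⁻¹ * c⁻¹ := by rw [hn c]
    _ = a * c * (n * m) * n⁻¹ * a⁻¹ * m⁻¹ * c⁻¹ := by group
    _ = a * c * (m * n) * n⁻¹ * a⁻¹ * m⁻¹ * c⁻¹ := by rw [hm n]
    _ = a * c * m * (a⁻¹ * m⁻¹) * c⁻¹ := by group
    _ = a * c * m * (m⁻¹ * a⁻¹) * c⁻¹ := by
        have : a⁻¹ * m⁻¹ = m⁻¹ * a⁻¹ := by rw [← mul_inv_rev, ← mul_inv_rev, hm a]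
        rw [this]
    _ = _ := by group

namespace Bad

variable {H : Type*} [Group H] [Finite H] {x : H →* H} {p : ℕ} (b : Bad x p)
  {M : Subgroup H} (hM : MinN x M)

include b hM

theorem M_fix : M ≤ Fx x := b.caseB hM

theorem M_cen : M ≤ Subgroup.center H := b.central M hM.nor (b.M_fix hM)

theorem M_sub {N : Subgroup H} (hN : N ≤ M) (hb : N ≠ ⊥) : N = M := by
  apply hM.min N _ (Inv_of_le_Fx (hN.trans (b.M_fix hM))) hN hb
  constructor
  intro n hn g
  have h1 := (Subgroup.mem_center_iff.1 (b.M_cen hM (hN hn))) g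
  rw [h1, mul_inv_cancel_right]
  exact hn

theorem M_comm : ∀ m ∈ M, ∀ g, g * m = m * g := fun m hm g =>
  (Subgroup.mem_center_iff.1 (b.M_cen hM hm)) g

theorem M_inf_Cx : M ⊓ Cx x = ⊥ := by
  by_contra h
  have h1 := b.M_sub hM inf_le_left h
  apply hM.nbot
  apply b.nb M hM.nor hM.inv
  rintro m ⟨hm, _⟩
  rw [← h1] at hm
  exact hm.2

theorem M_inf_Lx (h : H) : Lx x h ⊓ M = ⊥ := by
  by_contra h0
  apply b.no_M_le_Lx hM h
  rw [← b.M_sub hM inf_le_right h0]
  exact inf_le_left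

theorem nilp : Group.IsNilpotent H := by
  classical
  haveI := hM.nor
  have hMf := b.M_fix hM
  have hMc := b.M_comm hM
  obtain ⟨r, hr, hrM⟩ := b.M_exp hM
  haveI : Fact r.Prime := ⟨hr⟩
  have hMp : IsPGroup r M := by
    intro m
    exact ⟨1, Subtype.ext (by rw [pow_one]; exact hrM m m.2)⟩
  obtain ⟨R, hRi⟩ := exists_inv_sylow b.hp b.cop b.per r
  have hMR : M ≤ (R : Subgroup H) := by
    have h1 : IsPGroup r ↥(M ⊔ (R : Subgroup H)) := IsPGroup.to_sup_of_normal_left hMp R.isPGroup'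
    rw [← R.is_maximal' h1 le_sup_right]
    exact le_sup_left
  -- `M ≤ R'`
  have hMR' : M ≤ ⁅(R : Subgroup H), (R : Subgroup H)⁆ := by
    intro m hm
    let ϕ : (R : Subgroup H) →* Abelianization (R : Subgroup H) := Abelianization.of
    have h1 := ϕ.transfer_eq_pow m (by
      intro k g₀ _
      have h2 := hMc (m ^ k) (M.pow_mem hm k) g₀
      calc g₀⁻¹ * m ^ k * g₀ = g₀⁻¹ * (m ^ k * g₀) := by group
        _ = g₀⁻¹ * (g₀ * m ^ k) := by rw [h2]
        _ = _ := by group)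
    have h3 : ϕ.transfer m = 1 := by
      have h4 : m ∈ commutator H := b.Fx_le_comm (hMf hm)
      exact Abelianization.commutator_subset_ker ϕ.transfer h4
    rw [h3] at h1
    have h5 : m ^ (R : Subgroup H).index ∈ ⁅(R : Subgroup H), (R : Subgroup H)⁆ := by
      rw [← Subgroup.map_subtype_commutator]
      refine ⟨⟨m ^ (R : Subgroup H).index, Subgroup.pow_mem _ (hMR hm) _⟩, ?_, rfl⟩
      show _ ∈ commutator ↥(R : Subgroup H)
      rw [← Abelianization.ker_of]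
      exact h1.symm
    have h6 : (orderOf m).Coprime (R : Subgroup H).index := by
      have h7 : orderOf m ∣ r := orderOf_dvd_of_pow_eq_one (hrM m hm)
      exact Nat.Coprime.coprime_dvd_left h7 ((Nat.Prime.coprime_iff_not_dvd hr).2 R.not_dvd_index)
    obtain ⟨k, hk⟩ := exists_pow_eq_self_of_coprime h6.symm
    rw [← hk]
    exact Subgroup.pow_mem _ h5 k
  -- `R = ⊤`
  have hRt : (R : Subgroup H) = ⊤ := by
    by_contra hRt
    let K := KY x (R : Subgroup H)
    have hKR : K ≤ R := KY_le hRi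
    have hKc : ∀ g ∈ (R : Subgroup H), ∀ k ∈ K, g * k * g⁻¹ ∈ K := by
      intro g hg k hk
      have := KY_conj (x := x) (Subgroup.inv_mem _ hg) k hk
      rwa [inv_inv] at this
    let P : Subgroup H :=
      { carrier := {g | ∃ k ∈ K, ∃ c ∈ Cx x ⊓ (R : Subgroup H), g = k * c}
        one_mem' := ⟨1, K.one_mem, 1, Subgroup.one_mem _, by simp⟩
        mul_mem' := by
          rintro _ _ ⟨k, hk, c, hc, rfl⟩ ⟨k', hk', c', hc', rfl⟩
          exact ⟨k * (c * k' * c⁻¹), K.mul_mem hk (hKc c hc.2 k' hk'), c * c', Subgroup.mul_mem _ hc hc',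
            by group⟩
        inv_mem' := by
          rintro _ ⟨k, hk, c, hc, rfl⟩
          refine ⟨c⁻¹ * k⁻¹ * c⁻¹⁻¹, hKc _ (Subgroup.inv_mem _ hc.2) _ (K.inv_mem hk), c⁻¹,
            Subgroup.inv_mem _ hc, by group⟩ }
    have hcc : ∀ c ∈ (R : Subgroup H), x c = c → ∀ d ∈ (R : Subgroup H), x d = d →
        ⁅c, d⁆ ∈ Cx x ⊓ (R : Subgroup H) := by
      intro c hc hcf d hd hdf
      constructor
      · obtain ⟨c₀, hc₀, n, hn, _, rfl⟩ := b.quo M hM.nor hM.inv hM.nbot c hcf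
        obtain ⟨d₀, hd₀, m, hm, _, rfl⟩ := b.quo M hM.nor hM.inv hM.nbot d hdf
        rw [comm_central c₀ n d₀ m (hMc n hn) (hMc m hm), commutatorElement_def]
        exact Subgroup.mul_mem _ (Subgroup.mul_mem _ (Subgroup.mul_mem _ hc₀ hd₀)
          (Subgroup.inv_mem _ hc₀)) (Subgroup.inv_mem _ hd₀)
      · rw [commutatorElement_def]
        exact Subgroup.mul_mem _ (Subgroup.mul_mem _ (Subgroup.mul_mem _ hc hd)
          (Subgroup.inv_mem _ hc)) (Subgroup.inv_mem _ hd)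
    have hRP : ⁅(R : Subgroup H), (R : Subgroup H)⁆ ≤ P := by
      rw [Subgroup.commutator_le]
      intro a ha d hd
      obtain ⟨k, hk, c, hc, hcf, rfl⟩ := decomp b.hp b.cop b.per (R : Subgroup H) hRi a ha
      obtain ⟨k', hk', c', hc', hcf', rfl⟩ := decomp b.hp b.cop b.per (R : Subgroup H) hRi d hd
      have hd := hcc c hc hcf c' hc' hcf'
      refine ⟨k * (c * k' * c⁻¹) * ((c * c' * c⁻¹) * k⁻¹ * (c * c' * c⁻¹)⁻¹) *
        (⁅c, c'⁆ * k'⁻¹ * ⁅c, c'⁆⁻¹), ?_, ⁅c, c'⁆, hd, ?_⟩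
      · exact K.mul_mem (K.mul_mem (K.mul_mem hk (hKc c hc k' hk'))
          (hKc _ (Subgroup.mul_mem _ (Subgroup.mul_mem _ hc hc') (Subgroup.inv_mem _ hc)) _
            (K.inv_mem hk))) (hKc _ hd.2 _ (K.inv_mem hk'))
      · rw [commutatorElement_def, commutatorElement_def]; group
    apply hM.nbot
    rw [← b.M_inf_Cx hM]
    symm
    rw [inf_eq_left]
    intro m hm
    obtain ⟨k, hk, c, hc, hkc⟩ := hRP (hMR' hm)
    have hmf : x m = m := hMf hm
    have hcf : x c = c := Cx_le_Fx hc.1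
    have hkf : x k = k := by
      have : k = m * c⁻¹ := by rw [hkc]; group
      rw [this, map_mul, map_inv, hmf, hcf]
    rw [hkc]
    exact Subgroup.mul_mem _ (b.sub R hRi hRt ⟨hk, hkf⟩) hc.1
  have h2 : IsPGroup r H := by
    intro g
    have h1 : IsPGroup r (R : Subgroup H) := R.isPGroup'
    obtain ⟨k, hk⟩ := h1 ⟨g, by rw [hRt]; exact Subgroup.mem_top g⟩
    exact ⟨k, congrArg Subtype.val hk⟩
  exact h2.isNilpotent

end Bad

end H12.CopGen
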