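import Cfsg.Agent.Lib.H12.CopGen6

/-!
# The minimal counterexample: the end
-/

set_option autoImplicit false
set_option linter.all false

open scoped commutatorElement

namespace H12.CopGen

/-- final additive computation -/
theorem fin_add {V : Type*} [AddCommGroup V] (X : V →+ V) (v : V)
    (h : X (X (X (X v))) + (X v + X v) - (X (X (X v)) + X (X (X v)) + v) = 0) :
    let w := X v + v
    let d := X w - w
    let e := X d - d
    X e - e = 0 := by
  intro w d e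
  rw [← h]
  simp only [e, d, w, map_add, map_sub]
  abel

theorem rel2 {G : Type*} [Group G] (l a u1 u2 a1 a2 : G) (hu : u1 * u2 = u2 * u1)
    (haa : ∀ c ∈ ({a, a1, a2} : Set G), ∀ d ∈ ({a, a1, a2} : Set G), c * d = d * c)
    (M : Subgroup G) (hM : ∀ m ∈ M, ∀ g, g * m = m * g)
    (h1 : u2 * (a1 * a⁻¹) * u2⁻¹ * (a1 * a⁻¹)⁻¹ ∈ M)
    (h2 : u1 * (a2 * a⁻¹) * u1⁻¹ * (a2 * a⁻¹)⁻¹ ∈ M)
    (h : (a⁻¹ * u1 * a1) * (a⁻¹ * u2 * a2) = (a⁻¹ * u2 * a2) * (a⁻¹ * u1 * a1)) :
    u2 * (a1 * a⁻¹) * u2⁻¹ * (a1 * a⁻¹)⁻¹ = u1 * (a2 * a⁻¹) * u1⁻¹ * (a2 * a⁻¹)⁻¹ := by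
  obtain ⟨s, hs⟩ : ∃ s, s = u2 * (a1 * a⁻¹) * u2⁻¹ * (a1 * a⁻¹)⁻¹ := ⟨_, rfl⟩
  obtain ⟨t, ht⟩ : ∃ t, t = u1 * (a2 * a⁻¹) * u1⁻¹ * (a2 * a⁻¹)⁻¹ := ⟨_, rfl⟩
  rw [← hs] at h1
  rw [← ht] at h2
  rw [← hs, ← ht]
  -- `(a1 a⁻¹) u2 = s⁻¹ u2 (a1 a⁻¹)`
  have e1 : (a1 * a⁻¹) * u2 = s⁻¹ * (u2 * (a1 * a⁻¹)) := by rw [hs]; group
  have e2 : (a2 * a⁻¹) * u1 = t⁻¹ * (u1 * (a2 * a⁻¹)) := by rw [ht]; group
  have h3 : u1 * (a1 * a⁻¹) * u2 * a2 = u2 * (a2 * a⁻¹) * u1 * a1 := by
    have h4 : a * ((a⁻¹ * u1 * a1) * (a⁻¹ * u2 * a2)) = a * ((a⁻¹ * u2 * a2) * (a⁻¹ * u1 * a1)) := by rw [h]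
    calc u1 * (a1 * a⁻¹) * u2 * a2 = a * ((a⁻¹ * u1 * a1) * (a⁻¹ * u2 * a2)) := by group
      _ = a * ((a⁻¹ * u2 * a2) * (a⁻¹ * u1 * a1)) := h4
      _ = _ := by group
  have c1 : s⁻¹ * u1 = u1 * s⁻¹ := by
    have := hM _ (M.inv_mem h1) u1
    exact this.symm
  have c2 : t⁻¹ * u2 = u2 * t⁻¹ := by
    have := hM _ (M.inv_mem h2) u2
    exact this.symm
  have h5 : s⁻¹ * (u1 * u2 * (a1 * a⁻¹ * a2)) = t⁻¹ * (u1 * u2 * (a1 * a⁻¹ * a2)) := by
    have ea : a1 * a⁻¹ * a2 = a2 * a⁻¹ * a1 := by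
      have m1 : a ∈ ({a, a1, a2} : Set G) := by simp
      have m2 : a1 ∈ ({a, a1, a2} : Set G) := by simp
      have m3 : a2 ∈ ({a, a1, a2} : Set G) := by simp
      have k1 := haa a m1 a1 m2
      have k2 := haa a m1 a2 m3
      have k3 := haa a1 m2 a2 m3
      have j1 : a1 * a⁻¹ = a⁻¹ * a1 := by
        calc a1 * a⁻¹ = a⁻¹ * (a * a1) * a⁻¹ := by group
          _ = a⁻¹ * (a1 * a) * a⁻¹ := by rw [k1]
          _ = _ := by group
      have j2 : a2 * a⁻¹ = a⁻¹ * a2 := by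
        calc a2 * a⁻¹ = a⁻¹ * (a * a2) * a⁻¹ := by group
          _ = a⁻¹ * (a2 * a) * a⁻¹ := by rw [k2]
          _ = _ := by group
      rw [j1, j2, mul_assoc, mul_assoc, k3]
    calc s⁻¹ * (u1 * u2 * (a1 * a⁻¹ * a2)) = (s⁻¹ * u1) * (u2 * (a1 * a⁻¹)) * a2 := by group
      _ = (u1 * s⁻¹) * (u2 * (a1 * a⁻¹)) * a2 := by rw [c1]
      _ = u1 * (s⁻¹ * (u2 * (a1 * a⁻¹))) * a2 := by group
      _ = u1 * ((a1 * a⁻¹) * u2) * a2 := by rw [e1]
      _ = u1 * (a1 * a⁻¹) * u2 * a2 := by group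
      _ = u2 * (a2 * a⁻¹) * u1 * a1 := h3
      _ = u2 * ((a2 * a⁻¹) * u1) * a1 := by group
      _ = u2 * (t⁻¹ * (u1 * (a2 * a⁻¹))) * a1 := by rw [e2]
      _ = (u2 * t⁻¹) * u1 * (a2 * a⁻¹ * a1) := by group
      _ = (t⁻¹ * u2) * u1 * (a2 * a⁻¹ * a1) := by rw [c2]
      _ = t⁻¹ * (u2 * u1 * (a2 * a⁻¹ * a1)) := by group
      _ = _ := by rw [← hu, ← ea]
  exact inv_injective (mul_right_cancel h5)

namespace Bad

variable {H : Type*} [Group H] [Finite H] {x : H →* H} {p : ℕ} (b : Bad x p)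
  {M : Subgroup H} (hM : MinN x M)

include b hM

theorem false_of_minN : False := by
  classical
  haveI := hM.nor
  haveI := b.nilp hM
  have hMf := b.M_fix hM
  have hMc := b.M_comm hM
  have hMsub := fun {N : Subgroup H} => b.M_sub hM (N := N)
  -- `M < ⊤`
  have hMt : M ≠ ⊤ := by
    intro h
    have h1 : KY x (⊤ : Subgroup H) = ⊥ := by
      rw [eq_bot_iff]
      apply KY_le_of Inv_top
      intro y _
      have : x y = y := hMf (by rw [h]; exact Subgroup.mem_top y)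
      rw [this, inv_mul_cancel]
      exact Subgroup.one_mem _
    rw [b.top] at h1
    apply hM.nbot
    rw [h, h1]
  obtain ⟨A, _, ⟨hAn, hAi, hMA⟩, hAmin⟩ := exists_min
    (fun A : Subgroup H => A.Normal ∧ Inv x A ∧ M < A) ⊤ ⟨inferInstance, Inv_top, lt_top_iff_ne_top.2 hMt⟩
  haveI := hAn
  have hMA' : M ≤ A := hMA.le
  -- `[H, A] ≤ M`
  have hAc : ∀ a ∈ A, ∀ g, g * a * g⁻¹ * a⁻¹ ∈ M := by
    let Z₂ : Subgroup H := A ⊓ (Subgroup.center (H ⧸ M)).comap (QuotientGroup.mk' M)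
    have hZ2 : ∀ z, z ∈ Z₂ ↔ z ∈ A ∧ ∀ g, g * z * g⁻¹ * z⁻¹ ∈ M := by
      intro z
      constructor
      · rintro ⟨h1, h2⟩
        refine ⟨h1, ?_⟩
        intro g
        have h3 := Subgroup.mem_center_iff.1 h2 (QuotientGroup.mk g)
        have h4 : (QuotientGroup.mk (g * z) : H ⧸ M) = QuotientGroup.mk (z * g) := h3
        have h5 := QuotientGroup.eq.1 h4.symm
        have e : g * z * g⁻¹ * z⁻¹ = (z * g) * ((z * g)⁻¹ * (g * z)) * (z * g)⁻¹ := by group
        rw [e]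
        exact hM.nor.conj_mem _ h5 _
      · rintro ⟨h1, h2⟩
        refine ⟨h1, ?_⟩
        show (QuotientGroup.mk z : H ⧸ M) ∈ Subgroup.center (H ⧸ M)
        rw [Subgroup.mem_center_iff]
        intro g
        obtain ⟨g, rfl⟩ := QuotientGroup.mk_surjective g
        symm
        show (QuotientGroup.mk (z * g) : H ⧸ M) = QuotientGroup.mk (g * z)
        rw [QuotientGroup.eq]
        have e : (z * g)⁻¹ * (g * z) = (z * g)⁻¹ * (g * z * g⁻¹ * z⁻¹) * (z * g)⁻¹⁻¹ := by group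
        rw [e]
        exact hM.nor.conj_mem _ (h2 g) _
    have hZA : Z₂ = A := by
      apply hAmin Z₂ ⟨inferInstance, ?_, ?_⟩ inf_le_left
      · intro z hz
        rw [hZ2] at hz ⊢
        refine ⟨hAi z hz.1, ?_⟩
        intro g
        obtain ⟨g, rfl⟩ := b.surj g
        have := hM.inv _ (hz.2 g)
        simpa only [map_mul, map_inv] using this
      · refine lt_of_le_of_ne ?_ ?_
        · intro m hm
          rw [hZ2]
          refine ⟨hMA' hm, ?_⟩
          intro g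
          rw [hMc m hm g]
          have : m * g * g⁻¹ * m⁻¹ = 1 := by group
          rw [this]; exact M.one_mem
        · intro h
          have h1 : A.map (QuotientGroup.mk' M) ≠ ⊥ := by
            intro h2
            rw [Subgroup.map_eq_bot_iff, QuotientGroup.ker_mk'] at h2
            exact absurd h2 (not_le_of_gt hMA)
          have h2 := H3.PBasic.normal_inf_center_ne_bot (A.map (QuotientGroup.mk' M)) h1
          apply h2
          rw [Subgroup.eq_bot_iff_forall]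
          rintro _ ⟨⟨a, ha, rfl⟩, hc⟩
          have h3 : a ∈ Z₂ := ⟨ha, hc⟩
          rw [← h] at h3
          exact (QuotientGroup.eq_one_iff a).2 h3
    intro a ha g
    rw [← hZA, hZ2] at ha
    exact ha.2 g
  -- subgroups between `M` and `A`
  have hbet : ∀ N : Subgroup H, Inv x N → M ≤ N → N ≤ A → N ≠ M → N = A := by
    intro N hN h1 h2 h3
    apply hAmin N ⟨?_, hN, lt_of_le_of_ne h1 (Ne.symm h3)⟩ h2
    constructor
    intro n hn g
    have e : g * n * g⁻¹ = (g * n * g⁻¹ * n⁻¹) * n := by group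
    rw [e]
    exact N.mul_mem (h1 (hAc n (h2 hn) g)) hn
  -- `A` is not fixed
  have hAf : ¬ A ≤ Fx x := by
    intro h
    have hAcen := b.central A hAn h
    have h1 : A ⊓ Cx x = ⊥ := by
      apply b.nb
      · constructor
        intro n hn g
        have h2 := (Subgroup.mem_center_iff.1 (hAcen hn.1)) g
        rw [h2, mul_inv_cancel_right]
        exact hn
      · exact Inv_of_le_Fx (inf_le_left.trans h)
      · rintro n ⟨hn, _⟩
        exact hn.2
    apply absurd _ (not_le_of_gt hMA)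
    intro a ha
    obtain ⟨c₀, hc₀, n, hn, _, rfl⟩ := b.quo M hM.nor hM.inv hM.nbot a (h ha)
    have h2 : c₀ ∈ A ⊓ Cx x := by
      refine ⟨?_, hc₀⟩
      have : c₀ = c₀ * n * n⁻¹ := by group
      rw [this]
      exact A.mul_mem ha (A.inv_mem (hMA' hn))
    rw [h1, Subgroup.mem_bot] at h2
    rw [h2, one_mul]
    exact hn
  have hAM : ∀ a ∈ A, x a = a → a ∈ M := by
    intro a ha hf
    by_contra h
    apply hAf
    have h1 := hbet (A ⊓ Fx x) (Inv_of_le_Fx inf_le_right) (le_inf hMA' hMf) inf_le_left (by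
      intro h2
      apply h
      rw [← h2]
      exact ⟨ha, hf⟩)
    rw [← h1]
    exact inf_le_right
  -- `A` is abelian
  have hLxM : ∀ a ∈ A, a ∉ M → Lx x a ⊔ M = A := by
    intro a ha haM
    apply hbet _ (Inv_sup (Inv_Lx a) hM.inv) le_sup_right
      (sup_le ((Lx_le_KY ha).trans (KY_le hAi)) hMA')
    intro h
    apply haM
    apply hAM a ha
    have h1 : Lx x a ≤ Fx x := le_sup_left.trans (h.le.trans hMf)
    have h2 : Lx x a = ⊥ := by
      rw [← KY_Lx b.hp b.cop b.per a, eq_bot_iff]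
      apply KY_le_of (Inv_Lx a)
      intro y hy
      have : x y = y := h1 hy
      rw [this, inv_mul_cancel]
      exact Subgroup.one_mem _
    have h3 : a⁻¹ * x a ∈ Lx x a := y1_mem_Lx a
    rw [h2, Subgroup.mem_bot] at h3
    exact (inv_mul_eq_one.1 h3).symm
  have hAab : ∀ a ∈ A, ∀ c ∈ A, a * c = c * a := by
    obtain ⟨a₀, ha₀, ha₀M⟩ := Set.exists_of_ssubset (SetLike.coe_ssubset_coe.2 hMA)
    have h1 := hLxM a₀ ha₀ ha₀M
    have hLA : Lx x a₀ ≤ A := by rw [← h1]; exact le_sup_left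
    have h2 : ∀ l ∈ Lx x a₀, ∀ l' ∈ Lx x a₀, l * l' = l' * l := by
      intro l hl l' hl'
      have h3 : l * l' * l⁻¹ * l'⁻¹ ∈ Lx x a₀ ⊓ M :=
        ⟨Subgroup.mul_mem _ (Subgroup.mul_mem _ (Subgroup.mul_mem _ hl hl') (Subgroup.inv_mem _ hl))
          (Subgroup.inv_mem _ hl'), hAc l' (hLA hl') l⟩
      rw [b.M_inf_Lx hM, Subgroup.mem_bot] at h3
      exact commutatorElement_eq_one_iff_mul_comm.1 h3
    intro a ha c hc
    rw [← h1] at ha hc
    obtain ⟨l, hl, m, hm, rfl⟩ := Subgroup.mem_sup_of_normal_right.1 ha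
    obtain ⟨l', hl', m', hm', rfl⟩ := Subgroup.mem_sup_of_normal_right.1 hc
    calc l * m * (l' * m') = l * (m * l') * m' := by group
      _ = l * (l' * m) * m' := by rw [hMc m hm l']
      _ = (l * l') * (m * m') := by group
      _ = (l' * l) * (m' * m) := by rw [h2 l hl l' hl', hMc m hm m']
      _ = l' * (l * m') * m := by group
      _ = l' * (m' * l) * m := by rw [hMc m' hm' l]
      _ = _ := by group
  -- `A₁ = [A, P]`
  have hA1A : KY x A ≤ A := KY_le hAi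
  have hA1f : ∀ a ∈ KY x A, x a = a → a = 1 := fun a ha hf =>
    abelian_disj b.hp b.cop b.per A hAi hAab a ha hf
  have hA1b : KY x A ≠ ⊥ := by
    intro h
    apply hAf
    intro a ha
    have h3 : a⁻¹ * x a ∈ KY x A := y1_mem_KY ha
    rw [h, Subgroup.mem_bot] at h3
    exact (inv_mul_eq_one.1 h3).symm
  have hA1c : KY x A ⊓ Subgroup.center H = ⊥ := by
    apply b.nb
    · constructor
      intro n hn g
      have h2 := (Subgroup.mem_center_iff.1 hn.2) g
      rw [h2, mul_inv_cancel_right]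
      exact hn
    · exact Inv_inf (Inv_KY hAi) (b.Inv_center hM)
    · rintro n ⟨hn, hnf⟩
      rw [hA1f n hn.1 hnf]
      exact Subgroup.one_mem _
  have hA1M : KY x A ⊔ M = A := by
    apply hbet _ (Inv_sup (Inv_KY hAi) hM.inv) le_sup_right (sup_le hA1A hMA')
    intro h
    apply hA1b
    rw [Subgroup.eq_bot_iff_forall]
    intro a ha
    apply hA1f a ha
    exact hMf (by rw [← h]; exact Subgroup.mem_sup_left ha)
  -- the centraliser of `A`
  let B : Subgroup H := Subgroup.centralizer (A : Set H)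
  have hB : ∀ g, g ∈ B ↔ ∀ a ∈ A, g * a = a * g := by
    intro g
    rw [Subgroup.mem_centralizer_iff]
    exact ⟨fun h a ha => (h a ha).symm, fun h a ha => (h a ha).symm⟩
  have hAB : A ≤ B := by
    intro a ha
    rw [hB]
    exact fun c hc => hAab a ha c hc
  have hBn : B.Normal := inferInstance
  have hBi : Inv x B := by
    intro g hg
    rw [hB] at hg ⊢
    intro a ha
    have h1 : A.map x = A := by
      apply Subgroup.eq_of_le_of_card_ge
      · rintro _ ⟨m, hm, rfl⟩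
        exact hAi m hm
      · rw [Subgroup.card_map_of_injective b.inj]
    rw [← h1] at ha
    obtain ⟨a', ha', rfl⟩ := ha
    rw [← map_mul, hg a' ha', map_mul]
  have hB' : ⁅(⊤ : Subgroup H), ⊤⁆ ≤ B := by
    rw [Subgroup.commutator_le]
    intro g _ h _
    rw [hB]
    have h1 : ∀ g h : H, ∀ a ∈ A, g * h * a * (g * h)⁻¹ = h * g * a * (h * g)⁻¹ := by
      intro g h a ha
      obtain ⟨s, hs⟩ : ∃ s, s = g * a * g⁻¹ * a⁻¹ := ⟨_, rfl⟩
      obtain ⟨t, ht⟩ : ∃ t, t = h * a * h⁻¹ * a⁻¹ := ⟨_, rfl⟩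
      have hsM : s ∈ M := by rw [hs]; exact hAc a ha g
      have htM : t ∈ M := by rw [ht]; exact hAc a ha h
      have e1 : g * a * g⁻¹ = s * a := by rw [hs]; group
      have e2 : h * a * h⁻¹ = t * a := by rw [ht]; group
      calc g * h * a * (g * h)⁻¹ = g * (h * a * h⁻¹) * g⁻¹ := by group
        _ = (g * t) * a * g⁻¹ := by rw [e2]; group
        _ = (t * g) * a * g⁻¹ := by rw [hMc t htM g]
        _ = t * (g * a * g⁻¹) := by group
        _ = (t * s) * a := by rw [e1]; group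
        _ = (s * t) * a := by rw [hMc s hsM t]
        _ = s * (h * a * h⁻¹) := by rw [e2]; group
        _ = (s * h) * a * h⁻¹ := by group
        _ = (h * s) * a * h⁻¹ := by rw [hMc s hsM h]
        _ = h * (g * a * g⁻¹) * h⁻¹ := by rw [e1]; group
        _ = _ := by group
    intro a ha
    have h2 := h1 g⁻¹ h⁻¹ a ha
    rw [commutatorElement_def]
    calc g * h * g⁻¹ * h⁻¹ * a = g * h * (g⁻¹ * h⁻¹ * a * (g⁻¹ * h⁻¹)⁻¹) * (g⁻¹ * h⁻¹) := by group
      _ = g * h * (h⁻¹ * g⁻¹ * a * (h⁻¹ * g⁻¹)⁻¹) * (g⁻¹ * h⁻¹) := by rw [h2]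
      _ = _ := by group
  have hy1 : ∀ h, h ∉ B → h⁻¹ * x h ∉ B := by
    intro h hh h1
    apply hh
    obtain ⟨c, hc, hf⟩ := lift_fix b.hp b.cop b.per B hBi h h1
    have h2 : h * c ∈ B := hB' (b.Fx_le_comm hf)
    have : h = h * c * c⁻¹ := by group
    rw [this]
    exact B.mul_mem h2 (B.inv_mem hc)
  have hLA : ∀ h, h ∉ B → Lx x h ⊔ A = ⊤ := by
    intro h hh
    by_contra hne
    obtain ⟨u, hu⟩ : ∃ u, u = h⁻¹ * x h := ⟨_, rfl⟩
    have huB : u ∉ B := by rw [hu]; exact hy1 h hh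
    have huK : u ∈ KY x (Lx x h ⊔ A) := by
      apply KY_mono le_sup_left
      rw [KY_Lx b.hp b.cop b.per h, hu]
      exact y1_mem_Lx h
    have h1 : ∃ a ∈ KY x A, u * a ≠ a * u := by
      by_contra hcon
      push Not at hcon
      apply huB
      rw [hB]
      intro a ha
      rw [← hA1M] at ha
      obtain ⟨a1, ha1, m, hm, rfl⟩ := Subgroup.mem_sup_of_normal_right.1 ha
      calc u * (a1 * m) = (u * a1) * m := by group
        _ = a1 * (u * m) := by rw [hcon a1 ha1]; group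
        _ = _ := by rw [hMc m hm u]; group
    obtain ⟨a, ha, hne'⟩ := h1
    apply b.no_M_le_KY hM (Inv_sup (Inv_Lx h) hAi) hne
    have h2 : KY x (Lx x h ⊔ A) ⊓ M ≠ ⊥ := by
      intro h3
      have h4 : u * a * u⁻¹ * a⁻¹ ∈ KY x (Lx x h ⊔ A) ⊓ M := by
        have haK : a ∈ KY x (Lx x h ⊔ A) := KY_mono le_sup_right ha
        exact ⟨Subgroup.mul_mem _ (Subgroup.mul_mem _ (Subgroup.mul_mem _ huK haK)
          (Subgroup.inv_mem _ huK)) (Subgroup.inv_mem _ haK), hAc a (hA1A ha) u⟩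
      rw [h3, Subgroup.mem_bot] at h4
      exact hne' (commutatorElement_eq_one_iff_mul_comm.1 h4)
    rw [← hMsub inf_le_right h2]
    exact inf_le_left
  have hLA' : ∀ h, h ∉ B → Lx x h ⊓ B = ⊥ := by
    intro h hh
    apply b.nb
    · constructor
      rintro n ⟨hn1, hn2⟩ g
      refine ⟨?_, hBn.conj_mem n hn2 g⟩
      have hg : g ∈ Lx x h ⊔ A := by rw [hLA h hh]; exact Subgroup.mem_top g
      obtain ⟨l, hl, a, ha, rfl⟩ := Subgroup.mem_sup_of_normal_right.1 hg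
      have e : l * a * n * (l * a)⁻¹ = l * n * l⁻¹ := by
        calc l * a * n * (l * a)⁻¹ = l * (a * n) * a⁻¹ * l⁻¹ := by group
          _ = l * (n * a) * a⁻¹ * l⁻¹ := by rw [(hB n).1 hn2 a ha]
          _ = _ := by group
      rw [e]
      exact Subgroup.mul_mem _ (Subgroup.mul_mem _ hl hn1) (Subgroup.inv_mem _ hl)
    · exact Inv_inf (Inv_Lx h) hBi
    · rintro n ⟨⟨hn1, _⟩, hn2⟩
      exact mem_Cx hn1 hn2
  have hLab : ∀ h, h ∉ B → ∀ a ∈ Lx x h, ∀ c ∈ Lx x h, a * c = c * a := by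
    intro h hh a ha c hc
    have h3 : a * c * a⁻¹ * c⁻¹ ∈ Lx x h ⊓ B :=
      ⟨Subgroup.mul_mem _ (Subgroup.mul_mem _ (Subgroup.mul_mem _ ha hc) (Subgroup.inv_mem _ ha))
        (Subgroup.inv_mem _ hc),
        hB' (Subgroup.commutator_mem_commutator (Subgroup.mem_top _) (Subgroup.mem_top _))⟩
    rw [hLA' h hh, Subgroup.mem_bot] at h3
    exact commutatorElement_eq_one_iff_mul_comm.1 h3
  -- the fixed complement
  obtain ⟨h₀, hh₀⟩ : ∃ h₀, h₀ ∉ B := by
    by_contra hcon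
    push Not at hcon
    apply hA1b
    rw [← hA1c]
    symm
    rw [inf_eq_left]
    intro a ha
    rw [Subgroup.mem_center_iff]
    intro g
    exact (hB g).1 (hcon g) a (hA1A ha)
  obtain ⟨L, hL⟩ : ∃ L, L = Lx x h₀ := ⟨_, rfl⟩
  have hLi : Inv x L := by rw [hL]; exact Inv_Lx h₀
  have hLAt : L ⊔ A = ⊤ := by rw [hL]; exact hLA h₀ hh₀
  have hLB : L ⊓ B = ⊥ := by rw [hL]; exact hLA' h₀ hh₀
  have hLc : ∀ a ∈ L, ∀ c ∈ L, a * c = c * a := by rw [hL]; exact hLab h₀ hh₀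
  -- the additive bilinear form
  letI iM : CommGroup M := { (inferInstance : Group M) with
    mul_comm := fun a c => Subtype.ext (hMc c c.2 a) }
  letI iA : CommGroup A := { (inferInstance : Group A) with
    mul_comm := fun a c => Subtype.ext (hAab a a.2 c c.2) }
  let bt : H → A → Additive M := fun u c => Additive.ofMul ⟨u * c * u⁻¹ * (c : H)⁻¹, hAc c c.2 u⟩
  let X : A →* A := res x A hAi
  have extM : ∀ u v : Additive M, ((u.toMul : M) : H) = ((v.toMul : M) : H) → u = v := by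
    intro u v h
    have : u.toMul = v.toMul := Subtype.ext h
    exact this
  have bt_coe : ∀ u (c : A), (((bt u c).toMul : M) : H) = u * c * u⁻¹ * (c : H)⁻¹ := fun u c => rfl
  have bt_mul_left : ∀ u v c, bt (u * v) c = bt u c + bt v c := by
    intro u v c
    apply extM
    show (u * v) * (c : H) * (u * v)⁻¹ * (c : H)⁻¹ = (u * c * u⁻¹ * (c : H)⁻¹) * (v * c * v⁻¹ * (c : H)⁻¹)
    have h1 := hMc _ (hAc c c.2 v) u
    have h2 := hMc _ (hAc c c.2 v) (u * c * u⁻¹ * (c : H)⁻¹)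
    calc (u * v) * (c : H) * (u * v)⁻¹ * (c : H)⁻¹
        = (u * (v * c * v⁻¹ * (c : H)⁻¹)) * c * u⁻¹ * (c : H)⁻¹ := by group
      _ = ((v * c * v⁻¹ * (c : H)⁻¹) * u) * c * u⁻¹ * (c : H)⁻¹ := by rw [h1]
      _ = (v * c * v⁻¹ * (c : H)⁻¹) * (u * c * u⁻¹ * (c : H)⁻¹) := by group
      _ = _ := h2.symm
  have bt_mul_right : ∀ u (c d : A), bt u (c * d) = bt u c + bt u d := by
    intro u c d
    apply extM
    show u * ((c : H) * d) * u⁻¹ * ((c : H) * d)⁻¹ = (u * c * u⁻¹ * (c : H)⁻¹) * (u * d * u⁻¹ * (d : H)⁻¹)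
    have h1 := hMc _ (hAc d d.2 u) (c : H)⁻¹
    calc u * ((c : H) * d) * u⁻¹ * ((c : H) * d)⁻¹
        = u * c * u⁻¹ * ((u * d * u⁻¹ * (d : H)⁻¹) * (c : H)⁻¹) := by group
      _ = u * c * u⁻¹ * ((c : H)⁻¹ * (u * d * u⁻¹ * (d : H)⁻¹)) := by rw [h1]
      _ = _ := by group
  have bt_one_left : ∀ c, bt 1 c = 0 := by
    intro c
    apply extM
    show 1 * (c : H) * 1⁻¹ * (c : H)⁻¹ = 1
    group
  have bt_inv_left : ∀ u c, bt u⁻¹ c = - bt u c := by
    intro u c
    rw [eq_neg_iff_add_eq_zero, ← bt_mul_left, inv_mul_cancel, bt_one_left]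
  have bt_one_right : ∀ u, bt u 1 = 0 := by
    intro u
    apply extM
    show u * (1 : H) * u⁻¹ * (1 : H)⁻¹ = 1
    group
  have bt_inv_right : ∀ u c, bt u c⁻¹ = - bt u c := by
    intro u c
    rw [eq_neg_iff_add_eq_zero, ← bt_mul_right, inv_mul_cancel, bt_one_right]
  have bt_x : ∀ u c, bt (x u) (X c) = bt u c := by
    intro u c
    apply extM
    show x u * x (c : H) * (x u)⁻¹ * (x (c : H))⁻¹ = u * c * u⁻¹ * (c : H)⁻¹
    rw [← map_inv, ← map_inv, ← map_mul, ← map_mul, ← map_mul]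
    exact hMf (hAc c c.2 u)
  -- the relation
  have hrel : ∀ l ∈ L, ∀ a : A, bt (l⁻¹ * x (x l)) (X a * a⁻¹) = bt (l⁻¹ * x l) (X (X a) * a⁻¹) := by
    intro l hl a
    by_cases hl1 : l = 1
    · rw [hl1]
      simp only [map_one, inv_one, one_mul, bt_one_left]
    · have hla : l * (a : H) ∉ B := by
        intro h
        apply hl1
        have h1 : l ∈ L ⊓ B := by
          refine ⟨hl, ?_⟩
          have : l = l * (a : H) * (a : H)⁻¹ := by group
          rw [this]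
          exact B.mul_mem h (B.inv_mem (hAB a.2))
        rw [hLB, Subgroup.mem_bot] at h1
        exact h1
      have hcm := hLab _ hla _ (y_mem_Lx _ 1) _ (y_mem_Lx _ 2)
      have hxit : ∀ y, x^[2] y = x (x y) := fun y => rfl
      rw [Function.iterate_one, hxit] at hcm
      apply extM
      apply rel2 l (a : H) (l⁻¹ * x l) (l⁻¹ * x (x l)) (x a) (x (x a)) ?_ ?_ M hMc
      · exact hAc ((x a) * (a : H)⁻¹) (A.mul_mem (hAi _ a.2) (A.inv_mem a.2)) _
      · exact hAc ((x (x a)) * (a : H)⁻¹) (A.mul_mem (hAi _ (hAi _ a.2)) (A.inv_mem a.2)) _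
      · simp only [map_mul] at hcm
        calc (a : H)⁻¹ * (l⁻¹ * x l) * x a * ((a : H)⁻¹ * (l⁻¹ * x (x l)) * x (x a))
            = (l * a)⁻¹ * (x l * x a) * ((l * a)⁻¹ * (x (x l) * x (x a))) := by group
          _ = (l * a)⁻¹ * (x (x l) * x (x a)) * ((l * a)⁻¹ * (x l * x a)) := hcm
          _ = _ := by group
      · apply hLc
        · exact L.mul_mem (L.inv_mem hl) (hLi l hl)
        · exact L.mul_mem (L.inv_mem hl) (hLi _ (hLi l hl))
      · have h0 : ∀ c ∈ ({(a : H), x a, x (x a)} : Set H), c ∈ A := by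
          rintro c hc
          rcases hc with rfl | rfl | rfl
          · exact a.2
          · exact hAi _ a.2
          · exact hAi _ (hAi _ a.2)
        intro c hc d hd
        exact hAab c (h0 c hc) d (h0 d hd)
  have hrel2 : ∀ l ∈ L, ∀ a : A,
      bt (x (x l)) (X (X (X (X a))) * (X a * X a) * (X (X (X a)) * X (X (X a)) * a)⁻¹) = 0 := by
    intro l hl a
    have h1 := sub_eq_zero.2 (hrel l hl a)
    simp only [bt_mul_left, bt_mul_right, bt_inv_left, bt_inv_right] at h1 ⊢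
    have k1 : bt l a = bt (x (x l)) (X (X a)) := by rw [bt_x, bt_x]
    have k2 : bt l (X a) = bt (x (x l)) (X (X (X a))) := by rw [bt_x, bt_x]
    have k3 : bt l (X (X a)) = bt (x (x l)) (X (X (X (X a)))) := by rw [bt_x, bt_x]
    have k4 : bt (x l) a = bt (x (x l)) (X a) := by rw [bt_x]
    have k5 : bt (x l) (X (X a)) = bt (x (x l)) (X (X (X a))) := by rw [bt_x, bt_x, bt_x]
    rw [k1, k2, k3, k4, k5] at h1
    rw [← h1]
    abel
  have hLx2 : ∀ l ∈ L, ∃ l' ∈ L, x (x l') = l := by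
    have h1 : L.map x = L := by
      apply Subgroup.eq_of_le_of_card_ge
      · rintro _ ⟨m, hm, rfl⟩
        exact hLi m hm
      · rw [Subgroup.card_map_of_injective b.inj]
    intro l hl
    rw [← h1] at hl
    obtain ⟨l1, hl1, rfl⟩ := hl
    have hl1' : l1 ∈ L := hl1
    rw [← h1] at hl1'
    obtain ⟨l2, hl2, rfl⟩ := hl1'
    exact ⟨l2, hl2, rfl⟩
  have hone : ∀ a : A, (a : H) ∈ KY x A →
      X (X (X (X a))) * (X a * X a) * (X (X (X a)) * X (X (X a)) * a)⁻¹ = 1 := by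
    intro a ha
    obtain ⟨e, he⟩ : ∃ e : A, e = X (X (X (X a))) * (X a * X a) * (X (X (X a)) * X (X (X a)) * a)⁻¹ :=
      ⟨_, rfl⟩
    rw [← he]
    have hKi := Inv_KY (x := x) hAi
    have heK : (e : H) ∈ KY x A := by
      rw [he]
      show x (x (x (x (a : H)))) * (x (a : H) * x (a : H)) *
        (x (x (x (a : H))) * x (x (x (a : H))) * (a : H))⁻¹ ∈ KY x A
      have a1 := hKi _ ha
      have a2 := hKi _ a1
      have a3 := hKi _ a2
      have a4 := hKi _ a3
      exact Subgroup.mul_mem _ (Subgroup.mul_mem _ a4 (Subgroup.mul_mem _ a1 a1))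
        (Subgroup.inv_mem _ (Subgroup.mul_mem _ (Subgroup.mul_mem _ a3 a3) ha))
    have hec : (e : H) ∈ KY x A ⊓ Subgroup.center H := by
      refine ⟨heK, ?_⟩
      apply Subgroup.mem_center_iff.2
      intro g
      have hg : g ∈ L ⊔ A := by rw [hLAt]; exact Subgroup.mem_top g
      obtain ⟨l, hl, c, hc, rfl⟩ := Subgroup.mem_sup_of_normal_right.1 hg
      have h1 : l * (e : H) = e * l := by
        obtain ⟨l', hl', rfl⟩ := hLx2 l hl
        have h2 := hrel2 l' hl' a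
        rw [← he] at h2
        have h3 : x (x l') * (e : H) * (x (x l'))⁻¹ * (e : H)⁻¹ = 1 :=
          congrArg (fun v : Additive M => ((v.toMul : M) : H)) h2
        exact commutatorElement_eq_one_iff_mul_comm.1 h3
      calc l * c * (e : H) = l * (c * e) := by group
        _ = l * (e * c) := by rw [hAab c hc e e.2]
        _ = (l * e) * c := by group
        _ = _ := by rw [h1]; group
    rw [hA1c, Subgroup.mem_bot] at hec
    exact Subtype.ext hec
  -- conclusion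
  apply hA1b
  rw [Subgroup.eq_bot_iff_forall]
  intro a ha
  obtain ⟨v, hv⟩ : ∃ v : Additive A, v = Additive.ofMul ⟨a, hA1A ha⟩ := ⟨_, rfl⟩
  let XA : Additive A →+ Additive A := MonoidHom.toAdditive X
  have h1 : XA (XA (XA (XA v))) + (XA v + XA v) - (XA (XA (XA v)) + XA (XA (XA v)) + v) = 0 := by
    rw [sub_eq_add_neg, hv]
    exact hone ⟨a, hA1A ha⟩ ha
  have h2 := fin_add XA v h1
  have hfix : ∀ w : Additive A, ((w.toMul : A) : H) ∈ KY x A → XA w - w = 0 → w = 0 := by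
    intro w hw h
    have h3 : XA w = w := sub_eq_zero.1 h
    have h4 : x ((w.toMul : A) : H) = w.toMul :=
      congrArg (fun v : Additive A => ((v.toMul : A) : H)) h3
    have h5 := hA1f _ hw h4
    have h6 : (w.toMul : A) = 1 := Subtype.ext h5
    exact h6
  have hK1 : ∀ w : Additive A, ((w.toMul : A) : H) ∈ KY x A → (((XA w - w).toMul : A) : H) ∈ KY x A := by
    intro w hw
    rw [sub_eq_add_neg]
    show x ((w.toMul : A) : H) * ((w.toMul : A) : H)⁻¹ ∈ KY x A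
    exact Subgroup.mul_mem _ (Inv_KY hAi _ hw) (Subgroup.inv_mem _ hw)
  have hK0 : (((XA v + v).toMul : A) : H) ∈ KY x A := by
    rw [hv]
    show x a * a ∈ KY x A
    exact Subgroup.mul_mem _ (Inv_KY hAi _ ha) ha
  have h3 := hfix _ (hK1 _ (hK1 _ hK0)) h2
  have h4 := hfix _ (hK1 _ hK0) h3
  have h5 := hfix _ hK0 h4
  have h6 : x a * a = 1 := by
    have := congrArg (fun v : Additive A => ((v.toMul : A) : H)) h5
    rw [hv] at this
    exact this
  have h7 : x (x a) = a := by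
    have h8 : x a = a⁻¹ := eq_inv_of_mul_eq_one_left h6
    rw [h8, map_inv, h8, inv_inv]
  have h8 : ∀ k : ℕ, x^[2 * k] a = a := by
    intro k
    induction k with
    | zero => rfl
    | succ k ih =>
      rw [show 2 * (k + 1) = 2 * k + 1 + 1 by ring, Function.iterate_succ_apply',
        Function.iterate_succ_apply', ih, h7]
  have hodd : p % 2 = 1 := b.hp.eq_two_or_odd.resolve_left b.p2
  have h9 := h8 ((p + 1) / 2)
  rw [show 2 * ((p + 1) / 2) = p + 1 by omega, Function.iterate_succ_apply', b.per] at h9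
  exact hA1f a ha h9

end Bad

theorem bad_false {H : Type*} [Group H] [Finite H] (x : H →* H) {p : ℕ} (b : Bad x p) : False := by
  obtain ⟨M, hM⟩ := b.exists_minN
  exact b.false_of_minN hM

end H12.CopGen
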