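import Cfsg.Agent.Lib.H12.FacSylow
import Cfsg.Agent.Lib.H1.Hall

/-! Hall subgroups of the factors of a factorized solvable group permute. -/

set_option autoImplicit false

open scoped Pointwise

namespace H12.FacHall

variable {G : Type*} [Group G]

theorem perm_of_hall [Finite G] (hs : Group.IsSolvable G) {H K A B : Subgroup G}
    (hHK : ∀ g : G, ∃ h ∈ H, ∃ k ∈ K, g = h * k)
    (hAn : ∀ h ∈ H, ∀ a ∈ A, h * a * h⁻¹ ∈ A) (hBn : ∀ k ∈ K, ∀ b ∈ B, k * b * k⁻¹ ∈ B)
    (hAh : (Nat.card A).Coprime A.index) (hBh : (Nat.card B).Coprime B.index) :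
    Kegel.Perm A B := by
  set m := Nat.lcm (Nat.card A) (Nat.card B) with hm
  have hmd : m ∣ Nat.card G :=
    Nat.lcm_dvd (Subgroup.card_subgroup_dvd_card A) (Subgroup.card_subgroup_dvd_card B)
  obtain ⟨n, hn⟩ := hmd
  have hG0 : Nat.card G ≠ 0 := Nat.card_pos.ne'
  have hm0 : m ≠ 0 := by rintro h; rw [h, zero_mul] at hn; exact hG0 hn
  have hn0 : n ≠ 0 := by rintro h; rw [h, mul_zero] at hn; exact hG0 hn
  have key : ∀ C : Subgroup G, (Nat.card C).Coprime C.index → Nat.card C ∣ m →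
      ∀ p : ℕ, p.Prime → p ∣ Nat.card C → ¬ p ∣ n := by
    intro C hC hCm p hp hpC hpn
    have h1 : ¬ p ∣ C.index := fun h => hp.one_lt.ne' (Nat.dvd_one.mp (hC ▸ Nat.dvd_gcd hpC h))
    have h2 : (Nat.card G).factorization p = (Nat.card C).factorization p := by
      rw [← Subgroup.card_mul_index C, Nat.factorization_mul Nat.card_pos.ne'
        Subgroup.index_ne_zero_of_finite, Finsupp.add_apply,
        Nat.factorization_eq_zero_of_not_dvd h1, add_zero]
    have h3 : (Nat.card G).factorization p = m.factorization p + n.factorization p := by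
      rw [hn, Nat.factorization_mul hm0 hn0, Finsupp.add_apply]
    have h4 : (Nat.card C).factorization p ≤ m.factorization p :=
      (Nat.factorization_le_iff_dvd Nat.card_pos.ne' hm0).mpr hCm p
    have h5 : 0 < n.factorization p := hp.factorization_pos_of_dvd hn0 hpn
    omega
  have hcopA : (Nat.card A).Coprime n := by
    apply Nat.Coprime.symm
    rw [Nat.coprime_iff_gcd_eq_one]
    by_contra hne
    obtain ⟨p, hp, hpd⟩ := Nat.exists_prime_and_dvd hne
    exact key A hAh (Nat.dvd_lcm_left _ _) p hp (hpd.trans (Nat.gcd_dvd_right _ _))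
      (hpd.trans (Nat.gcd_dvd_left _ _))
  have hcopB : (Nat.card B).Coprime n := by
    apply Nat.Coprime.symm
    rw [Nat.coprime_iff_gcd_eq_one]
    by_contra hne
    obtain ⟨p, hp, hpd⟩ := Nat.exists_prime_and_dvd hne
    exact key B hBh (Nat.dvd_lcm_right _ _) p hp (hpd.trans (Nat.gcd_dvd_right _ _))
      (hpd.trans (Nat.gcd_dvd_left _ _))
  have hcop : m.Coprime n := by
    apply Nat.Coprime.of_dvd_left (Nat.lcm_dvd_mul _ _)
    exact Nat.Coprime.mul_left hcopA hcopB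
  obtain ⟨T1, hT1, hAT1⟩ := H1.Hall.exists_card_eq_ge hs m n hn hcop A hcopA
  obtain ⟨T2, hT2, hBT2⟩ := H1.Hall.exists_card_eq_ge hs m n hn hcop B hcopB
  obtain ⟨g, hg⟩ := H1.Hall.conj_of_card_eq hs m n hn hcop T1 T2 hT1 hT2
  obtain ⟨h, hh, k, hk, e⟩ := hHK g⁻¹
  -- R = h⁻¹ T1 h = k T2 k⁻¹
  have eR : MulAut.conj h⁻¹ • T1 = MulAut.conj k • T2 := by
    rw [← hg, Kegel.conj_conj_smul]
    congr 2
    have : g = (h * k)⁻¹ := by rw [← e, inv_inv]
    rw [this]; group
  have hAR : A ≤ MulAut.conj k • T2 := by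
    rw [← eR]
    intro a ha
    rw [Basic.mem_conj_smul]
    exact hAT1 (by simpa using hAn h hh a ha)
  have hBR : B ≤ MulAut.conj k • T2 := by
    intro b hb
    rw [Basic.mem_conj_smul]
    exact hBT2 (by simpa using hBn k⁻¹ (K.inv_mem hk) b hb)
  have hR := FacSylow.eq_mul_of_card hAR hBR (by
    rw [Basic.card_conj_smul, hT2, hm, ← Nat.gcd_mul_lcm (Nat.card A) (Nat.card B), mul_comm]
    apply Nat.mul_le_mul_right
    apply Nat.le_of_dvd (Nat.gcd_pos_of_pos_left _ Nat.card_pos)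
    exact Nat.dvd_gcd (Subgroup.card_dvd_of_le inf_le_left) (Subgroup.card_dvd_of_le inf_le_right))
  exact Kegel.perm_of_coe hR

/-- conjugates permute as well -/
theorem perm_conj {H K A B : Subgroup G}
    (hHK : ∀ g : G, ∃ h ∈ H, ∃ k ∈ K, g = h * k)
    (hAn : ∀ h ∈ H, MulAut.conj h • A = A) (hBn : ∀ k ∈ K, MulAut.conj k • B = B)
    (hAB : Kegel.Perm A B) (x y : G) :
    ∃ g : G, MulAut.conj x • A = MulAut.conj g • A ∧ MulAut.conj y • B = MulAut.conj g • B ∧
      Kegel.Perm (MulAut.conj x • A) (MulAut.conj y • B) := by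
  obtain ⟨g, -, -, ⟨h, hh, e1⟩, ⟨k, hk, e2⟩⟩ := FacSylow.conj_pair hHK x y
  have a1 : MulAut.conj x • A = MulAut.conj g • A := by
    rw [e1, ← Kegel.conj_conj_smul, hAn h hh]
  have a2 : MulAut.conj y • B = MulAut.conj g • B := by
    rw [e2, ← Kegel.conj_conj_smul, hBn k hk]
  refine ⟨g, a1, a2, ?_⟩
  rw [a1, a2]
  exact hAB.conj g

theorem conj_smul_eq_of_conj_mem [Finite G] {H A : Subgroup G}
    (hAn : ∀ h ∈ H, ∀ a ∈ A, h * a * h⁻¹ ∈ A) : ∀ h ∈ H, MulAut.conj h • A = A :=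
  fun h hh => Basic.conj_smul_eq_of_mem_normalizer (Basic.mem_normalizer_of_conj (hAn h hh))

end H12.FacHall
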