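import Cfsg.Agent.Lib.H12.Kegel

/-! Sylow subgroups of factorized groups. -/

set_option autoImplicit false

open scoped Pointwise

namespace H12.FacSylow

variable {G : Type*} [Group G]

theorem conj_pair {H K : Subgroup G} (hHK : ∀ g : G, ∃ h ∈ H, ∃ k ∈ K, g = h * k) (x y : G) :
    ∃ g : G, MulAut.conj x • H = MulAut.conj g • H ∧ MulAut.conj y • K = MulAut.conj g • K ∧
      (∃ h ∈ H, g = x * h) ∧ (∃ k ∈ K, g = y * k) := by
  obtain ⟨h, hh, k, hk, e⟩ := hHK (x⁻¹ * y)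
  have e1 : x * h = y * k⁻¹ := by
    have : y = x * (h * k) := by rw [← e]; group
    rw [this]; group
  refine ⟨x * h, ?_, ?_, ⟨h, hh, rfl⟩, ⟨k⁻¹, K.inv_mem hk, e1⟩⟩
  · rw [map_mul, mul_smul, Subgroup.conj_smul_eq_self_of_mem hh]
  · rw [e1, map_mul, mul_smul, Subgroup.conj_smul_eq_self_of_mem (K.inv_mem hk)]

theorem fac_card {H K : Subgroup G} [Finite G] (hHK : ∀ g : G, ∃ h ∈ H, ∃ k ∈ K, g = h * k) :
    Nat.card G * Nat.card (H ⊓ K : Subgroup G) = Nat.card H * Nat.card K := by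
  rw [← Basic.card_mul_inf]
  congr 1
  have : (H : Set G) * (K : Set G) = Set.univ := by
    rw [Set.eq_univ_iff_forall]
    intro g
    obtain ⟨h, hh, k, hk, e⟩ := hHK g
    exact Set.mem_mul.mpr ⟨h, hh, k, hk, e.symm⟩
  rw [this, Nat.card_univ]

/-- If `R` is a subset containing `P` and `Q` and `|R| |P ⊓ Q| ≤ |P| |Q|` then `R = P Q`. -/
theorem eq_mul_of_card [Finite G] {P Q R : Subgroup G} (hP : P ≤ R) (hQ : Q ≤ R)
    (hc : Nat.card R * Nat.card (P ⊓ Q : Subgroup G) ≤ Nat.card P * Nat.card Q) :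
    (R : Set G) = (P : Set G) * (Q : Set G) := by
  have h1 : (P : Set G) * (Q : Set G) ⊆ (R : Set G) := by
    intro x hx
    obtain ⟨a, ha, b, hb, rfl⟩ := Set.mem_mul.mp hx
    exact R.mul_mem (hP ha) (hQ hb)
  symm
  apply Set.eq_of_subset_of_ncard_le h1 _ (Set.toFinite _)
  have h2 := Basic.card_mul_inf P Q
  rw [← h2] at hc
  have h3 : 0 < Nat.card (P ⊓ Q : Subgroup G) := Nat.card_pos
  have := Nat.le_of_mul_le_mul_right hc h3
  exact this

end H12.FacSylow
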