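import Cfsg.Agent.Lib.H12.Pair
import Cfsg.Agent.Lib.H12.FrobNorm
import Cfsg.Agent.Lib.H12.QuoT
import Cfsg.Agent.Lib.H66.CopAb
import Cfsg.Agent.Lib.H65.PBasic
import Cfsg.Agent.Lib.H1.Coprime2

/-! Frobenius type groups `Q⟨x⟩` acting on `p`-groups, `x` of order `p` (odd) with few fixed points. -/

set_option autoImplicit false

open Subgroup
open scoped commutatorElement

namespace H12.FixOne

open H12.Pair H12.QuoT

universe u

variable {G : Type u} [Group G] [Finite G] {p : ℕ} [hp : Fact p.Prime]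

/-- the radical modulo `M` -/
def zz (D M : Subgroup G) (h1 : D ≤ normalizer (M : Set G)) (hM : M ≤ D) : Subgroup G where
  carrier := {a | a ∈ D ∧ ∀ b ∈ D, ⁅a, b⁆ ∈ M}
  mul_mem' := by
    rintro a b ⟨ha, ha'⟩ ⟨hb, hb'⟩
    refine ⟨mul_mem ha hb, fun c hc => ?_⟩
    have e : ⁅a * b, c⁆ = (a * ⁅b, c⁆ * a⁻¹) * ⁅a, c⁆ := by
      rw [commutatorElement_def, commutatorElement_def, commutatorElement_def]; group
    rw [e]
    exact mul_mem ((mem_normalizer_iff.1 (h1 ha) _).1 (hb' c hc)) (ha' c hc)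
  one_mem' := ⟨one_mem _, fun b _ => by rw [commutatorElement_one_left]; exact one_mem _⟩
  inv_mem' := by
    rintro a ⟨ha, ha'⟩
    refine ⟨inv_mem ha, fun c hc => ?_⟩
    have e : ⁅a⁻¹, c⁆ = a⁻¹ * (⁅a, c⁆)⁻¹ * a⁻¹⁻¹ := by
      rw [commutatorElement_def, commutatorElement_def]; group
    rw [e]
    exact (mem_normalizer_iff.1 (h1 (inv_mem ha)) _).1 (inv_mem (ha' c hc))

theorem mem_zz {D M : Subgroup G} {h1 : D ≤ normalizer (M : Set G)} {hM : M ≤ D} {a : G} :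
    a ∈ zz D M h1 hM ↔ a ∈ D ∧ ∀ b ∈ D, ⁅a, b⁆ ∈ M := Iff.rfl

set_option maxHeartbeats 1000000 in
theorem norm_mem (hp2 : p ≠ 2) (D M : Subgroup G) (x : G)
    (hD : IsPGroup p D) (hxD : x ∈ normalizer (D : Set G)) (hx : x ^ p = 1)
    (hcl : ⁅D, D⁆ ≤ centralizer (D : Set G))
    (hfix : ∀ C : Subgroup G, C ≤ D → (∀ a ∈ C, x * a = a * x) → Nat.card C ≤ p)
    (hMD : M ≤ ⁅D, D⁆) (hxM : ∀ c ∈ ⁅D, D⁆, ⁅x, c⁆ ∈ M) (h1 : D ≤ normalizer (M : Set G)) (hM : M ≤ D)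
    (w : G) (hw : w ∈ D) : (w * x) ^ p ∈ zz D M h1 hM := by
  have hDD : ⁅D, D⁆ ≤ D := commutator_le_self D
  have hcomm : ∀ a ∈ ⁅D, D⁆, ∀ b ∈ D, b * a = a * b := fun a ha b hb =>
    mem_centralizer_iff.1 (hcl ha) b hb
  letI : CommGroup (⁅D, D⁆ : Subgroup G) := { (inferInstance : Group (⁅D, D⁆ : Subgroup G)) with
    mul_comm := fun a b => Subtype.ext (hcomm b b.2 a (hDD a.2)) }
  obtain ⟨M', hM'⟩ : ∃ M', M' = M.subgroupOf ⁅D, D⁆ := ⟨_, rfl⟩
  let β : D → D → ((⁅D, D⁆ : Subgroup G) ⧸ M') := fun a b =>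
    QuotientGroup.mk' M' ⟨⁅(a : G), (b : G)⁆, commutator_mem_commutator a.2 b.2⟩
  have hβ : ∀ a b : D, β a b = 1 ↔ ⁅(a : G), (b : G)⁆ ∈ M := by
    intro a b
    change QuotientGroup.mk' M' _ = 1 ↔ _
    rw [← MonoidHom.mem_ker, QuotientGroup.ker_mk', hM', mem_subgroupOf]
  have h : Pairing β := by
    refine ⟨?_, ?_, ?_⟩
    · intro a b c
      change QuotientGroup.mk' M' _ = QuotientGroup.mk' M' _ * QuotientGroup.mk' M' _
      rw [← map_mul]
      congr 1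
      apply Subtype.ext
      change ⁅(a : G), (b : G) * (c : G)⁆ = ⁅(a : G), (b : G)⁆ * ⁅(a : G), (c : G)⁆
      have e : ⁅(a : G), (b : G) * (c : G)⁆ = ⁅(a : G), (b : G)⁆ * (b * ⁅(a : G), (c : G)⁆ * (b : G)⁻¹) := by
        rw [commutatorElement_def, commutatorElement_def, commutatorElement_def]; group
      rw [e, hcomm _ (commutator_mem_commutator a.2 c.2) b b.2, mul_inv_cancel_right]
    · intro a
      rw [hβ, commutatorElement_self]
      exact one_mem _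
    · intro a b
      change QuotientGroup.mk' M' _ = (QuotientGroup.mk' M' _)⁻¹
      rw [← map_inv]
      congr 1
      apply Subtype.ext
      change ⁅(b : G), (a : G)⁆ = ⁅(a : G), (b : G)⁆⁻¹
      rw [commutatorElement_inv]
  obtain ⟨σ, hσ⟩ : ∃ σ, σ = D.normalizerMonoidHom ⟨x, hxD⟩ := ⟨_, rfl⟩
  have hσa : ∀ a : D, ((σ a : D) : G) = x * a * x⁻¹ := by intro a; rw [hσ]; rfl
  have hσp : σ ^ p = 1 := by
    rw [hσ, ← map_pow]
    have : (⟨x, hxD⟩ : ↥(normalizer (D : Set G))) ^ p = 1 := Subtype.ext hx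
    rw [this, map_one]
  have hσβ : ∀ a b, β (σ a) (σ b) = β a b := by
    intro a b
    change QuotientGroup.mk' M' _ = QuotientGroup.mk' M' _
    rw [QuotientGroup.mk'_apply, QuotientGroup.mk'_apply, QuotientGroup.eq, hM', mem_subgroupOf]
    change (⁅((σ a : D) : G), ((σ b : D) : G)⁆)⁻¹ * ⁅(a : G), (b : G)⁆ ∈ M
    rw [hσa, hσa]
    have e : (⁅x * (a : G) * x⁻¹, x * (b : G) * x⁻¹⁆)⁻¹ * ⁅(a : G), (b : G)⁆ =
        ⁅x, (⁅(a : G), (b : G)⁆)⁻¹⁆ := by
      rw [commutatorElement_def, commutatorElement_def, commutatorElement_def]; group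
    rw [e]
    exact hxM _ (inv_mem (commutator_mem_commutator a.2 b.2))
  have h2 : ∀ t : ((⁅D, D⁆ : Subgroup G) ⧸ M'), t ^ 2 = 1 → t = 1 := by
    intro t ht
    obtain ⟨c, rfl⟩ := QuotientGroup.mk'_surjective M' t
    obtain ⟨k, hk⟩ := (hD.to_le hDD) c
    have h3 : (QuotientGroup.mk' M' c) ^ p ^ k = 1 := by rw [← map_pow, hk, map_one]
    have h4 : orderOf (QuotientGroup.mk' M' c) ∣ 2 := orderOf_dvd_of_pow_eq_one ht
    have h5 : orderOf (QuotientGroup.mk' M' c) ∣ p ^ k := orderOf_dvd_of_pow_eq_one h3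
    have h6 : Nat.Coprime 2 (p ^ k) :=
      Nat.Coprime.pow_right k ((Nat.coprime_primes Nat.prime_two hp.out).2 (Ne.symm hp2))
    exact orderOf_eq_one_iff.1 (Nat.eq_one_of_dvd_coprimes h6 h4 h5)
  have h3 := Pair.final h hσβ hD hσp h2 (fun C hC => by
    have h4 := hfix (C.map D.subtype) (map_subtype_le _) (by
      rintro _ ⟨a, ha, rfl⟩
      have h5 := congrArg Subtype.val (hC a ha)
      rw [hσa] at h5
      exact mul_inv_eq_iff_eq_mul.1 h5)
    rwa [card_map_of_injective D.subtype_injective] at h4) ⟨w, hw⟩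
  have hN : ∀ k : ℕ, ((Nn σ (⟨w, hw⟩ : D) k : D) : G) * x ^ k = (w * x) ^ k := by
    intro k
    have hσk : ∀ k : ℕ, (((σ ^ k) (⟨w, hw⟩ : D) : D) : G) = x ^ k * w * (x ^ k)⁻¹ := by
      intro k
      induction k with
      | zero =>
        rw [pow_zero, pow_zero, inv_one, one_mul, mul_one]; rfl
      | succ k ih =>
        rw [pow_succ']
        change ((σ ((σ ^ k) (⟨w, hw⟩ : D)) : D) : G) = _
        rw [hσa, ih, pow_succ']; group
    induction k with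
    | zero => rw [pow_zero, pow_zero, mul_one]; rfl
    | succ k ih =>
      rw [pow_succ (w * x), ← ih]
      change ((Nn σ (⟨w, hw⟩ : D) k : D) : G) * (((σ ^ k) (⟨w, hw⟩ : D) : D) : G) * x ^ (k + 1) = _
      rw [hσk, pow_succ]; group
  have h4 := hN p
  rw [hx, mul_one] at h4
  rw [← h4, mem_zz]
  refine ⟨(Nn σ (⟨w, hw⟩ : D) p).2, fun b hb => ?_⟩
  exact (hβ _ ⟨b, hb⟩).1 (h3 ⟨b, hb⟩)

theorem inf_eq_bot_of_coprime {A B : Subgroup G} (hA : IsPGroup p A) (hB : (Nat.card B).Coprime p) :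
    A ⊓ B = ⊥ := by
  obtain ⟨k, hk⟩ := IsPGroup.iff_card.1 hA
  apply Subgroup.inf_eq_bot_of_coprime
  rw [hk]
  exact (Nat.Coprime.pow_right k hB).symm

set_option maxHeartbeats 1000000 in
theorem key (hp2 : p ≠ 2) (D Q : Subgroup G) (x : G)
    (hD : IsPGroup p D) (hQp : (Nat.card Q).Coprime p) 
    (hQD : Q ≤ normalizer (D : Set G)) (hxD : x ∈ normalizer (D : Set G))
    (hxQ : ∀ w ∈ Q, x * w * x⁻¹ ∈ Q)
    (hx : x ^ p = 1) (hfpf : ∀ q ∈ Q, x * q = q * x → q = 1)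
    (hcl : ⁅D, D⁆ ≤ centralizer (D : Set G)) (hQc : Q ≤ centralizer ((⁅D, D⁆ : Subgroup G) : Set G))
    (hfix : ∀ C : Subgroup G, C ≤ D → (∀ a ∈ C, x * a = a * x) → Nat.card C ≤ p)
    (hDQ : ⁅D, Q⁆ = D) (hne : ⁅D, D⁆ ≠ ⊥) : False := by
  have hDD : ⁅D, D⁆ ≤ D := commutator_le_self D
  have hDDp := hD.to_le hDD
  have hxDD : x ∈ normalizer ((⁅D, D⁆ : Subgroup G) : Set G) :=
    H1.Coprime2.le_normalizer_commutator (B := normalizer (D : Set G)) le_rfl le_rfl hxD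
  obtain ⟨R, hR⟩ : ∃ R, R = ⁅D, D⁆ ⊔ zpowers x := ⟨_, rfl⟩
  have hxR : x ∈ R := by rw [hR]; exact mem_sup_right (mem_zpowers x)
  have hzx : IsPGroup p (zpowers x) := by
    rintro ⟨y, hy⟩
    obtain ⟨m, rfl⟩ := mem_zpowers_iff.1 hy
    refine ⟨1, Subtype.ext ?_⟩
    change (x ^ m) ^ p ^ 1 = 1
    rw [pow_one, ← zpow_natCast, zpow_comm, zpow_natCast, hx, one_zpow]
  have hRp : IsPGroup p R := by
    rw [hR, sup_comm]
    exact IsPGroup.to_sup_of_normal_right' hzx hDDp (by rw [zpowers_le]; exact hxDD)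
  have hRn : R ≤ normalizer ((⁅D, D⁆ : Subgroup G) : Set G) := by
    rw [hR]
    exact sup_le le_normalizer (by rw [zpowers_le]; exact hxDD)
  have hlt := H1.Coprime2.commutator_lt_of_isPGroup hRp hDDp hRn hne
  obtain ⟨M, hM⟩ : ∃ M, M = ⁅(⁅D, D⁆ : Subgroup G), R⁆ := ⟨_, rfl⟩
  rw [← hM] at hlt
  have hMD := hlt.le.trans hDD
  have hxM : ∀ c ∈ ⁅D, D⁆, ⁅x, c⁆ ∈ M := by
    intro c hc
    rw [hM, commutator_comm]
    exact commutator_mem_commutator hxR hc
  have hDM : D ≤ normalizer (M : Set G) := by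
    intro d hd
    apply Basic.mem_normalizer_of_conj
    intro m hm
    have := mem_centralizer_iff.1 (hcl (hlt.le hm)) d hd
    rw [this, mul_inv_cancel_right]; exact hm
  have hxMn : x ∈ normalizer (M : Set G) := by
    rw [hM]
    exact H1.Coprime2.le_normalizer_commutator hRn le_normalizer hxR
  obtain ⟨Z, hZ⟩ : ∃ Z, Z = zz D M hDM hMD := ⟨_, rfl⟩
  have hmemZ : ∀ a, a ∈ Z ↔ a ∈ D ∧ ∀ b ∈ D, ⁅a, b⁆ ∈ M := by
    intro a; rw [hZ]; exact mem_zz
  have hnorm : ∀ w ∈ D, (w * x) ^ p ∈ Z := by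
    intro w hw
    rw [hZ]
    exact norm_mem hp2 D M x hD hxD hx hcl hfix hlt.le hxM hDM hMD w hw
  have hZD : Z ≤ D := fun a ha => ((hmemZ a).1 ha).1
  have hDDZ : ⁅D, D⁆ ≤ Z := by
    intro a ha
    rw [hmemZ]
    refine ⟨hDD ha, fun b hb => ?_⟩
    have h1 : ⁅a, b⁆ = 1 := by
      rw [commutatorElement_eq_one_iff_mul_comm]
      exact (mem_centralizer_iff.1 (hcl ha) b hb).symm
    rw [h1]; exact one_mem _
  have hconjZ : ∀ g : G, g ∈ normalizer (D : Set G) → g ∈ normalizer (M : Set G) →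
      g ∈ normalizer (Z : Set G) := by
    intro g hg hgM
    apply Basic.mem_normalizer_of_conj
    intro a ha
    rw [hmemZ] at ha ⊢
    refine ⟨(mem_normalizer_iff.1 hg a).1 ha.1, fun b hb => ?_⟩
    have h1 : g⁻¹ * b * g ∈ D := (mem_normalizer_iff''.1 hg b).1 hb
    have h2 := (mem_normalizer_iff.1 hgM _).1 (ha.2 _ h1)
    have e : g * ⁅a, g⁻¹ * b * g⁆ * g⁻¹ = ⁅g * a * g⁻¹, b⁆ := by
      rw [commutatorElement_def, commutatorElement_def]; group
    rwa [e] at h2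
  have hQM : Q ≤ normalizer (M : Set G) := by
    intro q hq
    apply Basic.mem_normalizer_of_conj
    intro m hm
    have := mem_centralizer_iff.1 (hQc hq) m (hlt.le hm)
    rw [← this, mul_inv_cancel_right]; exact hm
  obtain ⟨L, hL⟩ : ∃ L, L = normalizer (D : Set G) ⊓ normalizer (Z : Set G) := ⟨_, rfl⟩
  have hDL : D ≤ L := by
    rw [hL]
    exact le_inf le_normalizer (fun d hd => hconjZ d (le_normalizer hd) (hDM hd))
  have hQL : Q ≤ L := by
    rw [hL]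
    exact le_inf hQD (fun d hd => hconjZ d (hQD hd) (hQM hd))
  have hxL : x ∈ L := by
    rw [hL]
    exact mem_inf.2 ⟨hxD, hconjZ x hxD hxMn⟩
  have hZL : Z ≤ L := hZD.trans hDL
  have hnormal : (Z.subgroupOf L).Normal := by
    rw [normal_subgroupOf_iff_le_normalizer hZL, hL]; exact inf_le_right
  obtain ⟨H, _, _, f, hf, hk⟩ : ∃ (H : Type u) (_ : Group H) (_ : Finite H) (f : L →* H),
      Function.Surjective f ∧ f.ker = Z.subgroupOf L :=
    ⟨L ⧸ Z.subgroupOf L, inferInstance, inferInstance, QuotientGroup.mk' _,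
      QuotientGroup.mk'_surjective _, QuotientGroup.ker_mk' _⟩
  have hf1 : ∀ l : L, f l = 1 ↔ (l : G) ∈ Z := by
    intro l
    rw [← MonoidHom.mem_ker, hk, mem_subgroupOf]
  obtain ⟨xb, hxb⟩ : ∃ xb, xb = f ⟨x, hxL⟩ := ⟨_, rfl⟩
  have hVc : ∀ a ∈ up f D, ∀ b ∈ up f D, a * b = b * a := by
    rintro _ ⟨a, ha, rfl⟩ _ ⟨b, hb, rfl⟩
    rw [← commutatorElement_eq_one_iff_mul_comm, ← map_commutatorElement, hf1]
    exact hDDZ (commutator_mem_commutator (mem_subgroupOf.1 ha) (mem_subgroupOf.1 hb))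
  have hVp : IsPGroup p (up f D) := by
    rintro ⟨_, a, ha, rfl⟩
    obtain ⟨k, hk⟩ := hD ⟨a, mem_subgroupOf.1 ha⟩
    refine ⟨k, Subtype.ext ?_⟩
    change (f a) ^ p ^ k = 1
    rw [← map_pow]
    have : a ^ p ^ k = 1 := by
      apply Subtype.ext
      have h9 := congrArg (fun z : D => (z : G)) hk
      exact h9
    rw [this, map_one]
  have hQV : up f Q ≤ normalizer (up f D : Set H) := by
    rintro _ ⟨a, ha, rfl⟩
    exact (mem_normalizer_up hk hf hZD hDL).2 (hQD (mem_subgroupOf.1 ha))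
  have hxV : xb ∈ normalizer (up f D : Set H) := by
    rw [hxb]
    exact (mem_normalizer_up hk hf hZD hDL).2 hxD
  have hxQb : ∀ w ∈ up f Q, xb * w * xb⁻¹ ∈ up f Q := by
    rintro _ ⟨a, ha, rfl⟩
    rw [hxb, ← map_mul, ← map_inv, ← map_mul]
    exact mem_up_of_mem f (hxQ a (mem_subgroupOf.1 ha))
  have hcardQ : Nat.card (up f Q) ∣ Nat.card Q := by
    rw [← Basic.card_subgroupOf hQL]
    exact Subgroup.card_map_dvd _ f
  have hcopQ : (Nat.card (up f Q)).Coprime p := Nat.Coprime.coprime_dvd_left hcardQ hQp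
  have hle : up f D ≤ ⁅up f D, up f Q⁆ := by
    have h1 : D ≤ dn f ⁅up f D, up f Q⁆ := by
      conv_lhs => rw [← hDQ]
      rw [commutator_le]
      intro a ha q hq
      have h2 : f ⁅(⟨a, hDL ha⟩ : L), (⟨q, hQL hq⟩ : L)⁆ ∈ ⁅up f D, up f Q⁆ := by
        rw [map_commutatorElement]
        exact commutator_mem_commutator (mem_up_of_mem f ha) (mem_up_of_mem f hq)
      exact mem_dn_iff.2 h2
    rw [← up_dn hf ⁅up f D, up f Q⁆]
    exact up_mono h1
  obtain ⟨k, hk1⟩ := IsPGroup.iff_card.1 hVp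
  have h1 : ∀ v ∈ up f D, (∀ w ∈ up f Q, w * v = v * w) → v = 1 := by
    intro v hv hvw
    have h2 := H66.CopAb.commutator_inf_centralizer (up f Q) (up f D) hVc hQV
      (by rw [hk1]; exact Nat.Coprime.pow_right k hcopQ)
    have h3 : v ∈ ⁅up f D, up f Q⁆ ⊓ centralizer (up f Q : Set H) :=
      mem_inf.2 ⟨hle hv, mem_centralizer_iff.2 hvw⟩
    rw [h2] at h3
    exact h3
  have h2 : ∀ v ∈ up f D, (v * xb) ^ p = 1 := by
    rintro _ ⟨a, ha, rfl⟩
    rw [hxb, ← map_mul, ← map_pow, hf1]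
    exact hnorm a (mem_subgroupOf.1 ha)
  have h3 : ∀ i, 0 < i → i < p → ∀ w ∈ up f Q, xb ^ i * w = w * xb ^ i → w = 1 := by
    rintro i hi hip _ ⟨q, hq, rfl⟩ hc
    rw [hxb, ← map_pow, ← commutatorElement_eq_one_iff_mul_comm, ← map_commutatorElement, hf1] at hc
    have hqQ : (q : G) ∈ Q := mem_subgroupOf.1 hq
    have h4 : ((⁅(⟨x, hxL⟩ : L) ^ i, q⁆ : L) : G) = ⁅x ^ i, (q : G)⁆ := rfl
    rw [h4] at hc
    have hxiQ : ∀ i : ℕ, ∀ w ∈ Q, x ^ i * w * (x ^ i)⁻¹ ∈ Q := by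
      intro i
      induction i with
      | zero => intro w hw; rw [pow_zero, inv_one, one_mul, mul_one]; exact hw
      | succ i ih =>
        intro w hw
        have e : x ^ (i + 1) * w * (x ^ (i + 1))⁻¹ = x * (x ^ i * w * (x ^ i)⁻¹) * x⁻¹ := by
          rw [pow_succ']; group
        rw [e]; exact hxQ _ (ih w hw)
    have h5 : ⁅x ^ i, (q : G)⁆ ∈ Q := by
      rw [commutatorElement_def]
      exact mul_mem (hxiQ i q hqQ) (inv_mem hqQ)
    have h6 : ⁅x ^ i, (q : G)⁆ = 1 := by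
      have h7 : ⁅x ^ i, (q : G)⁆ ∈ D ⊓ Q := mem_inf.2 ⟨hZD hc, h5⟩
      rw [inf_eq_bot_of_coprime hD hQp] at h7
      exact h7
    rw [commutatorElement_eq_one_iff_mul_comm] at h6
    -- x is a power of x ^ i
    have h8 : Commute (x ^ i) (q : G) := h6
    have h9 : Nat.Coprime i p := by
      rw [Nat.coprime_comm]
      exact (Nat.Prime.coprime_iff_not_dvd hp.out).2 (fun hd => by
        have := Nat.le_of_dvd hi hd
        omega)
    have h10 : Commute x (q : G) := by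
      obtain ⟨m, -, hm⟩ := Nat.exists_mul_mod_eq_one_of_coprime h9 hp.out.one_lt
      have h11 : x = (x ^ i) ^ m := by
        rw [← pow_mul]
        conv_lhs => rw [← pow_one x, ← hm]
        exact (pow_eq_pow_mod _ hx).symm
      rw [h11]
      exact h8.pow_left m
    have h11 := hfpf q hqQ h10
    have h12 : q = 1 := Subtype.ext h11
    rw [h12, map_one]
  have hxbp : xb ^ p = 1 := by
    rw [hxb, ← map_pow]
    have : (⟨x, hxL⟩ : L) ^ p = 1 := Subtype.ext hx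
    rw [this, map_one]
  have h4 := FrobNorm.pow_card_eq_one (up f D) (up f Q) xb p hp.out.pos hxbp hVc hQV hxV hxQb h1 h2 h3
  -- so D ≤ Z
  have h5 : D ≤ Z := by
    intro d hd
    rw [← hf1 ⟨d, hDL hd⟩]
    have h6 := h4 _ (mem_up_of_mem f (q := ⟨d, hDL hd⟩) hd)
    have h7 : (f ⟨d, hDL hd⟩) ^ (p ^ k) = 1 := by
      rw [← hk1]
      exact congrArg Subtype.val (pow_card_eq_one' (x := (⟨f ⟨d, hDL hd⟩, mem_up_of_mem f hd⟩ : up f D)))
    exact orderOf_eq_one_iff.1 (Nat.eq_one_of_dvd_coprimes (Nat.Coprime.pow_right k hcopQ)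
      (orderOf_dvd_of_pow_eq_one h6) (orderOf_dvd_of_pow_eq_one h7))
  apply hlt.not_ge
  rw [commutator_le]
  intro a ha b hb
  exact ((hmemZ a).1 (h5 ha)).2 b hb

omit [Finite G] in
theorem isPGroup_zpowers {x : G} (hx : x ^ p = 1) : IsPGroup p (zpowers x) := by
  rintro ⟨y, hy⟩
  obtain ⟨m, rfl⟩ := mem_zpowers_iff.1 hy
  refine ⟨1, Subtype.ext ?_⟩
  change (x ^ m) ^ p ^ 1 = 1
  rw [pow_one, ← zpow_natCast, zpow_comm, zpow_natCast, hx, one_zpow]

theorem abel (A Q : Subgroup G) (x : G) (hA : IsPGroup p A) (hQp : (Nat.card Q).Coprime p)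
    (hQA : Q ≤ normalizer (A : Set G)) (hxA : x ∈ normalizer (A : Set G))
    (hxQ : x ∈ normalizer (Q : Set G)) (hx : x ^ p = 1) (hc : ∀ a ∈ A, ∀ b ∈ A, a * b = b * a)
    (hfixQ : ∀ d ∈ A, x * d = d * x → ∀ q ∈ Q, q * d = d * q) : Q ≤ centralizer (A : Set G) := by
  rw [← commutator_eq_bot_iff_le_centralizer, commutator_comm]
  by_contra hne
  have h1 : ⁅A, Q⁆ ≤ A := H1.Coprime2.commutator_le_left hQA
  have h2 : zpowers x ≤ normalizer ((⁅A, Q⁆ : Subgroup G) : Set G) :=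
    H1.Coprime2.le_normalizer_commutator (by rw [zpowers_le]; exact hxA) (by rw [zpowers_le]; exact hxQ)
  apply H65.PBasic.inf_centralizer_ne_bot (zpowers x) ⁅A, Q⁆ (isPGroup_zpowers hx) (hA.to_le h1) h2 hne
  rw [eq_bot_iff]
  intro a ha
  obtain ⟨ha1, ha2⟩ := mem_inf.1 ha
  obtain ⟨k, hk⟩ := IsPGroup.iff_card.1 hA
  rw [← H66.CopAb.commutator_inf_centralizer Q A hc hQA (by rw [hk]; exact Nat.Coprime.pow_right k hQp)]
  refine mem_inf.2 ⟨ha1, ?_⟩
  rw [mem_centralizer_iff]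
  exact hfixQ a (h1 ha1) (mem_centralizer_iff.1 ha2 x (mem_zpowers x))

theorem main (hp2 : p ≠ 2) (D Q : Subgroup G) (x : G)
    (hD : IsPGroup p D) (hQp : (Nat.card Q).Coprime p)
    (hQD : Q ≤ normalizer (D : Set G)) (hxD : x ∈ normalizer (D : Set G))
    (hxQ : ∀ w ∈ Q, x * w * x⁻¹ ∈ Q)
    (hx : x ^ p = 1) (hfpf : ∀ q ∈ Q, x * q = q * x → q = 1)
    (hcl : ⁅D, D⁆ ≤ centralizer (D : Set G))
    (hfix : ∀ C : Subgroup G, C ≤ D → (∀ a ∈ C, x * a = a * x) → Nat.card C ≤ p)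
    (hfixQ : ∀ d ∈ D, x * d = d * x → ∀ q ∈ Q, q * d = d * q) : Q ≤ centralizer (D : Set G) := by
  rw [← commutator_eq_bot_iff_le_centralizer, commutator_comm]
  by_contra hne
  have hxQ' : x ∈ normalizer (Q : Set G) := Basic.mem_normalizer_of_conj hxQ
  have h1 : ⁅D, Q⁆ ≤ D := H1.Coprime2.commutator_le_left hQD
  have hsolv : Group.IsSolvable D := by
    have := hD.isNilpotent
    infer_instance
  obtain ⟨k, hk⟩ := IsPGroup.iff_card.1 hD
  have hcop : (Nat.card Q).Coprime (Nat.card D) := by rw [hk]; exact Nat.Coprime.pow_right k hQp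
  have h2 := H1.Coprime2.commutator_commutator_eq Q D hQD hcop (Or.inr hsolv)
  obtain ⟨E, hE⟩ : ∃ E, E = ⁅D, Q⁆ := ⟨_, rfl⟩
  have hQE : Q ≤ normalizer (E : Set G) := by
    rw [hE]; exact H1.Coprime2.le_normalizer_commutator_right D Q
  have hxE : x ∈ normalizer (E : Set G) := by
    rw [hE]
    exact H1.Coprime2.le_normalizer_commutator (B := zpowers x) (by rw [zpowers_le]; exact hxD)
      (by rw [zpowers_le]; exact hxQ') (mem_zpowers x)
  rw [← hE] at h1 h2 hne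
  have hEp := hD.to_le h1
  have hEE : ⁅E, E⁆ ≤ E := commutator_le_self E
  have hcl' : ⁅E, E⁆ ≤ centralizer (E : Set G) :=
    (commutator_mono h1 h1).trans (hcl.trans (centralizer_le h1))
  have hQEE : Q ≤ normalizer ((⁅E, E⁆ : Subgroup G) : Set G) :=
    H1.Coprime2.le_normalizer_commutator hQE hQE
  have hxEE : x ∈ normalizer ((⁅E, E⁆ : Subgroup G) : Set G) :=
    H1.Coprime2.le_normalizer_commutator (B := zpowers x) (by rw [zpowers_le]; exact hxE)
      (by rw [zpowers_le]; exact hxE) (mem_zpowers x)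
  apply key hp2 E Q x hEp hQp hQE hxE hxQ hx hfpf hcl'
    (abel _ Q x (hEp.to_le hEE) hQp hQEE hxEE hxQ' hx
      (fun a ha b hb => (mem_centralizer_iff.1 (hcl' ha) b (hEE hb)).symm)
      (fun d hd => hfixQ d (h1 (hEE hd))))
    (fun C hC => hfix C (hC.trans h1)) h2
  intro h3
  apply hne
  rw [← h2, commutator_comm, commutator_eq_bot_iff_le_centralizer]
  rw [commutator_eq_bot_iff_le_centralizer] at h3
  exact abel E Q x hEp hQp hQE hxE hxQ' hx
      (fun a ha b hb => (mem_centralizer_iff.1 (h3 ha) b hb).symm)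
      (fun d hd => hfixQ d (h1 hd))

end H12.FixOne
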