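import Mathlib
import Cfsg.Agent.Lib.H21.HallTools

set_option autoImplicit false

/-! Iterated focal subgroups of a Hall subgroup and normal complements. -/

namespace H12.FocSeries

open Subgroup
open scoped commutatorElement

variable {G : Type*} [Group G]

theorem focal_mono {H K : Subgroup G} (h : H ≤ K) : focalSubgroup H ≤ focalSubgroup K := by
  rw [focalSubgroup_def, focalSubgroup_def]
  apply Subgroup.closure_mono
  rintro g ⟨hg, x, hx, u, rfl⟩
  exact ⟨h hg, x, h hx, u, rfl⟩

theorem map_focal_le {K : Subgroup G} (L : Subgroup K) :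
    (focalSubgroup L).map K.subtype ≤ focalSubgroup (L.map K.subtype) := by
  rw [focalSubgroup_def, focalSubgroup_def, MonoidHom.map_closure]
  apply Subgroup.closure_mono
  rintro _ ⟨g, ⟨hg, x, hx, u, rfl⟩, rfl⟩
  exact ⟨⟨_, hg, rfl⟩, x, ⟨x, hx, rfl⟩, u, rfl⟩

theorem map_iter_focal_le {K : Subgroup G} (n : ℕ) (L : Subgroup K) (M : Subgroup G)
    (hLM : L.map K.subtype ≤ M) :
    ((fun J : Subgroup K => focalSubgroup J)^[n] L).map K.subtype ≤
      (fun J : Subgroup G => focalSubgroup J)^[n] M := by
  induction n generalizing L M with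
  | zero => simpa using hLM
  | succ n ih =>
    rw [Function.iterate_succ_apply, Function.iterate_succ_apply]
    exact ih _ _ ((map_focal_le L).trans (focal_mono hLM))

/-- the kernel of the transfer into `H / Foc(H)` meets `H` in `Foc(H)` for Hall `H` -/
theorem ker_inf [Finite G] (H : Subgroup G) (hH : (Nat.card H).Coprime H.index) :
    H.transferFocal.ker ⊓ H = H.focalSubgroup := by
  ext x
  constructor
  · intro hx
    obtain ⟨h1, h2⟩ := Subgroup.mem_inf.1 hx
    rw [MonoidHom.mem_ker] at h1
    have h3 := transferFocal_eq_pow H ⟨x, h2⟩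
    rw [h1] at h3
    have h4 : (((⟨x, h2⟩ : H) : H ⧸ H.focalSubgroupOf)) = 1 := by
      have h5 : orderOf ((⟨x, h2⟩ : H) : H ⧸ H.focalSubgroupOf) ∣ H.index :=
        orderOf_dvd_of_pow_eq_one h3.symm
      have h6 : orderOf ((⟨x, h2⟩ : H) : H ⧸ H.focalSubgroupOf) ∣ Nat.card H :=
        (_root_.orderOf_dvd_natCard _).trans (Subgroup.card_quotient_dvd_card _)
      rw [← orderOf_eq_one_iff]
      exact Nat.eq_one_of_dvd_coprimes hH h6 h5
    rw [QuotientGroup.eq_one_iff, focalSubgroupOf_def, mem_subgroupOf] at h4
    exact h4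
  · intro hx
    have h2 : x ∈ H := focalSubgroup_le H hx
    refine Subgroup.mem_inf.2 ⟨?_, h2⟩
    rw [MonoidHom.mem_ker]
    have h3 := transferFocal_eq_pow H ⟨x, h2⟩
    rw [h3]
    have : (((⟨x, h2⟩ : H) : H ⧸ H.focalSubgroupOf)) = 1 := by
      rw [QuotientGroup.eq_one_iff, focalSubgroupOf_def, mem_subgroupOf]
      exact hx
    rw [this, one_pow]

theorem exists_mul [Finite G] (H : Subgroup G) (hH : (Nat.card H).Coprime H.index) (g : G) :
    ∃ h ∈ H, ∃ k ∈ H.transferFocal.ker, g = h * k := by
  -- transfer restricted to H is onto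
  obtain ⟨q, hq⟩ := QuotientGroup.mk'_surjective H.focalSubgroupOf (H.transferFocal g)
  have hcop : (Nat.card (H ⧸ H.focalSubgroupOf)).Coprime H.index :=
    Nat.Coprime.coprime_dvd_left (Subgroup.card_quotient_dvd_card _) hH
  obtain ⟨q', hq'⟩ := (powCoprime hcop).surjective (H.transferFocal g)
  obtain ⟨x, hx⟩ := QuotientGroup.mk'_surjective H.focalSubgroupOf q'
  refine ⟨x, x.2, (x : G)⁻¹ * g, ?_, by group⟩
  rw [MonoidHom.mem_ker, map_mul, map_inv, transferFocal_eq_pow]
  have : ((x : H ⧸ H.focalSubgroupOf)) = q' := hx
  rw [this]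
  have h2 : q' ^ H.index = H.transferFocal g := hq'
  rw [h2, inv_mul_cancel]

theorem normal_complement (n : ℕ) : ∀ {G : Type*} [Group G] [Finite G] (H : Subgroup G)
    (_ : (Nat.card H).Coprime H.index)
    (_ : (fun K : Subgroup G => Subgroup.focalSubgroup K)^[n] H = ⊥),
    ∃ N : Subgroup G, N.Normal ∧ Subgroup.IsComplement' N H := by
  induction n with
  | zero =>
    intro G _ _ H _ h
    simp only [Function.iterate_zero, id_eq] at h
    subst h
    exact ⟨⊤, inferInstance, Subgroup.isComplement'_top_bot⟩
  | succ n ih =>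
    intro G _ _ H hHall h
    rw [Function.iterate_succ_apply] at h
    set K := H.transferFocal.ker with hK
    have hKn : K.Normal := MonoidHom.normal_ker _
    have h1 : K ⊓ H = H.focalSubgroup := ker_inf H hHall
    have h2 : H ⊔ K = ⊤ := by
      rw [eq_top_iff]
      intro g _
      obtain ⟨a, ha, k, hk, rfl⟩ := exists_mul H hHall g
      exact mul_mem (le_sup_left (a := H) ha) (le_sup_right (a := H) hk)
    set L := H.focalSubgroup.subgroupOf K with hL
    have hfK : H.focalSubgroup ≤ K := h1 ▸ inf_le_left
    have hLm : L.map K.subtype = H.focalSubgroup := Subgroup.map_subgroupOf_eq_of_le hfK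
    have hLind : L.index = H.index := by
      have e1 : L = H.subgroupOf K := by
        rw [hL, ← h1, inf_comm]
        exact Subgroup.inf_subgroupOf_right H K
      rw [e1]
      change H.relIndex K = H.index
      have e2 : H.relIndex K = K.relIndex H * H.index / K.index := by
        have e3 := Subgroup.relIndex_mul_index (H := K ⊓ H) (K := K) inf_le_left
        have e4 := Subgroup.relIndex_mul_index (H := K ⊓ H) (K := H) inf_le_right
        rw [Subgroup.inf_relIndex_left] at e3
        rw [Subgroup.inf_relIndex_right] at e4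
        rw [e4, ← e3]
        exact (Nat.mul_div_cancel _ (Nat.pos_of_ne_zero Subgroup.index_ne_zero_of_finite)).symm
      have e5 : K.relIndex H = K.index := by
        have := Subgroup.relIndex_sup_right H K
        rw [h2, Subgroup.relIndex_top_right] at this
        exact this.symm
      rw [e2, e5]
      exact Nat.mul_div_cancel_left _ (Nat.pos_of_ne_zero Subgroup.index_ne_zero_of_finite)
    have hLcard : Nat.card L ∣ Nat.card H := by
      have : Nat.card L = Nat.card H.focalSubgroup := by
        rw [← hLm]
        exact (Nat.card_congr (L.equivMapOfInjective _ K.subtype_injective).toEquiv)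
      rw [this]
      exact Subgroup.card_dvd_of_le (focalSubgroup_le H)
    have hLcop : (Nat.card L).Coprime L.index := by
      rw [hLind]
      exact Nat.Coprime.coprime_dvd_left hLcard hHall
    obtain ⟨N, hN, hNc⟩ := ih L hLcop (by
      have := map_iter_focal_le n L _ hLm.le
      rw [h, le_bot_iff, Subgroup.map_eq_bot_iff_of_injective _ K.subtype_injective] at this
      exact this)
    have hNcard : Nat.card N = H.index := by
      have := hNc.index_eq_card
      rw [← hLind]
      exact this.symm
    have hNchar : N.Characteristic := by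
      apply H21.HallTools.characteristic_of_coprime
      rw [hNcard, hNc.symm.index_eq_card, ← hLind]
      exact hLcop.symm
    refine ⟨N.map K.subtype, ConjAct.normal_of_characteristic_of_normal, ?_⟩
    have hNc' : Nat.card (N.map K.subtype) = H.index := by
      rw [← hNcard]
      exact (Nat.card_congr (N.equivMapOfInjective _ K.subtype_injective).toEquiv).symm
    apply Subgroup.isComplement'_of_coprime
    · rw [hNc', mul_comm, Subgroup.card_mul_index]
    · rw [hNc']
      exact hHall.symm

end H12.FocSeries
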