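import Mathlib
import Cfsg.Agent.Lib.H12.ChiefRk
import Cfsg.Agent.Lib.H55.Isolated
import Cfsg.Agent.Lib.H26.GenFitting
import Cfsg.Agent.Lib.H3.Critical
import Cfsg.Agent.Lib.H3.SylowInf
import Cfsg.Agent.Lib.H2.Frobenius

/-! Isolated elements of odd order `p` in groups of `p`-rank at most two. -/

set_option autoImplicit false

open Subgroup Cfsg
open scoped commutatorElement Pointwise

namespace H12.IsoRank

/-- a group all of whose elements of order `p` in a Sylow subgroup are isolated is `p`-nilpotent -/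
theorem hasNPC {L : Type*} [Group L] [Finite L] {p : ℕ} [hp : Fact p.Prime] (hp2 : p ≠ 2)
    (Q : Sylow p L) (h : ∀ e ∈ (Q : Subgroup L), e ^ p = 1 → ∀ g : L, g * e * g⁻¹ ∈ (Q : Subgroup L) →
      g * e * g⁻¹ = e) : HasNormalPComplement p L := by
  apply H2.Frobenius.hasNPC_of_local
  intro D hD g hg hcop
  obtain ⟨Q', hQ'⟩ := hD.exists_le_sylow
  obtain ⟨c, hc⟩ := MulAction.exists_smul_eq L Q Q'
  have hmem : ∀ y, y ∈ D → c⁻¹ * y * c ∈ (Q : Subgroup L) := by
    intro y hy
    have h1 : y ∈ ((c • Q : Sylow p L) : Subgroup L) := by rw [hc]; exact hQ' hy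
    rw [Sylow.coe_subgroup_smul, Subgroup.mem_pointwise_smul_iff_inv_smul_mem] at h1
    simpa [MulAut.smul_def, MulAut.conj_apply] using h1
  have hfix : ∀ e ∈ D, e ^ p = 1 → g * e * g⁻¹ = e := by
    intro e he hep
    have h1 : g * e * g⁻¹ ∈ D := (Subgroup.mem_normalizer_iff.1 hg e).1 he
    have h2 := h (c⁻¹ * e * c) (hmem e he) (by
      have : (c⁻¹ * e * c) = c⁻¹ * e * c⁻¹⁻¹ := by group
      rw [this, conj_pow, hep]; group) (c⁻¹ * g * c) (by
      have e1 : c⁻¹ * g * c * (c⁻¹ * e * c) * (c⁻¹ * g * c)⁻¹ = c⁻¹ * (g * e * g⁻¹) * c := by group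
      rw [e1]; exact hmem _ h1)
    have e1 : c⁻¹ * g * c * (c⁻¹ * e * c) * (c⁻¹ * g * c)⁻¹ = c⁻¹ * (g * e * g⁻¹) * c := by group
    rw [e1] at h2
    exact mul_left_cancel (mul_right_cancel h2)
  let a : MulAut D := Subgroup.normalizerMonoidHom D ⟨g, hg⟩
  have ha : ∀ y : D, ((a y : D) : L) = g * y * g⁻¹ := fun y => rfl
  have ha1 : a = 1 := by
    apply H3.Critical.eq_one_of_fix_omega hp2 hD
    · refine Nat.Coprime.coprime_dvd_left (orderOf_map_dvd _ _) ?_
      rwa [Subgroup.orderOf_mk]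
    · intro y hy
      apply Subtype.ext
      rw [ha]
      exact hfix y y.2 (by have := congrArg Subtype.val hy; simpa using this)
  rw [Subgroup.mem_centralizer_iff]
  intro y hy
  have h1 := ha ⟨y, hy⟩
  rw [ha1] at h1
  have h2 : y = g * y * g⁻¹ := h1
  calc y * g = g * y * g⁻¹ * g := by rw [← h2]
    _ = g * y := by group

theorem not_dvd_relIndex {G : Type*} [Group G] [Finite G] {p : ℕ} [hp : Fact p.Prime] (P : Sylow p G)
    {K : Subgroup G} (hK : K.IsSubnormal) : ¬ p ∣ (P : Subgroup G).relIndex K := by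
  induction hK with
  | top => rw [Subgroup.relIndex_top_right]; exact P.not_dvd_index
  | step H K hHK hK hN ih =>
    have h1 : IsPGroup p ((P : Subgroup G).subgroupOf K) := P.isPGroup'.comap_subtype
    obtain ⟨Q, hQ⟩ := H3.SylowInf.exists_sylow_eq h1 ih
    have h2 := H3.SylowInf.not_dvd_relIndex Q (H.subgroupOf K)
    rwa [hQ, Subgroup.relIndex_subgroupOf hHK] at h2

/-- a component not of `p'`-order has no normal `p`-complement -/
theorem not_hasNPC {G : Type*} [Group G] [Finite G] {p : ℕ} [hp : Fact p.Prime]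
    (hO : pPrimeCore p G = ⊥) {L : Subgroup G} (hL : IsComponent L) : ¬ HasNormalPComplement p L := by
  rintro ⟨P, N, hN, hc⟩
  have hq : IsPGroup p (L ⧸ N) := by
    rw [IsPGroup.iff_card]
    obtain ⟨n, hn⟩ := IsPGroup.iff_card.1 P.isPGroup'
    refine ⟨n, ?_⟩
    rw [← hn]
    have h1 := hc.card_mul
    have h2 := Subgroup.card_eq_card_quotient_mul_card_subgroup N
    rw [← h1, mul_comm] at h2
    exact (Nat.eq_of_mul_eq_mul_right Nat.card_pos h2).symm
  have hperf : Group.IsPerfect L := hL.2.1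
  have htop : N = ⊤ := by
    by_contra hne
    have hnt : Nontrivial (L ⧸ N) := by
      rw [QuotientGroup.nontrivial_iff]; exact hne
    have h1 : Group.IsPerfect (L ⧸ N) := inferInstance
    have h2 : Group.IsNilpotent (L ⧸ N) := hq.isNilpotent
    exact Group.IsPerfect.not_isNilpotent _ h2
  have hcop : (Nat.card L).Coprime p := by
    have h1 := hc.card_mul
    rw [htop, Subgroup.card_top] at h1
    have h2 : Nat.card P = 1 := Nat.eq_of_mul_eq_mul_left (Nat.card_pos (α := L)) (by rw [h1, mul_one])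
    rw [Nat.coprime_comm, Nat.Prime.coprime_iff_not_dvd hp.out]
    intro hd
    have h3 := P.dvd_card_of_dvd_card hd
    rw [h2] at h3
    exact hp.out.one_lt.ne' (Nat.dvd_one.1 h3)
  have h1 := H26.Subnormal.le_pPrimeCore hL.1 hcop
  rw [hO, le_bot_iff] at h1
  exact H26.Components.ne_bot hL h1

section

variable {G : Type*} [Group G] [Finite G] {p : ℕ} [hp : Fact p.Prime]

/-- a moved element of order `p` in every component -/
theorem exists_moved (hp2 : p ≠ 2) (hO : pPrimeCore p G = ⊥) (P : Sylow p G) {L : Subgroup G}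
    (hL : IsComponent L) : ∃ e ∈ L, ∃ g ∈ L, e ∈ (P : Subgroup G) ∧ e ^ p = 1 ∧
      g * e * g⁻¹ ∈ (P : Subgroup G) ∧ g * e * g⁻¹ ≠ e := by
  by_contra hcon
  push Not at hcon
  have h1 : IsPGroup p ((P : Subgroup G).subgroupOf L) := P.isPGroup'.comap_subtype
  obtain ⟨Q, hQ⟩ := H3.SylowInf.exists_sylow_eq h1 (not_dvd_relIndex P hL.1)
  apply not_hasNPC hO hL
  apply hasNPC hp2 Q
  intro e he hep g hg
  rw [hQ, Subgroup.mem_subgroupOf] at he hg
  have h2 : (e : G) ^ p = 1 := by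
    have := congrArg Subtype.val hep
    simpa using this
  exact Subtype.ext (hcon e e.2 g g.2 he h2 hg)

theorem isolated_center {x : G} (hiso : IsIsolated x) (h : ∀ g : G, Commute x (g * x * g⁻¹)) :
    x ∈ center G := by
  rw [Subgroup.mem_center_iff]
  intro g
  exact mul_inv_eq_iff_eq_mul.1 (hiso g (h g))

theorem pow_eq_aux {a b : G} (ha : a ^ p = 1) (hb : b ^ p = 1) {i : ℤ} (h : a ^ i = b ^ i) :
    a = b ∨ b ^ i = 1 := by
  by_cases hd : (p : ℤ) ∣ i
  · right
    obtain ⟨m, rfl⟩ := hd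
    rw [zpow_mul, zpow_natCast, hb, one_zpow]
  · left
    have hc : IsCoprime i (p : ℤ) := by
      rw [isCoprime_comm]
      exact (Prime.coprime_iff_not_dvd (Nat.prime_iff_prime_int.1 hp.out)).2 hd
    obtain ⟨m, n, hmn⟩ := hc
    have key : ∀ c : G, c ^ p = 1 → c = (c ^ i) ^ m := by
      intro c hc
      have e1 : c ^ (m * i + n * p) = c := by rw [hmn, zpow_one]
      rw [zpow_add, mul_comm m, zpow_mul, mul_comm n, zpow_mul c (p : ℤ), zpow_natCast, hc, one_zpow,
        mul_one] at e1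
      exact e1.symm
    rw [key a ha, key b hb, h]

theorem two_gen (hr : PRankLE p 2 G) {a b x : G} (ha : a ^ p = 1) (ha1 : a ≠ 1) (hb : b ^ p = 1)
    (hab : a * b = b * a) (hb1 : b ∉ zpowers a) (hax : a * x = x * a) (hbx : b * x = x * b)
    (hx : x ^ p = 1) : ∃ i j : ℤ, x = a ^ i * b ^ j := by
  have hE : ∀ c ∈ zpowers a, ∀ d ∈ zpowers a, c * d = d * c := by
    rintro _ ⟨i, rfl⟩ _ ⟨j, rfl⟩
    exact ((Commute.refl a).zpow_zpow i j).eq
  have hEp : ∀ c ∈ zpowers a, c ^ p = 1 := by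
    rintro _ ⟨i, rfl⟩
    change (a ^ i) ^ p = 1
    rw [← zpow_natCast, ← zpow_mul, mul_comm, zpow_mul, zpow_natCast, ha, one_zpow]
  have hEb : ∀ c ∈ zpowers a, c * b = b * c := by
    rintro _ ⟨i, rfl⟩
    exact (Commute.zpow_left hab i).eq
  obtain ⟨h1, h2, h3⟩ := ChiefRk.sup_zpowers (p := p) hE hEp hEb hb
  have hlt : zpowers a < zpowers a ⊔ zpowers b := by
    refine lt_of_le_of_ne le_sup_left ?_
    intro h
    apply hb1
    rw [h]; exact mem_sup_right (mem_zpowers b)
  have h4 : p ^ 2 ≤ Nat.card (zpowers a ⊔ zpowers b : Subgroup G) :=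
    ChiefRk.card_ge_pow (ChiefRk.isPGroup_of_exp h3) hlt 1
      (by rw [Nat.card_zpowers, orderOf_eq_prime ha ha1, pow_one])
  have h5 : x ∈ zpowers a ⊔ zpowers b := by
    apply ChiefRk.rank_adj hr h2 h3 h4 _ hx
    intro c hc
    obtain ⟨_, ⟨i, rfl⟩, j, rfl⟩ := h1 c hc
    have h6 : Commute a x := hax
    have h7 : Commute b x := hbx
    exact ((h6.zpow_left i).mul_left (h7.zpow_left j)).eq
  obtain ⟨_, ⟨i, rfl⟩, j, rfl⟩ := h1 x h5
  exact ⟨i, j, rfl⟩

theorem main (hp2 : p ≠ 2) (hO : pPrimeCore p G = ⊥) (hr : PRankLE p 2 G) (x : G)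
    (hx : orderOf x = p) (hiso : IsIsolated x) (hnc : x ∉ center G) :
    IsSimpleGroup ↥(generalizedFittingSubgroup G) ∧
      ¬ IsMulCommutative ↥(generalizedFittingSubgroup G) := by
  have hxp : x ^ p = 1 := by rw [← hx]; exact pow_orderOf_eq_one x
  have hx1 : x ≠ 1 := by
    rintro rfl
    rw [orderOf_one] at hx
    exact hp.out.one_lt.ne hx
  have hxg : IsPGroup p (zpowers x) := by
    rw [IsPGroup.iff_card]
    exact ⟨1, by rw [Nat.card_zpowers, hx, pow_one]⟩
  obtain ⟨P, hP⟩ := hxg.exists_le_sylow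
  have hxP : x ∈ (P : Subgroup G) := hP (mem_zpowers x)
  have hPx := H55.Isolated.le_centralizer x hiso P P.2 hxP
  have hcx : ∀ y ∈ (P : Subgroup G), y * x = x * y := fun y hy =>
    (Subgroup.mem_centralizer_singleton_iff.1 (hPx hy))
  have hconj : ∀ g : G, g * x * g⁻¹ ∈ (P : Subgroup G) → g * x * g⁻¹ = x := fun g hg =>
    hiso g (hcx _ hg).symm
  have hOP : pCore p G ≤ (P : Subgroup G) := H1.Cores.pCore_le_sylow P
  have hxO : x ∉ pCore p G := by
    intro h
    apply hnc
    apply isolated_center hiso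
    intro g
    exact (hcx _ (hOP (Subgroup.Normal.conj_mem inferInstance x h g))).symm
  -- uniqueness of the component
  have huniq : ∀ L₁ L₂ : Subgroup G, IsComponent L₁ → IsComponent L₂ → L₁ = L₂ := by
    intro L₁ L₂ hL₁ hL₂
    by_contra hne
    have hcomm := H26.Components.commutator_eq_bot_of_ne hL₁ hL₂ hne
    have hc : ∀ a ∈ L₁, ∀ b ∈ L₂, a * b = b * a := by
      intro a ha b hb
      rw [Subgroup.commutator_eq_bot_iff_le_centralizer] at hcomm
      exact (Subgroup.mem_centralizer_iff.1 (hcomm ha) b hb).symm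
    obtain ⟨e₁, he₁, g₁, hg₁, heP₁, hep₁, hgP₁, hge₁⟩ := exists_moved hp2 hO P hL₁
    obtain ⟨e₂, he₂, g₂, hg₂, heP₂, hep₂, hgP₂, hge₂⟩ := exists_moved hp2 hO P hL₂
    have he1 : e₁ ≠ 1 := by
      rintro rfl
      apply hge₁; simp
    obtain ⟨i, j, hxe⟩ := two_gen hr hep₁ he1 hep₂ (hc e₁ he₁ e₂ he₂) (by
      rintro ⟨k, hk⟩
      apply hge₂
      have h1 : e₂ ∈ L₁ := by rw [← hk]; exact zpow_mem he₁ k
      rw [← hc e₂ h1 g₂ hg₂, mul_inv_cancel_right]) (hcx e₁ heP₁) (hcx e₂ heP₂) hxp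
    have h1 : e₁ ^ i = 1 := by
      have h2 : g₁ * x * g₁⁻¹ = (g₁ * e₁ * g₁⁻¹) ^ i * e₂ ^ j := by
        have h3 : g₁ * e₂ ^ j = e₂ ^ j * g₁ := hc g₁ hg₁ _ (zpow_mem he₂ j)
        rw [hxe, conj_zpow]
        calc g₁ * (e₁ ^ i * e₂ ^ j) * g₁⁻¹ = g₁ * e₁ ^ i * g₁⁻¹ * (g₁ * e₂ ^ j) * g₁⁻¹ := by group
          _ = _ := by rw [h3]; group
      have h3 := hconj g₁ (by
        rw [h2]; exact mul_mem (zpow_mem hgP₁ i) (zpow_mem heP₂ j))
      rw [h2, hxe] at h3
      have h4 := mul_right_cancel h3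
      rcases pow_eq_aux (by rw [conj_pow, hep₁]; group) hep₁ h4 with h5 | h5
      · exact absurd h5 hge₁
      · exact h5
    have h2 : e₂ ^ j = 1 := by
      have h2 : g₂ * x * g₂⁻¹ = e₁ ^ i * (g₂ * e₂ * g₂⁻¹) ^ j := by
        have h3 : e₁ ^ i * g₂ = g₂ * e₁ ^ i := hc _ (zpow_mem he₁ i) g₂ hg₂
        rw [hxe, conj_zpow]
        calc g₂ * (e₁ ^ i * e₂ ^ j) * g₂⁻¹ = (g₂ * e₁ ^ i) * e₂ ^ j * g₂⁻¹ := by group
          _ = _ := by rw [← h3]; group
      have h3 := hconj g₂ (by
        rw [h2]; exact mul_mem (zpow_mem heP₁ i) (zpow_mem hgP₂ j))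
      rw [h2, hxe] at h3
      have h4 := mul_left_cancel h3
      rcases pow_eq_aux (by rw [conj_pow, hep₂]; group) hep₂ h4 with h5 | h5
      · exact absurd h5 hge₂
      · exact h5
    rw [h1, h2, one_mul] at hxe
    exact hx1 hxe
  -- existence
  have hFS := H26.GenFitting.gFitting_eq_of_pPrimeCore_eq_bot hO
  obtain ⟨L, hL⟩ : ∃ L : Subgroup G, IsComponent L := by
    by_contra hcon
    push Not at hcon
    have h1 : layer G = ⊥ := by
      rw [layer, sSup_eq_bot]
      intro K hK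
      exact absurd hK (hcon K)
    rw [h1, bot_sup_eq] at hFS
    have h2 := H26.Components.centralizer_gFitting_le (G := G)
    rw [hFS] at h2
    apply hxO
    apply h2
    rw [Subgroup.mem_centralizer_iff]
    intro y hy
    exact hcx y (hOP hy)
  have hlay : layer G = L := by
    apply le_antisymm
    · exact sSup_le fun K hK => (huniq K L hK hL).le
    · exact H26.Components.le_layer hL
  -- `O_p(G) = 1`
  have hOp : pCore p G = ⊥ := by
    by_contra hne
    have hnt : Nontrivial (pCore p G) := (Subgroup.nontrivial_iff_ne_bot _).2 hne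
    obtain ⟨n, hn⟩ := IsPGroup.iff_card.1 (H1.Cores.isPGroup_pCore (G := G) p)
    have hn0 : n ≠ 0 := by
      rintro rfl
      rw [pow_zero] at hn
      exact hne (Subgroup.card_eq_one.1 hn)
    obtain ⟨z, hz⟩ := exists_prime_orderOf_dvd_card' (G := pCore p G) p
      (by rw [hn]; exact dvd_pow_self p hn0)
    have hzp : (z : G) ^ p = 1 := by
      have h1 := pow_orderOf_eq_one z
      rw [hz] at h1
      have := congrArg Subtype.val h1
      simpa using this
    have hz1 : (z : G) ≠ 1 := by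
      intro h
      have : z = 1 := Subtype.ext h
      rw [this, orderOf_one] at hz
      exact hp.out.one_lt.ne hz
    have hcomm := H26.Components.commutator_layer_pCore (G := G) p
    rw [hlay, Subgroup.commutator_eq_bot_iff_le_centralizer] at hcomm
    have hc : ∀ a ∈ L, ∀ b ∈ pCore p G, b * a = a * b := fun a ha b hb =>
      Subgroup.mem_centralizer_iff.1 (hcomm ha) b hb
    obtain ⟨e, he, g, hg, heP, hep, hgP, hge⟩ := exists_moved hp2 hO P hL
    obtain ⟨i, j, hxe⟩ := two_gen hr hzp hz1 hep (hc e he z z.2) (by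
      rintro ⟨k, hk⟩
      apply hge
      have h1 : e ∈ pCore p G := by rw [← hk]; exact zpow_mem z.2 k
      rw [← hc g hg e h1, mul_inv_cancel_right]) (hcx z (hOP z.2)) (hcx e heP) hxp
    have h1 : e ^ j = 1 := by
      have h2 : g * x * g⁻¹ = (z : G) ^ i * (g * e * g⁻¹) ^ j := by
        have h3 : (z : G) ^ i * g = g * (z : G) ^ i := hc g hg _ (zpow_mem z.2 i)
        rw [hxe, conj_zpow]
        calc g * ((z : G) ^ i * e ^ j) * g⁻¹ = (g * (z : G) ^ i) * e ^ j * g⁻¹ := by group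
          _ = _ := by rw [← h3]; group
      have h3 := hconj g (by
        rw [h2]; exact mul_mem (zpow_mem (hOP z.2) i) (zpow_mem hgP j))
      rw [h2, hxe] at h3
      have h4 := mul_left_cancel h3
      rcases pow_eq_aux (by rw [conj_pow, hep]; group) hep h4 with h5 | h5
      · exact absurd h5 hge
      · exact h5
    rw [h1, mul_one] at hxe
    apply hxO
    rw [hxe]
    exact zpow_mem z.2 i
  have hF : generalizedFittingSubgroup G = L := by rw [hFS, hlay, hOp, sup_bot_eq]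
  have hZ : center L = ⊥ := by
    have h1 := (H26.GenFitting.component_centre_le_layer_centre hL).trans
      H26.GenFitting.centre_layer_le_fitting
    rw [H1.Cores.fittingSubgroup_eq_pCore_of p hO, hOp, ← H26.GenFitting.map_center] at h1
    rw [le_bot_iff, Subgroup.map_eq_bot_iff_of_injective _ L.subtype_injective] at h1
    exact h1
  rw [hF]
  refine ⟨?_, H26.Quasisimple.not_isMulCommutative hL.2⟩
  have h1 := hL.2.2
  have e : L ⧸ center L ≃* L :=
    (QuotientGroup.quotientMulEquivOfEq hZ).trans QuotientGroup.quotientBot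
  exact (e.isSimpleGroup_congr).1 h1

end

end H12.IsoRank
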