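import Mathlib
import Cfsg.Agent.Lib.H68.TwoClass

/-! The equality case of S3895: the data. -/

set_option autoImplicit false

namespace H12.KTwo

open H68.Isolated H68.TwoClass MulAction
open scoped Pointwise

variable {G : Type*} [Group G] [Finite G] {p : ℕ} [Fact p.Prime]

/-- the data behind `H68.TwoClass.main_aux` -/
theorem aux_data (P : Sylow p G) (D : Subgroup G) (hD : D ≤ (P : Subgroup G)) (g : G) (hp2 : p = 2)
    (hg : g ∈ Subgroup.normalizer (D : Set G)) (hgo : Nat.Coprime (orderOf g) p)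
    (hgc : g ∉ Subgroup.centralizer (D : Set G)) :
    ∃ x w : G, (∀ k : ℕ, x ^ k * w * (x ^ k)⁻¹ ∈ P) ∧ (∀ z : G, IsIso P z → x * z * x⁻¹ = z) ∧
      ¬ IsIso P (w⁻¹ * (x * w * x⁻¹)) ∧ ¬ IsIso P (w⁻¹ * (x ^ 2 * w * (x ^ 2)⁻¹)) := by
  obtain ⟨x, hx1, hx2⟩ := exists_adjust P D hD g hg
  have hxD : ∀ d ∈ D, x * d * x⁻¹ ∈ D := by
    intro d hd
    rw [hx1 d hd]
    exact (Subgroup.mem_normalizer_iff.1 hg d).1 hd
  -- iterate
  have hxk : ∀ (k : ℕ), ∀ d ∈ D, x ^ k * d * (x ^ k)⁻¹ = g ^ k * d * (g ^ k)⁻¹ ∧ x ^ k * d * (x ^ k)⁻¹ ∈ D := by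
    intro k
    induction k with
    | zero => intro d hd; simpa using hd
    | succ k ih =>
      intro d hd
      obtain ⟨h1, h2⟩ := ih (x * d * x⁻¹) (hxD d hd)
      have e : x ^ (k + 1) * d * (x ^ (k + 1))⁻¹ = x ^ k * (x * d * x⁻¹) * (x ^ k)⁻¹ := by rw [pow_succ]; group
      rw [e]
      refine ⟨?_, h2⟩
      rw [h1, hx1 d hd, pow_succ]; group
  set n := orderOf g with hn
  have hxn : ∀ d ∈ D, x ^ n * d * (x ^ n)⁻¹ = d := by
    intro d hd
    rw [(hxk n d hd).1, hn, pow_orderOf_eq_one]; group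
  -- some coset moves
  have hw : ∃ w ∈ D, ¬ IsIso P (w⁻¹ * (x * w * x⁻¹)) := by
    by_contra hcon
    push Not at hcon
    apply hgc
    rw [Subgroup.mem_centralizer_iff]
    intro w hwD
    set z := w⁻¹ * (x * w * x⁻¹) with hz
    have hzi : IsIso P z := hcon w hwD
    have h1 : x * w * x⁻¹ = w * z := by rw [hz]; group
    have h2 : ∀ k : ℕ, x ^ k * w * (x ^ k)⁻¹ = w * z ^ k := by
      intro k
      induction k with
      | zero => simp
      | succ k ih =>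
        have e : x ^ (k + 1) * w * (x ^ (k + 1))⁻¹ = x * (x ^ k * w * (x ^ k)⁻¹) * x⁻¹ := by rw [pow_succ']; group
        have hzk : x * z ^ k * x⁻¹ = z ^ k := by
          rw [← conj_pow, hx2 z hzi]
        rw [e, ih]
        calc x * (w * z ^ k) * x⁻¹ = (x * w * x⁻¹) * (x * z ^ k * x⁻¹) := by group
          _ = w * z * z ^ k := by rw [h1, hzk]
          _ = w * z ^ (k + 1) := by rw [mul_assoc, ← pow_succ']
    have h3 := h2 n
    rw [hxn w hwD] at h3
    have h4 : z ^ n = 1 := by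
      have : w * 1 = w * z ^ n := by rw [mul_one]; exact h3
      exact (mul_left_cancel this).symm
    obtain ⟨j, hj⟩ := (IsPGroup.iff_orderOf.1 P.2) ⟨z, hzi.1⟩
    have hj' : orderOf z = p ^ j := by rw [← hj]; exact (Subgroup.orderOf_coe ⟨z, hzi.1⟩)
    have h5 : orderOf z = 1 := by
      apply Nat.eq_one_of_dvd_coprimes (k := orderOf z) (hgo.pow_right j) (orderOf_dvd_of_pow_eq_one h4)
      rw [hj']
    rw [orderOf_eq_one_iff] at h5
    rw [h5, mul_one, hx1 w hwD] at h1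
    rw [mul_inv_eq_iff_eq_mul] at h1
    exact h1.symm
  obtain ⟨w, hwD, hwn⟩ := hw
  refine ⟨x, w, fun k => hD ((hxk k w hwD).2), hx2, hwn, ?_⟩
  -- the second coset
  intro h02
  apply hwn
  set z := w⁻¹ * (x ^ 2 * w * (x ^ 2)⁻¹) with hz
  have h1 : x ^ 2 * w * (x ^ 2)⁻¹ = w * z := by rw [hz]; group
  have hz2 : x ^ 2 * z * (x ^ 2)⁻¹ = z := by
    calc x ^ 2 * z * (x ^ 2)⁻¹ = x * (x * z * x⁻¹) * x⁻¹ := by rw [pow_two]; group
      _ = z := by rw [hx2 z h02, hx2 z h02]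
  have h2 : ∀ k : ℕ, x ^ (2 * k) * w * (x ^ (2 * k))⁻¹ = w * z ^ k := by
    intro k
    induction k with
    | zero => simp
    | succ k ih =>
      have e : x ^ (2 * (k + 1)) * w * (x ^ (2 * (k + 1)))⁻¹ = x ^ 2 * (x ^ (2 * k) * w * (x ^ (2 * k))⁻¹) * (x ^ 2)⁻¹ := by
        have : x ^ (2 * (k + 1)) = x ^ 2 * x ^ (2 * k) := by rw [← pow_add]; congr 1; ring
        rw [this]; group
      have hzk : x ^ 2 * z ^ k * (x ^ 2)⁻¹ = z ^ k := by
        rw [← conj_pow, hz2]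
      rw [e, ih]
      calc x ^ 2 * (w * z ^ k) * (x ^ 2)⁻¹ = (x ^ 2 * w * (x ^ 2)⁻¹) * (x ^ 2 * z ^ k * (x ^ 2)⁻¹) := by group
        _ = w * z * z ^ k := by rw [h1, hzk]
        _ = w * z ^ (k + 1) := by rw [mul_assoc, ← pow_succ']
  have hodd : Odd n := by
    rw [hp2] at hgo
    exact Nat.coprime_two_right.1 hgo
  obtain ⟨m, hm⟩ := hodd
  have h3 := h2 (m + 1)
  have h4 : x ^ (2 * (m + 1)) * w * (x ^ (2 * (m + 1)))⁻¹ = x * w * x⁻¹ := by
    have e1 : 2 * (m + 1) = 1 + n := by omega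
    rw [e1, pow_add, pow_one]
    calc x * x ^ n * w * (x * x ^ n)⁻¹ = x * (x ^ n * w * (x ^ n)⁻¹) * x⁻¹ := by group
      _ = x * w * x⁻¹ := by rw [hxn w hwD]
  rw [h4] at h3
  rw [h3, inv_mul_cancel_left]
  exact (isoSubgroup P).pow_mem h02 (m + 1)


theorem exists_data (h : ¬ Cfsg.HasNormalPComplement 2 G) :
    ∃ (P : Sylow 2 G) (x w : G), (∀ k : ℕ, x ^ k * w * (x ^ k)⁻¹ ∈ P) ∧ (∀ z : G, IsIso P z → x * z * x⁻¹ = z) ∧
      ¬ IsIso P (w⁻¹ * (x * w * x⁻¹)) ∧ ¬ IsIso P (w⁻¹ * (x ^ 2 * w * (x ^ 2)⁻¹)) := by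
  by_contra hcon
  apply h
  apply H2.Frobenius.hasNPC_of_local
  intro D hD g hg hgo
  by_contra hgc
  obtain ⟨Q, hQ⟩ := hD.exists_le_sylow
  exact hcon ⟨Q, aux_data Q D hQ g rfl hg hgo hgc⟩

/-- the number of classes as a sum of reciprocals -/
theorem fiber_count {α β : Type*} [Fintype α] [Fintype β] [DecidableEq β] (f : α → β) (hf : Function.Surjective f) :
    (∑ a : α, (1 : ℚ) / ((Finset.univ.filter (fun c => f c = f a)).card : ℚ)) = (Fintype.card β : ℚ) := by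
  rw [← Finset.sum_fiberwise_of_maps_to (s := Finset.univ) (t := Finset.univ) (g := f) (fun _ _ => Finset.mem_univ _)]
  have h : ∀ b : β, (∑ a ∈ Finset.univ.filter (fun a => f a = b), (1 : ℚ) / ((Finset.univ.filter (fun c => f c = f a)).card : ℚ)) = 1 := by
    intro b
    obtain ⟨a, rfl⟩ := hf b
    rw [Finset.sum_congr rfl (g := fun _ => (1 : ℚ) / ((Finset.univ.filter (fun c => f c = f a)).card : ℚ)) (by
      intro c hc
      rw [(Finset.mem_filter.1 hc).2])]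
    rw [Finset.sum_const, nsmul_eq_mul, mul_one_div, div_self]
    have : 0 < (Finset.univ.filter (fun c => f c = f a)).card := Finset.card_pos.2 ⟨a, by simp⟩
    positivity
  rw [Finset.sum_congr rfl (fun b _ => h b)]
  simp

end H12.KTwo
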