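import Mathlib
import Cfsg.Agent.Lib.H12.KTwoA

/-! The equality case of S3895: the count. -/

set_option autoImplicit false

namespace H12.KTwo

open H68.Isolated H68.TwoClass MulAction
open scoped Pointwise

variable {G : Type*} [Group G] [Finite G] {p : ℕ} [Fact p.Prime]

open Classical in
/-- number of elements of `P` conjugate to `y` -/
noncomputable def nn (P : Sylow p G) (y : (P : Subgroup G)) : ℕ :=
  Nat.card {c : (P : Subgroup G) // toClass P c = toClass P y}

theorem nn_ge (P : Sylow p G) {y : (P : Subgroup G)} (s : Finset (P : Subgroup G))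
    (hs : ∀ c ∈ s, toClass P c = toClass P y) : s.card ≤ nn P y := by
  classical
  rw [nn, ← Nat.card_eq_finsetCard]
  exact Nat.card_le_card_of_injective (fun c : s => ⟨c.1, hs c c.2⟩) (fun a b h => by
    apply Subtype.ext
    exact congrArg (fun x => x.1) h)

theorem eqcase (P : Sylow p G) (x w : G) (hw : w ∈ P) (hw1 : x * w * x⁻¹ ∈ P) (hw2 : x ^ 2 * w * (x ^ 2)⁻¹ ∈ P)
    (hx : ∀ z : G, IsIso P z → x * z * x⁻¹ = z)
    (h01 : ¬ IsIso P (w⁻¹ * (x * w * x⁻¹))) (h02 : ¬ IsIso P (w⁻¹ * (x ^ 2 * w * (x ^ 2)⁻¹)))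
    (hk : 2 * Nat.card (PClass p G) = Nat.card (P : Subgroup G)) :
    (∀ y : (P : Subgroup G), (∃ z, IsIso P z ∧ ((y : G) = w * z ∨ (y : G) = x * w * x⁻¹ * z ∨
      (y : G) = x ^ 2 * w * (x ^ 2)⁻¹ * z)) → nn P y = 3) ∧
    (∀ y : (P : Subgroup G), ¬ IsIso P y → (¬ ∃ z, IsIso P z ∧ ((y : G) = w * z ∨ (y : G) = x * w * x⁻¹ * z ∨
      (y : G) = x ^ 2 * w * (x ^ 2)⁻¹ * z)) → nn P y = 2) := by
  classical
  have hx2 : ∀ z : G, IsIso P z → x ^ 2 * z * (x ^ 2)⁻¹ = z := by
    intro z hz
    calc x ^ 2 * z * (x ^ 2)⁻¹ = x * (x * z * x⁻¹) * x⁻¹ := by rw [pow_two]; group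
      _ = z := by rw [hx z hz, hx z hz]
  have hxinv : ∀ z : G, IsIso P (x * z * x⁻¹) → IsIso P z := by
    intro z hz
    have h1 := hx _ hz
    have h2 : x * z * x⁻¹ = z := by
      have : x * (x * z * x⁻¹) * x⁻¹ = x * z * x⁻¹ := h1
      have h3 : x⁻¹ * (x * (x * z * x⁻¹) * x⁻¹) * x = x⁻¹ * (x * z * x⁻¹) * x := by rw [this]
      calc x * z * x⁻¹ = x⁻¹ * (x * (x * z * x⁻¹) * x⁻¹) * x := by group
        _ = x⁻¹ * (x * z * x⁻¹) * x := h3
        _ = z := by group
    rwa [h2] at hz
  let v : Fin 3 → G := ![1, x, x ^ 2]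
  let u : Fin 3 → G := ![w, x * w * x⁻¹, x ^ 2 * w * (x ^ 2)⁻¹]
  have huv : ∀ i, u i = v i * w * (v i)⁻¹ := by
    intro i
    fin_cases i
    · show w = 1 * w * 1⁻¹
      group
    · rfl
    · rfl
  have hvz : ∀ i z, IsIso P z → v i * z * (v i)⁻¹ = z := by
    intro i z hz
    fin_cases i
    · show 1 * z * 1⁻¹ = z
      group
    · exact hx z hz
    · exact hx2 z hz
  have huP : ∀ i, u i ∈ P := by
    intro i
    fin_cases i
    · exact hw
    · exact hw1
    · exact hw2
  have hwn : ¬ IsIso P w := by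
    intro h1
    apply h01
    rw [hx w h1, inv_mul_cancel]
    exact IsIso.one P
  have hun : ∀ i, ¬ IsIso P (u i) := by
    intro i
    fin_cases i
    · exact hwn
    · exact fun h1 => hwn (hxinv w h1)
    · intro h1
      apply hwn
      apply hxinv
      apply hxinv
      have e : x * (x * w * x⁻¹) * x⁻¹ = x ^ 2 * w * (x ^ 2)⁻¹ := by rw [pow_two]; group
      rwa [e]
  have h12 : ¬ IsIso P ((x * w * x⁻¹)⁻¹ * (x ^ 2 * w * (x ^ 2)⁻¹)) := by
    intro h1
    apply h01
    apply hxinv
    have e : x * (w⁻¹ * (x * w * x⁻¹)) * x⁻¹ = (x * w * x⁻¹)⁻¹ * (x ^ 2 * w * (x ^ 2)⁻¹) := by rw [pow_two]; group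
    rwa [e]
  have hsym : ∀ a b : G, IsIso P (a⁻¹ * b) → IsIso P (b⁻¹ * a) := by
    intro a b h1
    have := h1.inv
    rwa [mul_inv_rev, inv_inv] at this
  have hdist : ∀ i j, IsIso P ((u i)⁻¹ * u j) → i = j := by
    intro i j h1
    by_contra hij
    fin_cases i <;> fin_cases j <;> first | exact hij rfl | skip
    · exact h01 h1
    · exact h02 h1
    · exact h01 (hsym _ _ h1)
    · exact h12 h1
    · exact h02 (hsym _ _ h1)
    · exact h12 (hsym _ _ h1)
  have hex : ∀ y : G, (∃ z, IsIso P z ∧ (y = w * z ∨ y = x * w * x⁻¹ * z ∨ y = x ^ 2 * w * (x ^ 2)⁻¹ * z)) ↔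
      ∃ z, IsIso P z ∧ ∃ i, y = u i * z := by
    intro y
    constructor
    · rintro ⟨z, hz, h | h | h⟩
      · exact ⟨z, hz, 0, h⟩
      · exact ⟨z, hz, 1, h⟩
      · exact ⟨z, hz, 2, h⟩
    · rintro ⟨z, hz, i, h⟩
      refine ⟨z, hz, ?_⟩
      fin_cases i
      · left; exact h
      · right; left; exact h
      · right; right; exact h
  simp only [hex]
  letI : Fintype (P : Subgroup G) := Fintype.ofFinite (P : Subgroup G)
  letI : Fintype (isoSubgroup P) := Fintype.ofFinite _
  have hfin : Finite (PClass p G) := Finite.of_surjective _ (toClass_surjective P)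
  letI : Fintype (PClass p G) := Fintype.ofFinite (PClass p G)
  let φ : (isoSubgroup P) × Fin 3 → ↥(P : Subgroup G) := fun q => ⟨u q.2 * q.1, mul_mem (huP q.2) (isoSubgroup_le P q.1.2)⟩
  have hφ : Function.Injective φ := by
    rintro ⟨z, i⟩ ⟨z', j⟩ h
    have h1 : u i * z = u j * z' := congrArg Subtype.val h
    have h2 : (u i)⁻¹ * u j = z * (z' : G)⁻¹ := by
      rw [eq_mul_inv_iff_mul_eq, mul_assoc, ← h1, inv_mul_cancel_left]
    have h3 : IsIso P ((u i)⁻¹ * u j) := by
      rw [h2]
      exact IsIso.mul z.2 (IsIso.inv z'.2)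
    have h4 := hdist i j h3
    subst h4
    have h5 : (z : G) = z' := mul_left_cancel h1
    exact Prod.ext (Subtype.ext h5) rfl
  let A : Finset (P : Subgroup G) := Finset.univ.filter (fun y => IsIso P (y : G))
  let T : Finset (P : Subgroup G) := Finset.univ.filter (fun y => ∃ z, IsIso P z ∧ ∃ i, (y : G) = u i * z)
  have hAT : Disjoint A T := by
    rw [Finset.disjoint_left]
    intro y hy hy'
    obtain ⟨z, hz, i, h⟩ := (Finset.mem_filter.1 hy').2
    apply hun i
    have h1 : u i = (y : G) * z⁻¹ := by rw [h]; group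
    rw [h1]
    exact IsIso.mul (Finset.mem_filter.1 hy).2 hz.inv
  have hAc : A.card = Fintype.card (isoSubgroup P) := by
    have h1 : A = Finset.univ.image (fun z : isoSubgroup P => (⟨z, isoSubgroup_le P z.2⟩ : (P : Subgroup G))) := by
      ext y
      rw [Finset.mem_filter, Finset.mem_image]
      constructor
      · rintro ⟨-, h⟩
        exact ⟨⟨y, h⟩, Finset.mem_univ _, rfl⟩
      · rintro ⟨z, -, rfl⟩
        exact ⟨Finset.mem_univ _, z.2⟩
    have h2 : Function.Injective (fun z : isoSubgroup P => (⟨z, isoSubgroup_le P z.2⟩ : (P : Subgroup G))) := by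
      intro a b h
      have h3 : (a : G) = b := congrArg (fun c : (P : Subgroup G) => (c : G)) h
      exact Subtype.ext h3
    rw [h1, Finset.card_image_of_injective _ h2, Finset.card_univ]
  have hTc : T.card = 3 * Fintype.card (isoSubgroup P) := by
    have h1 : T = Finset.univ.image φ := by
      ext y
      rw [Finset.mem_filter, Finset.mem_image]
      constructor
      · rintro ⟨-, z, hz, i, h⟩
        exact ⟨⟨⟨z, hz⟩, i⟩, Finset.mem_univ _, Subtype.ext h.symm⟩
      · rintro ⟨⟨z, i⟩, -, rfl⟩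
        exact ⟨Finset.mem_univ _, z, z.2, i, rfl⟩
    rw [h1, Finset.card_image_of_injective _ hφ, Finset.card_univ, Fintype.card_prod, Fintype.card_fin, mul_comm]
  have hnn : ∀ y, nn P y = (Finset.univ.filter (fun c => toClass P c = toClass P y)).card := by
    intro y
    rw [nn, Nat.card_eq_fintype_card, Fintype.card_subtype]
  have hn1 : ∀ y, 1 ≤ nn P y := by
    intro y
    have := nn_ge P (y := y) {y} (by simp)
    simpa using this
  have hn2 : ∀ y, y ∉ A → 2 ≤ nn P y := by
    intro y hy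
    have hy' : ¬ IsIso P (y : G) := fun h => hy (Finset.mem_filter.2 ⟨Finset.mem_univ _, h⟩)
    have hex : ∃ g : G, g * y * g⁻¹ ∈ P ∧ g * y * g⁻¹ ≠ y := by
      by_contra hcon
      push Not at hcon
      exact hy' ⟨y.2, hcon⟩
    obtain ⟨g, hg, hgy⟩ := hex
    have h4 : ({y, ⟨g * y * g⁻¹, hg⟩} : Finset (P : Subgroup G)).card = 2 := by
      apply Finset.card_pair
      intro h5
      exact hgy (congrArg Subtype.val h5).symm
    rw [← h4]
    apply nn_ge
    intro c hc
    rw [Finset.mem_insert, Finset.mem_singleton] at hc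
    rcases hc with rfl | rfl
    · rfl
    · symm
      rw [toClass_eq_iff]
      exact ⟨g, rfl⟩
  have hn3 : ∀ y, y ∈ T → 3 ≤ nn P y := by
    intro y hy
    obtain ⟨z, hz, i, h⟩ := (Finset.mem_filter.1 hy).2
    have h4 : (Finset.univ.image (fun j : Fin 3 => φ (⟨z, hz⟩, j))).card = 3 := by
      rw [Finset.card_image_of_injective _ (fun a b hab => (Prod.ext_iff.1 (hφ hab)).2), Finset.card_univ, Fintype.card_fin]
    rw [← h4]
    apply nn_ge
    intro c hc
    obtain ⟨j, -, rfl⟩ := Finset.mem_image.1 hc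
    rw [toClass_eq_iff]
    refine ⟨v i * (v j)⁻¹, ?_⟩
    show v i * (v j)⁻¹ * (u j * z) * (v i * (v j)⁻¹)⁻¹ = y
    rw [h, huv i, huv j]
    have e1 := hvz i z hz
    have e2 := hvz j z hz
    have e3 : (v j)⁻¹ * z * v j = z := by
      conv_lhs => rw [← e2]
      group
    calc v i * (v j)⁻¹ * (v j * w * (v j)⁻¹ * z) * (v i * (v j)⁻¹)⁻¹ = v i * w * ((v j)⁻¹ * z * v j) * (v i)⁻¹ := by group
      _ = v i * w * z * (v i)⁻¹ := by rw [e3]
      _ = v i * w * (v i)⁻¹ * (v i * z * (v i)⁻¹) := by group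
      _ = _ := by rw [e1]
  -- weights
  let g : ↥(P : Subgroup G) → ℚ := fun y => if y ∈ A then 1 else if y ∈ T then 1 / 3 else 1 / 2
  have hle : ∀ y ∈ (Finset.univ : Finset (P : Subgroup G)), (1 : ℚ) / (nn P y : ℚ) ≤ g y := by
    intro y _
    have h1 : (1 : ℚ) ≤ nn P y := by exact_mod_cast hn1 y
    by_cases hA : y ∈ A
    · simp only [g, if_pos hA]
      rw [div_le_one (by linarith)]
      exact h1
    · by_cases hT : y ∈ T
      · simp only [g, if_neg hA, if_pos hT]
        have h3 : (3 : ℚ) ≤ nn P y := by exact_mod_cast hn3 y hT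
        exact one_div_le_one_div_of_le (by norm_num) h3
      · simp only [g, if_neg hA, if_neg hT]
        have h3 : (2 : ℚ) ≤ nn P y := by exact_mod_cast hn2 y hA
        exact one_div_le_one_div_of_le (by norm_num) h3
  have hsum : ∑ y, (1 : ℚ) / (nn P y : ℚ) = (Fintype.card (PClass p G) : ℚ) := by
    rw [← fiber_count (toClass P) (toClass_surjective P)]
    refine Finset.sum_congr rfl (fun y _ => ?_)
    rw [hnn]
  have hgsum : ∑ y, g y = (Fintype.card (P : Subgroup G) : ℚ) / 2 := by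
    have h1 : ∀ y : (P : Subgroup G), g y = 1 / 2 + (if y ∈ A then (1 / 2 : ℚ) else 0) - (if y ∈ T then (1 / 6 : ℚ) else 0) := by
      intro y
      by_cases hA : y ∈ A
      · have hT : y ∉ T := Finset.disjoint_left.1 hAT hA
        simp only [g, if_pos hA, if_neg hT]
        norm_num
      · by_cases hT : y ∈ T
        · simp only [g, if_neg hA, if_pos hT]
          norm_num
        · simp only [g, if_neg hA, if_neg hT]
          norm_num
    simp only [h1]
    rw [Finset.sum_sub_distrib, Finset.sum_add_distrib, ← Finset.sum_filter, ← Finset.sum_filter]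
    rw [Finset.sum_const, Finset.sum_const, Finset.sum_const]
    have h2 : (Finset.univ.filter (fun y => y ∈ A)).card = A.card := by
      congr 1; ext y; simp
    have h3 : (Finset.univ.filter (fun y => y ∈ T)).card = T.card := by
      congr 1; ext y; simp
    rw [h2, h3, hAc, hTc, Finset.card_univ]
    simp only [nsmul_eq_mul]
    push_cast
    ring
  have heq : ∑ y, (1 : ℚ) / (nn P y : ℚ) = ∑ y, g y := by
    rw [hsum, hgsum]
    rw [Nat.card_eq_fintype_card, Nat.card_eq_fintype_card] at hk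
    have : (2 : ℚ) * (Fintype.card (PClass p G) : ℚ) = (Fintype.card (P : Subgroup G) : ℚ) := by exact_mod_cast hk
    linarith
  have hall := (Finset.sum_eq_sum_iff_of_le hle).1 heq
  constructor
  · intro y hy
    have hT : y ∈ T := Finset.mem_filter.2 ⟨Finset.mem_univ _, hy⟩
    have hA : y ∉ A := fun h => Finset.disjoint_left.1 hAT h hT
    have h1 := hall y (Finset.mem_univ _)
    simp only [g, if_neg hA, if_pos hT] at h1
    have h2 : (0 : ℚ) < nn P y := by exact_mod_cast hn1 y
    have h3 : (nn P y : ℚ) = 3 := by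
      field_simp at h1
      linarith
    exact_mod_cast h3
  · intro y hy1 hy2
    have hT : y ∉ T := fun h => hy2 (Finset.mem_filter.1 h).2
    have hA : y ∉ A := fun h => hy1 (Finset.mem_filter.1 h).2
    have h1 := hall y (Finset.mem_univ _)
    simp only [g, if_neg hA, if_neg hT] at h1
    have h2 : (0 : ℚ) < nn P y := by exact_mod_cast hn1 y
    have h3 : (nn P y : ℚ) = 2 := by
      field_simp at h1
      linarith
    exact_mod_cast h3

end H12.KTwo
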