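import Mathlib
import Cfsg.Agent.Lib.H68.TwoClass
import Cfsg.Agent.Lib.H58.TransferTwo

/-! The equality case of S3895: `k(P) ≠ |P|/2` for 2-groups, transfer and a lifting lemma. -/

set_option autoImplicit false

namespace H12.KTwo

open MulAction Subgroup
open scoped Pointwise

/-- `k(P) |P| ≡ 1 mod 3` for a `2`-group `P` -/
theorem two_group_mod {G : Type*} [Group G] [Finite G] (h : IsPGroup 2 G) :
    Nat.card (ConjClasses G) * Nat.card G ≡ 1 [MOD 3] := by
  classical
  rw [← card_comm_eq_card_conjClasses_mul_card]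
  let α := { p : G × G // Commute p.1 p.2 }
  have hfin : Finite α := inferInstance
  letI : Fintype α := Fintype.ofFinite α
  let f : Function.End α := fun p => ⟨(p.1.2, (p.1.1 * p.1.2)⁻¹), by
    show Commute p.1.2 (p.1.1 * p.1.2)⁻¹
    exact ((p.2.symm).mul_right (Commute.refl _)).inv_right⟩
  have hf1 : ∀ p : α, f p = ⟨(p.1.2, (p.1.1 * p.1.2)⁻¹), by
    show Commute p.1.2 (p.1.1 * p.1.2)⁻¹
    exact ((p.2.symm).mul_right (Commute.refl _)).inv_right⟩ := fun _ => rfl
  have hf3 : f ^ 3 ^ 1 = 1 := by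
    funext p
    show f (f (f p)) = p
    obtain ⟨⟨u, v⟩, huv⟩ := p
    have huv' : u * v = v * u := huv
    apply Subtype.ext
    apply Prod.ext
    · show (v * (u * v)⁻¹)⁻¹ = u
      group
    · show ((u * v)⁻¹ * (v * (u * v)⁻¹)⁻¹)⁻¹ = v
      rw [huv']; group
  have h1 := Equiv.Perm.card_fixedPoints_modEq (p := 3) (n := 1) hf3
  have h2 : Fintype.card (Function.fixedPoints f) = 1 := by
    rw [Fintype.card_eq_one_iff]
    refine ⟨⟨⟨(1, 1), Commute.refl _⟩, ?_⟩, ?_⟩
    · show f _ = _
      apply Subtype.ext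
      apply Prod.ext
      · rfl
      · show ((1 : G) * 1)⁻¹ = 1
        simp
    · rintro ⟨⟨⟨u, v⟩, huv⟩, hfix⟩
      have hfix' : f ⟨(u, v), huv⟩ = ⟨(u, v), huv⟩ := hfix
      have e1 : v = u := congrArg (fun p : α => p.1.1) hfix'
      have e2 : (u * v)⁻¹ = v := congrArg (fun p : α => p.1.2) hfix'
      subst e1
      have e3 : v ^ 3 = 1 := by
        calc v ^ 3 = (v * v) * v := by rw [pow_succ, pow_two]
          _ = (v * v) * (v * v)⁻¹ := by rw [e2]
          _ = 1 := mul_inv_cancel _
      obtain ⟨k, hk⟩ := h v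
      have e4 : orderOf v = 1 := by
        apply Nat.eq_one_of_dvd_coprimes (k := orderOf v) (a := 3) (b := 2 ^ k)
          (Nat.Coprime.pow_right k (by norm_num)) (orderOf_dvd_of_pow_eq_one e3) (orderOf_dvd_of_pow_eq_one hk)
      rw [orderOf_eq_one_iff] at e4
      subst e4
      rfl
  rw [h2, ← Nat.card_eq_fintype_card] at h1
  exact h1

theorem two_group_ne {G : Type*} [Group G] [Finite G] (h : IsPGroup 2 G) :
    2 * Nat.card (ConjClasses G) ≠ Nat.card G := by
  intro h1
  have h2 := two_group_mod h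
  rw [← h1] at h2
  have h3 : ∀ k : ℕ, ¬ k * (2 * k) ≡ 1 [MOD 3] := by
    intro k hk
    have h4 : k % 3 < 3 := Nat.mod_lt _ (by norm_num)
    unfold Nat.ModEq at hk
    rw [Nat.mul_mod, Nat.mul_mod 2 k] at hk
    interval_cases k % 3 <;> simp at hk
  exact h3 _ h2

theorem not_hasNPC {G : Type*} [Group G] [Finite G] (P : Sylow 2 G)
    (hk : 2 * Nat.card (H68.Isolated.PClass 2 G) = Nat.card (P : Subgroup G)) : ¬ Cfsg.HasNormalPComplement 2 G := by
  intro h
  have : Fact (Nat.Prime 2) := ⟨Nat.prime_two⟩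
  rw [H68.TwoClass.card_pClass_eq_of_hasNPC P h] at hk
  exact two_group_ne P.2 hk

/-- transfer to a quotient of order two of a Sylow 2-subgroup -/
theorem exists_index_two {G : Type*} [Group G] [Finite G] (S : Sylow 2 G) (M : Subgroup G)
    (hM : M.relIndex (S : Subgroup G) = 2)
    (hcl : ∀ y ∈ M, ∀ g : G, g * y * g⁻¹ ∈ (S : Subgroup G) → g * y * g⁻¹ ∈ M)
    (hMS : M ≤ (S : Subgroup G)) :
    ∃ H : Subgroup G, H.Normal ∧ H.index = 2 ∧ (S : Subgroup G) ⊓ H = M := by
  classical
  have : Fact (Nat.Prime 2) := ⟨Nat.prime_two⟩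
  let ϕ : ↥(S : Subgroup G) →* ℤˣ := H58.TransferTwo.sgn (M.subgroupOf (S : Subgroup G)) hM
  have hfi : (S : Subgroup G).FiniteIndex := inferInstance
  let V : G →* ℤˣ := MonoidHom.transfer ϕ
  have : Fintype (G ⧸ (S : Subgroup G)) := Fintype.ofFinite _
  have hVx : ∀ x, V x = ∏ q : Quotient (orbitRel (zpowers x) (G ⧸ (S : Subgroup G))),
      ϕ ⟨q.out.out⁻¹ * x ^ (Function.minimalPeriod (x • ·) q.out) * q.out.out,
        QuotientGroup.out_conj_pow_minimalPeriod_mem (S : Subgroup G) x q.out⟩ := by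
    intro x
    change MonoidHom.transfer ϕ x = _
    rw [MonoidHom.transfer_eq_prod_quotient_orbitRel_zpowers_quot]
  have hcl' : ∀ y ∈ M, ∀ g : G, g⁻¹ * y * g ∈ (S : Subgroup G) → g⁻¹ * y * g ∈ M := by
    intro y hy g hg
    have := hcl y hy g⁻¹
    rw [inv_inv] at this
    exact this hg
  -- elements of M
  have hVM : ∀ x ∈ M, V x = 1 := by
    intro x hx
    rw [hVx]
    apply Finset.prod_eq_one
    intro q _
    apply H58.TransferTwo.sgn_of_mem
    rw [Subgroup.mem_subgroupOf]
    exact hcl' _ (pow_mem hx _) _ (QuotientGroup.out_conj_pow_minimalPeriod_mem (S : Subgroup G) x q.out)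
  -- elements of S outside M
  have hVS : ∀ x ∈ (S : Subgroup G), x ∉ M → V x = -1 := by
    intro x hx hxM
    have hx2 : x ^ 2 ∈ M := by
      have h1 : (⟨x, hx⟩ : (S : Subgroup G)) ^ 2 ∈ M.subgroupOf (S : Subgroup G) := by
        rw [pow_two]
        exact Subgroup.mul_self_mem_of_index_two hM _
      exact h1
    have hVx' : V x = ∏ q : Quotient (orbitRel (zpowers x) (G ⧸ (S : Subgroup G))),
        (-1 : ℤˣ) ^ (Function.minimalPeriod (x • ·) q.out) := by
      rw [hVx]
      refine Finset.prod_congr rfl fun q _ => ?_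
      set r := Function.minimalPeriod (x • ·) q.out with hr
      have hmem := QuotientGroup.out_conj_pow_minimalPeriod_mem (S : Subgroup G) x q.out
      rw [← hr] at hmem
      have hr2 : r = 1 ∨ 2 ∣ r := by
        obtain ⟨k, hk⟩ := S.isPGroup' ⟨x, hx⟩
        have hxk : x ^ (2 ^ k) = 1 := by simpa using congrArg Subtype.val hk
        have h1 : r ∣ 2 ^ k := by
          rw [hr, ← MulAction.pow_smul_eq_iff_minimalPeriod_dvd, hxk, one_smul]
        obtain ⟨j, _, hj⟩ := (Nat.dvd_prime_pow Nat.prime_two).1 h1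
        rcases j with _ | j
        · left; simpa using hj
        · right; rw [hj]; exact dvd_pow_self 2 (Nat.succ_ne_zero j)
      rcases hr2 with h1 | h2
      · have e1 : ((-1 : ℤˣ) ^ r) = -1 := by rw [h1, pow_one]
        refine Eq.trans ?_ e1.symm
        apply H58.TransferTwo.sgn_of_notMem
        rw [Subgroup.mem_subgroupOf]
        change q.out.out⁻¹ * x ^ r * q.out.out ∉ M
        rw [h1, pow_one]
        intro hc
        apply hxM
        have h3 := hcl _ hc q.out.out (by
          have e : q.out.out * (q.out.out⁻¹ * x * q.out.out) * q.out.out⁻¹ = x := by group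
          rw [e]; exact hx)
        have e : q.out.out * (q.out.out⁻¹ * x * q.out.out) * q.out.out⁻¹ = x := by group
        rwa [e] at h3
      · refine Eq.trans ?_ (even_iff_two_dvd.2 h2).neg_one_pow.symm
        apply H58.TransferTwo.sgn_of_mem
        rw [Subgroup.mem_subgroupOf]
        obtain ⟨j, hj⟩ := h2
        apply hcl' _ _ _ hmem
        rw [hj, pow_mul]
        exact pow_mem hx2 j
    rw [hVx', Finset.prod_pow_eq_pow_sum, ← Subgroup.index_eq_sum_minimalPeriod]
    have hodd : Odd (S : Subgroup G).index := by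
      rw [← Nat.not_even_iff_odd, even_iff_two_dvd]
      exact S.not_dvd_index
    exact hodd.neg_one_pow
  have hex : ∃ x ∈ (S : Subgroup G), x ∉ M := by
    by_contra hcon
    push Not at hcon
    rw [Subgroup.relIndex_eq_one.2 hcon] at hM
    omega
  obtain ⟨x, hx, hxM⟩ := hex
  refine ⟨V.ker, inferInstance, H58.TransferTwo.index_ker_eq_two V (x := x) ?_, ?_⟩
  · rw [hVS x hx hxM]; decide
  · ext y
    rw [mem_inf, MonoidHom.mem_ker]
    constructor
    · rintro ⟨h1, h2⟩
      by_contra h3
      rw [hVS y h1 h3] at h2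
      exact absurd h2 (by decide)
    · intro h
      exact ⟨hMS h, hVM y h⟩

/-- a simple normal subgroup of a subgroup of index two -/
theorem lift_simple {X : Type*} [Group X] [Finite X] (X0 : Subgroup X) (hX0 : X0.Normal) (hi : X0.index = 2)
    (hno2 : ∀ N : Subgroup X, N.Normal → Nat.card N ≠ 2) (L : Subgroup X0) (hL : L.Normal) (hs : IsSimpleGroup L)
    (hc : centralizer (L : Set X0) = ⊥) :
    (L.map X0.subtype).Normal ∧ centralizer ((L.map X0.subtype : Subgroup X) : Set X) = ⊥ := by
  have hL1 : Nat.card L ≠ 1 := by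
    intro h1
    have := hs.toNontrivial
    have h2 := Finite.one_lt_card (α := L)
    omega
  have hinv : ∀ g : X, L.map (MulAut.conjNormal g : MulAut X0).toMonoidHom = L := by
    intro g
    set L2 := L.map (MulAut.conjNormal g : MulAut X0).toMonoidHom with hL2
    have hcard : Nat.card L2 = Nat.card L :=
      Subgroup.card_map_of_injective (MulAut.conjNormal g : MulAut X0).injective
    have hL2n : L2.Normal := hL.map _ (MulAut.conjNormal g : MulAut X0).surjective
    have hn : ((L ⊓ L2).subgroupOf L).Normal := (Subgroup.normal_inf_normal L L2).subgroupOf L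
    rcases hs.eq_bot_or_eq_top_of_normal _ hn with h1 | h1
    · exfalso
      rw [Subgroup.subgroupOf_eq_bot, disjoint_iff] at h1
      have h2 : L ⊓ L2 = ⊥ := by
        rw [eq_bot_iff, ← h1]
        exact le_inf le_rfl inf_le_left
      have h3 : L2 ≤ centralizer (L : Set X0) := by
        intro y hy
        rw [mem_centralizer_iff]
        intro l hl
        exact (Subgroup.commute_of_normal_of_disjoint L L2 hL hL2n (disjoint_iff.2 h2) l y hl hy).eq
      rw [hc, le_bot_iff] at h3
      rw [h3, Subgroup.card_bot] at hcard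
      exact hL1 hcard.symm
    · rw [Subgroup.subgroupOf_eq_top] at h1
      have h2 : L ≤ L2 := h1.trans inf_le_right
      exact (Subgroup.eq_of_le_of_card_ge h2 hcard.le).symm
  have hLn : (L.map X0.subtype).Normal := by
    refine ⟨?_⟩
    rintro _ ⟨l, hl, rfl⟩ g
    have h1 : (MulAut.conjNormal g : MulAut X0) l ∈ L := by
      have h2 : (MulAut.conjNormal g : MulAut X0) l ∈ L.map (MulAut.conjNormal g : MulAut X0).toMonoidHom := ⟨l, hl, rfl⟩
      rwa [hinv g] at h2
    exact ⟨_, h1, by simp⟩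
  refine ⟨hLn, ?_⟩
  set D := centralizer ((L.map X0.subtype : Subgroup X) : Set X) with hD
  have hDn : D.Normal := Subgroup.normal_centralizer
  have hD0 : D ⊓ X0 = ⊥ := by
    rw [eq_bot_iff]
    rintro y ⟨hy, hy0⟩
    have h1 : (⟨y, hy0⟩ : X0) ∈ centralizer (L : Set X0) := by
      rw [mem_centralizer_iff]
      intro l hl
      apply Subtype.ext
      exact (mem_centralizer_iff.1 hy) l ⟨l, hl, rfl⟩
    rw [hc] at h1
    exact congrArg Subtype.val h1
  have hle : Nat.card D ≤ 2 := by
    have h1 : Function.Injective (fun y : D => (QuotientGroup.mk' X0 (y : X))) := by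
      intro u v huv
      have h2 : (u : X)⁻¹ * v ∈ X0 := QuotientGroup.eq.1 huv
      have h3 : (u : X)⁻¹ * v ∈ D ⊓ X0 := ⟨D.mul_mem (D.inv_mem u.2) v.2, h2⟩
      rw [hD0] at h3
      exact Subtype.ext (inv_mul_eq_one.1 h3)
    have h2 := Nat.card_le_card_of_injective _ h1
    rw [← Subgroup.index_eq_card, hi] at h2
    exact h2
  have hne := hno2 D hDn
  have hpos : 0 < Nat.card D := Nat.card_pos
  exact Subgroup.card_eq_one.1 (by omega)

end H12.KTwo
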