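import Cfsg.Agent.Lib.H12.NilpComp
import Cfsg.Agent.Lib.H12.FacHall
import Cfsg.Agent.Lib.H1.Solv

set_option autoImplicit false

/-! Kegel–Wielandt theorem, coprime case: the setting. -/

open scoped Pointwise

namespace H12.KW

open Subgroup H12.Nil H12.Kegel

variable {G : Type*} [Group G]

structure Ctx (A B : Subgroup G) : Prop where
  hA : Group.IsNilpotent A
  hB : Group.IsNilpotent B
  hcop : (Nat.card A).Coprime (Nat.card B)
  hAB : ∀ g : G, ∃ a ∈ A, ∃ b ∈ B, g = a * b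
  hsimple : ∀ N : Subgroup G, N.Normal → N = ⊥ ∨ N = ⊤
  hns : ¬ Group.IsSolvable G
  hmin : ∀ L : Subgroup G, L ≠ ⊤ → (∀ g ∈ L, ∃ a ∈ L ⊓ A, ∃ b ∈ L ⊓ B, g = a * b) →
    Group.IsSolvable L
  hpA : ∀ p : ℕ, ∃ r : ℕ, r.Prime ∧ r ≠ p ∧ r ∣ Nat.card A
  hpB : ∀ p : ℕ, ∃ r : ℕ, r.Prime ∧ r ≠ p ∧ r ∣ Nat.card B

theorem swap_fac {L A B : Subgroup G} (h : ∀ g ∈ L, ∃ a ∈ A, ∃ b ∈ B, g = a * b) :
    ∀ g ∈ L, ∃ b ∈ B, ∃ a ∈ A, g = b * a := by
  intro g hg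
  obtain ⟨a, ha, b, hb, e⟩ := h g⁻¹ (L.inv_mem hg)
  exact ⟨b⁻¹, B.inv_mem hb, a⁻¹, A.inv_mem ha, by rw [← inv_inj, e]; group⟩

theorem Ctx.symm {A B : Subgroup G} (h : Ctx A B) : Ctx B A where
  hA := h.hB
  hB := h.hA
  hcop := h.hcop.symm
  hAB := fun g => swap_fac (L := ⊤) (fun g _ => h.hAB g) g trivial
  hsimple := h.hsimple
  hns := h.hns
  hmin := fun L hL hfac => h.hmin L hL (swap_fac hfac)
  hpA := h.hpB
  hpB := h.hpA

variable [Finite G] {A B : Subgroup G}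

namespace Ctx

variable (h : Ctx A B)
include h

theorem card_eq : Nat.card G = Nat.card A * Nat.card B := by
  have h1 := FacSylow.fac_card h.hAB
  have h2 : A ⊓ B = ⊥ := Subgroup.inf_eq_bot_of_coprime h.hcop
  rwa [h2, Subgroup.card_bot, mul_one] at h1

theorem inf_eq_bot : A ⊓ B = ⊥ := Subgroup.inf_eq_bot_of_coprime h.hcop

theorem not_dvd_B {p : ℕ} (hp : p.Prime) (hpA : p ∣ Nat.card A) : ¬ p ∣ Nat.card B := by
  intro hpB
  exact hp.one_lt.ne' (Nat.eq_one_of_dvd_coprimes h.hcop hpA hpB)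

theorem index_A : A.index = Nat.card B := by
  have h1 := Subgroup.card_mul_index A
  rw [h.card_eq] at h1
  exact Nat.eq_of_mul_eq_mul_left Nat.card_pos h1

theorem not_dvd_index {p : ℕ} [hp : Fact p.Prime] (hpA : p ∣ Nat.card A) :
    ¬ p ∣ (Sy A p).index := by
  apply not_dvd_index_Sy h.hA
  rw [h.index_A]
  exact h.not_dvd_B hp.out hpA

/-- `S` a `p`-subgroup normalizing `Sy A p`, then `S ≤ Sy A p`. -/
theorem le_Sy_of_normalizer {p : ℕ} [hp : Fact p.Prime] (hpA : p ∣ Nat.card A) {S : Subgroup G}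
    (hS : IsPGroup p S) (hN : S ≤ normalizer (Sy A p : Set G)) : S ≤ Sy A p := by
  obtain ⟨P, hP⟩ : ∃ P : Sylow p G, (P : Subgroup G) = Sy A p :=
    ⟨(isPGroup_Sy A p).toSylow (h.not_dvd_index hpA), rfl⟩
  have h1 := hS.inf_normalizer_sylow P
  change S ⊓ normalizer ((P : Subgroup G) : Set G) = S ⊓ (P : Subgroup G) at h1
  rw [hP, inf_eq_left.2 hN] at h1
  rw [h1]; exact inf_le_right

/-- every `p`-subgroup is conjugate into `Sy A p` by an element of... -/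
theorem exists_conj_le {p : ℕ} [hp : Fact p.Prime] (hpA : p ∣ Nat.card A) {S : Subgroup G}
    (hS : IsPGroup p S) : ∃ b ∈ B, MulAut.conj b • S ≤ Sy A p := by
  obtain ⟨P, hP⟩ : ∃ P : Sylow p G, (P : Subgroup G) = Sy A p :=
    ⟨(isPGroup_Sy A p).toSylow (h.not_dvd_index hpA), rfl⟩
  obtain ⟨Q, hQ⟩ := hS.exists_le_sylow
  obtain ⟨g, hg⟩ := MulAction.exists_smul_eq G Q P
  obtain ⟨a, ha, b, hb, rfl⟩ := h.hAB g
  refine ⟨b, hb, ?_⟩
  have h1 : MulAut.conj (a * b) • S ≤ Sy A p := by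
    rw [← hP, ← hg, Sylow.coe_subgroup_smul]
    exact Subgroup.pointwise_smul_le_pointwise_smul_iff.mpr hQ
  have h2 : MulAut.conj a • Sy A p = Sy A p :=
    Basic.conj_smul_eq_of_mem_normalizer (le_normalizer_Sy h.hA p ha)
  rw [← conj_conj_smul, ← h2, Subgroup.pointwise_smul_le_pointwise_smul_iff] at h1
  exact h1

/-- a subgroup normalizing `A`, of order prime to `|B|`, is in `A`. -/
theorem le_of_normalizes {X : Subgroup G} (hX : X ≤ normalizer (A : Set G))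
    (hc : (Nat.card X).Coprime (Nat.card B)) : X ≤ A := by
  have h1 : ((A ⊔ X : Subgroup G) : Set G) = (A : Set G) * (X : Set G) :=
    Subgroup.coe_mul_of_right_le_normalizer_left A X hX
  have h2 := Basic.card_mul_inf A X
  rw [← h1] at h2
  have h3 : Nat.card (A ⊔ X : Subgroup G) ∣ Nat.card A * Nat.card X := by
    rw [← h2]; exact Dvd.intro _ rfl
  have h4 : (Nat.card (A ⊔ X : Subgroup G)).Coprime (Nat.card B) :=
    Nat.Coprime.coprime_dvd_left h3 (Nat.Coprime.mul_left h.hcop hc)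
  have h5 : Nat.card (A ⊔ X : Subgroup G) ∣ Nat.card A := by
    apply h4.dvd_of_dvd_mul_right
    rw [← h.card_eq]
    exact Subgroup.card_subgroup_dvd_card _
  have h6 : A = A ⊔ X := Subgroup.eq_of_le_of_card_ge le_sup_left
    (Nat.le_of_dvd Nat.card_pos h5)
  rw [h6]; exact le_sup_right

/-- a subgroup normalized by `A`, of order prime to `|B|`, is in `A`. -/
theorem le_of_normalized {X : Subgroup G} (hX : A ≤ normalizer (X : Set G))
    (hc : (Nat.card X).Coprime (Nat.card B)) : X ≤ A := by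
  have h1 : ((A ⊔ X : Subgroup G) : Set G) = (A : Set G) * (X : Set G) :=
    Subgroup.coe_mul_of_left_le_normalizer_right A X hX
  have h2 := Basic.card_mul_inf A X
  rw [← h1] at h2
  have h3 : Nat.card (A ⊔ X : Subgroup G) ∣ Nat.card A * Nat.card X := by
    rw [← h2]; exact Dvd.intro _ rfl
  have h4 : (Nat.card (A ⊔ X : Subgroup G)).Coprime (Nat.card B) :=
    Nat.Coprime.coprime_dvd_left h3 (Nat.Coprime.mul_left h.hcop hc)
  have h5 : Nat.card (A ⊔ X : Subgroup G) ∣ Nat.card A := by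
    apply h4.dvd_of_dvd_mul_right
    rw [← h.card_eq]
    exact Subgroup.card_subgroup_dvd_card _
  have h6 : A = A ⊔ X := Subgroup.eq_of_le_of_card_ge le_sup_left
    (Nat.le_of_dvd Nat.card_pos h5)
  rw [h6]; exact le_sup_right

/-- permutability inside factorized solvable subgroups -/
theorem perm {L X Y : Subgroup G} (hL : Group.IsSolvable L)
    (hfac : ∀ g ∈ L, ∃ a ∈ L ⊓ A, ∃ b ∈ L ⊓ B, g = a * b) (hX : X ≤ L ⊓ A) (hY : Y ≤ L ⊓ B)
    (hXn : ∀ a ∈ L ⊓ A, ∀ x ∈ X, a * x * a⁻¹ ∈ X) (hYn : ∀ b ∈ L ⊓ B, ∀ y ∈ Y, b * y * b⁻¹ ∈ Y)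
    (hXh : (Nat.card X).Coprime (X.relIndex (L ⊓ A)))
    (hYh : (Nat.card Y).Coprime (Y.relIndex (L ⊓ B))) : Perm X Y := by
  have hXL : X ≤ L := hX.trans inf_le_left
  have hYL : Y ≤ L := hY.trans inf_le_left
  have hLA : L ⊓ A ≤ L := inf_le_left
  have hLB : L ⊓ B ≤ L := inf_le_left
  have hinf : (L ⊓ A) ⊓ (L ⊓ B) = ⊥ := by
    rw [eq_bot_iff, ← h.inf_eq_bot]
    exact inf_le_inf inf_le_right inf_le_right
  have hfac' : ∀ g : L, ∃ a ∈ (L ⊓ A).subgroupOf L, ∃ b ∈ (L ⊓ B).subgroupOf L, g = a * b := by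
    rintro ⟨g, hg⟩
    obtain ⟨a, ha, b, hb, e⟩ := hfac g hg
    exact ⟨⟨a, hLA ha⟩, Subgroup.mem_subgroupOf.2 ha, ⟨b, hLB hb⟩, Subgroup.mem_subgroupOf.2 hb,
      Subtype.ext e⟩
  have hcard : Nat.card L = Nat.card ↥(L ⊓ A) * Nat.card ↥(L ⊓ B) := by
    have h1 := FacSylow.fac_card hfac'
    have h2 : (L ⊓ A).subgroupOf L ⊓ (L ⊓ B).subgroupOf L = ⊥ := by
      rw [eq_bot_iff]
      rintro x ⟨hx1, hx2⟩
      have h3 : (x : G) ∈ (L ⊓ A) ⊓ (L ⊓ B) := Subgroup.mem_inf.mpr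
        ⟨Subgroup.mem_subgroupOf.1 hx1, Subgroup.mem_subgroupOf.1 hx2⟩
      rw [hinf, Subgroup.mem_bot] at h3
      exact Subgroup.mem_bot.2 (Subtype.ext h3)
    rw [h2, Subgroup.card_bot, mul_one, Basic.card_subgroupOf hLA, Basic.card_subgroupOf hLB] at h1
    exact h1
  have hXi : (X.subgroupOf L).index = X.relIndex (L ⊓ A) * Nat.card ↥(L ⊓ B) := by
    have h1 := Basic.card_mul_relIndex hXL
    have h2 := Basic.card_mul_relIndex hX
    rw [hcard, ← h2, mul_assoc] at h1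
    exact Nat.eq_of_mul_eq_mul_left Nat.card_pos h1
  have hYi : (Y.subgroupOf L).index = Y.relIndex (L ⊓ B) * Nat.card ↥(L ⊓ A) := by
    have h1 := Basic.card_mul_relIndex hYL
    have h2 := Basic.card_mul_relIndex hY
    rw [hcard, mul_comm (Nat.card ↥(L ⊓ A)), ← h2, mul_assoc] at h1
    exact Nat.eq_of_mul_eq_mul_left Nat.card_pos h1
  have hXB : (Nat.card X).Coprime (Nat.card ↥(L ⊓ B)) :=
    Nat.Coprime.coprime_dvd_left (Subgroup.card_dvd_of_le (hX.trans inf_le_right))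
      (Nat.Coprime.coprime_dvd_right (Subgroup.card_dvd_of_le inf_le_right) h.hcop)
  have hYA : (Nat.card Y).Coprime (Nat.card ↥(L ⊓ A)) :=
    Nat.Coprime.coprime_dvd_left (Subgroup.card_dvd_of_le (hY.trans inf_le_right))
      (Nat.Coprime.coprime_dvd_right (Subgroup.card_dvd_of_le inf_le_right) h.hcop.symm)
  have h1 := FacHall.perm_of_hall hL (A := X.subgroupOf L) (B := Y.subgroupOf L) hfac'
    (by
      rintro ⟨a, haL⟩ ha ⟨x, hxL⟩ hx
      exact Subgroup.mem_subgroupOf.2 (hXn a (Subgroup.mem_subgroupOf.1 ha) x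
        (Subgroup.mem_subgroupOf.1 hx)))
    (by
      rintro ⟨a, haL⟩ ha ⟨x, hxL⟩ hx
      exact Subgroup.mem_subgroupOf.2 (hYn a (Subgroup.mem_subgroupOf.1 ha) x
        (Subgroup.mem_subgroupOf.1 hx)))
    (by rw [hXi, Basic.card_subgroupOf hXL]; exact Nat.Coprime.mul_right hXh hXB)
    (by rw [hYi, Basic.card_subgroupOf hYL]; exact Nat.Coprime.mul_right hYh hYA)
  intro a ha b hb
  obtain ⟨a', ha', b', hb', e⟩ := h1 ⟨a, hXL ha⟩ (Subgroup.mem_subgroupOf.2 ha) ⟨b, hYL hb⟩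
    (Subgroup.mem_subgroupOf.2 hb)
  exact ⟨a', Subgroup.mem_subgroupOf.1 ha', b', Subgroup.mem_subgroupOf.1 hb',
    congrArg Subtype.val e⟩

theorem nilp_inf (L : Subgroup G) : Group.IsNilpotent ↥(L ⊓ A) :=
  NilpHall.isNilpotent_of_le h.hA inf_le_right

theorem hall_Sy {C : Subgroup G} (hC : Group.IsNilpotent C) (p : ℕ) [hp : Fact p.Prime] :
    (Nat.card (Sy C p)).Coprime ((Sy C p).relIndex C) := by
  obtain ⟨k, hk⟩ := (isPGroup_Sy C p).exists_card_eq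
  rw [hk]
  exact Nat.Coprime.pow_left k ((hp.out.coprime_iff_not_dvd).2 (not_dvd_relIndex_Sy hC p))

theorem conj_Sy {C : Subgroup G} (hC : Group.IsNilpotent C) (p : ℕ) [hp : Fact p.Prime] :
    ∀ a ∈ C, ∀ x ∈ Sy C p, a * x * a⁻¹ ∈ Sy C p := fun a ha x hx =>
  (Subgroup.mem_normalizer_iff.1 (le_normalizer_Sy hC p ha) x).1 hx

theorem perm_Sy {L : Subgroup G} (hL : Group.IsSolvable L)
    (hfac : ∀ g ∈ L, ∃ a ∈ L ⊓ A, ∃ b ∈ L ⊓ B, g = a * b) (p q : ℕ) [Fact p.Prime] [Fact q.Prime] :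
    Perm (Sy (L ⊓ A) p) (Sy (L ⊓ B) q) :=
  h.perm hL hfac (Sy_le _ _) (Sy_le _ _) (h.conj_Sy (h.nilp_inf L) p)
    (h.conj_Sy (h.symm.nilp_inf L) q) (h.hall_Sy (h.nilp_inf L) p) (h.hall_Sy (h.symm.nilp_inf L) q)

theorem perm_A_Sy {L : Subgroup G} (hL : Group.IsSolvable L)
    (hfac : ∀ g ∈ L, ∃ a ∈ L ⊓ A, ∃ b ∈ L ⊓ B, g = a * b) (q : ℕ) [Fact q.Prime] :
    Perm (L ⊓ A) (Sy (L ⊓ B) q) :=
  h.perm hL hfac le_rfl (Sy_le _ _) (fun a ha x hx => mul_mem (mul_mem ha hx) (inv_mem ha))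
    (h.conj_Sy (h.symm.nilp_inf L) q) (by rw [Subgroup.relIndex_self]; exact Nat.coprime_one_right _)
    (h.hall_Sy (h.symm.nilp_inf L) q)

end Ctx
end H12.KW
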