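import Cfsg.Agent.Lib.H12.KW1

set_option autoImplicit false

/-! Kegel–Wielandt theorem, coprime case: first steps. -/

open scoped Pointwise

namespace H12.KW

open Subgroup H12.Nil H12.Kegel

variable {G : Type*} [Group G] [Finite G] {A B : Subgroup G}

theorem norm_le_norm_cent (S : Subgroup G) :
    normalizer (S : Set G) ≤ normalizer ((centralizer (S : Set G) : Subgroup G) : Set G) := by
  intro g hg
  apply Basic.mem_normalizer_of_conj
  intro x hx
  rw [Subgroup.mem_centralizer_iff] at hx ⊢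
  intro y hy
  have h1 : g⁻¹ * y * g ∈ S := ((Subgroup.mem_normalizer_iff''.1 hg) y).1 hy
  have h2 := hx _ h1
  calc y * (g * x * g⁻¹) = g * ((g⁻¹ * y * g) * x) * g⁻¹ := by group
    _ = _ := by rw [h2]; group

namespace Ctx

variable (h : Ctx A B)
include h

/-- (K) -/
theorem not_perm {p q : ℕ} [hp : Fact p.Prime] [hq : Fact q.Prime] (hpA : p ∣ Nat.card A)
    (hqB : q ∣ Nat.card B) : ¬ Perm (Sy A p) (Sy B q) := by
  intro hperm
  obtain ⟨N, hN, hNtop, hle⟩ := kegel (Sy A p) (Sy B q) (by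
    intro x
    obtain ⟨g, -, -, h1⟩ := FacHall.perm_conj h.hAB
      (FacHall.conj_smul_eq_of_conj_mem (h.conj_Sy h.hA p))
      (FacHall.conj_smul_eq_of_conj_mem (h.conj_Sy h.hB q)) hperm 1 x
    rw [map_one, one_smul] at h1
    obtain ⟨S, hS⟩ := perm_iff.1 h1
    refine ⟨S, ?_, hS⟩
    rintro rfl
    obtain ⟨r, hr, hrp, hrA⟩ := h.hpA p
    have hrq : r ≠ q := by
      rintro rfl
      exact h.not_dvd_B hr hrA hqB
    have h2 := Basic.card_mul_inf (Sy A p) (MulAut.conj x • Sy B q)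
    rw [← hS] at h2
    have h3 : r ∣ Nat.card (Sy A p) * Nat.card (MulAut.conj x • Sy B q : Subgroup G) := by
      rw [← h2]
      refine Dvd.dvd.mul_right ?_ _
      have h4 : Nat.card ((⊤ : Subgroup G) : Set G) = Nat.card G := by
        rw [Subgroup.coe_top]; exact Nat.card_univ
      rw [h4, h.card_eq]
      exact Dvd.dvd.mul_right hrA _
    rw [Basic.card_conj_smul] at h3
    obtain ⟨k, hk⟩ := (isPGroup_Sy A p).exists_card_eq
    obtain ⟨l, hl⟩ := (isPGroup_Sy B q).exists_card_eq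
    rw [hk, hl] at h3
    rcases hr.dvd_mul.1 h3 with h4 | h4
    · exact hrp ((Nat.prime_dvd_prime_iff_eq hr hp.out).1 (hr.dvd_of_dvd_pow h4))
    · exact hrq ((Nat.prime_dvd_prime_iff_eq hr hq.out).1 (hr.dvd_of_dvd_pow h4)))
  have hNb : N = ⊥ := (h.hsimple N hN).resolve_right hNtop
  rw [hNb] at hle
  rcases hle with hle | hle
  · exact Sy_ne_bot h.hA hpA (le_bot_iff.1 hle)
  · exact Sy_ne_bot h.hB hqB (le_bot_iff.1 hle)

theorem ne_top_of_isPGroup {p : ℕ} [hp : Fact p.Prime] {Q : Subgroup G} (hQ : IsPGroup p Q) :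
    Q ≠ ⊤ := by
  rintro rfl
  apply h.hns
  have h1 : IsPGroup p G := hQ.of_equiv Subgroup.topEquiv
  have h2 := h1.isNilpotent
  infer_instance

theorem normalizer_ne_top {Q : Subgroup G} (h1 : Q ≠ ⊥) (h2 : Q ≠ ⊤) :
    normalizer (Q : Set G) ≠ ⊤ := by
  intro h3
  have h4 : Q.Normal := Subgroup.normalizer_eq_top_iff.1 h3
  rcases h.hsimple Q h4 with h5 | h5
  · exact h1 h5
  · exact h2 h5

/-- normalizers of `⟨X, Y⟩`, `X ⊴ A`, `Y ⊴ B`, factorize. -/
theorem fac_normalizer {X Y : Subgroup G} (hX : ∀ a ∈ A, ∀ x ∈ X, a * x * a⁻¹ ∈ X)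
    (hY : ∀ b ∈ B, ∀ y ∈ Y, b * y * b⁻¹ ∈ Y) :
    ∀ g ∈ normalizer ((X ⊔ Y : Subgroup G) : Set G),
      ∃ a ∈ normalizer ((X ⊔ Y : Subgroup G) : Set G) ⊓ A,
      ∃ b ∈ normalizer ((X ⊔ Y : Subgroup G) : Set G) ⊓ B, g = a * b := by
  intro g hg
  obtain ⟨a, ha, b, hb, rfl⟩ := h.hAB g
  have key : a ∈ normalizer ((X ⊔ Y : Subgroup G) : Set G) := by
    apply H12.Basic.mem_normalizer_of_conj
    have : (X ⊔ Y).map (MulAut.conj a).toMonoidHom ≤ X ⊔ Y := by
      rw [Subgroup.map_sup]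
      refine sup_le ?_ ?_
      · rintro _ ⟨x, hx, rfl⟩
        exact Subgroup.mem_sup_left (hX a ha x hx)
      · rintro _ ⟨y, hy, rfl⟩
        have h1 : b⁻¹ * y * b ∈ Y := by simpa using hY b⁻¹ (B.inv_mem hb) y hy
        have h2 := (Subgroup.mem_normalizer_iff.mp hg _).mp (Subgroup.mem_sup_right (S := X) h1)
        have e : a * b * (b⁻¹ * y * b) * (a * b)⁻¹ = a * y * a⁻¹ := by group
        rw [e] at h2
        exact h2
    intro x hx
    exact this ⟨x, hx, rfl⟩
  refine ⟨a, ⟨key, ha⟩, b, ⟨?_, hb⟩, rfl⟩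
  have := Subgroup.mul_mem _ (Subgroup.inv_mem _ key) hg
  simpa using this

/-- (1) no nontrivial `q`-subgroup is normalized by `A_p`. -/
theorem no_inv {p q : ℕ} [hp : Fact p.Prime] [hq : Fact q.Prime] (hpA : p ∣ Nat.card A)
    (hqB : q ∣ Nat.card B) {Q : Subgroup G} (hQ : IsPGroup q Q)
    (hN : Sy A p ≤ normalizer (Q : Set G)) : Q = ⊥ := by
  by_contra hne
  -- conjugate into B_q
  obtain ⟨a, ha, haQ⟩ := h.symm.exists_conj_le hqB hQ
  set Q1 : Subgroup G := MulAut.conj a • Q with hQ1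
  have hQ1p : IsPGroup q Q1 := hQ.of_equiv (Subgroup.equivSMul (MulAut.conj a) Q)
  have hQ1ne : Q1 ≠ ⊥ := by
    intro h1
    apply hne
    have h2 := Basic.card_conj_smul a Q
    rw [← hQ1, h1, Subgroup.card_bot] at h2
    exact Subgroup.card_eq_one.1 h2.symm
  have hN1 : Sy A p ≤ normalizer (Q1 : Set G) := by
    rw [hQ1, ← Basic.conj_smul_normalizer]
    have h2 : MulAut.conj a • Sy A p = Sy A p :=
      Basic.conj_smul_eq_of_mem_normalizer (le_normalizer_Sy h.hA p ha)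
    rw [← h2]
    exact Subgroup.pointwise_smul_le_pointwise_smul_iff.mpr hN
  obtain ⟨s, hs, hsq, hsB⟩ := h.hpB q
  have := Fact.mk hs
  have hs1 : Sy B s ≤ normalizer (Q1 : Set G) := by
    refine le_trans ?_ (Subgroup.centralizer_le_normalizer (Q1 : Set G))
    exact (Sy_le_centralizer h.hB hsq).trans (Subgroup.centralizer_le (SetLike.coe_subset_coe.2 haQ))
  have hU : Sy A p ⊔ Sy B s ≤ normalizer (Q1 : Set G) := sup_le hN1 hs1
  have hnt := h.normalizer_ne_top hQ1ne (h.ne_top_of_isPGroup hQ1p)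
  have hU1 : Sy A p ⊔ Sy B s ≠ ⊥ := by
    intro h1
    exact Sy_ne_bot h.hA hpA (le_bot_iff.1 (h1 ▸ le_sup_left))
  have hU2 : Sy A p ⊔ Sy B s ≠ ⊤ := by
    intro h1
    exact hnt (top_le_iff.1 (h1 ▸ hU))
  have hL := h.normalizer_ne_top hU1 hU2
  have hfac := h.fac_normalizer (h.conj_Sy h.hA p) (h.symm.conj_Sy h.hB s)
  set L := normalizer ((Sy A p ⊔ Sy B s : Subgroup G) : Set G) with hLdef
  have hsol := h.hmin L hL hfac
  have h1 := h.perm_Sy hsol hfac p s
  have hUL : Sy A p ⊔ Sy B s ≤ L := Subgroup.le_normalizer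
  have e1 : Sy (L ⊓ A) p = Sy A p := by
    apply le_antisymm (Sy_mono h.hA p inf_le_right)
    exact le_Sy (h.nilp_inf L) (le_inf (le_sup_left.trans hUL) (Sy_le A p)) (isPGroup_Sy A p)
  have e2 : Sy (L ⊓ B) s = Sy B s := by
    apply le_antisymm (Sy_mono h.hB s inf_le_right)
    exact le_Sy (h.symm.nilp_inf L) (le_inf (le_sup_right.trans hUL) (Sy_le B s)) (isPGroup_Sy B s)
  rw [e1, e2] at h1
  exact h.not_perm hpA hsB h1

theorem coprime_of_no_q {X : Subgroup G} (hX : ∀ q : ℕ, q.Prime → q ∣ Nat.card B → ¬ q ∣ Nat.card X) :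
    (Nat.card X).Coprime (Nat.card B) := by
  apply Nat.Coprime.symm
  exact Nat.coprime_of_dvd hX

/-- (2) -/
theorem centralizer_Sy_le {p : ℕ} [hp : Fact p.Prime] (hpA : p ∣ Nat.card A) :
    centralizer (Sy A p : Set G) ≤ A := by
  apply h.le_of_normalized
  · exact (le_normalizer_Sy h.hA p).trans (norm_le_norm_cent _)
  · apply h.coprime_of_no_q
    intro q hq hqB hqC
    have := Fact.mk hq
    obtain ⟨c, hc⟩ := exists_prime_orderOf_dvd_card' (G := centralizer (Sy A p : Set G)) q hqC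
    have h1 : IsPGroup q (zpowers (c : G)) := by
      apply IsPGroup.of_card (n := 1)
      rw [Nat.card_zpowers, pow_one, Subgroup.orderOf_coe, hc]
    have h2 := h.no_inv hpA hqB h1 (by
      refine le_trans ?_ (Subgroup.centralizer_le_normalizer _)
      intro x hx
      rw [Subgroup.mem_centralizer_iff]
      rintro _ ⟨k, rfl⟩
      have h3 : Commute x (c : G) := mem_centralizer_iff.1 c.2 x hx
      exact (h3.zpow_right k).eq.symm)
    rw [Subgroup.zpowers_eq_bot] at h2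
    have h3 : c = 1 := Subtype.ext h2
    rw [h3, orderOf_one] at hc
    exact hq.one_lt.ne hc

/-- an element normalizing all `A_s` with `s ≠ p`, and `A_p`, normalizes `A` -/
theorem mem_normalizer_of_Sy {C : Subgroup G} (hC : Group.IsNilpotent C) {g : G}
    (hg : ∀ (p : ℕ) [Fact p.Prime], g ∈ normalizer (Sy C p : Set G)) :
    g ∈ normalizer (C : Set G) := by
  apply Basic.mem_normalizer_of_conj
  have h1 : C ≤ MulAut.conj g⁻¹ • C := by
    apply le_of_Sy_le hC
    intro p _ x hx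
    rw [Basic.mem_conj_smul, inv_inv]
    exact Sy_le C p ((Subgroup.mem_normalizer_iff.1 (hg p) x).1 hx)
  intro x hx
  have h2 := h1 hx
  rwa [Basic.mem_conj_smul, inv_inv] at h2

/-- (2) -/
theorem normalizer_Sy_le {p : ℕ} [hp : Fact p.Prime] (hpA : p ∣ Nat.card A) :
    normalizer (Sy A p : Set G) ≤ normalizer (A : Set G) := by
  intro g hg
  apply h.mem_normalizer_of_Sy h.hA
  intro r hr
  by_cases hrp : r = p
  · subst hrp; exact hg
  have hC := h.centralizer_Sy_le hpA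
  have hCn := NilpHall.isNilpotent_of_le h.hA hC
  have h1 : Sy (centralizer (Sy A p : Set G)) r = Sy A r := by
    apply le_antisymm (Sy_mono h.hA r hC)
    exact le_Sy hCn (Sy_le_centralizer h.hA hrp) (isPGroup_Sy A r)
  rw [← h1]
  exact normalizer_le_normalizer_Sy hCn r (norm_le_norm_cent _ hg)

theorem fac_of_le {M : Subgroup G} (hM : A ≤ M) : ∀ g ∈ M, ∃ a ∈ M ⊓ A, ∃ b ∈ M ⊓ B, g = a * b := by
  intro g hg
  obtain ⟨a, ha, b, hb, rfl⟩ := h.hAB g
  refine ⟨a, Subgroup.mem_inf.mpr ⟨hM ha, ha⟩, b, Subgroup.mem_inf.mpr ⟨?_, hb⟩, rfl⟩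
  have := M.mul_mem (M.inv_mem (hM ha)) hg
  rwa [inv_mul_cancel_left] at this

end Ctx
end H12.KW
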