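import Cfsg.Agent.Lib.H12.KW2

set_option autoImplicit false

/-! Kegel–Wielandt theorem, coprime case: the core lemma. -/

open scoped Pointwise

namespace H12.KW

open Subgroup H12.Nil H12.Kegel Cfsg

variable {G : Type*} [Group G] [Finite G] {A B : Subgroup G}

theorem le_of_hall {M X N : Subgroup G} (hX : X ≤ M) (hN : N ≤ M)
    (hXN : X ≤ normalizer (N : Set G)) (hidx : (Nat.card N).Coprime (X.relIndex M)) : N ≤ X := by
  have h1 : ((X ⊔ N : Subgroup G) : Set G) = (X : Set G) * (N : Set G) :=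
    Subgroup.coe_mul_of_left_le_normalizer_right X N hXN
  have h2 := Basic.card_mul_inf X N
  rw [← h1] at h2
  change Nat.card (X ⊔ N : Subgroup G) * _ = _ at h2
  have h3 := Basic.card_mul_relIndex (le_sup_left : X ≤ X ⊔ N)
  rw [← h3, mul_assoc] at h2
  have h4 := Nat.eq_of_mul_eq_mul_left Nat.card_pos h2
  have h5 : X.relIndex (X ⊔ N) ∣ Nat.card N := by rw [← h4]; exact Dvd.intro _ rfl
  have h6 : X.relIndex (X ⊔ N) ∣ X.relIndex M := by
    rw [← Subgroup.relIndex_mul_relIndex X (X ⊔ N) M le_sup_left (sup_le hX hN)]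
    exact Dvd.intro _ rfl
  have h7 := Nat.eq_one_of_dvd_coprimes hidx h5 h6
  rw [Subgroup.relIndex_eq_one] at h7
  exact le_sup_right.trans h7

theorem card_prodSubgroup {X Y : Subgroup G} (hp : Perm X Y) (hinf : X ⊓ Y = ⊥) :
    Nat.card (prodSubgroup X Y hp) = Nat.card X * Nat.card Y := by
  have h2 := Basic.card_mul_inf X Y
  rw [hinf, Subgroup.card_bot, mul_one, ← coe_prodSubgroup X Y hp] at h2
  exact h2

theorem left_le_prod {X Y : Subgroup G} (hp : Perm X Y) : X ≤ prodSubgroup X Y hp :=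
  left_le (coe_prodSubgroup X Y hp)

theorem right_le_prod {X Y : Subgroup G} (hp : Perm X Y) : Y ≤ prodSubgroup X Y hp :=
  right_le (coe_prodSubgroup X Y hp)

theorem prod_le {X Y L : Subgroup G} (hp : Perm X Y) (hX : X ≤ L) (hY : Y ≤ L) :
    prodSubgroup X Y hp ≤ L := by
  intro g hg
  obtain ⟨a, ha, b, hb, rfl⟩ := Set.mem_mul.mp (show g ∈ (X : Set G) * (Y : Set G) from hg)
  exact L.mul_mem (hX ha) (hY hb)

namespace Ctx

variable (h : Ctx A B)
include h

theorem core {A1 Y : Subgroup G} (hA1 : A1 ≤ A) (hY : Y ≤ B) {q r s : ℕ} [hq : Fact q.Prime]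
    [hr : Fact r.Prime] [hs : Fact s.Prime] (hYq : IsPGroup q Y) (hqB : q ∣ Nat.card B)
    (hrA : r ∣ Nat.card A) (hrA1 : Sy A r ≤ A1) (hperm1 : Perm A1 Y) (hperm2 : Perm (Sy A r) Y)
    (hsr : s ≠ r) : Y ≤ normalizer (Sy A1 s : Set G) := by
  have hA1n := NilpHall.isNilpotent_of_le h.hA hA1
  have hrq : r ≠ q := by
    rintro rfl
    exact h.not_dvd_B hr.out hrA hqB
  set T := prodSubgroup (Sy A r) Y hperm2 with hT
  have hTr : Sy A r ≤ T := left_le_prod hperm2
  have hTY : Y ≤ T := right_le_prod hperm2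
  have hmemT : ∀ g ∈ T, ∃ a ∈ Sy A r, ∃ b ∈ Y, g = a * b := by
    intro g hg
    obtain ⟨a, ha, b, hb, e⟩ := Set.mem_mul.mp
      (show g ∈ (Sy A r : Set G) * (Y : Set G) from hg)
    exact ⟨a, ha, b, hb, e.symm⟩
  have hrY : Sy A r ⊓ Y = ⊥ := by
    rw [eq_bot_iff, ← h.inf_eq_bot]
    exact inf_le_inf (Sy_le A r) hY
  have hTtop : T ≠ ⊤ := by
    intro htop
    have h1 : A ≤ Sy A r := by
      intro a ha
      obtain ⟨x, hx, y, hy, rfl⟩ := hmemT a (by rw [htop]; trivial)
      have h2 : y ∈ A ⊓ B := by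
        refine Subgroup.mem_inf.mpr ⟨?_, hY hy⟩
        have := A.mul_mem (A.inv_mem (Sy_le A r hx)) ha
        rwa [inv_mul_cancel_left] at this
      rw [h.inf_eq_bot, Subgroup.mem_bot] at h2
      rw [h2, mul_one]; exact hx
    obtain ⟨t, ht, htr, htA⟩ := h.hpA r
    obtain ⟨k, hk⟩ := ((isPGroup_Sy A r).to_le h1).exists_card_eq
    rw [hk] at htA
    exact htr ((Nat.prime_dvd_prime_iff_eq ht hr.out).1 (ht.dvd_of_dvd_pow htA))
  have hTsol : Group.IsSolvable T := by
    apply h.hmin T hTtop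
    intro g hg
    obtain ⟨a, ha, b, hb, rfl⟩ := hmemT g hg
    exact ⟨a, Subgroup.mem_inf.mpr ⟨hTr ha, Sy_le A r ha⟩, b,
      Subgroup.mem_inf.mpr ⟨hTY hb, hY hb⟩, rfl⟩
  have hTcard : Nat.card T = Nat.card (Sy A r) * Nat.card Y := card_prodSubgroup hperm2 hrY
  -- O_{r'}(T) = 1
  have hcore : pPrimeCore r T = ⊥ := by
    set N0 := (pPrimeCore r T).map T.subtype with hN0
    have h1 : IsPGroup q N0 := by
      obtain ⟨k, hk⟩ := (isPGroup_Sy A r).exists_card_eq
      obtain ⟨l, hl⟩ := hYq.exists_card_eq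
      have h2 : Nat.card N0 ∣ q ^ l := by
        have h3 : Nat.card N0 ∣ r ^ k * q ^ l := by
          rw [← hk, ← hl, ← hTcard, hN0, Subgroup.card_map_of_injective T.subtype_injective]
          exact Subgroup.card_subgroup_dvd_card _
        have h4 : (Nat.card N0).Coprime (r ^ k) := by
          rw [hN0, Subgroup.card_map_of_injective T.subtype_injective]
          exact Nat.Coprime.pow_right k (H1.Cores.coprime_card_pPrimeCore r)
        exact h4.dvd_of_dvd_mul_left h3
      obtain ⟨m, -, hm⟩ := (Nat.dvd_prime_pow hq.out).1 h2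
      exact IsPGroup.of_card hm
    have h2 : N0 = ⊥ := by
      apply h.no_inv hrA hqB h1
      refine hTr.trans ?_
      intro t ht
      apply Basic.mem_normalizer_of_conj
      rintro _ ⟨x, hx, rfl⟩
      have hn : (pPrimeCore r T).Normal := by
        have := H1.Cores.pPrimeCore_characteristic (G := T) r
        infer_instance
      exact ⟨_, hn.conj_mem x hx ⟨t, ht⟩, rfl⟩
    rw [hN0, Subgroup.map_eq_bot_iff_of_injective _ T.subtype_injective] at h2
    exact h2
  have hcent := H1.Solv.centralizer_pCore_le hTsol r hcore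
  set R : Subgroup G := (pCore r T).map T.subtype with hR
  have hRr : IsPGroup r R := (H1.Cores.isPGroup_pCore r).map _
  have hTN : T ≤ normalizer (R : Set G) := by
    intro t ht
    apply Basic.mem_normalizer_of_conj
    rintro _ ⟨x, hx, rfl⟩
    have hn : (pCore r T).Normal := inferInstance
    exact ⟨_, hn.conj_mem x hx ⟨t, ht⟩, rfl⟩
  have hRA : R ≤ Sy A r := by
    obtain ⟨P, hP⟩ : ∃ P : Sylow r G, (P : Subgroup G) = Sy A r :=
      ⟨(isPGroup_Sy A r).toSylow (h.not_dvd_index hrA), rfl⟩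
    have h1 : IsPGroup r (Sy A r ⊔ R : Subgroup G) :=
      IsPGroup.to_sup_of_normal_right' (isPGroup_Sy A r) hRr (hTr.trans hTN)
    have h2 := P.3 h1 (by rw [hP]; exact le_sup_left)
    rw [hP] at h2
    rw [← h2]; exact le_sup_right
  have hAN : A1 ≤ normalizer (R : Set G) := by
    apply le_of_Sy_le hA1n
    intro t ht
    by_cases htr : t = r
    · subst htr
      exact (Sy_mono h.hA t hA1).trans (hTr.trans hTN)
    · refine (Sy_mono h.hA t hA1).trans ((Sy_le_centralizer h.hA htr).trans ?_)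
      exact (Subgroup.centralizer_le (SetLike.coe_subset_coe.2 hRA)).trans
        (Subgroup.centralizer_le_normalizer _)
  set M1 := prodSubgroup A1 Y hperm1 with hM1
  have hM1A : A1 ≤ M1 := left_le_prod hperm1
  have hM1Y : Y ≤ M1 := right_le_prod hperm1
  have hM1N : M1 ≤ normalizer (R : Set G) := prod_le hperm1 hAN (hTY.trans hTN)
  have hAY : A1 ⊓ Y = ⊥ := by
    rw [eq_bot_iff, ← h.inf_eq_bot]
    exact inf_le_inf hA1 hY
  have hM1card : Nat.card M1 = Nat.card A1 * Nat.card Y := card_prodSubgroup hperm1 hAY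
  set C1 : Subgroup G := centralizer (R : Set G) ⊓ M1 with hC1
  have hC1N : M1 ≤ normalizer (C1 : Set G) := by
    intro m hm
    apply Basic.mem_normalizer_of_conj
    intro c hc
    refine Subgroup.mem_inf.mpr ⟨?_, ?_⟩
    · exact (Subgroup.mem_normalizer_iff.1 (norm_le_norm_cent R (hM1N hm)) c).1
        (Subgroup.mem_inf.1 hc).1
    · exact M1.mul_mem (M1.mul_mem hm (Subgroup.mem_inf.1 hc).2) (M1.inv_mem hm)
  have hYA : ¬ q ∣ Nat.card A1 := fun hd =>
    h.not_dvd_B hq.out (hd.trans (Subgroup.card_dvd_of_le hA1)) hqB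
  have hYi : ¬ q ∣ (Y.subgroupOf M1).index := by
    have h1 := Subgroup.card_mul_index (Y.subgroupOf M1)
    rw [Basic.card_subgroupOf hM1Y, hM1card, mul_comm (Nat.card A1)] at h1
    rw [Nat.eq_of_mul_eq_mul_left Nat.card_pos h1]
    exact hYA
  have hqC1 : ¬ q ∣ Nat.card C1 := by
    intro hd
    obtain ⟨c, hc⟩ := exists_prime_orderOf_dvd_card' (G := C1) q hd
    have hcM : (c : G) ∈ M1 := (Subgroup.mem_inf.1 c.2).2
    let c' : M1 := ⟨c, hcM⟩
    have hc' : orderOf c' = q := by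
      rw [← Subgroup.orderOf_coe]
      show orderOf (c : G) = q
      rw [Subgroup.orderOf_coe, hc]
    have h1 : IsPGroup q (zpowers c') := by
      apply IsPGroup.of_card (n := 1)
      rw [Nat.card_zpowers, pow_one, hc']
    obtain ⟨P, hP⟩ : ∃ P : Sylow q M1, (P : Subgroup M1) = Y.subgroupOf M1 :=
      ⟨(hYq.of_equiv (Subgroup.subgroupOfEquivOfLe hM1Y).symm).toSylow hYi, rfl⟩
    obtain ⟨Q, hQ⟩ := h1.exists_le_sylow
    obtain ⟨m, hm⟩ := MulAction.exists_smul_eq M1 Q P
    have h2 : m * c' * m⁻¹ ∈ Y.subgroupOf M1 := by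
      rw [← hP, ← hm, Sylow.coe_subgroup_smul]
      exact Basic.conj_mem_conj_smul (hQ (mem_zpowers c'))
    have h3 : (m : G) * c * (m : G)⁻¹ ∈ Y := Subgroup.mem_subgroupOf.1 h2
    have h4 : (m : G) * c * (m : G)⁻¹ ∈ C1 := (Subgroup.mem_normalizer_iff.1 (hC1N m.2) c).1 c.2
    have h5 : (⟨(m : G) * c * (m : G)⁻¹, hTY h3⟩ : T) ∈ centralizer (pCore r T : Set T) := by
      rw [Subgroup.mem_centralizer_iff]
      intro x hx
      exact Subtype.ext (mem_centralizer_iff.1 (Subgroup.mem_inf.1 h4).1 x ⟨x, hx, rfl⟩)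
    have h6 := hcent h5
    have h7 : (m : G) * c * (m : G)⁻¹ ∈ R := ⟨_, h6, rfl⟩
    have h8 : (m : G) * c * (m : G)⁻¹ ∈ R ⊓ Y := Subgroup.mem_inf.mpr ⟨h7, h3⟩
    have h9 : R ⊓ Y = ⊥ := by
      rw [eq_bot_iff, ← hrY]; exact inf_le_inf hRA le_rfl
    rw [h9, Subgroup.mem_bot] at h8
    have h10 : (c : G) = 1 := by
      have : (c : G) = (m : G)⁻¹ * ((m : G) * c * (m : G)⁻¹) * m := by group
      rw [this, h8]; group
    have h11 : c = 1 := Subtype.ext h10
    rw [h11, orderOf_one] at hc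
    exact hq.out.one_lt.ne hc
  have hC1A : C1 ≤ A1 := by
    apply le_of_hall hM1A inf_le_right (hM1A.trans hC1N)
    have h1 : A1.relIndex M1 = Nat.card Y := by
      have h2 := Basic.card_mul_relIndex hM1A
      rw [hM1card] at h2
      exact Nat.eq_of_mul_eq_mul_left Nat.card_pos h2
    rw [h1]
    obtain ⟨l, hl⟩ := hYq.exists_card_eq
    rw [hl]
    exact Nat.Coprime.pow_right l ((hq.out.coprime_iff_not_dvd).2 hqC1).symm
  have hC1n := NilpHall.isNilpotent_of_le hA1n hC1A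
  have hfin : Sy C1 s = Sy A1 s := by
    apply le_antisymm (Sy_mono hA1n s hC1A)
    apply le_Sy hC1n _ (isPGroup_Sy A1 s)
    refine le_inf ?_ ((Sy_le A1 s).trans hM1A)
    exact (Sy_mono h.hA s hA1).trans ((Sy_le_centralizer h.hA hsr).trans
      (Subgroup.centralizer_le (SetLike.coe_subset_coe.2 hRA)))
  rw [← hfin]
  exact hM1Y.trans (hC1N.trans (normalizer_le_normalizer_Sy hC1n s))

/-- (3) -/
theorem le_normalizer_of_ge {M : Subgroup G} (hM : A ≤ M) (hMtop : M ≠ ⊤) :
    M ≤ normalizer (A : Set G) := by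
  have hfac := h.fac_of_le hM
  have hsol := h.hmin M hMtop hfac
  have hMA : M ⊓ A = A := inf_eq_right.2 hM
  have hMB : M ⊓ B ≤ normalizer (A : Set G) := by
    apply le_of_Sy_le (h.symm.nilp_inf M)
    intro q hq
    by_cases hqB : q ∣ Nat.card B
    · obtain ⟨r, hr, -, hrA⟩ := h.hpA 0
      have := Fact.mk hr
      obtain ⟨s, hs, hsr, hsA⟩ := h.hpA r
      have := Fact.mk hs
      have hp1 : Perm A (Sy (M ⊓ B) q) := by
        have := h.perm_A_Sy hsol hfac q
        rwa [hMA] at this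
      have hp2 : Perm (Sy A r) (Sy (M ⊓ B) q) := by
        have := h.perm_Sy hsol hfac r q
        rwa [hMA] at this
      exact (h.core le_rfl ((Sy_le _ _).trans inf_le_right) (isPGroup_Sy _ _) hqB hrA (Sy_le A r)
        hp1 hp2 hsr).trans (h.normalizer_Sy_le hsA)
    · have h1 : Sy (M ⊓ B) q = ⊥ := by
        obtain ⟨k, hk⟩ := (isPGroup_Sy (M ⊓ B) q).exists_card_eq
        have h2 : Nat.card (Sy (M ⊓ B) q) ∣ Nat.card B :=
          Subgroup.card_dvd_of_le ((Sy_le _ _).trans inf_le_right)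
        rw [hk] at h2
        have h3 : k = 0 := by
          by_contra hk0
          exact hqB ((dvd_pow_self q hk0).trans h2)
        rw [h3, pow_zero] at hk
        exact Subgroup.card_eq_one.1 hk
      rw [h1]; exact bot_le
  intro g hg
  obtain ⟨a, ha, b, hb, rfl⟩ := hfac g hg
  exact mul_mem (Subgroup.le_normalizer (Subgroup.mem_inf.1 ha).2) (hMB hb)

end Ctx
end H12.KW
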