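import Cfsg.Agent.Lib.H12.KW3

set_option autoImplicit false

/-! Kegel–Wielandt theorem, coprime case: centralizers. -/

open scoped Pointwise

namespace H12.KW

open Subgroup H12.Nil H12.Kegel Cfsg

variable {G : Type*} [Group G] [Finite G] {A B : Subgroup G}

theorem exists_prime_order {y : G} (hy : y ≠ 1) : ∃ q : ℕ, q.Prime ∧ ∃ k : ℕ, orderOf (y ^ k) = q := by
  have h1 : orderOf y ≠ 1 := by rwa [Ne, orderOf_eq_one_iff]
  obtain ⟨q, hq, hd⟩ := Nat.exists_prime_and_dvd h1
  refine ⟨q, hq, orderOf y / q, ?_⟩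
  have h0 : 0 < orderOf y := orderOf_pos y
  rw [orderOf_pow_of_dvd (Nat.div_pos (Nat.le_of_dvd h0 hd) hq.pos).ne' (Nat.div_dvd_of_dvd hd)]
  exact Nat.div_div_self hd h0.ne'

namespace Ctx

variable (h : Ctx A B)
include h

/-- (N) -/
theorem normalizer_le_of_center {p : ℕ} [hp : Fact p.Prime] (hpA : p ∣ Nat.card A)
    {P1 : Subgroup G} (hP1 : P1 ≤ Sy A p)
    (hZ : Sy A p ⊓ centralizer (Sy A p : Set G) ≤ P1) :
    normalizer (P1 : Set G) ≤ normalizer (A : Set G) := by
  set Z := Sy A p ⊓ centralizer (Sy A p : Set G) with hZdef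
  have hZne : Z ≠ ⊥ := by
    have hnt : Nontrivial (Sy A p) := (Subgroup.nontrivial_iff_ne_bot _).2 (Sy_ne_bot h.hA hpA)
    have h1 := (isPGroup_Sy A p).bot_lt_center
    intro hb
    apply h1.ne'
    rw [eq_bot_iff]
    intro z hz
    have h2 : (z : G) ∈ Z := Subgroup.mem_inf.mpr ⟨z.2, mem_centralizer_iff.2 fun y hy =>
      congrArg Subtype.val (Subgroup.mem_center_iff.1 hz ⟨y, hy⟩)⟩
    rw [hb, Subgroup.mem_bot] at h2
    exact Subgroup.mem_bot.2 (Subtype.ext h2)
  have hZp : IsPGroup p Z := (isPGroup_Sy A p).to_le inf_le_left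
  have hAC : A ≤ centralizer (Z : Set G) := by
    apply le_of_Sy_le h.hA
    intro t ht
    by_cases htp : t = p
    · subst htp
      intro x hx
      rw [mem_centralizer_iff]
      intro z hz
      exact (mem_centralizer_iff.1 (Subgroup.mem_inf.1 hz).2 x hx).symm
    · exact (Sy_le_centralizer h.hA htp).trans
        (Subgroup.centralizer_le (SetLike.coe_subset_coe.2 inf_le_left))
  have hCtop : centralizer (Z : Set G) ≠ ⊤ := by
    intro htop
    have hZn : Z.Normal := by
      constructor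
      intro z hz g
      have h1 : g ∈ centralizer (Z : Set G) := by rw [htop]; trivial
      rw [← mem_centralizer_iff.1 h1 z hz, mul_inv_cancel_right]
      exact hz
    rcases h.hsimple Z hZn with h1 | h1
    · exact hZne h1
    · exact h.ne_top_of_isPGroup hZp h1
  have hCN := h.le_normalizer_of_ge hAC hCtop
  obtain ⟨r, hr, hrp, hrA⟩ := h.hpA p
  have := Fact.mk hr
  have hrC : Sy A r ≤ centralizer (P1 : Set G) := (Sy_le_centralizer h.hA hrp).trans
    (Subgroup.centralizer_le (SetLike.coe_subset_coe.2 hP1))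
  intro g hg
  apply h.normalizer_Sy_le hrA
  have h1 : MulAut.conj g • Sy A r ≤ Sy A r := by
    apply h.le_Sy_of_normalizer hrA ((isPGroup_Sy A r).of_equiv
      (Subgroup.equivSMul (MulAut.conj g) (Sy A r)))
    intro x hx
    rw [Basic.mem_conj_smul] at hx
    have h2 : x ∈ centralizer (P1 : Set G) := by
      have h3 := (Subgroup.mem_normalizer_iff.1 (norm_le_norm_cent P1 hg) _).1 (hrC hx)
      have h4 : g * (g⁻¹ * x * g) * g⁻¹ = x := by group
      rwa [h4] at h3
    exact normalizer_le_normalizer_Sy h.hA r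
      (hCN ((Subgroup.centralizer_le (SetLike.coe_subset_coe.2 hZ)) h2))
  apply Basic.mem_normalizer_of_conj
  intro x hx
  exact h1 (Basic.conj_mem_conj_smul hx)

/-- (5) -/
theorem fac_centralizer {y : G} (hyB : y ∈ B) (hyN : y ∈ normalizer (A : Set G)) :
    ∀ g ∈ centralizer ({y} : Set G), ∃ a ∈ centralizer ({y} : Set G) ⊓ A,
      ∃ b ∈ centralizer ({y} : Set G) ⊓ B, g = a * b := by
  intro g hg
  obtain ⟨a, ha, b, hb, rfl⟩ := h.hAB g
  rw [mem_centralizer_singleton_iff] at hg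
  have h1 : b * y * b⁻¹ * y⁻¹ = a⁻¹ * (y * a * y⁻¹) := by
    have h2 : a * (b * y * b⁻¹) = y * a := by
      have : a * (b * y * b⁻¹) = (a * b * y) * b⁻¹ := by group
      rw [this, hg]; group
    have h3 : b * y * b⁻¹ = a⁻¹ * (y * a) := by rw [← h2]; group
    rw [h3]; group
  have h2 : b * y * b⁻¹ * y⁻¹ ∈ A ⊓ B := by
    refine Subgroup.mem_inf.mpr ⟨?_, ?_⟩
    · rw [h1]
      exact A.mul_mem (A.inv_mem ha) ((Subgroup.mem_normalizer_iff.1 hyN a).1 ha)
    · exact B.mul_mem (B.mul_mem (B.mul_mem hb hyB) (B.inv_mem hb)) (B.inv_mem hyB)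
  rw [h.inf_eq_bot, Subgroup.mem_bot] at h2
  have h3 : b * y = y * b := by
    have := mul_inv_eq_one.1 h2
    exact mul_inv_eq_iff_eq_mul.1 this
  have h4 : a * y = y * a := by
    have h5 : a * b * y = a * y * b := by rw [mul_assoc, h3, ← mul_assoc]
    have h6 : a * y * b = y * a * b := by rw [← h5, hg, mul_assoc]
    exact mul_right_cancel h6
  exact ⟨a, Subgroup.mem_inf.mpr ⟨mem_centralizer_singleton_iff.2 h4, ha⟩, b,
    Subgroup.mem_inf.mpr ⟨mem_centralizer_singleton_iff.2 h3, hb⟩, rfl⟩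

theorem centralizer_ne_top {y : G} (hy : y ≠ 1) : centralizer ({y} : Set G) ≠ ⊤ := by
  intro htop
  have hn : (zpowers y).Normal := by
    constructor
    intro z hz g
    have h1 : g ∈ centralizer ({y} : Set G) := by rw [htop]; trivial
    rw [mem_centralizer_singleton_iff] at h1
    obtain ⟨k, rfl⟩ := hz
    have h2 : Commute g y := h1
    have h3 : g * y ^ k * g⁻¹ = y ^ k := by
      rw [(h2.zpow_right k).eq, mul_inv_cancel_right]
    simp only
    rw [h3]
    exact ⟨k, rfl⟩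
  rcases h.hsimple _ hn with h1 | h1
  · rw [zpowers_eq_bot] at h1
    exact hy h1
  · apply h.hns
    have h2 : ∀ x : G, x ∈ zpowers y := fun x => by rw [h1]; trivial
    refine isSolvable_of_comm fun a b => ?_
    obtain ⟨i, rfl⟩ := h2 a
    obtain ⟨j, rfl⟩ := h2 b
    exact ((Commute.refl y).zpow_zpow i j).eq

/-- (6) for elements of prime order -/
theorem centralizer_le_prime {y : G} {q : ℕ} (hq : q.Prime) (hyq : orderOf y = q) (hyB : y ∈ B)
    (hyN : y ∈ normalizer (A : Set G)) :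
    centralizer ({y} : Set G) ⊓ A ≤ normalizer (B : Set G) := by
  have := Fact.mk hq
  have hy1 : y ≠ 1 := by
    rintro rfl
    rw [orderOf_one] at hyq
    exact hq.one_lt.ne hyq
  have hqB : q ∣ Nat.card B := by
    rw [← hyq]; exact Subgroup.orderOf_dvd_natCard B hyB
  have hySy : y ∈ Sy B q := mem_Sy h.hB hyB (k := 1) (by rw [pow_one, ← hyq, pow_orderOf_eq_one])
  have hfac := h.fac_centralizer hyB hyN
  have htop := h.centralizer_ne_top hy1
  set L := centralizer ({y} : Set G) with hL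
  have hsol := h.hmin L htop hfac
  have hfac' := swap_fac hfac
  obtain ⟨s, hs, hsq, hsB⟩ := h.hpB q
  have := Fact.mk hs
  have hsL : Sy B s ≤ L ⊓ B := by
    refine le_inf ?_ (Sy_le B s)
    intro x hx
    rw [hL, mem_centralizer_singleton_iff]
    exact commute h.hB hsq hx hySy
  have hLB := h.symm.nilp_inf L
  have hLA := h.nilp_inf L
  have e1 : Sy (L ⊓ B) s = Sy B s := by
    apply le_antisymm (Sy_mono h.hB s inf_le_right)
    exact le_Sy hLB hsL (isPGroup_Sy B s)
  have hN : normalizer (Sy (L ⊓ B) q : Set G) ≤ normalizer (B : Set G) := by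
    apply h.symm.normalizer_le_of_center hqB (Sy_mono h.hB q inf_le_right)
    apply le_Sy hLB _ ((isPGroup_Sy B q).to_le inf_le_left)
    refine le_inf ?_ (inf_le_left.trans (Sy_le B q))
    intro z hz
    rw [hL, mem_centralizer_singleton_iff]
    exact (mem_centralizer_iff.1 (Subgroup.mem_inf.1 hz).2 y hySy).symm
  apply le_of_Sy_le hLA
  intro p hp
  by_cases hpA : p ∣ Nat.card A
  · have hp1 : Perm (L ⊓ B) (Sy (L ⊓ A) p) := h.symm.perm_A_Sy hsol hfac' p
    have hp2 : Perm (Sy B s) (Sy (L ⊓ A) p) := by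
      have := h.symm.perm_Sy hsol hfac' s p
      rwa [e1] at this
    exact (h.symm.core inf_le_right ((Sy_le _ _).trans inf_le_right) (isPGroup_Sy _ _) hpA hsB hsL
      hp1 hp2 hsq.symm).trans hN
  · have h1 : Sy (L ⊓ A) p = ⊥ := by
      obtain ⟨k, hk⟩ := (isPGroup_Sy (L ⊓ A) p).exists_card_eq
      have h2 : Nat.card (Sy (L ⊓ A) p) ∣ Nat.card A :=
        Subgroup.card_dvd_of_le ((Sy_le _ _).trans inf_le_right)
      rw [hk] at h2
      have h3 : k = 0 := by
        by_contra hk0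
        exact hpA ((dvd_pow_self p hk0).trans h2)
      rw [h3, pow_zero] at hk
      exact Subgroup.card_eq_one.1 hk
    rw [h1]; exact bot_le

/-- (6) -/
theorem centralizer_le {y : G} (hy1 : y ≠ 1) (hyB : y ∈ B) (hyN : y ∈ normalizer (A : Set G))
    {a : G} (ha : a ∈ A) (hay : a * y = y * a) : a ∈ normalizer (B : Set G) := by
  obtain ⟨q, hq, k, hk⟩ := exists_prime_order hy1
  apply h.centralizer_le_prime hq hk (B.pow_mem hyB k) (pow_mem hyN k)
  refine Subgroup.mem_inf.mpr ⟨?_, ha⟩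
  rw [mem_centralizer_singleton_iff]
  have h1 : Commute a y := hay
  exact (h1.pow_right k).eq

/-- (7a) -/
theorem ti_a {x : G} (hx1 : x ≠ 1) (hxA : x ∈ A) (hxN : x ∈ normalizer (B : Set G)) {g : G}
    (hg : g * x * g⁻¹ ∈ A) : g ∈ normalizer (A : Set G) := by
  obtain ⟨a, ha, b, hb, rfl⟩ := h.hAB g
  have h1 : b * x * b⁻¹ ∈ A := by
    have h2 := A.mul_mem (A.mul_mem (A.inv_mem ha) hg) ha
    have h3 : a⁻¹ * (a * b * x * (a * b)⁻¹) * a = b * x * b⁻¹ := by group
    rwa [h3] at h2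
  have h2 : b * x * b⁻¹ * x⁻¹ ∈ A ⊓ B := by
    refine Subgroup.mem_inf.mpr ⟨A.mul_mem h1 (A.inv_mem hxA), ?_⟩
    have h3 : b * x * b⁻¹ * x⁻¹ = b * (x * b⁻¹ * x⁻¹) := by group
    rw [h3]
    exact B.mul_mem hb ((Subgroup.mem_normalizer_iff.1 hxN _).1 (B.inv_mem hb))
  rw [h.inf_eq_bot, Subgroup.mem_bot] at h2
  have h3 : b * x = x * b := mul_inv_eq_iff_eq_mul.1 (mul_inv_eq_one.1 h2)
  have h4 : b ∈ normalizer (A : Set G) := h.symm.centralizer_le hx1 hxA hxN hb h3
  exact mul_mem (Subgroup.le_normalizer ha) h4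

end Ctx
end H12.KW
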