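import Cfsg.Agent.Lib.H12.KW4
import Cfsg.Agent.Lib.H1.Coprime2

set_option autoImplicit false

/-! Kegel–Wielandt theorem, coprime case: `C_G(x) ≤ A`. -/

open scoped Pointwise

namespace H12.KW

open Subgroup H12.Nil H12.Kegel Cfsg

variable {G : Type*} [Group G] [Finite G] {A B : Subgroup G}

theorem map_Sy_subgroupOf {K H0 : Subgroup G} (hle : H0 ≤ K) (hn : Group.IsNilpotent H0) (t : ℕ)
    [Fact t.Prime] : (Sy (H0.subgroupOf K) t).map K.subtype = Sy H0 t := by
  have hn' : Group.IsNilpotent (H0.subgroupOf K) :=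
    Group.nilpotent_of_mulEquiv (Subgroup.subgroupOfEquivOfLe hle).symm
  ext x
  constructor
  · rintro ⟨y, hy, rfl⟩
    obtain ⟨k, hk⟩ := exists_pow_of_mem hy
    exact mem_Sy hn (Subgroup.mem_subgroupOf.1 (Sy_le _ _ hy)) (k := k) (congrArg Subtype.val hk)
  · intro hx
    obtain ⟨k, hk⟩ := exists_pow_of_mem hx
    have hx0 := Sy_le _ _ hx
    exact ⟨⟨x, hle hx0⟩, mem_Sy hn' (Subgroup.mem_subgroupOf.2 hx0) (k := k) (Subtype.ext hk), rfl⟩

namespace Ctx

variable (h : Ctx A B)
include h

theorem inf_normalizer_le {x : G} (hxA : x ∈ A)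
    (hcase : ∀ a ∈ A, a * x * a⁻¹ ∉ normalizer (B : Set G)) :
    centralizer ({x} : Set G) ⊓ normalizer (A : Set G) ≤ A := by
  apply h.le_of_normalizes inf_le_right
  apply h.coprime_of_no_q
  intro q hq hqB hqC
  have := Fact.mk hq
  obtain ⟨c, hc⟩ := exists_prime_orderOf_dvd_card'
    (G := ↥(centralizer ({x} : Set G) ⊓ normalizer (A : Set G))) q hqC
  obtain ⟨hc1, hc2⟩ := Subgroup.mem_inf.1 c.2
  have h1 : IsPGroup q (zpowers (c : G)) := by
    apply IsPGroup.of_card (n := 1)
    rw [Nat.card_zpowers, pow_one, Subgroup.orderOf_coe, hc]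
  obtain ⟨a, ha, hac⟩ := h.symm.exists_conj_le hqB h1
  have h2 : a * c * a⁻¹ ∈ Sy B q := hac (Basic.conj_mem_conj_smul (mem_zpowers _))
  have h3 : a * (c : G) * a⁻¹ ≠ 1 := by
    intro h4
    have h5 : (c : G) = 1 := by
      have : (c : G) = a⁻¹ * (a * c * a⁻¹) * a := by group
      rw [this, h4]; group
    have h6 : c = 1 := Subtype.ext h5
    rw [h6, orderOf_one] at hc
    exact hq.one_lt.ne hc
  apply hcase a ha
  have haN : a ∈ normalizer (A : Set G) := Subgroup.le_normalizer ha
  apply h.centralizer_le h3 (Sy_le B q h2) (mul_mem (mul_mem haN hc2) (inv_mem haN))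
    (A.mul_mem (A.mul_mem ha hxA) (A.inv_mem ha))
  rw [mem_centralizer_singleton_iff] at hc1
  calc a * x * a⁻¹ * (a * c * a⁻¹) = a * (x * c) * a⁻¹ := by group
    _ = a * (c * x) * a⁻¹ := by rw [hc1]
    _ = _ := by group

/-- claim b2 -/
theorem centralizer_le_A {x : G} {p : ℕ} [hp : Fact p.Prime] (hxA : x ∈ A) (hord : orderOf x = p)
    (hcase : ∀ a ∈ A, a * x * a⁻¹ ∉ normalizer (B : Set G))
    (hsyl : ¬ p ∣ (Sy A p ⊓ centralizer ({x} : Set G)).relIndex (centralizer ({x} : Set G))) :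
    centralizer ({x} : Set G) ≤ A := by
  have hKN := h.inf_normalizer_le hxA hcase
  have hpA : p ∣ Nat.card A := by
    rw [← hord]; exact Subgroup.orderOf_dvd_natCard A hxA
  have hxSy : x ∈ Sy A p := mem_Sy h.hA hxA (k := 1) (by rw [pow_one, ← hord, pow_orderOf_eq_one])
  set K := centralizer ({x} : Set G) with hK
  have hxK : x ∈ K := by rw [hK, mem_centralizer_singleton_iff]
  have hH0n := h.nilp_inf K
  have hH0K : K ⊓ A ≤ K := inf_le_left
  have hSyK : ∀ (t : ℕ) [Fact t.Prime], t ≠ p → Sy A t ≤ K ⊓ A := by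
    intro t ht htp
    refine le_inf ?_ (Sy_le A t)
    intro y hy
    rw [hK, mem_centralizer_singleton_iff]
    exact commute h.hA htp hy hxSy
  have hSyeq : ∀ (t : ℕ) [Fact t.Prime], t ≠ p → Sy (K ⊓ A) t = Sy A t := by
    intro t ht htp
    apply le_antisymm (Sy_mono h.hA t inf_le_right)
    exact le_Sy hH0n (hSyK t htp) (isPGroup_Sy A t)
  have hSyp : Sy (K ⊓ A) p = Sy A p ⊓ K := by
    apply le_antisymm
    · exact le_inf (Sy_mono h.hA p inf_le_right) ((Sy_le _ _).trans inf_le_left)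
    · exact le_Sy hH0n (le_inf inf_le_right (inf_le_left.trans (Sy_le A p)))
        ((isPGroup_Sy A p).to_le inf_le_left)
  set H : Subgroup K := (K ⊓ A).subgroupOf K with hH
  have hHn : Group.IsNilpotent H :=
    Group.nilpotent_of_mulEquiv (Subgroup.subgroupOfEquivOfLe hH0K).symm
  have hHcard : Nat.card H = Nat.card ↥(K ⊓ A) := Basic.card_subgroupOf hH0K
  have hHA : Nat.card H ∣ Nat.card A := by
    rw [hHcard]; exact Subgroup.card_dvd_of_le inf_le_right
  have hdvdH : ∀ t : ℕ, t.Prime → t ∣ Nat.card A → t ∣ Nat.card H := by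
    intro t ht htA
    have := Fact.mk ht
    rw [hHcard]
    by_cases htp : t = p
    · subst htp
      rw [← hord]
      exact Subgroup.orderOf_dvd_natCard _ (Subgroup.mem_inf.mpr ⟨hxK, hxA⟩)
    · exact (dvd_card_Sy h.hA htA).trans (Subgroup.card_dvd_of_le (hSyK t htp))
  have hcopH : (Nat.card H).Coprime H.index := by
    apply Nat.coprime_of_dvd
    intro t ht htH hti
    have := Fact.mk ht
    have htA := htH.trans hHA
    by_cases htp : t = p
    · subst htp
      apply hsyl
      have h1 := Subgroup.relIndex_mul_relIndex (Sy A t ⊓ K) (K ⊓ A) K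
        (by rw [← hSyp]; exact Sy_le _ _) hH0K
      rw [← h1]
      exact Dvd.dvd.mul_left hti _
    · apply h.not_dvd_index htA
      rw [← Subgroup.relIndex_mul_index ((hSyK t htp).trans hH0K),
        ← Subgroup.relIndex_mul_relIndex (Sy A t) (K ⊓ A) K (hSyK t htp) hH0K]
      exact Dvd.dvd.mul_right (Dvd.dvd.mul_left hti _) _
  obtain ⟨N, hNn, hNH⟩ := NilpComp.main H hHn hcopH (by
    intro t ht htH k hk
    have := Fact.mk ht
    have htA := htH.trans hHA
    have h1 : (k : G) ∈ normalizer (Sy (K ⊓ A) t : Set G) := by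
      apply Basic.mem_normalizer_of_conj
      intro y hy
      rw [← map_Sy_subgroupOf hH0K hH0n t] at hy ⊢
      obtain ⟨z, hz, rfl⟩ := hy
      exact ⟨k * z * k⁻¹, (Subgroup.mem_normalizer_iff.1 hk z).1 hz, rfl⟩
    have h2 : (k : G) ∈ normalizer (A : Set G) := by
      by_cases htp : t = p
      · subst htp
        rw [hSyp] at h1
        refine h.normalizer_le_of_center htA inf_le_left ?_ h1
        refine le_inf inf_le_left ?_
        intro z hz
        rw [hK, mem_centralizer_singleton_iff]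
        exact (mem_centralizer_iff.1 (Subgroup.mem_inf.1 hz).2 x hxSy).symm
      · rw [hSyeq t htp] at h1
        exact h.normalizer_Sy_le htA h1
    have h3 := hKN (Subgroup.mem_inf.mpr ⟨k.2, h2⟩)
    exact Subgroup.mem_subgroupOf.2 (Subgroup.mem_inf.mpr ⟨k.2, h3⟩)) (by
    intro t ht htH
    by_cases htp : t = p
    · subst htp
      obtain ⟨r, hr, hrp, hrA⟩ := h.hpA t
      exact ⟨r, hr, hrp, hdvdH r hr hrA⟩
    · exact ⟨p, hp.out, fun e => htp e.symm, hdvdH p hp.out hpA⟩)
  have hNcard : Nat.card N = H.index := by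
    have h1 := hNH.card_mul
    have h2 := Subgroup.card_mul_index H
    rw [← h2, mul_comm] at h1
    exact Nat.eq_of_mul_eq_mul_left Nat.card_pos h1
  have hN : N = ⊥ := by
    by_contra hne
    have h1 : Nat.card N ≠ 1 := fun h2 => hne (Subgroup.card_eq_one.1 h2)
    obtain ⟨q, hq, hqN⟩ := Nat.exists_prime_and_dvd h1
    have := Fact.mk hq
    have hqH : ¬ q ∣ Nat.card H := by
      intro hqH
      rw [hNcard] at hqN
      exact hq.one_lt.ne' (Nat.eq_one_of_dvd_coprimes hcopH hqH hqN)
    have hqA : ¬ q ∣ Nat.card A := fun hqA => hqH (hdvdH q hq hqA)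
    have hqB : q ∣ Nat.card B := by
      have h2 : q ∣ Nat.card A * Nat.card B := by
        rw [← h.card_eq]
        exact hqN.trans ((Subgroup.card_subgroup_dvd_card N).trans (Subgroup.card_subgroup_dvd_card K))
      exact (hq.dvd_mul.1 h2).resolve_left hqA
    obtain ⟨r, hr, hrp, hrA⟩ := h.hpA p
    have := Fact.mk hr
    have hrN : ¬ r ∣ Nat.card N := by
      intro hrN
      rw [hNcard] at hrN
      exact hr.one_lt.ne' (Nat.eq_one_of_dvd_coprimes hcopH (hdvdH r hr hrA) hrN)
    set N1 : Subgroup G := N.map K.subtype with hN1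
    have hN1card : Nat.card N1 = Nat.card N := Subgroup.card_map_of_injective K.subtype_injective
    have hKN1 : K ≤ normalizer (N1 : Set G) := by
      intro k hk
      apply Basic.mem_normalizer_of_conj
      rintro _ ⟨z, hz, rfl⟩
      exact ⟨_, hNn.conj_mem z hz ⟨k, hk⟩, rfl⟩
    obtain ⟨S, hS, hSN⟩ := H1.Coprime2.exists_invariant_sylow (Sy A r) N1
      (((hSyK r hrp).trans hH0K).trans hKN1)
      (by
        rw [hN1card]
        obtain ⟨k, hk⟩ := (isPGroup_Sy A r).exists_card_eq
        rw [hk]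
        exact Nat.Coprime.pow_left k ((hr.coprime_iff_not_dvd).2 hrN))
      (by
        left
        have := (isPGroup_Sy A r).isNilpotent
        infer_instance) q
    have hSb := h.no_inv hrA hqB hS.isPGroup hSN
    have h3 := hS.2
    rw [hSb, Subgroup.card_bot, hN1card] at h3
    have h4 : 0 < (Nat.card N).factorization q :=
      hq.factorization_pos_of_dvd Nat.card_pos.ne' hqN
    have h5 := Nat.one_lt_pow h4.ne' hq.one_lt
    omega
  have hHtop : H = ⊤ := by
    have h1 := hNH.card_mul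
    rw [hN, Subgroup.card_bot, one_mul] at h1
    exact Subgroup.eq_top_of_card_eq H h1
  intro k hk
  have h1 : (⟨k, hk⟩ : K) ∈ H := by rw [hHtop]; trivial
  exact (Subgroup.mem_inf.1 (Subgroup.mem_subgroupOf.1 h1)).2

/-- if `x` (of prime order in `A`) is not conjugate in `A` into `N(B)`, then `C_G(x) ≤ A`. -/
theorem centralizer_le_of_case {x : G} {p : ℕ} [hp : Fact p.Prime] (hxA : x ∈ A)
    (hord : orderOf x = p) (hcase : ∀ a ∈ A, a * x * a⁻¹ ∉ normalizer (B : Set G)) :
    centralizer ({x} : Set G) ≤ A := by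
  have hx1 : x ≠ 1 := by
    rintro rfl
    rw [orderOf_one] at hord
    exact hp.out.one_lt.ne hord
  have hpA : p ∣ Nat.card A := by
    rw [← hord]; exact Subgroup.orderOf_dvd_natCard A hxA
  have hxSy : x ∈ Sy A p := mem_Sy h.hA hxA (k := 1) (by rw [pow_one, ← hord, pow_orderOf_eq_one])
  set K := centralizer ({x} : Set G) with hK
  have hxK : x ∈ K := by rw [hK, mem_centralizer_singleton_iff]
  obtain ⟨P⟩ : Nonempty (Sylow p K) := inferInstance
  set P1 : Subgroup G := (P : Subgroup K).map K.subtype with hP1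
  have hP1p : IsPGroup p P1 := P.2.map _
  have hxP : x ∈ P1 := by
    have h1 : zpowers (⟨x, hxK⟩ : K) ≤ (P : Subgroup K) := by
      have hn : (zpowers (⟨x, hxK⟩ : K)).Normal := by
        constructor
        rintro _ ⟨k, rfl⟩ g
        have h2 : Commute g (⟨x, hxK⟩ : K) := Subtype.ext (mem_centralizer_singleton_iff.1 g.2)
        simp only
        rw [(h2.zpow_right k).eq, mul_inv_cancel_right]
        exact ⟨k, rfl⟩
      apply IsPGroup.le_sylow_of_normal _ P
      apply IsPGroup.of_card (n := 1)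
      rw [Nat.card_zpowers, pow_one, Subgroup.orderOf_mk, hord]
    exact ⟨⟨x, hxK⟩, h1 (mem_zpowers _), rfl⟩
  obtain ⟨b, hb, hbP⟩ := h.exists_conj_le hpA hP1p
  set x1 := b * x * b⁻¹ with hx1def
  have hx1A : x1 ∈ Sy A p := hbP (Basic.conj_mem_conj_smul hxP)
  have hord1 : orderOf x1 = p := by
    rw [hx1def, ← hord]
    exact orderOf_injective (MulAut.conj b).toMonoidHom (MulAut.conj b).injective x
  have hcase1 : ∀ a ∈ A, a * x1 * a⁻¹ ∉ normalizer (B : Set G) := by
    intro a ha hN
    -- then `b` normalizes `A`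
    have h1 : a * x1 * a⁻¹ ≠ 1 := by
      intro h2
      apply hx1
      have : x = (a * b)⁻¹ * (a * x1 * a⁻¹) * (a * b) := by rw [hx1def]; group
      rw [this, h2]; group
    have h2 : a * x1 * a⁻¹ ∈ A := A.mul_mem (A.mul_mem ha (Sy_le A p hx1A)) (A.inv_mem ha)
    have h3 : (a * b)⁻¹ * (a * x1 * a⁻¹) * (a * b)⁻¹⁻¹ ∈ A := by
      have : (a * b)⁻¹ * (a * x1 * a⁻¹) * (a * b)⁻¹⁻¹ = x := by rw [hx1def]; group
      rw [this]; exact hxA
    have h4 := h.ti_a h1 h2 hN h3
    have h5 : b ∈ normalizer (A : Set G) := by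
      have h6 := mul_mem (inv_mem (Subgroup.le_normalizer ha)) (inv_mem h4)
      have h7 : a⁻¹ * (a * b)⁻¹⁻¹ = b := by group
      rwa [h7] at h6
    refine hcase (b⁻¹ * a * b) ?_ ?_
    · have := (Subgroup.mem_normalizer_iff.1 (inv_mem h5) a).1 ha
      rwa [inv_inv] at this
    · have h8 : b⁻¹ * a * b * x * (b⁻¹ * a * b)⁻¹ = b⁻¹ * (a * x1 * a⁻¹) * b := by
        rw [hx1def]; group
      rw [h8]
      exact mul_mem (mul_mem (inv_mem (Subgroup.le_normalizer hb)) hN) (Subgroup.le_normalizer hb)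
  -- the Sylow condition
  have hC1 : centralizer ({x1} : Set G) = MulAut.conj b • K := by
    ext g
    rw [Basic.mem_conj_smul, hK, mem_centralizer_singleton_iff, mem_centralizer_singleton_iff, hx1def]
    constructor
    · intro h1
      calc b⁻¹ * g * b * x = b⁻¹ * (g * (b * x * b⁻¹)) * b := by group
        _ = _ := by rw [h1]; group
    · intro h1
      calc g * (b * x * b⁻¹) = b * (b⁻¹ * g * b * x) * b⁻¹ := by group
        _ = _ := by rw [h1]; group
  have hsyl : ¬ p ∣ (Sy A p ⊓ centralizer ({x1} : Set G)).relIndex (centralizer ({x1} : Set G)) := by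
    have h1 : MulAut.conj b • P1 ≤ Sy A p ⊓ centralizer ({x1} : Set G) := by
      refine le_inf hbP ?_
      rw [hC1]
      exact Subgroup.pointwise_smul_le_pointwise_smul_iff.mpr (Subgroup.map_subtype_le _)
    have h2 : (MulAut.conj b • P1).relIndex (centralizer ({x1} : Set G)) = P1.relIndex K := by
      have e1 := Basic.card_mul_relIndex (h1.trans inf_le_right)
      have e2 := Basic.card_mul_relIndex (Subgroup.map_subtype_le (P : Subgroup K))
      rw [Basic.card_conj_smul, hC1, Basic.card_conj_smul, ← e2] at e1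
      rw [hC1]
      exact Nat.eq_of_mul_eq_mul_left Nat.card_pos e1
    have h3 : ¬ p ∣ P1.relIndex K := by
      have h4 := P.not_dvd_index
      rwa [hP1, Subgroup.relIndex, Subgroup.subgroupOf,
        Subgroup.comap_map_eq_self_of_injective K.subtype_injective]
    intro h4
    apply h3
    rw [← h2, ← Subgroup.relIndex_mul_relIndex _ _ _ h1 inf_le_right]
    exact Dvd.dvd.mul_left h4 _
  have hle := h.centralizer_le_A (Sy_le A p hx1A) hord1 hcase1 hsyl
  obtain ⟨r, hr, hrp, hrA⟩ := h.hpA p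
  have := Fact.mk hr
  have hSyK : Sy A r ≤ K := by
    intro y hy
    rw [hK, mem_centralizer_singleton_iff]
    exact commute h.hA hrp hy hxSy
  have hbN : b ∈ normalizer (A : Set G) := by
    apply h.normalizer_Sy_le hrA
    apply Basic.mem_normalizer_of_conj
    intro y hy
    refine conj_mem_Sy h.hA hy (hle ?_)
    rw [hC1]
    exact Basic.conj_mem_conj_smul (hSyK hy)
  intro k hk
  have h1 : b * k * b⁻¹ ∈ A := by
    apply hle
    rw [hC1]
    exact Basic.conj_mem_conj_smul hk
  exact (Subgroup.mem_normalizer_iff.1 hbN k).2 h1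

/-- (7) `A` is a TI-subgroup. -/
theorem ti {x : G} (hx1 : x ≠ 1) (hxA : x ∈ A) {g : G} (hg : g * x * g⁻¹ ∈ A) :
    g ∈ normalizer (A : Set G) := by
  obtain ⟨p, hp, k, hk⟩ := exists_prime_order hx1
  have := Fact.mk hp
  have hyA : x ^ k ∈ A := A.pow_mem hxA k
  have hgy : g * x ^ k * g⁻¹ ∈ A := by rw [← conj_pow]; exact A.pow_mem hg k
  set y := x ^ k with hy
  have hy1 : y ≠ 1 := by
    intro h1
    rw [h1, orderOf_one] at hk
    exact hp.one_lt.ne hk
  by_cases hc1 : ∀ a ∈ A, a * y * a⁻¹ ∉ normalizer (B : Set G)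
  · set z := g * y * g⁻¹ with hz
    have hzord : orderOf z = p := by
      rw [hz, ← hk]
      exact orderOf_injective (MulAut.conj g).toMonoidHom (MulAut.conj g).injective y
    by_cases hc2 : ∀ a ∈ A, a * z * a⁻¹ ∉ normalizer (B : Set G)
    · have h1 := h.centralizer_le_of_case hgy hzord hc2
      obtain ⟨r, hr, hrp, hrA⟩ := h.hpA p
      have := Fact.mk hr
      have hySy : y ∈ Sy A p := mem_Sy h.hA hyA (k := 1) (by rw [pow_one, ← hk, pow_orderOf_eq_one])
      apply h.normalizer_Sy_le hrA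
      apply Basic.mem_normalizer_of_conj
      intro u hu
      refine conj_mem_Sy h.hA hu (h1 ?_)
      rw [mem_centralizer_singleton_iff, hz]
      have h2 := commute h.hA hrp hu hySy
      calc g * u * g⁻¹ * (g * y * g⁻¹) = g * (u * y) * g⁻¹ := by group
        _ = g * (y * u) * g⁻¹ := by rw [h2]
        _ = _ := by group
    · push Not at hc2
      obtain ⟨a, ha, hN⟩ := hc2
      have h1 : a * z * a⁻¹ ≠ 1 := by
        intro h2
        apply hy1
        have : y = (a * g)⁻¹ * (a * z * a⁻¹) * (a * g) := by rw [hz]; group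
        rw [this, h2]; group
      have h3 : (a * g)⁻¹ * (a * z * a⁻¹) * (a * g)⁻¹⁻¹ ∈ A := by
        have : (a * g)⁻¹ * (a * z * a⁻¹) * (a * g)⁻¹⁻¹ = y := by rw [hz]; group
        rw [this]; exact hyA
      have h4 := h.ti_a h1 (A.mul_mem (A.mul_mem ha hgy) (A.inv_mem ha)) hN h3
      have h6 := mul_mem (inv_mem (Subgroup.le_normalizer ha)) (inv_mem h4)
      have h7 : a⁻¹ * (a * g)⁻¹⁻¹ = g := by group
      rwa [h7] at h6
  · push Not at hc1
    obtain ⟨a, ha, hN⟩ := hc1
    have h1 : a * y * a⁻¹ ≠ 1 := by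
      intro h2
      apply hy1
      have : y = a⁻¹ * (a * y * a⁻¹) * a := by group
      rw [this, h2]; group
    have h3 : g * a⁻¹ * (a * y * a⁻¹) * (g * a⁻¹)⁻¹ ∈ A := by
      have : g * a⁻¹ * (a * y * a⁻¹) * (g * a⁻¹)⁻¹ = g * y * g⁻¹ := by group
      rw [this]; exact hgy
    have h4 := h.ti_a h1 (A.mul_mem (A.mul_mem ha hyA) (A.inv_mem ha)) hN h3
    have h6 := mul_mem h4 (Subgroup.le_normalizer ha)
    rwa [inv_mul_cancel_right] at h6

theorem card_le : Nat.card A ≤ Nat.card B := by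
  obtain ⟨g, hg⟩ : ∃ g : G, g ∉ normalizer (A : Set G) := by
    by_contra hcon
    push Not at hcon
    have hn : A.Normal := by
      rw [← Subgroup.normalizer_eq_top_iff, eq_top_iff]
      intro g _; exact hcon g
    obtain ⟨r, hr, -, hrA⟩ := h.hpA 0
    rcases h.hsimple A hn with h1 | h1
    · rw [h1, Subgroup.card_bot] at hrA
      exact hr.one_lt.ne' (Nat.dvd_one.1 hrA)
    · apply h.hns
      have hA := h.hA
      rw [h1] at hA
      have : Group.IsNilpotent G := Group.nilpotent_of_mulEquiv Subgroup.topEquiv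
      infer_instance
  have hinf : A ⊓ (MulAut.conj g • A) = ⊥ := by
    rw [eq_bot_iff]
    intro x hx
    obtain ⟨hx1, hx2⟩ := Subgroup.mem_inf.1 hx
    rw [Basic.mem_conj_smul] at hx2
    by_contra hne
    have hne' : x ≠ 1 := fun h1 => hne (Subgroup.mem_bot.2 h1)
    have h1 := h.ti hne' hx1 (g := g⁻¹) (by rwa [inv_inv])
    exact hg (by simpa using inv_mem h1)
  have h1 := Basic.card_mul_inf A (MulAut.conj g • A)
  rw [hinf, Subgroup.card_bot, mul_one, Basic.card_conj_smul] at h1
  have h2 : Nat.card ((A : Set G) * ((MulAut.conj g • A : Subgroup G) : Set G) : Set G) ≤ Nat.card G :=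
    Nat.card_le_card_of_injective _ Subtype.val_injective
  rw [h1, h.card_eq] at h2
  exact Nat.le_of_mul_le_mul_left h2 Nat.card_pos

theorem false : False := by
  have h1 : Nat.card A = Nat.card B := le_antisymm h.card_le h.symm.card_le
  have h2 := h.hcop
  rw [h1, Nat.coprime_self] at h2
  obtain ⟨r, hr, -, hrB⟩ := h.hpB 0
  rw [h2] at hrB
  exact hr.one_lt.ne' (Nat.dvd_one.1 hrB)

end Ctx
end H12.KW
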