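import Cfsg.Agent.Lib.H12.KW5
import Cfsg.Agent.Lib.H4.Burnside

set_option autoImplicit false

/-! The theorem of Wielandt: a product of two nilpotent groups of coprime orders is solvable. -/

open scoped Pointwise

universe u

namespace H12.KW

open Subgroup H12.Nil H12.Kegel Cfsg

/-- factorized subgroups are solvable by induction -/
theorem solvable_of_fac {G : Type u} [Group G] [Finite G] {A B L : Subgroup G}
    (ih : ∀ m < Nat.card G, ∀ (G' : Type u) [Group G'] [Finite G'], Nat.card G' = m →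
      ∀ A' B' : Subgroup G', Group.IsNilpotent A' → Group.IsNilpotent B' →
      (Nat.card A').Coprime (Nat.card B') → (∀ g : G', ∃ a ∈ A', ∃ b ∈ B', g = a * b) →
      Group.IsSolvable G')
    (hA : Group.IsNilpotent A) (hB : Group.IsNilpotent B) (hcop : (Nat.card A).Coprime (Nat.card B))
    (hL : L ≠ ⊤) (hfac : ∀ g ∈ L, ∃ a ∈ L ⊓ A, ∃ b ∈ L ⊓ B, g = a * b) : Group.IsSolvable L := by
  have hlt : Nat.card L < Nat.card G := by
    refine lt_of_le_of_ne (Subgroup.card_le_card_group L) ?_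
    intro h1
    exact hL (Subgroup.eq_top_of_card_eq L h1)
  have hLA : L ⊓ A ≤ L := inf_le_left
  have hLB : L ⊓ B ≤ L := inf_le_left
  have nA : Group.IsNilpotent ↥(L ⊓ A) := NilpHall.isNilpotent_of_le hA inf_le_right
  have nB : Group.IsNilpotent ↥(L ⊓ B) := NilpHall.isNilpotent_of_le hB inf_le_right
  refine ih _ hlt L rfl ((L ⊓ A).subgroupOf L) ((L ⊓ B).subgroupOf L)
    (Group.nilpotent_of_mulEquiv (Subgroup.subgroupOfEquivOfLe hLA).symm)
    (Group.nilpotent_of_mulEquiv (Subgroup.subgroupOfEquivOfLe hLB).symm) ?_ ?_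
  · rw [Basic.card_subgroupOf hLA, Basic.card_subgroupOf hLB]
    exact Nat.Coprime.coprime_dvd_left (Subgroup.card_dvd_of_le inf_le_right)
      (Nat.Coprime.coprime_dvd_right (Subgroup.card_dvd_of_le inf_le_right) hcop)
  · rintro ⟨g, hg⟩
    obtain ⟨a, ha, b, hb, e⟩ := hfac g hg
    exact ⟨⟨a, hLA ha⟩, Subgroup.mem_subgroupOf.2 ha, ⟨b, hLB hb⟩, Subgroup.mem_subgroupOf.2 hb,
      Subtype.ext e⟩

theorem fac_ge {G : Type u} [Group G] {A B M : Subgroup G}
    (hAB : ∀ g : G, ∃ a ∈ A, ∃ b ∈ B, g = a * b) (hM : A ≤ M) :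
    ∀ g ∈ M, ∃ a ∈ M ⊓ A, ∃ b ∈ M ⊓ B, g = a * b := by
  intro g hg
  obtain ⟨a, ha, b, hb, rfl⟩ := hAB g
  refine ⟨a, Subgroup.mem_inf.mpr ⟨hM ha, ha⟩, b, Subgroup.mem_inf.mpr ⟨?_, hb⟩, rfl⟩
  have := M.mul_mem (M.inv_mem (hM ha)) hg
  rwa [inv_mul_cancel_left] at this

theorem fac_ge' {G : Type u} [Group G] {A B M : Subgroup G}
    (hAB : ∀ g : G, ∃ a ∈ A, ∃ b ∈ B, g = a * b) (hM : B ≤ M) :
    ∀ g ∈ M, ∃ a ∈ M ⊓ A, ∃ b ∈ M ⊓ B, g = a * b := by
  intro g hg
  obtain ⟨a, ha, b, hb, rfl⟩ := hAB g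
  refine ⟨a, Subgroup.mem_inf.mpr ⟨?_, ha⟩, b, Subgroup.mem_inf.mpr ⟨hM hb, hb⟩, rfl⟩
  have := M.mul_mem hg (M.inv_mem (hM hb))
  rwa [mul_inv_cancel_right] at this

theorem fac_quot {G : Type u} [Group G] {A B N : Subgroup G} [N.Normal]
    (hAB : ∀ g : G, ∃ a ∈ A, ∃ b ∈ B, g = a * b) :
    ∀ g : G ⧸ N, ∃ a ∈ A.map (QuotientGroup.mk' N), ∃ b ∈ B.map (QuotientGroup.mk' N),
      g = a * b := by
  intro g
  obtain ⟨g, rfl⟩ := QuotientGroup.mk'_surjective N g
  obtain ⟨a, ha, b, hb, rfl⟩ := hAB g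
  exact ⟨_, ⟨a, ha, rfl⟩, _, ⟨b, hb, rfl⟩, map_mul _ _ _⟩

theorem solvable_of_quot {G : Type u} [Group G] {N : Subgroup G} [N.Normal]
    (h1 : Group.IsSolvable N) (h2 : Group.IsSolvable (G ⧸ N)) : Group.IsSolvable G := by
  refine solvable_of_ker_le_range N.subtype (QuotientGroup.mk' N) ?_
  rw [QuotientGroup.ker_mk', Subgroup.range_subtype]

theorem nilp_map {G H : Type*} [Group G] [Group H] {A : Subgroup G} (hA : Group.IsNilpotent A)
    (f : G →* H) : Group.IsNilpotent (A.map f) :=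
  Group.nilpotent_of_surjective (f.subgroupMap A) (f.subgroupMap_surjective A)

/-- If `A` is a `p`-group, Burnside's theorem. -/
theorem solvable_of_pgroup {G : Type u} [Group G] [Finite G] {A B : Subgroup G} {p : ℕ}
    (hp : p.Prime) (hA : IsPGroup p A) (hB : Group.IsNilpotent B)
    (hcop : (Nat.card A).Coprime (Nat.card B)) (hAB : ∀ g : G, ∃ a ∈ A, ∃ b ∈ B, g = a * b)
    (hsimple : ∀ N : Subgroup G, N.Normal → N = ⊥ ∨ N = ⊤) : Group.IsSolvable G := by
  have hpf := Fact.mk hp
  by_cases hBb : B = ⊥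
  · have h1 : A = ⊤ := by
      rw [eq_top_iff]
      intro g _
      obtain ⟨a, ha, b, hb, rfl⟩ := hAB g
      rw [hBb, Subgroup.mem_bot] at hb
      rw [hb, mul_one]; exact ha
    rw [h1] at hA
    have h2 : IsPGroup p G := hA.of_equiv Subgroup.topEquiv
    have h3 := h2.isNilpotent
    infer_instance
  have hnt : Nontrivial B := (Subgroup.nontrivial_iff_ne_bot B).2 hBb
  have hntG : Nontrivial G := Subtype.val_injective.nontrivial (α := B)
  have hs : IsSimpleGroup G := ⟨fun N hN => hsimple N hN⟩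
  have hz := Group.IsNilpotent.center_ne_bot (G := B)
  obtain ⟨⟨z, hz⟩, hz1'⟩ := Subgroup.ne_bot_iff_exists_ne_one.1 hz
  have hz1 : z ≠ 1 := fun h => hz1' (Subtype.ext h)
  have hinf : A ⊓ B = ⊥ := Subgroup.inf_eq_bot_of_coprime hcop
  have hcardG : Nat.card G = Nat.card A * Nat.card B := by
    have h1 := FacSylow.fac_card hAB
    rwa [hinf, Subgroup.card_bot, mul_one] at h1
  have hBC : B ≤ centralizer ({(z : G)} : Set G) := by
    intro b hb
    rw [mem_centralizer_singleton_iff]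
    exact congrArg Subtype.val (Subgroup.mem_center_iff.1 hz ⟨b, hb⟩)
  have hidx : (centralizer ({(z : G)} : Set G)).index ∣ Nat.card A := by
    have h1 := Subgroup.card_mul_index B
    rw [hcardG, mul_comm (Nat.card A)] at h1
    have h2 : B.index = Nat.card A := Nat.eq_of_mul_eq_mul_left Nat.card_pos h1
    rw [← h2]
    exact Subgroup.index_dvd_of_le hBC
  obtain ⟨k, hk⟩ := hA.exists_card_eq
  rw [hk] at hidx
  obtain ⟨j, -, hj⟩ := (Nat.dvd_prime_pow hp).1 hidx
  have hpr := H4.Burnside.prime_card_of_class p j hp (z : G) (fun h1 => hz1 (Subtype.ext h1)) hj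
  have hpr' := Fact.mk hpr
  have h2 : IsPGroup (Nat.card G) G := IsPGroup.of_card (n := 1) (pow_one _).symm
  have h3 := h2.isNilpotent
  infer_instance

theorem exists_other_prime {A : Type*} [Group A] [Finite A] {p : ℕ} (h : ¬ ∃ r : ℕ, r.Prime ∧ r ≠ p ∧ r ∣ Nat.card A) :
    ∃ q : ℕ, q.Prime ∧ IsPGroup q A := by
  by_cases hp : p.Prime
  · refine ⟨p, hp, ?_⟩
    have := Fact.mk hp
    rw [IsPGroup.iff_card]
    push Not at h
    refine ⟨(Nat.card A).primeFactorsList.length, ?_⟩
    exact Nat.eq_prime_pow_of_unique_prime_dvd Nat.card_pos.ne' (fun {d} hd hdA => by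
      by_contra hne; exact h d hd hne hdA)
  · have h1 : Nat.card A = 1 := by
      by_contra hne
      obtain ⟨r, hr, hd⟩ := Nat.exists_prime_and_dvd hne
      exact h ⟨r, hr, fun e => hp (e ▸ hr), hd⟩
    refine ⟨2, Nat.prime_two, ?_⟩
    apply IsPGroup.of_card (n := 0)
    rw [h1, pow_zero]

/-- Wielandt: coprime case. -/
theorem solvable_coprime (n : ℕ) : ∀ (G : Type u) [Group G] [Finite G], Nat.card G = n →
    ∀ A B : Subgroup G, Group.IsNilpotent A → Group.IsNilpotent B →
    (Nat.card A).Coprime (Nat.card B) → (∀ g : G, ∃ a ∈ A, ∃ b ∈ B, g = a * b) →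
    Group.IsSolvable G := by
  induction n using Nat.strong_induction_on with
  | _ n ih =>
    intro G _ _ hn A B hA hB hcop hAB
    by_contra hns
    subst hn
    have hmin : ∀ L : Subgroup G, L ≠ ⊤ → (∀ g ∈ L, ∃ a ∈ L ⊓ A, ∃ b ∈ L ⊓ B, g = a * b) →
        Group.IsSolvable L := fun L hL hfac => solvable_of_fac ih hA hB hcop hL hfac
    have hsimple : ∀ N : Subgroup G, N.Normal → N = ⊥ ∨ N = ⊤ := by
      intro N hN
      by_contra hcon
      push Not at hcon
      obtain ⟨hNb, hNt⟩ := hcon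
      apply hns
      have hq : Group.IsSolvable (G ⧸ N) := by
        have hlt : Nat.card (G ⧸ N) < Nat.card G := by
          have h1 := Subgroup.card_mul_index N
          have h2 : 1 < Nat.card N := by
            rw [Finite.one_lt_card_iff_nontrivial, Subgroup.nontrivial_iff_ne_bot]
            exact hNb
          have h3 : 0 < N.index := Nat.pos_of_ne_zero Subgroup.index_ne_zero_of_finite
          have h4 : Nat.card (G ⧸ N) = N.index := rfl
          rw [h4, ← h1]
          nlinarith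
        refine ih _ hlt (G ⧸ N) rfl (A.map (QuotientGroup.mk' N)) (B.map (QuotientGroup.mk' N))
          (nilp_map hA _) (nilp_map hB _) ?_ (fac_quot hAB)
        exact Nat.Coprime.coprime_dvd_left (Subgroup.card_map_dvd _ _)
          (Nat.Coprime.coprime_dvd_right (Subgroup.card_map_dvd _ _) hcop)
      refine solvable_of_quot ?_ hq
      by_cases hAN : A ⊔ N = ⊤
      · -- then B ≤ N
        have hBN : B ≤ N := by
          have h1 : A.map (QuotientGroup.mk' N) = ⊤ := by
            rw [eq_top_iff]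
            intro g _
            obtain ⟨g, rfl⟩ := QuotientGroup.mk'_surjective N g
            have hg : g ∈ A ⊔ N := by rw [hAN]; trivial
            obtain ⟨a, ha, m, hm, rfl⟩ := Subgroup.mem_sup_of_normal_right.1 hg
            refine ⟨a, ha, ?_⟩
            rw [map_mul]
            have : QuotientGroup.mk' N m = 1 := (QuotientGroup.eq_one_iff _).2 hm
            rw [this, mul_one]
          have h2 : Nat.card (G ⧸ N) ∣ Nat.card A := by
            have := Subgroup.card_map_dvd A (QuotientGroup.mk' N)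
            rwa [h1, Subgroup.card_top] at this
          have h3 : Nat.card (B.map (QuotientGroup.mk' N)) = 1 :=
            Nat.eq_one_of_dvd_coprimes hcop
              ((Subgroup.card_subgroup_dvd_card _).trans h2) (Subgroup.card_map_dvd _ _)
          have h4 := Subgroup.card_eq_one.1 h3
          intro b hb
          have h5 : QuotientGroup.mk' N b ∈ B.map (QuotientGroup.mk' N) := ⟨b, hb, rfl⟩
          rw [h4, Subgroup.mem_bot] at h5
          exact (QuotientGroup.eq_one_iff _).1 h5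
        exact hmin N hNt (fac_ge' hAB hBN)
      · have h1 := hmin (A ⊔ N) hAN (fac_ge hAB le_sup_left)
        exact solvable_of_solvable_injective
          (Subgroup.inclusion_injective (le_sup_right : N ≤ A ⊔ N))
    have hpA : ∀ p : ℕ, ∃ r : ℕ, r.Prime ∧ r ≠ p ∧ r ∣ Nat.card A := by
      intro p
      by_contra hcon
      obtain ⟨q, hq, hqA⟩ := exists_other_prime hcon
      exact hns (solvable_of_pgroup hq hqA hB hcop hAB hsimple)
    have hpB : ∀ p : ℕ, ∃ r : ℕ, r.Prime ∧ r ≠ p ∧ r ∣ Nat.card B := by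
      intro p
      by_contra hcon
      obtain ⟨q, hq, hqA⟩ := exists_other_prime hcon
      exact hns (solvable_of_pgroup hq hqA hA hcop.symm
        (fun g => swap_fac (L := ⊤) (fun g _ => hAB g) g trivial) hsimple)
    exact (Ctx.mk hA hB hcop hAB hsimple hns hmin hpA hpB).false

end H12.KW
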