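import Cfsg.Agent.Lib.H12.KW6
import Cfsg.Agent.S0560

set_option autoImplicit false

/-! The Kegel–Wielandt theorem. -/

open scoped Pointwise

universe u

namespace H12.KW

open Subgroup H12.Nil H12.Kegel Cfsg

theorem perm_Sy_self {G : Type*} [Group G] [Finite G] {A B : Subgroup G}
    (hA : Group.IsNilpotent A) (hB : Group.IsNilpotent B)
    (hAB : ∀ g : G, ∃ a ∈ A, ∃ b ∈ B, g = a * b) (p : ℕ) [Fact p.Prime] :
    Perm (Sy A p) (Sy B p) := by
  obtain ⟨P, Q, R, hR⟩ := Cfsg.Agent.S0560.result A B hAB p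
  rw [map_sylow hA P, map_sylow hB Q] at hR
  exact perm_of_coe hR

theorem conj_Sy' {G : Type*} [Group G] [Finite G] {A : Subgroup G}
    (hA : Group.IsNilpotent A) (p : ℕ) [Fact p.Prime] :
    ∀ a ∈ A, ∀ x ∈ Sy A p, a * x * a⁻¹ ∈ Sy A p := fun _ ha x hx =>
  (Subgroup.mem_normalizer_iff.1 (le_normalizer_Sy hA p ha) x).1 hx

theorem perm_Sy_conj {G : Type*} [Group G] [Finite G] {A B : Subgroup G}
    (hA : Group.IsNilpotent A) (hB : Group.IsNilpotent B)
    (hAB : ∀ g : G, ∃ a ∈ A, ∃ b ∈ B, g = a * b) (p : ℕ) [Fact p.Prime] (x : G) :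
    Perm (Sy A p) (MulAut.conj x • Sy B p) := by
  obtain ⟨g, -, -, h1⟩ := FacHall.perm_conj hAB
      (FacHall.conj_smul_eq_of_conj_mem (conj_Sy' hA p))
      (FacHall.conj_smul_eq_of_conj_mem (conj_Sy' hB p)) (perm_Sy_self hA hB hAB p) 1 x
  rwa [map_one, one_smul] at h1

theorem isPGroup_prod {G : Type*} [Group G] [Finite G] {p : ℕ} [hp : Fact p.Prime]
    {X Y S : Subgroup G} (hX : IsPGroup p X) (hY : IsPGroup p Y)
    (hS : (S : Set G) = (X : Set G) * (Y : Set G)) : IsPGroup p S := by
  have h1 := Basic.card_mul_inf X Y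
  rw [← hS] at h1
  obtain ⟨k, hk⟩ := hX.exists_card_eq
  obtain ⟨l, hl⟩ := hY.exists_card_eq
  rw [hk, hl, ← pow_add] at h1
  have h2 : Nat.card S ∣ p ^ (k + l) := by rw [← h1]; exact Dvd.intro _ rfl
  obtain ⟨m, -, hm⟩ := (Nat.dvd_prime_pow hp.out).1 h2
  exact IsPGroup.of_card hm

/-- the image of `Sy A p` when `A` covers the quotient -/
theorem sup_eq_of_cover {G : Type*} [Group G] [Finite G] {A N : Subgroup G} [N.Normal]
    (hA : Group.IsNilpotent A) (hAN : A ⊔ N = ⊤) (p : ℕ) [hp : Fact p.Prime] :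
    (Sy A p).map (QuotientGroup.mk' N) = pCore p (G ⧸ N) := by
  have hmap : A.map (QuotientGroup.mk' N) = ⊤ := by
    rw [eq_top_iff]
    intro g _
    obtain ⟨g, rfl⟩ := QuotientGroup.mk'_surjective N g
    have hg : g ∈ A ⊔ N := by rw [hAN]; trivial
    obtain ⟨a, ha, m, hm, rfl⟩ := Subgroup.mem_sup_of_normal_right.1 hg
    refine ⟨a, ha, ?_⟩
    rw [map_mul]
    have : QuotientGroup.mk' N m = 1 := (QuotientGroup.eq_one_iff _).2 hm
    rw [this, mul_one]
  have hp1 : IsPGroup p ((Sy A p).map (QuotientGroup.mk' N)) := (isPGroup_Sy A p).map _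
  have hn : ((Sy A p).map (QuotientGroup.mk' N)).Normal := by
    rw [← Subgroup.normalizer_eq_top_iff, eq_top_iff, ← hmap]
    rintro _ ⟨a, ha, rfl⟩
    apply Basic.mem_normalizer_of_conj
    rintro _ ⟨x, hx, rfl⟩
    exact ⟨a * x * a⁻¹, conj_Sy' hA p a ha x hx, by simp⟩
  apply le_antisymm (H1.Cores.le_pCore hn hp1)
  have hK : (Sy A p ⊔ N).Normal := by
    have h1 := hn.comap (QuotientGroup.mk' N)
    rwa [QuotientGroup.comap_map_mk', sup_comm] at h1
  have hi : ¬ p ∣ ((Sy A p).map (QuotientGroup.mk' N)).index := by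
    intro hd
    apply not_dvd_relIndex_Sy hA p
    have h1 : ((Sy A p).map (QuotientGroup.mk' N)).index = (Sy A p ⊔ N).relIndex A := by
      rw [Subgroup.index_map, QuotientGroup.ker_mk',
        MonoidHom.range_eq_top.2 (QuotientGroup.mk'_surjective N), Subgroup.index_top, mul_one,
        ← Subgroup.relIndex_sup_right A (Sy A p ⊔ N), ← Subgroup.relIndex_top_right]
      congr 1
      rw [eq_comm, eq_top_iff, ← hAN]
      exact sup_le le_sup_left (le_sup_right.trans le_sup_right)
    rw [h1] at hd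
    exact hd.trans (Subgroup.relIndex_dvd_of_le_left A le_sup_left)
  exact H1.Cores.pCore_le_sylow (hp1.toSylow hi)

theorem solvable_of_two {G : Type u} [Group G] {N M : Subgroup G} [N.Normal] [M.Normal]
    (hNM : N ⊓ M = ⊥) (h1 : Group.IsSolvable (G ⧸ N)) (h2 : Group.IsSolvable (G ⧸ M)) :
    Group.IsSolvable G := by
  let f : G →* (G ⧸ N) × (G ⧸ M) := (QuotientGroup.mk' N).prod (QuotientGroup.mk' M)
  have hf : Function.Injective f := by
    rw [← MonoidHom.ker_eq_bot_iff, eq_bot_iff, ← hNM]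
    intro x hx
    rw [MonoidHom.mem_ker] at hx
    have h3 := congrArg Prod.fst hx
    have h4 := congrArg Prod.snd hx
    exact Subgroup.mem_inf.mpr ⟨(QuotientGroup.eq_one_iff _).1 h3, (QuotientGroup.eq_one_iff _).1 h4⟩
  exact solvable_of_solvable_injective hf

/-- Kegel–Wielandt -/
theorem solvable (n : ℕ) : ∀ (G : Type u) [Group G] [Finite G], Nat.card G = n →
    ∀ A B : Subgroup G, Group.IsNilpotent A → Group.IsNilpotent B →
    (∀ g : G, ∃ a ∈ A, ∃ b ∈ B, g = a * b) → Group.IsSolvable G := by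
  induction n using Nat.strong_induction_on with
  | _ n ih =>
    intro G _ _ hn A B hA hB hAB
    by_contra hns
    subst hn
    have hBA : ∀ g : G, ∃ b ∈ B, ∃ a ∈ A, g = b * a := fun g =>
      swap_fac (L := ⊤) (fun g _ => hAB g) g trivial
    have hnp : ∀ (p : ℕ) [Fact p.Prime] (S : Subgroup G), IsPGroup p S → S ≠ ⊤ := by
      intro p _ S hS htop
      apply hns
      rw [htop] at hS
      have h1 : IsPGroup p G := hS.of_equiv Subgroup.topEquiv
      have h2 := h1.isNilpotent
      infer_instance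
    -- proper subgroups containing A or B are solvable
    have key : ∀ A B : Subgroup G, Group.IsNilpotent A → Group.IsNilpotent B →
        (∀ g : G, ∃ a ∈ A, ∃ b ∈ B, g = a * b) → ∀ L : Subgroup G, A ≤ L → L ≠ ⊤ →
        Group.IsSolvable L := by
      intro A B hA hB hAB L hAL hL
      have hlt : Nat.card L < Nat.card G := by
        refine lt_of_le_of_ne (Subgroup.card_le_card_group L) ?_
        intro h1
        exact hL (Subgroup.eq_top_of_card_eq L h1)
      have hLB : L ⊓ B ≤ L := inf_le_left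
      have nB : Group.IsNilpotent ↥(L ⊓ B) := NilpHall.isNilpotent_of_le hB inf_le_right
      refine ih _ hlt L rfl (A.subgroupOf L) ((L ⊓ B).subgroupOf L)
        (Group.nilpotent_of_mulEquiv (Subgroup.subgroupOfEquivOfLe hAL).symm)
        (Group.nilpotent_of_mulEquiv (Subgroup.subgroupOfEquivOfLe hLB).symm) ?_
      rintro ⟨g, hg⟩
      obtain ⟨a, ha, b, hb, e⟩ := fac_ge hAB hAL g hg
      exact ⟨⟨a, (Subgroup.mem_inf.1 ha).1⟩, Subgroup.mem_subgroupOf.2 (Subgroup.mem_inf.1 ha).2,
        ⟨b, hLB hb⟩, Subgroup.mem_subgroupOf.2 hb, Subtype.ext e⟩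
    have hquot : ∀ N : Subgroup G, ∀ _ : N.Normal, N ≠ ⊥ → Group.IsSolvable (G ⧸ N) := by
      intro N hN hNb
      have hlt : Nat.card (G ⧸ N) < Nat.card G := by
        have h1 := Subgroup.card_mul_index N
        have h2 : 1 < Nat.card N := by
          rw [Finite.one_lt_card_iff_nontrivial, Subgroup.nontrivial_iff_ne_bot]
          exact hNb
        have h3 : 0 < N.index := Nat.pos_of_ne_zero Subgroup.index_ne_zero_of_finite
        have h4 : Nat.card (G ⧸ N) = N.index := rfl
        rw [h4, ← h1]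
        nlinarith
      exact ih _ hlt (G ⧸ N) rfl (A.map (QuotientGroup.mk' N)) (B.map (QuotientGroup.mk' N))
        (nilp_map hA _) (nilp_map hB _) (fac_quot hAB)
    have hcover : ∀ A B : Subgroup G, Group.IsNilpotent A → Group.IsNilpotent B →
        (∀ g : G, ∃ a ∈ A, ∃ b ∈ B, g = a * b) → ∀ N : Subgroup G, N.Normal → N ≠ ⊥ →
        A ⊔ N = ⊤ := by
      intro A B hA hB hAB N hN hNb
      by_contra hcon
      apply hns
      refine solvable_of_quot (N := N) ?_ (hquot N hN hNb)
      have h1 := key A B hA hB hAB (A ⊔ N) le_sup_left hcon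
      exact solvable_of_solvable_injective
        (Subgroup.inclusion_injective (le_sup_right : N ≤ A ⊔ N))
    have hmeet : ∀ N M : Subgroup G, N.Normal → M.Normal → N ≠ ⊥ → M ≠ ⊥ → N ⊓ M ≠ ⊥ := by
      intro N M hN hM hNb hMb hinf
      exact hns (solvable_of_two hinf (hquot N hN hNb) (hquot M hM hMb))
    -- the crucial step with Kegel's lemma
    have hsimple : ∀ N : Subgroup G, N.Normal → N ≠ ⊥ → (∀ M : Subgroup G, M.Normal → M ≤ N →
        M ≠ ⊥ → M = N) → N = ⊤ := by
      intro N hN hNb hmin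
      by_contra hNt
      have hle : ∀ M : Subgroup G, M.Normal → M ≠ ⊥ → N ≤ M := by
        intro M hM hMb
        have h1 := hmin (N ⊓ M) inferInstance inf_le_left (hmeet N M hN hM hNb hMb)
        rw [← h1]; exact inf_le_right
      have hidx : N.index ≠ 1 := fun h1 => hNt (Subgroup.index_eq_one.1 h1)
      obtain ⟨p, hp, hpd⟩ := Nat.exists_prime_and_dvd hidx
      have hpf := Fact.mk hp
      have hAN := hcover A B hA hB hAB N hN hNb
      have hBN := hcover B A hB hA hBA N hN hNb
      have e1 := sup_eq_of_cover hA hAN p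
      have e2 := sup_eq_of_cover hB hBN p
      set G1 : Subgroup G := Sy A p ⊔ N with hG1
      have hG1B : G1 = Sy B p ⊔ N := by
        have h1 : ((Sy A p).map (QuotientGroup.mk' N)).comap (QuotientGroup.mk' N) =
          ((Sy B p).map (QuotientGroup.mk' N)).comap (QuotientGroup.mk' N) := by rw [e1, e2]
        rw [QuotientGroup.comap_map_mk', QuotientGroup.comap_map_mk', sup_comm N, sup_comm N] at h1
        exact h1
      have hAG1 : Sy A p ≤ G1 := le_sup_left
      have hBG1 : Sy B p ≤ G1 := by rw [hG1B]; exact le_sup_left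
      have hNG1 : N ≤ G1 := le_sup_right
      have hG1sol : ¬ Group.IsSolvable G1 := by
        intro h1
        apply hns
        refine solvable_of_quot (N := N) ?_ (hquot N hN hNb)
        exact solvable_of_solvable_injective (Subgroup.inclusion_injective hNG1)
      have hdvdA : ∀ A : Subgroup G, Group.IsNilpotent A → A ⊔ N = ⊤ → Sy A p ≠ ⊥ := by
        intro A hA hAN
        apply Sy_ne_bot hA
        have h1 : Nat.card (G ⧸ N) ∣ Nat.card A := by
          have h2 : A.map (QuotientGroup.mk' N) = ⊤ := by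
            rw [eq_top_iff]
            intro g _
            obtain ⟨g, rfl⟩ := QuotientGroup.mk'_surjective N g
            have hg : g ∈ A ⊔ N := by rw [hAN]; trivial
            obtain ⟨a, ha, m, hm, rfl⟩ := Subgroup.mem_sup_of_normal_right.1 hg
            refine ⟨a, ha, ?_⟩
            rw [map_mul]
            have : QuotientGroup.mk' N m = 1 := (QuotientGroup.eq_one_iff _).2 hm
            rw [this, mul_one]
          have := Subgroup.card_map_dvd A (QuotientGroup.mk' N)
          rwa [h2, Subgroup.card_top] at this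
        exact hpd.trans h1
      obtain ⟨M, hM, hMt, hMle⟩ := kegel ((Sy A p).subgroupOf G1) ((Sy B p).subgroupOf G1) (by
        intro x
        obtain ⟨S, hS⟩ := perm_iff.1 (perm_Sy_conj hA hB hAB p (x : G))
        have hSp : IsPGroup p S := isPGroup_prod (isPGroup_Sy A p)
          ((isPGroup_Sy B p).of_equiv (Subgroup.equivSMul (MulAut.conj (x : G)) _)) hS
        have hSG1 : S ≤ G1 := by
          intro s hs
          rw [← SetLike.mem_coe, hS] at hs
          obtain ⟨a, ha, b, hb, rfl⟩ := Set.mem_mul.1 hs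
          have hb' := (Basic.mem_conj_smul).1 hb
          have h1 := G1.mul_mem (G1.mul_mem x.2 (hBG1 hb')) (G1.inv_mem x.2)
          have h2 : (x : G) * ((x : G)⁻¹ * b * x) * (x : G)⁻¹ = b := by group
          rw [h2] at h1
          exact G1.mul_mem (hAG1 ha) h1
        refine ⟨S.subgroupOf G1, ?_, ?_⟩
        · intro htop
          apply hG1sol
          have h1 : IsPGroup p G1 := hSp.to_le (Subgroup.subgroupOf_eq_top.1 htop)
          have h2 := h1.isNilpotent
          infer_instance
        · ext ⟨g, hg⟩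
          rw [SetLike.mem_coe, Subgroup.mem_subgroupOf, Set.mem_mul]
          constructor
          · intro h1
            change g ∈ S at h1
            rw [← SetLike.mem_coe, hS] at h1
            obtain ⟨a, ha, b, hb, e⟩ := Set.mem_mul.1 h1
            have hb' := (Basic.mem_conj_smul).1 hb
            have h3 := G1.mul_mem (G1.mul_mem x.2 (hBG1 hb')) (G1.inv_mem x.2)
            have h2 : (x : G) * ((x : G)⁻¹ * b * x) * (x : G)⁻¹ = b := by group
            rw [h2] at h3
            exact ⟨⟨a, hAG1 ha⟩, Subgroup.mem_subgroupOf.2 ha, ⟨b, h3⟩,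
              Basic.mem_conj_smul.2 (Subgroup.mem_subgroupOf.2 hb'), Subtype.ext e⟩
          · rintro ⟨a, ha, b, hb, e⟩
            show g ∈ S
            rw [← SetLike.mem_coe, hS]
            have hb' := (Basic.mem_conj_smul).1 hb
            exact Set.mem_mul.2 ⟨a, Subgroup.mem_subgroupOf.1 ha, b,
              Basic.mem_conj_smul.2 (Subgroup.mem_subgroupOf.1 hb'), congrArg Subtype.val e⟩)
      -- contradiction
      have hfin : ∀ A : Subgroup G, Group.IsNilpotent A → A ⊔ N = ⊤ → Sy A p ≤ G1 →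
          G1 = Sy A p ⊔ N → ¬ (Sy A p).subgroupOf G1 ≤ M := by
        intro A hA hAN hAG1 hG1A hle2
        have h1 : Subgroup.normalClosure (Sy A p : Set G) ≤ M.map G1.subtype := by
          rw [Subgroup.normalClosure, Subgroup.closure_le]
          intro y hy
          rw [Group.mem_conjugatesOfSet_iff] at hy
          obtain ⟨x, hx, hxy⟩ := hy
          rw [isConj_iff] at hxy
          obtain ⟨g, rfl⟩ := hxy
          have hg : g ∈ A ⊔ N := by rw [hAN]; trivial
          obtain ⟨a, ha, m, hm, e⟩ := Subgroup.mem_sup_of_normal_right.1 (inv_mem hg)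
          have hy' : a⁻¹ * x * a⁻¹⁻¹ ∈ Sy A p := conj_Sy' hA p a⁻¹ (A.inv_mem ha) x hx
          have hyM : (⟨a⁻¹ * x * a⁻¹⁻¹, hAG1 hy'⟩ : G1) ∈ M := hle2 (Subgroup.mem_subgroupOf.2 hy')
          have hmG : m⁻¹ ∈ G1 := hNG1 (N.inv_mem hm)
          refine ⟨_, hM.conj_mem _ hyM ⟨m⁻¹, hmG⟩, ?_⟩
          show m⁻¹ * (a⁻¹ * x * a⁻¹⁻¹) * m⁻¹⁻¹ = g * x * g⁻¹
          have e' : g = m⁻¹ * a⁻¹ := by rw [← inv_inj, ← e]; group
          rw [e']; group
        have hne : Subgroup.normalClosure (Sy A p : Set G) ≠ ⊥ := by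
          intro h2
          apply hdvdA A hA hAN
          rw [eq_bot_iff, ← h2]
          exact Subgroup.le_normalClosure
        have h2 := (hle _ Subgroup.normalClosure_normal hne).trans h1
        apply hMt
        rw [eq_top_iff]
        rintro ⟨g, hg⟩ -
        have h3 : G1 ≤ M.map G1.subtype := by
          refine le_trans (le_of_eq hG1A) (sup_le ?_ h2)
          intro x hx
          exact ⟨⟨x, hAG1 hx⟩, hle2 (Subgroup.mem_subgroupOf.2 hx), rfl⟩
        obtain ⟨z, hz, e⟩ := h3 hg
        have : z = ⟨g, hg⟩ := Subtype.ext e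
        rwa [← this]
      rcases hMle with h1 | h1
      · exact hfin A hA hAN hAG1 rfl h1
      · exact hfin B hB hBN hBG1 hG1B h1
    -- `G` is simple
    have htopne : (⊤ : Subgroup G) ≠ ⊥ := by
      intro h1
      exact hns (isSolvable_of_top_eq_bot G h1)
    obtain ⟨N0, ⟨hN0n, hN0b⟩, hN0min⟩ := (Set.toFinite {N : Subgroup G | N.Normal ∧ N ≠ ⊥}).exists_minimal
      ⟨⊤, inferInstance, htopne⟩
    have hN0t : N0 = ⊤ := hsimple N0 hN0n hN0b (fun M hM hMN hMb =>
      le_antisymm hMN (hN0min ⟨hM, hMb⟩ hMN))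
    have hsimple' : ∀ N : Subgroup G, N.Normal → N ≠ ⊤ → N = ⊥ := by
      intro N hN hNt
      by_contra hNb
      apply hNt
      rw [eq_top_iff, ← hN0t]
      exact hN0min ⟨hN, hNb⟩ (by rw [hN0t]; exact le_top)
    have hcop : (Nat.card A).Coprime (Nat.card B) := by
      apply Nat.coprime_of_dvd
      intro p hp hpA hpB
      have hpf := Fact.mk hp
      obtain ⟨M, hM, hMt, hMle⟩ := kegel (Sy A p) (Sy B p) (by
        intro x
        obtain ⟨S, hS⟩ := perm_iff.1 (perm_Sy_conj hA hB hAB p x)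
        exact ⟨S, hnp p S (isPGroup_prod (isPGroup_Sy A p)
          ((isPGroup_Sy B p).of_equiv (Subgroup.equivSMul (MulAut.conj x) _)) hS), hS⟩)
      rw [hsimple' M hM hMt] at hMle
      rcases hMle with h1 | h1
      · exact Sy_ne_bot hA hpA (le_bot_iff.1 h1)
      · exact Sy_ne_bot hB hpB (le_bot_iff.1 h1)
    exact hns (solvable_coprime _ G rfl A B hA hB hcop hAB)

end H12.KW
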