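import Cfsg.Agent.Lib.H12.Basic

/-! Permuting subgroups and Kegel's lemma. -/

set_option autoImplicit false

open scoped Pointwise

namespace H12.Kegel

variable {G : Type*} [Group G]

/-- `B * A ⊆ A * B`. -/
def Perm (A B : Subgroup G) : Prop := ∀ a ∈ A, ∀ b ∈ B, ∃ a' ∈ A, ∃ b' ∈ B, b * a = a' * b'

/-- the subgroup `A * B` if `A` and `B` permute. -/
def prodSubgroup (A B : Subgroup G) (h : Perm A B) : Subgroup G where
  carrier := (A : Set G) * (B : Set G)
  one_mem' := Set.mem_mul.mpr ⟨1, A.one_mem, 1, B.one_mem, by simp⟩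
  mul_mem' := by
    rintro x y hx hy
    obtain ⟨a, ha, b, hb, rfl⟩ := Set.mem_mul.mp hx
    obtain ⟨a1, ha1, b1, hb1, rfl⟩ := Set.mem_mul.mp hy
    obtain ⟨a', ha', b', hb', e⟩ := h a1 ha1 b hb
    refine Set.mem_mul.mpr ⟨a * a', A.mul_mem ha ha', b' * b1, B.mul_mem hb' hb1, ?_⟩
    calc a * a' * (b' * b1) = a * (a' * b') * b1 := by group
      _ = a * b * (a1 * b1) := by rw [← e]; group
  inv_mem' := by
    rintro x hx
    obtain ⟨a, ha, b, hb, rfl⟩ := Set.mem_mul.mp hx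
    obtain ⟨a', ha', b', hb', e⟩ := h a⁻¹ (A.inv_mem ha) b⁻¹ (B.inv_mem hb)
    exact Set.mem_mul.mpr ⟨a', ha', b', hb', by rw [← e]; group⟩

theorem coe_prodSubgroup (A B : Subgroup G) (h : Perm A B) :
    (prodSubgroup A B h : Set G) = (A : Set G) * (B : Set G) := rfl

theorem perm_of_coe {A B S : Subgroup G} (h : (S : Set G) = (A : Set G) * (B : Set G)) :
    Perm A B := by
  intro a ha b hb
  have h1 : a ∈ S := by
    rw [← SetLike.mem_coe, h]; exact Set.mem_mul.mpr ⟨a, ha, 1, B.one_mem, by simp⟩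
  have h2 : b ∈ S := by
    rw [← SetLike.mem_coe, h]; exact Set.mem_mul.mpr ⟨1, A.one_mem, b, hb, by simp⟩
  have h3 : b * a ∈ (S : Set G) := S.mul_mem h2 h1
  rw [h] at h3
  obtain ⟨a', ha', b', hb', e⟩ := Set.mem_mul.mp h3
  exact ⟨a', ha', b', hb', e.symm⟩

theorem perm_iff {A B : Subgroup G} :
    Perm A B ↔ ∃ S : Subgroup G, (S : Set G) = (A : Set G) * (B : Set G) :=
  ⟨fun h => ⟨prodSubgroup A B h, rfl⟩, fun ⟨_, h⟩ => perm_of_coe h⟩

theorem Perm.symm {A B : Subgroup G} (h : Perm A B) : Perm B A := by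
  intro b hb a ha
  obtain ⟨a', ha', b', hb', e⟩ := h a⁻¹ (A.inv_mem ha) b⁻¹ (B.inv_mem hb)
  refine ⟨b'⁻¹, B.inv_mem hb', a'⁻¹, A.inv_mem ha', ?_⟩
  have : (b⁻¹ * a⁻¹)⁻¹ = (a' * b')⁻¹ := by rw [e]
  simpa using this

theorem left_le {A B S : Subgroup G} (h : (S : Set G) = (A : Set G) * (B : Set G)) : A ≤ S := by
  intro a ha
  rw [← SetLike.mem_coe, h]; exact Set.mem_mul.mpr ⟨a, ha, 1, B.one_mem, by simp⟩

theorem right_le {A B S : Subgroup G} (h : (S : Set G) = (A : Set G) * (B : Set G)) : B ≤ S := by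
  intro b hb
  rw [← SetLike.mem_coe, h]; exact Set.mem_mul.mpr ⟨1, A.one_mem, b, hb, by simp⟩

theorem Perm.conj {A B : Subgroup G} (h : Perm A B) (g : G) :
    Perm (MulAut.conj g • A) (MulAut.conj g • B) := by
  intro a ha b hb
  rw [Basic.mem_conj_smul] at ha hb
  obtain ⟨a', ha', b', hb', e⟩ := h _ ha _ hb
  refine ⟨g * a' * g⁻¹, Basic.conj_mem_conj_smul ha', g * b' * g⁻¹,
    Basic.conj_mem_conj_smul hb', ?_⟩
  calc b * a = g * (g⁻¹ * b * g * (g⁻¹ * a * g)) * g⁻¹ := by group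
    _ = _ := by rw [e]; group

theorem Perm.sup_left {A₁ A₂ B : Subgroup G} (h₁ : Perm A₁ B) (h₂ : Perm A₂ B) :
    Perm (A₁ ⊔ A₂) B := by
  intro a ha
  rw [Subgroup.sup_eq_closure] at ha
  induction ha using Subgroup.closure_induction_left with
  | one => intro b hb; exact ⟨1, Subgroup.one_mem _, b, hb, by simp⟩
  | mul_left x hx y hy ih =>
    intro b hb
    have : ∃ x' ∈ A₁ ⊔ A₂, ∃ b' ∈ B, b * x = x' * b' := by
      rcases hx with hx | hx
      · obtain ⟨x', hx', b', hb', e⟩ := h₁ x hx b hb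
        exact ⟨x', Subgroup.mem_sup_left hx', b', hb', e⟩
      · obtain ⟨x', hx', b', hb', e⟩ := h₂ x hx b hb
        exact ⟨x', Subgroup.mem_sup_right hx', b', hb', e⟩
    obtain ⟨x', hx', b', hb', e⟩ := this
    obtain ⟨y', hy', b'', hb'', e'⟩ := ih b' hb'
    refine ⟨x' * y', Subgroup.mul_mem _ hx' hy', b'', hb'', ?_⟩
    rw [← mul_assoc, e, mul_assoc, e', mul_assoc]
  | inv_mul_cancel x hx y hy ih =>
    intro b hb
    have : ∃ x' ∈ A₁ ⊔ A₂, ∃ b' ∈ B, b * x⁻¹ = x' * b' := by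
      rcases hx with hx | hx
      · obtain ⟨x', hx', b', hb', e⟩ := h₁ x⁻¹ (A₁.inv_mem hx) b hb
        exact ⟨x', Subgroup.mem_sup_left hx', b', hb', e⟩
      · obtain ⟨x', hx', b', hb', e⟩ := h₂ x⁻¹ (A₂.inv_mem hx) b hb
        exact ⟨x', Subgroup.mem_sup_right hx', b', hb', e⟩
    obtain ⟨x', hx', b', hb', e⟩ := this
    obtain ⟨y', hy', b'', hb'', e'⟩ := ih b' hb'
    refine ⟨x' * y', Subgroup.mul_mem _ hx' hy', b'', hb'', ?_⟩
    rw [← mul_assoc, e, mul_assoc, e', mul_assoc]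

theorem conj_conj_smul (x y : G) (H : Subgroup G) :
    MulAut.conj x • (MulAut.conj y • H) = MulAut.conj (x * y) • H := by
  rw [map_mul, mul_smul]

theorem inv_conj_smul (x : G) (H : Subgroup G) :
    MulAut.conj x⁻¹ • (MulAut.conj x • H) = H := by
  rw [conj_conj_smul]; simp

/-- Kegel's lemma. -/
theorem kegel [Finite G] (A B : Subgroup G)
    (h : ∀ x : G, ∃ S : Subgroup G, S ≠ ⊤ ∧
      (S : Set G) = (A : Set G) * ((MulAut.conj x • B : Subgroup G) : Set G)) :
    ∃ N : Subgroup G, N.Normal ∧ N ≠ ⊤ ∧ (A ≤ N ∨ B ≤ N) := by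
  classical
  have hfin : {A' : Subgroup G | A ≤ A' ∧ ∀ x : G, ∃ S : Subgroup G, S ≠ ⊤ ∧
      (S : Set G) = (A' : Set G) * ((MulAut.conj x • B : Subgroup G) : Set G)}.Finite :=
    Set.toFinite _
  obtain ⟨A', hA'⟩ := hfin.exists_maximal ⟨A, le_rfl, h⟩
  obtain ⟨hAA', hprop⟩ := hA'.prop
  -- every conjugate of B normalizes A'
  have key : ∀ (x b : G), b ∈ (MulAut.conj x • B : Subgroup G) →
      b ∈ Subgroup.normalizer (A' : Set G) := by
    intro x b hb
    obtain ⟨Sx, hSx, eSx⟩ := hprop x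
    have hmem : A' ⊔ MulAut.conj b • A' ∈ {A' : Subgroup G | A ≤ A' ∧ ∀ x : G, ∃ S : Subgroup G,
        S ≠ ⊤ ∧ (S : Set G) = (A' : Set G) * ((MulAut.conj x • B : Subgroup G) : Set G)} := by
      refine ⟨hAA'.trans le_sup_left, fun y => ?_⟩
      have p1 : Perm A' (MulAut.conj y • B) := by
        obtain ⟨S, -, e⟩ := hprop y
        exact perm_of_coe e
      have p2 : Perm (MulAut.conj b • A') (MulAut.conj y • B) := by
        obtain ⟨S, -, e⟩ := hprop (b⁻¹ * y)
        have := (perm_of_coe e).conj b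
        rwa [conj_conj_smul, mul_inv_cancel_left] at this
      have p3 := p1.sup_left p2
      refine ⟨prodSubgroup _ _ p3, ?_, coe_prodSubgroup _ _ _⟩
      intro htop
      -- then G = Sx * B^y
      have hle : A' ⊔ MulAut.conj b • A' ≤ Sx := by
        refine sup_le (left_le eSx) ?_
        intro z hz
        rw [Basic.mem_conj_smul] at hz
        have hb' : b ∈ Sx := right_le eSx hb
        have := Sx.mul_mem (Sx.mul_mem hb' (left_le eSx hz)) (Sx.inv_mem hb')
        simpa [mul_assoc] using this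
      have hG : ∀ g : G, ∃ s ∈ Sx, ∃ c ∈ (MulAut.conj y • B : Subgroup G), g = s * c := by
        intro g
        have : g ∈ (prodSubgroup _ _ p3 : Set G) := by rw [htop]; exact Set.mem_univ g
        rw [coe_prodSubgroup] at this
        obtain ⟨s, hs, c, hc, e⟩ := Set.mem_mul.mp this
        exact ⟨s, hle hs, c, hc, e.symm⟩
      obtain ⟨s, hs, c, hc, e⟩ := hG (x * y⁻¹)
      have hBy : MulAut.conj y • B ≤ Sx := by
        have e1 : MulAut.conj (s * c) • (MulAut.conj y • B) = MulAut.conj x • B := by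
          rw [← e, conj_conj_smul]; simp
        rw [← conj_conj_smul, Subgroup.conj_smul_eq_self_of_mem hc] at e1
        intro z hz
        have h2 : s * z * s⁻¹ ∈ MulAut.conj x • B := by
          rw [← e1]; exact Basic.conj_mem_conj_smul hz
        have h3 := right_le eSx h2
        have h4 := Sx.mul_mem (Sx.mul_mem (Sx.inv_mem hs) h3) hs
        simpa [mul_assoc] using h4
      apply hSx
      rw [eq_top_iff]
      intro g _
      obtain ⟨s, hs, c, hc, rfl⟩ := hG g
      exact Sx.mul_mem hs (hBy hc)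
    have hle := hA'.le_of_ge hmem le_sup_left
    apply Basic.mem_normalizer_of_conj
    intro z hz
    exact hle (Subgroup.mem_sup_right (Basic.conj_mem_conj_smul hz))
  by_cases hB : Subgroup.normalClosure (B : Set G) = ⊤
  · refine ⟨A', ?_, ?_, Or.inl hAA'⟩
    · have h1 : Subgroup.normalClosure (B : Set G) ≤ Subgroup.normalizer (A' : Set G) := by
        unfold Subgroup.normalClosure
        rw [Subgroup.closure_le]
        intro z hz
        obtain ⟨b, hb, hc⟩ := Group.mem_conjugatesOfSet_iff.mp hz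
        obtain ⟨g, rfl⟩ := isConj_iff.mp hc
        exact key g _ (Basic.conj_mem_conj_smul hb)
      rw [hB, top_le_iff, Subgroup.normalizer_eq_top_iff] at h1
      exact h1
    · obtain ⟨S, hS, e⟩ := hprop 1
      intro h2
      exact hS (top_le_iff.mp (h2 ▸ left_le e))
  · exact ⟨_, Subgroup.normalClosure_normal, hB, Or.inr Subgroup.le_normalClosure⟩

end H12.Kegel
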