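import Cfsg.Agent.Lib.H12.NilpHall
import Cfsg.Agent.Lib.H12.Nil
import Cfsg.Agent.Lib.H12.FocSeries
import Cfsg.Agent.Lib.H2.PGrp
import Cfsg.Agent.Lib.H1.Hall
import Cfsg.Agent.Lib.H1.Coprime2

set_option autoImplicit false

/-! Normal complements of nilpotent subgroups `H` with `N_G(P) = H` for all Sylow subgroups `P`
of `H`. -/

namespace H12.NilpComp

open Subgroup H12.Nil
open scoped Pointwise commutatorElement

variable {G : Type*} [Group G] [Finite G]

/-- a `p`-subgroup which is a Sylow subgroup of its normalizer is a Sylow subgroup -/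
theorem not_dvd_index_of_normalizer {p : ℕ} [hp : Fact p.Prime] {P : Subgroup G}
    (hP : IsPGroup p P) (h : ¬ p ∣ P.relIndex (Subgroup.normalizer (P : Set G))) :
    ¬ p ∣ P.index := by
  obtain ⟨S, hS⟩ := hP.exists_le_sylow
  rcases eq_or_lt_of_le hS with he | hlt
  · rw [he]; exact S.not_dvd_index
  · exfalso
    have h1 := H2.PGrp.lt_inf_normalizer S.2 hlt
    set T : Subgroup G := (S : Subgroup G) ⊓ Subgroup.normalizer (P : Set G) with hT
    have h2 : P.relIndex T * T.relIndex (Subgroup.normalizer (P : Set G)) =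
      P.relIndex (Subgroup.normalizer (P : Set G)) :=
      Subgroup.relIndex_mul_relIndex _ _ _ h1.le inf_le_right
    apply h
    rw [← h2]
    apply Dvd.dvd.mul_right
    have hTp : IsPGroup p T := S.2.to_le inf_le_left
    obtain ⟨k, hk⟩ := (hTp.index (P.subgroupOf T))
    have h3 : P.relIndex T = p ^ k := hk
    rw [h3]
    rcases Nat.eq_zero_or_pos k with h0 | h0
    · exfalso
      rw [h0, pow_zero, Subgroup.relIndex_eq_one] at h3
      exact h1.not_ge h3
    · exact dvd_pow_self p h0.ne'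

/-- fusion in the Sylow subgroup `P` of `H` is controlled by `P` if another Sylow subgroup `R` of
`H` has normalizer `H`. -/
theorem fusion {H : Subgroup G} (hH : Group.IsNilpotent H) {p r : ℕ} [hp : Fact p.Prime]
    [hr : Fact r.Prime] (hpr : p ≠ r) (hRi : ¬ r ∣ (Sy H r).index)
    (hR : Subgroup.normalizer (Sy H r : Set G) ≤ H)
    {x g : G} (hx : x ∈ Sy H p) (hy : g * x * g⁻¹ ∈ Sy H p) :
    ∃ h ∈ Sy H p, g * x * g⁻¹ = h * x * h⁻¹ := by
  set C : Subgroup G := Subgroup.centralizer ({x} : Set G) with hC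
  have hRC : Sy H r ≤ C := by
    intro z hz
    rw [hC, Subgroup.mem_centralizer_singleton_iff]
    exact (Nil.commute hH hpr hx hz).symm
  have hRC' : MulAut.conj g⁻¹ • Sy H r ≤ C := by
    intro z hz
    rw [Basic.mem_conj_smul] at hz
    rw [hC, Subgroup.mem_centralizer_singleton_iff]
    have h1 := Nil.commute hH hpr hy hz
    have h2 : g * (x * z) * g⁻¹ = g * (z * x) * g⁻¹ := by
      calc g * (x * z) * g⁻¹ = g * x * g⁻¹ * (g⁻¹⁻¹ * z * g⁻¹) := by group
        _ = g⁻¹⁻¹ * z * g⁻¹ * (g * x * g⁻¹) := h1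
        _ = _ := by group
    exact (mul_left_cancel (mul_right_cancel h2)).symm
  have hrel : ¬ r ∣ (Sy H r).relIndex C := fun h =>
    hRi (h.trans (Subgroup.relIndex_dvd_index_of_le hRC))
  obtain ⟨c, hc, hle⟩ := NilpHall.exists_conj_le (N := C) (isPGroup_Sy H r) hRC hrel
    (Q := MulAut.conj g⁻¹ • Sy H r) ((isPGroup_Sy H r).map (MulAut.conj g⁻¹).toMonoidHom) hRC'
  have heq : MulAut.conj g⁻¹ • Sy H r = MulAut.conj c • Sy H r := by
    apply Subgroup.eq_of_le_of_card_ge hle
    rw [Basic.card_conj_smul, Basic.card_conj_smul]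
  have hgc : g * c ∈ H := by
    apply hR
    apply Basic.mem_normalizer_of_conj
    intro z hz
    have h1 : c * z * c⁻¹ ∈ MulAut.conj c • Sy H r := Basic.conj_mem_conj_smul hz
    rw [← heq, Basic.mem_conj_smul] at h1
    have : g * c * z * (g * c)⁻¹ = g⁻¹⁻¹ * (c * z * c⁻¹) * g⁻¹ := by group
    rw [this]; exact h1
  have hcx : c * x * c⁻¹ = x := by
    rw [hC, Subgroup.mem_centralizer_singleton_iff] at hc
    rw [hc]; group
  have h3 : g * x * g⁻¹ = (g * c) * x * (g * c)⁻¹ := by
    have : (g * c) * x * (g * c)⁻¹ = g * (c * x * c⁻¹) * g⁻¹ := by group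
    rw [this, hcx]
  -- decompose `g c` in `H`
  have hdec : H ≤ Sy H p ⊔ Subgroup.centralizer (Sy H p : Set G) := by
    apply le_of_Sy_le hH
    intro q hq
    by_cases hqp : q = p
    · subst hqp; exact le_sup_left
    · exact (Sy_le_centralizer hH hqp).trans le_sup_right
  have hn : Sy H p ≤ Subgroup.normalizer
      ((Subgroup.centralizer (Sy H p : Set G) : Subgroup G) : Set G) :=
    H1.Coprime2.le_normalizer_centralizer Subgroup.le_normalizer
  have h4 := hdec hgc
  have h5 : g * c ∈ ((Sy H p ⊔ Subgroup.centralizer (Sy H p : Set G) : Subgroup G) : Set G) := h4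
  rw [Subgroup.coe_mul_of_left_le_normalizer_right _ _ hn] at h5
  obtain ⟨a, ha, z, hz, e⟩ := h5
  refine ⟨a, ha, ?_⟩
  have hzx : z * x * z⁻¹ = x := by
    have := Subgroup.mem_centralizer_iff.1 hz x hx
    rw [← this]; group
  rw [h3, ← e]
  have : a * z * x * (a * z)⁻¹ = a * (z * x * z⁻¹) * a⁻¹ := by group
  change a * z * x * (a * z)⁻¹ = _
  rw [this, hzx]

/-- if `P` controls its own fusion then there is a normal complement -/
theorem complement_of_fusion (P : Subgroup G) (hP : Group.IsNilpotent P)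
    (hHall : (Nat.card P).Coprime P.index)
    (hf : ∀ x ∈ P, ∀ g : G, g * x * g⁻¹ ∈ P → ∃ h ∈ P, g * x * g⁻¹ = h * x * h⁻¹) :
    ∃ N : Subgroup G, N.Normal ∧ Subgroup.IsComplement' N P := by
  obtain ⟨n, hn⟩ := (Subgroup.isNilpotent_iff_lowerCentralSeries P).1 hP
  apply FocSeries.normal_complement n P hHall
  have key : ∀ m : ℕ, (fun K : Subgroup G => Subgroup.focalSubgroup K)^[m] P ≤
      Subgroup.lowerCentralSeries P m := by
    intro m
    induction m with
    | zero => simp
    | succ m ih =>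
      rw [Function.iterate_succ_apply']
      refine (FocSeries.focal_mono ih).trans ?_
      rw [Subgroup.focalSubgroup_def, Subgroup.closure_le]
      rintro _ ⟨h1, x, hx, u, rfl⟩
      have hle : Subgroup.lowerCentralSeries P m ≤ P := 
        Subgroup.lowerCentralSeries_antitone (S := P) (Nat.zero_le m)
      have h2 : u * x⁻¹ * u⁻¹ ∈ P := by
        have : u * x⁻¹ * u⁻¹ = x⁻¹ * ⁅x, u⁆ := by rw [commutatorElement_def]; group
        rw [this]
        exact P.mul_mem (P.inv_mem (hle hx)) (hle h1)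
      obtain ⟨h, hh, e⟩ := hf x⁻¹ (P.inv_mem (hle hx)) u h2
      have h3 : ⁅x, u⁆ = ⁅x, h⁆ := by
        rw [commutatorElement_def, commutatorElement_def, mul_assoc x, mul_assoc x, mul_assoc x,
          mul_assoc x, e]
      rw [h3]
      exact Subgroup.commutator_mem_commutator hx hh
  rw [← le_bot_iff, ← hn]
  exact key n

/-- nilpotent Hall subgroups with two primes all of whose Sylow subgroups have normalizer `H`. -/
theorem main (H : Subgroup G) (hH : Group.IsNilpotent H) (hHall : (Nat.card H).Coprime H.index)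
    (hnorm : ∀ p : ℕ, p.Prime → p ∣ Nat.card H → Subgroup.normalizer (Sy H p : Set G) ≤ H)
    (htwo : ∀ p : ℕ, p.Prime → p ∣ Nat.card H → ∃ r : ℕ, r.Prime ∧ r ≠ p ∧ r ∣ Nat.card H) :
    ∃ N : Subgroup G, N.Normal ∧ Subgroup.IsComplement' N H := by
  classical
  have hnd : ∀ p : ℕ, p.Prime → p ∣ Nat.card H → ¬ p ∣ H.index := by
    intro p hp hpd hpi
    exact hp.one_lt.ne' (Nat.eq_one_of_dvd_coprimes hHall hpd hpi)
  have hex : ∀ p : {p : ℕ // p.Prime ∧ p ∣ Nat.card H}, ∃ N : Subgroup G, N.Normal ∧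
      Subgroup.IsComplement' N (Sy H p) := by
    rintro ⟨p, hp, hpd⟩
    have hpf := Fact.mk hp
    obtain ⟨r, hr, hrp, hrd⟩ := htwo p hp hpd
    have hrf := Fact.mk hr
    have hi : ¬ p ∣ (Sy H p).index := not_dvd_index_Sy hH (hnd p hp hpd)
    apply complement_of_fusion
    · exact NilpHall.isNilpotent_of_le hH (Sy_le H p)
    · obtain ⟨k, hk⟩ := (isPGroup_Sy H p).exists_card_eq
      rw [hk]
      exact Nat.Coprime.pow_left k ((Nat.Prime.coprime_iff_not_dvd hp).2 hi)
    · intro x hx g hy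
      exact fusion hH (p := p) (r := r) hrp.symm (not_dvd_index_Sy hH (hnd r hr hrd))
        (hnorm r hr hrd) hx hy
  choose N hN using hex
  set M : Subgroup G := ⨅ p, N p with hM
  have hMn : M.Normal := Subgroup.normal_iInf_normal fun p => (hN p).1
  have hMH : M ⊓ H = ⊥ := by
    rw [← le_bot_iff]
    apply le_of_Sy_le (NilpHall.isNilpotent_of_le hH inf_le_right)
    intro p hp
    by_cases hpd : p ∣ Nat.card H
    · have h1 : Sy (M ⊓ H) p ≤ N ⟨p, hp.out, hpd⟩ := (Sy_le _ _).trans (inf_le_left.trans (iInf_le _ _))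
      have h2 : Sy (M ⊓ H) p ≤ Sy H p := Sy_mono hH p inf_le_right
      exact (le_inf h1 h2).trans (hN ⟨p, hp.out, hpd⟩).2.isCompl.inf_eq_bot.le
    · have h1 : Nat.card (Sy (M ⊓ H) p) = 1 := by
        obtain ⟨k, hk⟩ := (isPGroup_Sy (M ⊓ H) p).exists_card_eq
        rw [hk]
        rcases Nat.eq_zero_or_pos k with h | h
        · rw [h, pow_zero]
        · exfalso
          apply hpd
          exact (dvd_pow_self p h.ne').trans (hk ▸ Subgroup.card_dvd_of_le
            ((Sy_le _ _).trans inf_le_right))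
      rw [Subgroup.card_eq_one.1 h1]
  have hsup : M ⊔ H = ⊤ := by
    rw [← Subgroup.index_eq_one]
    by_contra hne
    obtain ⟨r, hr, hrd⟩ := Nat.exists_prime_and_dvd hne
    have hrf := Fact.mk hr
    have hrH : r ∣ H.index := hrd.trans (Subgroup.index_dvd_of_le le_sup_right)
    have hrM : r ∣ M.index := hrd.trans (Subgroup.index_dvd_of_le le_sup_left)
    obtain ⟨R⟩ : Nonempty (Sylow r G) := inferInstance
    have hRM : (R : Subgroup G) ≤ M := by
      refine le_iInf fun p => ?_
      have := (hN p).1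
      apply H21.HallTools.sylow_le_of_not_dvd_index
      intro hd
      rw [(hN p).2.symm.index_eq_card] at hd
      have h2 : r ∣ Nat.card H := hd.trans (Subgroup.card_dvd_of_le (Sy_le H p))
      exact hnd r hr h2 hrH
    exact R.not_dvd_index (hrM.trans (Subgroup.index_dvd_of_le hRM))
  refine ⟨M, hMn, ?_⟩
  apply Subgroup.isComplement'_of_card_mul_and_disjoint _ (disjoint_iff.2 hMH)
  have h1 := H1.Hall.card_sup_mul_card_inf H M
  rw [sup_comm, hsup, Subgroup.card_top, inf_comm, hMH, Subgroup.card_bot, mul_one] at h1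
  rw [h1, mul_comm]

end H12.NilpComp
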