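import Mathlib

/-! Alternating pairings invariant under an automorphism of odd prime order with few fixed points. -/

set_option autoImplicit false

open Subgroup

namespace H12.Pair

variable {D T : Type*} [Group D] [CommGroup T]

structure Pairing (β : D → D → T) : Prop where
  mul_right : ∀ a b c, β a (b * c) = β a b * β a c
  self : ∀ a, β a a = 1
  symm : ∀ a b, β b a = (β a b)⁻¹

variable {β : D → D → T}

theorem Pairing.mul_left (h : Pairing β) (a b c : D) : β (a * b) c = β a c * β b c := by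
  rw [h.symm c (a * b), h.mul_right, mul_inv, ← h.symm, ← h.symm]

theorem Pairing.one_right (h : Pairing β) (a : D) : β a 1 = 1 := by
  have h1 := h.mul_right a 1 1
  rw [mul_one] at h1
  exact (left_eq_mul.1 h1)

theorem Pairing.one_left (h : Pairing β) (a : D) : β 1 a = 1 := by
  rw [h.symm a 1, h.one_right, inv_one]

theorem Pairing.inv_left (h : Pairing β) (a b : D) : β a⁻¹ b = (β a b)⁻¹ := by
  have h1 := h.mul_left a⁻¹ a b
  rw [inv_mul_cancel, h.one_left] at h1
  exact eq_inv_of_mul_eq_one_left h1.symm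

theorem Pairing.inv_right (h : Pairing β) (a b : D) : β a b⁻¹ = (β a b)⁻¹ := by
  rw [h.symm b⁻¹ a, h.inv_left, ← h.symm]

theorem Pairing.conj_left (h : Pairing β) (g a b : D) : β (g * a * g⁻¹) b = β a b := by
  rw [h.mul_left, h.mul_left, h.inv_left, mul_right_comm, mul_inv_cancel, one_mul]

/-- radical -/
def rad (h : Pairing β) : Subgroup D where
  carrier := {a | ∀ b, β a b = 1}
  mul_mem' := by
    intro a b ha hb c
    rw [h.mul_left, ha c, hb c, mul_one]
  one_mem' := h.one_left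
  inv_mem' := by
    intro a ha c
    rw [h.inv_left, ha c, inv_one]

theorem mem_rad {h : Pairing β} {a : D} : a ∈ rad h ↔ ∀ b, β a b = 1 := Iff.rfl

theorem rad_normal (h : Pairing β) : (rad h).Normal := by
  constructor
  intro a ha g b
  rw [h.conj_left]; exact ha b

theorem comm_mem_rad (h : Pairing β) (a b : D) : a * b * a⁻¹ * b⁻¹ ∈ rad h := by
  intro c
  rw [h.mul_left, h.conj_left, h.inv_left, mul_inv_cancel]

theorem right_eq_one (h : Pairing β) {z : D} (hz : z ∈ rad h) (a : D) : β a z = 1 := by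
  rw [h.symm z a, hz a, inv_one]

theorem pow_right (h : Pairing β) (a b : D) (n : ℤ) : β a (b ^ n) = β a b ^ n := by
  let f : D →* T := MonoidHom.mk' (fun c => β a c) (fun c d => h.mul_right a c d)
  exact map_zpow f b n

/-- ordered norm -/
def Nn (σ : MulAut D) (w : D) : ℕ → D
  | 0 => 1
  | k + 1 => Nn σ w k * (σ ^ k) w

theorem beta_Nn (h : Pairing β) (σ : MulAut D) (w u : D) (k : ℕ) :
    β u (Nn σ w k) = ∏ i ∈ Finset.range k, β u ((σ ^ i) w) := by
  induction k with
  | zero => rw [Finset.range_zero, Finset.prod_empty]; exact h.one_right u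
  | succ k ih => rw [Finset.prod_range_succ, ← ih, Nn, h.mul_right]

theorem inv_pow (h : Pairing β) {σ : MulAut D} (hσ : ∀ a b, β (σ a) (σ b) = β a b) (i : ℕ) (a b : D) :
    β ((σ ^ i) a) ((σ ^ i) b) = β a b := by
  induction i with
  | zero => rfl
  | succ i ih =>
    rw [pow_succ']
    change β (σ ((σ ^ i) a)) (σ ((σ ^ i) b)) = _
    rw [hσ, ih]

theorem beta_norm (h : Pairing β) {σ : MulAut D} (hσ : ∀ a b, β (σ a) (σ b) = β a b) {p : ℕ}
    (hp : 0 < p) (hσp : σ ^ p = 1) (h2 : ∀ t : T, t ^ 2 = 1 → t = 1) (w : D) :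
    β w (Nn σ w p) = 1 := by
  apply h2
  obtain ⟨n, rfl⟩ : ∃ n, p = n + 1 := ⟨p - 1, by omega⟩
  have hc : ∀ i ≤ n + 1, β w ((σ ^ (n + 1 - i)) w) = (β w ((σ ^ i) w))⁻¹ := by
    intro i hi
    have h1 := inv_pow h hσ i w ((σ ^ (n + 1 - i)) w)
    have h3 : (σ ^ i) ((σ ^ (n + 1 - i)) w) = w := by
      change (σ ^ i * σ ^ (n + 1 - i)) w = w
      rw [← pow_add, Nat.add_sub_cancel' hi, hσp]; rfl
    rw [h3] at h1
    rw [← h1, h.symm]
  rw [beta_Nn h, Finset.prod_range_succ', pow_zero]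
  have h4 : β w ((1 : MulAut D) w) = 1 := h.self w
  rw [h4, mul_one, pow_two]
  have h5 : ∏ i ∈ Finset.range n, β w ((σ ^ (i + 1)) w) =
      ∏ i ∈ Finset.range n, (β w ((σ ^ (i + 1)) w))⁻¹ := by
    rw [← Finset.prod_range_reflect]
    apply Finset.prod_congr rfl
    intro i hi
    rw [Finset.mem_range] at hi
    rw [← hc (i + 1) (by omega)]
    congr 3
    omega
  rw [Finset.prod_inv_distrib] at h5
  exact mul_eq_one_iff_eq_inv.2 h5

theorem Nn_mul (h : Pairing β) (σ : MulAut D) (w u : D) (k : ℕ) (a : D) :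
    β (Nn σ (w * u) k) a = β (Nn σ w k) a * β (Nn σ u k) a := by
  rw [h.symm a (Nn σ (w * u) k), h.symm a (Nn σ w k), h.symm a (Nn σ u k), beta_Nn h, beta_Nn h,
    beta_Nn h, ← mul_inv, ← Finset.prod_mul_distrib]
  congr 1
  apply Finset.prod_congr rfl
  intro i _
  rw [map_mul, h.mul_right]

theorem Nn_mul_mem (h : Pairing β) (σ : MulAut D) (w u : D) (k : ℕ) (hu : Nn σ u k ∉ rad h)
    (hw : Nn σ w k ∈ rad h) : Nn σ (w * u) k ∉ rad h := by
  intro h1
  apply hu
  intro a
  have h2 := h1 a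
  rw [Nn_mul h, hw a, one_mul] at h2
  exact h2

theorem sigma_Nn (h : Pairing β) (σ : MulAut D) {p : ℕ} (hσp : σ ^ p = 1) (w : D) :
    σ (Nn σ w p) * (Nn σ w p)⁻¹ ∈ rad h := by
  have key : ∀ k : ℕ, ∀ a, β a (σ (Nn σ w k)) = ∏ i ∈ Finset.range k, β a ((σ ^ (i + 1)) w) := by
    intro k
    induction k with
    | zero => intro a; rw [Finset.range_zero, Finset.prod_empty, Nn, map_one]; exact h.one_right a
    | succ k ih =>
      intro a
      rw [Finset.prod_range_succ, ← ih, Nn, map_mul, h.mul_right, pow_succ']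
      rfl
  intro a
  rw [h.mul_left, h.inv_left, h.symm a, h.symm a (Nn σ w p), inv_inv, key, beta_Nn h]
  have h1 := Finset.prod_range_succ (fun i => β a ((σ ^ i) w)) p
  have h2 := Finset.prod_range_succ' (fun i => β a ((σ ^ i) w)) p
  rw [h1, hσp, pow_zero] at h2
  rw [mul_right_cancel h2, inv_mul_cancel]

theorem final [Finite D] (h : Pairing β) {σ : MulAut D} (hσ : ∀ a b, β (σ a) (σ b) = β a b) {p : ℕ}
    [hp : Fact p.Prime] (hD : IsPGroup p D) (hσp : σ ^ p = 1) (h2 : ∀ t : T, t ^ 2 = 1 → t = 1)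
    (hfix : ∀ C : Subgroup D, (∀ a ∈ C, σ a = a) → Nat.card C ≤ p) (w₀ : D) :
    Nn σ w₀ p ∈ rad h := by
  by_contra hw₀
  have hn := rad_normal h
  -- elements fixed modulo the radical
  let F : Subgroup D :=
    { carrier := {a | σ a * a⁻¹ ∈ rad h}
      mul_mem' := by
        intro a b ha hb
        change σ (a * b) * (a * b)⁻¹ ∈ rad h
        have e : σ (a * b) * (a * b)⁻¹ = (σ a * (σ b * b⁻¹) * (σ a)⁻¹) * (σ a * a⁻¹) := by
          rw [map_mul]; group
        rw [e]
        exact mul_mem (hn.conj_mem _ hb _) ha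
      one_mem' := by
        change σ 1 * 1⁻¹ ∈ rad h
        rw [map_one, inv_one, mul_one]; exact one_mem _
      inv_mem' := by
        intro a ha
        change σ a⁻¹ * a⁻¹⁻¹ ∈ rad h
        have e : σ a⁻¹ * a⁻¹⁻¹ = (σ a)⁻¹ * (σ a * a⁻¹)⁻¹ * (σ a)⁻¹⁻¹ := by
          rw [map_inv]; group
        rw [e]
        exact hn.conj_mem _ (inv_mem ha) _ }
  have hF : ∀ a, a ∈ F ↔ σ a * a⁻¹ ∈ rad h := fun a => Iff.rfl
  have hσrad : ∀ a ∈ rad h, σ a ∈ rad h := by
    intro a ha b
    obtain ⟨c, rfl⟩ := σ.surjective b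
    rw [hσ]; exact ha c
  have hZF : rad h ≤ F := fun a ha => mul_mem (hσrad a ha) (inv_mem ha)
  let C : Subgroup D :=
    { carrier := {a | σ a = a}
      mul_mem' := by
        intro a b ha hb
        change σ (a * b) = a * b
        rw [map_mul, ha, hb]
      one_mem' := map_one σ
      inv_mem' := by
        intro a ha
        change σ a⁻¹ = a⁻¹
        rw [map_inv, ha] }
  have hC := hfix C (fun a ha => ha)
  have hcard : Nat.card F ≤ Nat.card (rad h) * p := by
    have h3 : Nat.card (F ⧸ C.subgroupOf F) ≤ Nat.card (rad h) := by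
      let g : F ⧸ C.subgroupOf F → rad h := fun q => ⟨σ (q.out : D) * (q.out : D)⁻¹, q.out.2⟩
      apply Nat.card_le_card_of_injective g
      intro q q' hqq
      have h4 : σ (q.out : D) * (q.out : D)⁻¹ = σ (q'.out : D) * (q'.out : D)⁻¹ :=
        congrArg Subtype.val hqq
      rw [← Quotient.out_eq' q, ← Quotient.out_eq' q']
      change (QuotientGroup.mk q.out : ↥F ⧸ C.subgroupOf F) = QuotientGroup.mk q'.out
      rw [QuotientGroup.eq, mem_subgroupOf]
      change σ (((q.out : D))⁻¹ * (q'.out : D)) = ((q.out : D))⁻¹ * (q'.out : D)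
      rw [map_mul, map_inv, inv_mul_eq_iff_eq_mul]
      have h5 : σ (q'.out : D) = σ (q.out : D) * (q.out : D)⁻¹ * (q'.out : D) := by
        rw [h4]; group
      rw [h5]; group
    have h4 : Nat.card F = Nat.card (F ⧸ C.subgroupOf F) * Nat.card (C.subgroupOf F) :=
      Subgroup.card_eq_card_quotient_mul_card_subgroup _
    have h5 : Nat.card (C.subgroupOf F) ≤ p := by
      refine le_trans ?_ hC
      exact Nat.card_le_card_of_injective (fun x : C.subgroupOf F => (⟨x.1, mem_subgroupOf.1 x.2⟩ : C))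
        (fun x y hxy => Subtype.ext (Subtype.ext (congrArg (fun z : C => (z : D)) hxy)))
    rw [h4]
    exact Nat.mul_le_mul h3 h5
  have hgen : ∀ c ∈ F, c ∉ rad h → rad h ⊔ zpowers c = F := by
    intro c hc hcn
    have hle : rad h ⊔ zpowers c ≤ F := sup_le hZF ((zpowers_le).2 hc)
    apply Subgroup.eq_of_le_of_card_ge hle
    refine hcard.trans ?_
    have h3 : (rad h).relIndex (rad h ⊔ zpowers c) * Nat.card (rad h) = Nat.card (rad h ⊔ zpowers c : Subgroup D) := by
      have h4 := Subgroup.card_mul_index ((rad h).subgroupOf (rad h ⊔ zpowers c))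
      have h5 : Nat.card ((rad h).subgroupOf (rad h ⊔ zpowers c)) = Nat.card (rad h) :=
        Nat.card_congr (Subgroup.subgroupOfEquivOfLe le_sup_left).toEquiv
      rw [h5] at h4
      rw [← h4, mul_comm]; rfl
    rw [← h3, mul_comm]
    apply Nat.mul_le_mul_right
    have h6 : (rad h).relIndex (rad h ⊔ zpowers c) ∣ Nat.card (rad h ⊔ zpowers c : Subgroup D) :=
      Dvd.intro _ h3
    obtain ⟨m, hm⟩ := IsPGroup.iff_card.1 (hD.to_subgroup (rad h ⊔ zpowers c))
    rw [hm] at h6
    obtain ⟨j, -, hj⟩ := (Nat.dvd_prime_pow hp.out).1 h6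
    have hj0 : j ≠ 0 := by
      rintro rfl
      rw [pow_zero, Subgroup.relIndex_eq_one] at hj
      exact hcn (hj (mem_sup_right (mem_zpowers c)))
    rw [hj]
    calc p = p ^ 1 := (pow_one p).symm
      _ ≤ p ^ j := Nat.pow_le_pow_right hp.out.pos (by omega)
  have hNF : ∀ w, Nn σ w p ∈ F := fun w => sigma_Nn h σ hσp w
  have hkey : ∀ w, Nn σ w p ∉ rad h → β w (Nn σ w₀ p) = 1 := by
    intro w hw
    have h3 : Nn σ w₀ p ∈ rad h ⊔ zpowers (Nn σ w p) := by
      rw [hgen _ (hNF w) hw]; exact hNF w₀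
    obtain ⟨z, hz, y, hy, hzy⟩ := mem_sup_of_normal_left.mp h3
    obtain ⟨m, rfl⟩ := mem_zpowers_iff.1 hy
    rw [← hzy, h.mul_right, right_eq_one h hz, one_mul, pow_right h, beta_norm h hσ hp.out.pos hσp h2,
      one_zpow]
  apply hw₀
  intro w
  rw [h.symm w, inv_eq_one]
  by_cases hw : Nn σ w p ∈ rad h
  · have h3 := hkey (w * w₀) (Nn_mul_mem h σ w w₀ p hw₀ hw)
    rwa [h.mul_left, hkey w₀ hw₀, mul_one] at h3
  · exact hkey w hw

end H12.Pair
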