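import Cfsg.Agent.Lib.H12.FixOne
import Cfsg.Agent.Lib.H3.CritOdd
import Cfsg.Agent.Lib.H3.Critical
import Cfsg.Agent.Lib.H59.CopAct
import Cfsg.Agent.Lib.H37.PSolv
import Cfsg.Agent.Lib.H1.Cores

/-! Invariant `p'`-subgroups for `B = Ω₁(P)`, `P` a Sylow subgroup of `C(b₀)`. -/

set_option autoImplicit false

open Subgroup Cfsg
open scoped commutatorElement

namespace H12.SigTwo

universe u

variable {G : Type u} [Group G] [Finite G] {p : ℕ} [hp : Fact p.Prime]

theorem orderOf_coprime {Q : Subgroup G} (hQ : (Nat.card Q).Coprime p) {q : G} (hq : q ∈ Q) :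
    (orderOf q).Coprime p := by
  have h1 : orderOf q ∣ Nat.card Q := by
    have := _root_.orderOf_dvd_natCard (⟨q, hq⟩ : Q)
    rwa [Subgroup.orderOf_mk] at this
  exact Nat.Coprime.coprime_dvd_left h1 hQ

theorem conj_coprime {V : Subgroup G} {q : G} (hq : (orderOf q).Coprime p)
    (hqV : q ∈ normalizer (V : Set G)) :
    (orderOf (V.normalizerMonoidHom ⟨q, hqV⟩)).Coprime p := by
  have h1 : orderOf (V.normalizerMonoidHom ⟨q, hqV⟩) ∣ orderOf q := by
    have h2 := orderOf_map_dvd V.normalizerMonoidHom ⟨q, hqV⟩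
    rwa [Subgroup.orderOf_mk] at h2
  exact Nat.Coprime.coprime_dvd_left h1 hq

theorem centralizes_of_one {V : Subgroup G} {q : G} {hqV : q ∈ normalizer (V : Set G)}
    (h : V.normalizerMonoidHom ⟨q, hqV⟩ = 1) : ∀ v ∈ V, q * v = v * q := by
  intro v hv
  have h1 := congrArg (fun φ : MulAut V => ((φ ⟨v, hv⟩ : V) : G)) h
  exact mul_inv_eq_iff_eq_mul.1 h1

theorem reduced (hp2 : p ≠ 2) (hG : IsPSolvable p G) (hO : pPrimeCore p G = ⊥) (B : Subgroup G)
    (hB : IsElementaryAbelian p B) (hBc : Nat.card B = p ^ 2) (x : G) (hxB : x ∈ B)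
    (hV : ∀ v ∈ pCore p G, x * v = v * x → v ^ p = 1 → v ∈ B) (Q₀ : Subgroup G)
    (hQ₀ : (Nat.card Q₀).Coprime p) (hinv₀ : B ≤ normalizer (Q₀ : Set G)) : Q₀ = ⊥ := by
  by_contra hQ₀b
  obtain ⟨Q, ⟨hQb, hQ, hinv⟩, hmin⟩ := (Set.toFinite {X : Subgroup G | X ≠ ⊥ ∧ (Nat.card X).Coprime p ∧
    B ≤ normalizer (X : Set G)}).exists_minimal ⟨Q₀, hQ₀b, hQ₀, hinv₀⟩
  obtain ⟨V, hVV⟩ : ∃ V, V = pCore p G := ⟨_, rfl⟩
  have hVp : IsPGroup p V := by rw [hVV]; exact H1.Cores.isPGroup_pCore p
  have hVn : V.Normal := by rw [hVV]; infer_instance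
  have hCV : centralizer (V : Set G) ≤ V := by rw [hVV]; exact H37.PSolv.centralizer_pCore_le hG hO
  rw [← hVV] at hV
  have hVQ : V ⊓ Q = ⊥ := FixOne.inf_eq_bot_of_coprime hVp hQ
  have hQV : ¬ Q ≤ centralizer (V : Set G) := by
    intro h
    apply hQb
    rw [← hVQ]
    exact (inf_eq_right.2 (h.trans hCV)).symm
  have hnV : ∀ g : G, g ∈ normalizer (V : Set G) := by
    intro g; rw [Subgroup.normalizer_eq_top]; exact mem_top g
  have hBcomm : ∀ a ∈ B, ∀ b ∈ B, a * b = b * a := fun a ha b hb =>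
    congrArg Subtype.val (hB.1.is_comm.comm (⟨a, ha⟩ : B) ⟨b, hb⟩)
  -- minimality
  have hmin' : ∀ b ∈ B, Q ⊓ centralizer ({b} : Set G) ≠ ⊥ → Q ≤ centralizer ({b} : Set G) := by
    intro b hb h1
    have h2 := hmin (y := Q ⊓ centralizer ({b} : Set G)) ⟨h1, ?_, ?_⟩ inf_le_left
    · exact h2.trans inf_le_right
    · exact Nat.Coprime.coprime_dvd_left (card_dvd_of_le inf_le_left) hQ
    · apply H1.Coprime2.le_normalizer_inf hinv
      refine le_trans ?_ le_normalizer
      intro c hc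
      rw [mem_centralizer_singleton_iff]
      exact hBcomm c hc b hb
  have hBQ : ∀ v ∈ V, v ∈ B → ∀ q ∈ Q, q * v = v * q := by
    intro v hv hvB q hq
    have h1 : v * q * v⁻¹ * q⁻¹ ∈ V ⊓ Q := by
      refine mem_inf.2 ⟨?_, ?_⟩
      · have h2 : v * q * v⁻¹ * q⁻¹ = v * (q * v⁻¹ * q⁻¹) := by group
        rw [h2]
        exact mul_mem hv (hVn.conj_mem _ (inv_mem hv) q)
      · exact mul_mem ((mem_normalizer_iff.1 (hinv hvB) q).1 hq) (inv_mem hq)
    rw [hVQ, mem_bot] at h1
    have h2 : v * q = q * v := by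
      have h3 := mul_inv_eq_one.1 h1
      exact mul_inv_eq_iff_eq_mul.1 h3
    exact h2.symm
  have hstar : ∀ v ∈ V, x * v = v * x → v ^ p = 1 → ∀ q ∈ Q, q * v = v * q :=
    fun v hv hxv hvp => hBQ v hv (hV v hv hxv hvp)
  have hxp : x ^ p = 1 := hB.2 x hxB
  by_cases hxQ : Q ⊓ centralizer ({x} : Set G) = ⊥
  · -- Frobenius case
    have : Finite V := inferInstance
    obtain ⟨H, hH, hHp, hHc, hHaut⟩ := H3.CritOdd.exists_crit_odd hp2 hVp
    have hDn : (H.map V.subtype).Normal := inferInstance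
    have hDV : H.map V.subtype ≤ V := map_subtype_le _
    have hDp : ∀ d ∈ H.map V.subtype, d ^ p = 1 := by
      rintro _ ⟨d, hd, rfl⟩
      exact congrArg Subtype.val (hHp d hd)
    have hnD : ∀ g : G, g ∈ normalizer ((H.map V.subtype : Subgroup G) : Set G) := by
      intro g; rw [Subgroup.normalizer_eq_top]; exact mem_top g
    have h1 := FixOne.main hp2 (H.map V.subtype) Q x (hVp.to_le hDV) hQ (fun g _ => hnD g) (hnD x)
      (fun w hw => (mem_normalizer_iff.1 (hinv hxB) w).1 hw) hxp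
      (fun q hq hxq => by
        have h2 : q ∈ Q ⊓ centralizer ({x} : Set G) :=
          mem_inf.2 ⟨hq, mem_centralizer_singleton_iff.2 hxq.symm⟩
        rw [hxQ] at h2
        exact h2)
      (by
        rw [commutator_le]
        rintro _ ⟨a, ha, rfl⟩ _ ⟨b, hb, rfl⟩
        rw [mem_centralizer_iff]
        rintro _ ⟨c, hc, rfl⟩
        exact congrArg Subtype.val (mem_centralizer_iff.1 (hHc a ha b) c hc))
      (fun C hC hCx => by
        have h2 : C ≤ B ⊓ centralizer (Q : Set G) := by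
          intro c hc
          have hcV := hDV (hC hc)
          refine mem_inf.2 ⟨hV c hcV (hCx c hc) (hDp c (hC hc)), ?_⟩
          rw [mem_centralizer_iff]
          exact hstar c hcV (hCx c hc) (hDp c (hC hc))
        have h3 : Nat.card C ∣ Nat.card (B ⊓ centralizer (Q : Set G) : Subgroup G) := card_dvd_of_le h2
        have h4 : Nat.card (B ⊓ centralizer (Q : Set G) : Subgroup G) ∣ p ^ 2 := by
          rw [← hBc]; exact card_dvd_of_le inf_le_left
        obtain ⟨j, hj, hj'⟩ := (Nat.dvd_prime_pow hp.out).1 h4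
        have hj2 : j ≠ 2 := by
          rintro rfl
          have h5 : B ⊓ centralizer (Q : Set G) = B :=
            Subgroup.eq_of_le_of_card_ge inf_le_left (by rw [hj', hBc])
          have h6 : x ∈ B ⊓ centralizer (Q : Set G) := by rw [h5]; exact hxB
          apply hQb
          rw [← hxQ]
          symm
          rw [inf_eq_left]
          intro q hq
          rw [mem_centralizer_singleton_iff]
          exact mem_centralizer_iff.1 (mem_inf.1 h6).2 q hq
        refine (Nat.le_of_dvd Nat.card_pos h3).trans ?_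
        rw [hj']
        calc p ^ j ≤ p ^ 1 := Nat.pow_le_pow_right hp.out.pos (by omega)
          _ = p := pow_one p)
      (fun d hd hxd => hstar d (hDV hd) hxd (hDp d hd))
    apply hQV
    intro q hq
    have h2 : V.normalizerMonoidHom ⟨q, hnV q⟩ = 1 := by
      apply hHaut _ (conj_coprime (orderOf_coprime hQ hq) (hnV q))
      intro h hh
      apply Subtype.ext
      change q * h * q⁻¹ = h
      rw [mul_inv_eq_iff_eq_mul]
      exact (mem_centralizer_iff.1 (h1 hq) h (mem_map_of_mem _ hh)).symm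
    rw [mem_centralizer_iff]
    intro v hv
    exact (centralizes_of_one h2 v hv).symm
  · -- x centralizes Q
    have hxQ' := hmin' x hxB hxQ
    apply hQV
    intro q hq
    have hxq : x * q = q * x := (mem_centralizer_singleton_iff.1 (hxQ' hq)).symm
    have hqo := orderOf_coprime hQ hq
    -- q centralizes C_V(x)
    obtain ⟨C, hC⟩ : ∃ C, C = V ⊓ centralizer ({x} : Set G) := ⟨_, rfl⟩
    have hCV' : C ≤ V := by rw [hC]; exact inf_le_left
    have hqC : q ∈ normalizer (C : Set G) := by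
      rw [hC]
      apply Basic.mem_normalizer_of_conj
      intro c hc
      obtain ⟨hc1, hc2⟩ := mem_inf.1 hc
      refine mem_inf.2 ⟨hVn.conj_mem c hc1 q, ?_⟩
      exact mul_mem (mul_mem (hxQ' hq) hc2) (inv_mem (hxQ' hq))
    have h1 : C.normalizerMonoidHom ⟨q, hqC⟩ = 1 := by
      apply H3.Critical.eq_one_of_fix_omega hp2 (hVp.to_le hCV') _ (conj_coprime hqo hqC)
      intro c hc
      apply Subtype.ext
      change q * c * q⁻¹ = c
      rw [mul_inv_eq_iff_eq_mul]
      have h2 : (c : G) ∈ V ⊓ centralizer ({x} : Set G) := hC ▸ c.2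
      exact hstar c (mem_inf.1 h2).1 (mem_centralizer_singleton_iff.1 (mem_inf.1 h2).2).symm
        (congrArg Subtype.val hc) q hq
    have h2 := centralizes_of_one h1
    have h3 := H59.CopAct.AxB (zpowers x) (FixOne.isPGroup_zpowers hxp) q hqo
      (fun a ha => by
        obtain ⟨m, rfl⟩ := mem_zpowers_iff.1 ha
        exact (Commute.zpow_left (show Commute x q from hxq) m))
      (Nat.card V) V le_rfl hVp (fun g _ => hnV g) (hnV q)
      (fun v hv hxv => h2 v (by
        rw [hC]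
        refine mem_inf.2 ⟨hv, mem_centralizer_singleton_iff.2 ?_⟩
        exact (hxv x (mem_zpowers x)).symm))
    rw [mem_centralizer_iff]
    intro v hv
    exact (h3 v hv).symm

theorem final {G : Type*} [Group G] [Finite G] {p : ℕ} [hp : Fact p.Prime] (hp2 : p ≠ 2)
    (hG : IsPSolvable p G) (B : Subgroup G)
    (hB : IsElementaryAbelian p B) (hBc : Nat.card B = p ^ 2)
    (b₀ : G) (hb₀ : b₀ ∈ B) (P : Sylow p ↥(centralizer ({b₀} : Set G)))
    (hBP : B = closure {x : G | x ∈ ((P : Subgroup ↥(centralizer ({b₀} : Set G))).map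
      (centralizer ({b₀} : Set G)).subtype : Subgroup G) ∧ orderOf x = p})
    (Q : Subgroup G) (hQ : ¬ p ∣ Nat.card Q) (hinv : ∀ b ∈ B, ∀ x ∈ Q, b * x * b⁻¹ ∈ Q) :
    Q ≤ pPrimeCore p G := by
  have hQp : (Nat.card Q).Coprime p := ((Nat.Prime.coprime_iff_not_dvd hp.out).2 hQ).symm
  have hNc := H1.Cores.coprime_card_pPrimeCore (G := G) p
  have hBp : IsPGroup p B := IsPGroup.of_card hBc
  have hBN : B ⊓ pPrimeCore p G = ⊥ := FixOne.inf_eq_bot_of_coprime hBp hNc
  obtain ⟨f, hf⟩ : ∃ f, f = QuotientGroup.mk' (pPrimeCore p G) := ⟨_, rfl⟩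
  have hfs : Function.Surjective f := by rw [hf]; exact QuotientGroup.mk'_surjective _
  have hfk : f.ker = pPrimeCore p G := by rw [hf]; exact QuotientGroup.ker_mk' _
  have hker : ∀ g, f g = 1 ↔ g ∈ pPrimeCore p G := by intro g; rw [← MonoidHom.mem_ker, hfk]
  have hxp : b₀ ^ p = 1 := hB.2 b₀ hb₀
  have hcent : centralizer ({f b₀} : Set (G ⧸ pPrimeCore p G)) ≤
      (centralizer ({b₀} : Set G)).map f := by
    intro v hv
    obtain ⟨k, hk⟩ := IsPGroup.iff_card.1 (FixOne.isPGroup_zpowers (p := p) hxp)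
    have h1 := H1.Coprime.map_inf_centralizer (zpowers b₀) (⊤ : Subgroup G) (pPrimeCore p G)
      (by intro g _; rw [Subgroup.normalizer_eq_top]; exact mem_top g)
      (by rw [hk]; exact (Nat.Coprime.pow_right k hNc).symm)
      (Or.inl (by infer_instance)) le_top
    rw [← hf] at h1
    have h2 : v ∈ (⊤ : Subgroup G).map f ⊓ centralizer (((zpowers b₀).map f : Subgroup _) : Set _) := by
      refine mem_inf.2 ⟨?_, ?_⟩
      · obtain ⟨g, rfl⟩ := hfs v
        exact mem_map_of_mem _ (mem_top g)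
      · rw [mem_centralizer_iff]
        rintro _ ⟨_, ⟨m, rfl⟩, rfl⟩
        change f (b₀ ^ m) * v = v * f (b₀ ^ m)
        rw [map_zpow]
        have h3 : Commute (f b₀) v := (mem_centralizer_singleton_iff.1 hv).symm
        exact h3.zpow_left m
    rw [h1] at h2
    obtain ⟨g, hg, hgv⟩ := h2
    refine ⟨g, ?_, hgv⟩
    have h3 := mem_centralizer_iff.1 (mem_inf.1 hg).2 b₀ (mem_zpowers b₀)
    exact mem_centralizer_singleton_iff.2 h3.symm
  have hB' : IsElementaryAbelian p (B.map f) := by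
    refine ⟨⟨⟨?_⟩⟩, ?_⟩
    · rintro ⟨_, a, ha, rfl⟩ ⟨_, b, hb, rfl⟩
      apply Subtype.ext
      change f a * f b = f b * f a
      rw [← map_mul, ← map_mul]
      congr 1
      exact congrArg Subtype.val (hB.1.is_comm.comm (⟨a, ha⟩ : B) ⟨b, hb⟩)
    · rintro _ ⟨a, ha, rfl⟩
      rw [← map_pow, hB.2 a ha, map_one]
  have hBc' : Nat.card (B.map f) = p ^ 2 := by
    rw [← hBc]
    have h1 : Function.Injective (f.subgroupMap B) := by
      rw [injective_iff_map_eq_one]
      intro a ha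
      have h2 : f a = 1 := congrArg Subtype.val ha
      have h3 : (a : G) ∈ B ⊓ pPrimeCore p G := mem_inf.2 ⟨a.2, (hker a).1 h2⟩
      rw [hBN, mem_bot] at h3
      exact Subtype.ext h3
    exact (Nat.card_congr (Equiv.ofBijective _ ⟨h1, MonoidHom.subgroupMap_surjective f B⟩)).symm
  have hV : ∀ v ∈ pCore p (G ⧸ pPrimeCore p G), f b₀ * v = v * f b₀ → v ^ p = 1 → v ∈ B.map f := by
    intro v hv hxv hvp
    have hvC : v ∈ (centralizer ({b₀} : Set G)).map f :=
      hcent (mem_centralizer_singleton_iff.2 hxv.symm)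
    have hsurj := MonoidHom.subgroupMap_surjective f (centralizer ({b₀} : Set G))
    have hWp : IsPGroup p ((pCore p (G ⧸ pPrimeCore p G)).subgroupOf
        ((centralizer ({b₀} : Set G)).map f)) :=
      (H1.Cores.isPGroup_pCore p).comap_subtype
    have h1 := IsPGroup.le_sylow_of_normal hWp (P.mapSurjective hsurj)
    have h0 : (⟨v, hvC⟩ : ↥((centralizer ({b₀} : Set G)).map f)) ∈
        (pCore p (G ⧸ pPrimeCore p G)).subgroupOf ((centralizer ({b₀} : Set G)).map f) :=
      mem_subgroupOf.2 hv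
    have h2 := h1 h0
    obtain ⟨y, hy, hyv⟩ := h2
    have hyv' : f y = v := congrArg Subtype.val hyv
    have hyp : (y : G) ^ p = 1 := by
      have h3 : (y : G) ^ p ∈ pPrimeCore p G := by
        rw [← hker, map_pow, hyv', hvp]
      have h4 : IsPGroup p ((P : Subgroup ↥(centralizer ({b₀} : Set G))).map
        (centralizer ({b₀} : Set G)).subtype) := P.isPGroup'.map _
      have h5 : (y : G) ^ p ∈ ((P : Subgroup ↥(centralizer ({b₀} : Set G))).map
        (centralizer ({b₀} : Set G)).subtype) ⊓ pPrimeCore p G :=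
        mem_inf.2 ⟨pow_mem (mem_map_of_mem _ hy) p, h3⟩
      rw [FixOne.inf_eq_bot_of_coprime h4 hNc] at h5
      exact h5
    refine ⟨y, ?_, hyv'⟩
    have h6 : orderOf (y : G) ∣ p := orderOf_dvd_of_pow_eq_one hyp
    rcases (Nat.dvd_prime hp.out).1 h6 with h7 | h7
    · rw [orderOf_eq_one_iff] at h7
      rw [h7]; exact one_mem _
    · rw [hBP]
      exact Subgroup.subset_closure ⟨mem_map_of_mem _ hy, h7⟩
  have h := reduced hp2 (H37.PSolv.quotient hG _) (H1.Cores.pPrimeCore_quotient_pPrimeCore p) (B.map f)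
    hB' hBc' (f b₀) (mem_map_of_mem _ hb₀) hV (Q.map f)
    (Nat.Coprime.coprime_dvd_left (Subgroup.card_map_dvd _ _) hQp)
    (by
      rintro _ ⟨b, hb, rfl⟩
      apply Basic.mem_normalizer_of_conj
      rintro _ ⟨q, hq, rfl⟩
      exact ⟨b * q * b⁻¹, hinv b hb q hq, by rw [map_mul, map_mul, map_inv]⟩)
  intro q hq
  rw [← hker]
  have h2 := mem_map_of_mem f hq
  rw [h] at h2
  exact h2

end H12.SigTwo
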