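import Cfsg.Agent.Lib.H12.TransSit

/-!
# The abelianization of an involution centralizer with extraspecial core
-/

set_option autoImplicit false
set_option linter.all false

open scoped commutatorElement

namespace H12.TransA

open H12.TransX H12.TransSit

variable {G : Type*} [Group G]

/-- `g⁻¹ z g = z` iff `g` centralizes `z`. -/
theorem mem_cz_iff {z g : G} : g ∈ Subgroup.centralizer ({z} : Set G) ↔ g * z = z * g := by
  rw [Subgroup.mem_centralizer_iff]
  constructor
  · intro h
    exact (h z rfl).symm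
  · rintro h y rfl
    exact h.symm

theorem card_le_two_mul [Finite G] (A C : Subgroup G) (b : G)
    (h : ∀ x ∈ A, x ∈ C ∨ b⁻¹ * x ∈ C) : Nat.card A ≤ 2 * Nat.card C := by
  classical
  have h1 : (A : Set G) ⊆ (C : Set G) ∪ (fun y => b * y) '' (C : Set G) := by
    intro x hx
    rcases h x hx with h | h
    · exact Or.inl h
    · exact Or.inr ⟨b⁻¹ * x, h, by simp⟩
  have h2 := Set.ncard_le_ncard h1 (Set.toFinite _)
  have h3 := Set.ncard_union_le (C : Set G) ((fun y => b * y) '' (C : Set G))
  have h4 : ((fun y => b * y) '' (C : Set G)).ncard ≤ (C : Set G).ncard := Set.ncard_image_le (Set.toFinite _)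
  have h5 : Nat.card A = (A : Set G).ncard := rfl
  have h6 : Nat.card C = (C : Set G).ncard := rfl
  omega

theorem half [Finite G] {E : Subgroup G} {z : G} (hE : XData E z) (A : Subgroup G) (hA : A ≤ E)
    (a : G) (ha : a ∈ E) : Nat.card A ≤ 2 * Nat.card (A ⊓ Subgroup.centralizer ({a} : Set G) : Subgroup G) := by
  by_cases hall : ∀ b ∈ A, b * a = a * b
  · have h1 : A ≤ A ⊓ Subgroup.centralizer ({a} : Set G) := by
      intro x hx
      exact ⟨hx, mem_cz_iff.2 (hall x hx)⟩
    have h2 := Subgroup.card_le_of_le h1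
    omega
  · push Not at hall
    obtain ⟨b, hb, hba⟩ := hall
    apply card_le_two_mul A _ b
    intro x hx
    by_cases hxa : x * a = a * x
    · left
      exact ⟨hx, mem_cz_iff.2 hxa⟩
    · right
      refine ⟨A.mul_mem (A.inv_mem hb) hx, mem_cz_iff.2 ?_⟩
      have h1 : b * a = z * (a * b) := (hE.com b (hA hb) a ha).resolve_left hba
      have h2 : x * a = z * (a * x) := (hE.com x (hA hx) a ha).resolve_left hxa
      have h3 : b * (b⁻¹ * x * a) = b * (a * (b⁻¹ * x)) := by
        rw [mul_assoc b⁻¹, mul_inv_cancel_left, h2, ← mul_assoc b a, h1]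
        simp only [mul_assoc, mul_inv_cancel_left]
      exact mul_left_cancel h3

theorem card_le_two_of [Finite G] {z : G} (A : Subgroup G) (h : ∀ x ∈ A, x = 1 ∨ x = z) : Nat.card A ≤ 2 := by
  classical
  have h1 : (A : Set G) ⊆ {1, z} := by
    intro x hx
    exact h x hx
  have h2 := Set.ncard_le_ncard h1 (Set.toFinite _)
  have h3 : ({1, z} : Set G).ncard ≤ 2 := (Set.ncard_insert_le _ _).trans (by rw [Set.ncard_singleton])
  have h5 : Nat.card A = (A : Set G).ncard := rfl
  omega

/-- If an abelian subgroup `D` has index at most two in `E`, then `|E| ≤ 8`. -/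
theorem card_le_eight [Finite G] {E : Subgroup G} {z : G} (hE : XData E z) (D : Subgroup G) (hD : D ≤ E)
    (hab : ∀ x ∈ D, ∀ y ∈ D, x * y = y * x) (a : G) (ha : a ∈ E)
    (hcov : ∀ x ∈ E, x ∈ D ∨ a⁻¹ * x ∈ D) : Nat.card E ≤ 8 := by
  have h1 := card_le_two_mul E D a hcov
  have h2 := half hE D hD a ha
  have h3 : Nat.card (D ⊓ Subgroup.centralizer ({a} : Set G) : Subgroup G) ≤ 2 := by
    apply card_le_two_of (z := z)
    rintro x ⟨hx, hxa⟩
    apply hE.cent x (hD hx)
    have hxa' : x * a = a * x := (Subgroup.mem_centralizer_iff.1 hxa a rfl).symm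
    intro y hy
    rcases hcov y hy with h | h
    · exact hab x hx y h
    · have h4 := hab x hx _ h
      have e : y = a * (a⁻¹ * y) := by simp
      rw [e, ← mul_assoc, hxa', mul_assoc, h4]
      simp only [mul_assoc]
  omega

/-- if all of `E` fixes the coset `gC(z)` then `g ∈ C(z)` -/
theorem exists_move {z : G} {E : Subgroup G} (hS : Sit z E) (g : G)
    (h : ∀ e ∈ E, g⁻¹ * e * g ∈ Subgroup.centralizer ({z} : Set G)) : g * z * g⁻¹ = z := by
  have h1 : ∀ e ∈ E, (g * z * g⁻¹) * e = e * (g * z * g⁻¹) := by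
    intro e he
    have h2 := mem_cz_iff.1 (h e he)
    calc (g * z * g⁻¹) * e = g * (z * (g⁻¹ * e * g)) * g⁻¹ := by group
      _ = g * ((g⁻¹ * e * g) * z) * g⁻¹ := by rw [h2]
      _ = _ := by group
  have h3 := hS.cE _ h1
  rcases hS.X.cent _ h3 h1 with h4 | h4
  · exfalso
    apply hS.X.ne
    have h5 : g * z = g := by
      have := congrArg (· * g) h4
      simpa using this
    simpa using h5
  · exact h4

theorem key301 [Finite G] {z : G} {E : Subgroup G} (hS : Sit z E) (hres : Cfsg.pResidual 2 G = ⊤)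
    (μ : G → ℤˣ) (hμ : ∀ x ∈ Subgroup.centralizer ({z} : Set G), ∀ y ∈ Subgroup.centralizer ({z} : Set G),
      μ (x * y) = μ x * μ y)
    (hμ2 : ∀ x ∈ Subgroup.centralizer ({z} : Set G), ∀ y ∈ Subgroup.centralizer ({z} : Set G),
      x * x = y * y → μ x = μ y)
    (h8 : 8 < Nat.card E) (t : G) (ht : t ∈ Subgroup.centralizer ({z} : Set G)) : μ t = 1 := by
  classical
  haveI : Fintype (G ⧸ Subgroup.centralizer ({z} : Set G)) := Fintype.ofFinite _
  set H := Subgroup.centralizer ({z} : Set G) with hH
  have hμ1 : μ 1 = 1 := by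
    have h3 := hμ 1 H.one_mem 1 H.one_mem
    rw [mul_one] at h3
    have h4 : μ 1 * 1 = μ 1 * μ 1 := by rw [mul_one]; exact h3
    exact (mul_left_cancel h4).symm
  have htz : t * z = z * t := mem_cz_iff.1 ht
  have hEH : ∀ e ∈ E, e ∈ H := fun e he => mem_cz_iff.2 (hS.X.cen e he).symm
  have hfix1 : ∀ h ∈ H, h • ((1 : G) : G ⧸ H) = ((1 : G) : G ⧸ H) := by
    intro h hh
    show ((h * 1 : G) : G ⧸ H) = _
    rw [mul_one, QuotientGroup.eq, mul_one]
    exact H.inv_mem hh
  have hpres : ∀ h ∈ H, ∀ q ∈ Finset.univ.erase ((1 : G) : G ⧸ H), h • q ∈ Finset.univ.erase ((1 : G) : G ⧸ H) := by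
    intro h hh q hq
    rw [Finset.mem_erase] at hq ⊢
    refine ⟨fun h1 => hq.1 ?_, Finset.mem_univ _⟩
    have h2 : q = h⁻¹ • ((1 : G) : G ⧸ H) := by rw [← h1, inv_smul_smul]
    rw [h2]
    exact hfix1 _ (H.inv_mem hh)
  apply transfer_eq_one H μ hμ hres t ht
  refine prod_eq_one (cc H μ) (cc_mul H μ hμ) E z t hS.X (hS.nor t htz) ?_ _ ?_ ?_ ?_ ?_ ?_
  · rw [htz, mul_inv_cancel_right]
  · intro e he q hq
    exact hpres e (hEH e he) q hq
  · intro q hq
    exact hpres t ht q hq
  · intro q hq hzq
    rw [cc_fix H μ z q hzq, ← hμ1]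
    apply hμ2 _ ((fix_iff H z q).1 hzq) _ H.one_mem
    have e : (Quotient.out q)⁻¹ * z * Quotient.out q * ((Quotient.out q)⁻¹ * z * Quotient.out q) =
      (Quotient.out q)⁻¹ * (z * z) * Quotient.out q := by group
    rw [e, hS.X.z2]
    group
  · intro q hq hzq
    by_contra hcon
    push Not at hcon
    have h1 := exists_move hS (Quotient.out q) (fun e he => (fix_iff H e q).1 (hcon e he))
    have h2 : Quotient.out q ∈ H := by
      apply mem_cz_iff.2
      have := congrArg (· * Quotient.out q) h1
      simpa using this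
    rw [Finset.mem_erase] at hq
    apply hq.1
    have h3 : ((Quotient.out q : G) : G ⧸ H) = q := QuotientGroup.out_eq' q
    rw [← h3]
    rw [QuotientGroup.eq, mul_one]
    exact H.inv_mem h2
  · rintro q hq hzq ⟨d, hdE, hdq, hcd⟩ x hx hxq
    by_contra hcon
    push Not at hcon
    set g := Quotient.out q with hg
    let D : Subgroup G := E ⊓ MulAction.stabilizer G q
    have hDmem : ∀ e, e ∈ D ↔ e ∈ E ∧ e • q = q := by
      intro e
      rw [Subgroup.mem_inf, MulAction.mem_stabilizer_iff]
    -- squares decide the character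
    have hν : ∀ e ∈ D, ∀ f ∈ D, e * e = f * f → cc H μ e q = cc H μ f q := by
      intro e he f hf hef
      rw [hDmem] at he hf
      rw [cc_fix H μ e q he.2, cc_fix H μ f q hf.2]
      apply hμ2 _ ((fix_iff H e q).1 he.2) _ ((fix_iff H f q).1 hf.2)
      have e1 : (Quotient.out q)⁻¹ * e * Quotient.out q * ((Quotient.out q)⁻¹ * e * Quotient.out q) =
        (Quotient.out q)⁻¹ * (e * e) * Quotient.out q := by group
      have e2 : (Quotient.out q)⁻¹ * f * Quotient.out q * ((Quotient.out q)⁻¹ * f * Quotient.out q) =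
        (Quotient.out q)⁻¹ * (f * f) * Quotient.out q := by group
      rw [e1, e2, hef]
    have hc1 : cc H μ 1 q = 1 := c_one (cc H μ) (cc_mul H μ hμ) q
    have hν1 : ∀ e ∈ D, e * e = 1 → cc H μ e q = 1 := by
      intro e he h
      rw [hν e he 1 D.one_mem (by rw [h, mul_one]), hc1]
    have hdD : d ∈ D := (hDmem d).2 ⟨hdE, hdq⟩
    have hd2 : d * d = z := (hS.X.sq d hdE).resolve_left (fun h => hcd (hν1 d hdD h))
    have hνz : ∀ e ∈ D, e * e = z → cc H μ e q = -1 := by
      intro e he h
      rw [hν e he d hdD (by rw [h, hd2])]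
      exact (Int.units_eq_one_or _).resolve_left hcd
    have hab : ∀ x ∈ D, ∀ y ∈ D, x * y = y * x := by
      intro x hx y hy
      have hxE := ((hDmem x).1 hx).1
      have hyE := ((hDmem y).1 hy).1
      have hyq := ((hDmem y).1 hy).2
      rcases hS.X.com x hxE y hyE with h | h
      · exact h
      · exfalso
        have hmul : cc H μ (x * y) q = cc H μ x q * cc H μ y q := by
          rw [cc_mul H μ hμ, hyq]
        -- (xy)² = x² y² z
        have h1 : x * y * (x * y) = x * x * (y * y) * z := by
          have h2 : y * x = z * (x * y) := by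
            rw [h, ← mul_assoc, hS.X.z2, one_mul]
          calc x * y * (x * y) = x * (y * x) * y := by simp only [mul_assoc]
            _ = x * (z * (x * y)) * y := by rw [h2]
            _ = x * z * x * y * y := by simp only [mul_assoc]
            _ = x * x * z * y * y := by rw [mul_assoc x z x, hS.X.cen x hxE, ← mul_assoc]
            _ = x * x * (y * z) * y := by rw [mul_assoc (x * x) z y, hS.X.cen y hyE]
            _ = x * x * y * (z * y) := by simp only [mul_assoc]
            _ = x * x * y * (y * z) := by rw [hS.X.cen y hyE]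
            _ = _ := by simp only [mul_assoc]
        have hxyD := D.mul_mem hx hy
        rcases hS.X.sq x hxE with h3 | h3 <;> rcases hS.X.sq y hyE with h4 | h4
        · rw [h3, h4, one_mul, one_mul] at h1
          rw [hν1 x hx h3, hν1 y hy h4, hνz _ hxyD h1] at hmul
          exact absurd hmul (by decide)
        · rw [h3, h4, one_mul, hS.X.z2] at h1
          rw [hν1 x hx h3, hνz y hy h4, hν1 _ hxyD h1] at hmul
          exact absurd hmul (by decide)
        · rw [h3, h4, mul_one, hS.X.z2] at h1
          rw [hνz x hx h3, hν1 y hy h4, hν1 _ hxyD h1] at hmul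
          exact absurd hmul (by decide)
        · rw [h3, h4, hS.X.z2, one_mul] at h1
          rw [hνz x hx h3, hνz y hy h4, hνz _ hxyD h1] at hmul
          exact absurd hmul (by decide)
    have h9 := card_le_eight hS.X D inf_le_left hab x hx (by
      intro y hy
      by_cases hyq : y • q = q
      · exact Or.inl ((hDmem y).2 ⟨hy, hyq⟩)
      · right
        exact (hDmem _).2 ⟨E.mul_mem (E.inv_mem hx) hy, hcon y hy hyq⟩)
    omega

/-- For `|E| ≤ 8`: the square of a `2`-element `t ∈ C(z)` is trivial modulo the derived group. -/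
theorem small_case [Finite G] {z : G} {E : Subgroup G} (hS : Sit z E) (h8 : Nat.card E ≤ 8)
    {B : Type*} [CommGroup B] (H : Subgroup G) (hH : ∀ g, g ∈ H ↔ g * z = z * g) (f : H →* B)
    (t : H) (k : ℕ) (hk : orderOf t = 2 ^ k) : f t ^ 2 = 1 := by
  classical
  have hEH : ∀ e ∈ E, e ∈ H := fun e he => (hH e).2 (hS.X.cen e he).symm
  have htz : (t : G) * z = z * t := (hH t).1 t.2
  -- `f z = 1`
  have hfz : ∀ (w : H), (w : G) = z → f w = 1 := by
    intro w hw
    obtain ⟨x, hx, y, hy, hxy⟩ := hS.X.wit
    have h1 : (⟨x, hEH x hx⟩ * ⟨y, hEH y hy⟩ : H) = w * (⟨y, hEH y hy⟩ * ⟨x, hEH x hx⟩) := by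
      apply Subtype.ext
      show x * y = w * (y * x)
      rw [hw, hxy]
    have h2 := congrArg f h1
    rw [map_mul, map_mul, map_mul] at h2
    have h3 : 1 * (f ⟨y, hEH y hy⟩ * f ⟨x, hEH x hx⟩) = f w * (f ⟨y, hEH y hy⟩ * f ⟨x, hEH x hx⟩) := by
      rw [one_mul, ← h2, mul_comm]
    exact (mul_right_cancel h3).symm
  have hfz1 : ∀ (w : H), ((w : G) = 1 ∨ (w : G) = z) → f w = 1 := by
    rintro w (h | h)
    · have : w = 1 := Subtype.ext h
      rw [this, map_one]
    · exact hfz w h
  -- elements of `E`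
  have hfE : (t : G) ∈ E → f t ^ 2 = 1 := by
    intro h
    rw [← map_pow]
    apply hfz1
    have := hS.X.sq t h
    rw [SubmonoidClass.coe_pow, pow_two]
    exact this
  -- the quotient `V = E / Z(E)`
  have hzc : (⟨z, hS.X.hz⟩ : E) ∈ Subgroup.center E := by
    rw [Subgroup.mem_center_iff]
    rintro ⟨x, hx⟩
    exact Subtype.ext (hS.X.cen x hx).symm
  let q : E → E ⧸ Subgroup.center E := fun e => (e : E ⧸ Subgroup.center E)
  have hq : ∀ a b : E, q a = q b ↔ ((a : G) = b ∨ (a : G) = z * b) := by
    intro a b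
    show ((a : E ⧸ Subgroup.center E) = b) ↔ _
    rw [QuotientGroup.eq]
    constructor
    · intro h
      have h1 : ∀ y ∈ E, ((a : G)⁻¹ * b) * y = y * ((a : G)⁻¹ * b) := by
        intro y hy
        have := Subgroup.mem_center_iff.1 h ⟨y, hy⟩
        exact (congrArg Subtype.val this).symm
      rcases hS.X.cent _ (E.mul_mem (E.inv_mem a.2) b.2) h1 with h2 | h2
      · left
        exact inv_mul_eq_one.1 h2
      · right
        have h3 : (b : G) = a * z := by rw [← h2, mul_inv_cancel_left]
        rw [h3, ← hS.X.cen a a.2, ← mul_assoc, hS.X.z2, one_mul]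
    · rintro (h | h)
      · have : a = b := Subtype.ext h
        rw [this, inv_mul_cancel]
        exact Subgroup.one_mem _
      · have h1 : a⁻¹ * b = ⟨z, hS.X.hz⟩ := by
          apply Subtype.ext
          show (a : G)⁻¹ * b = z
          rw [h, mul_inv_rev, mul_assoc]
          have hzi : z⁻¹ = z := inv_eq_of_mul_eq_one_left hS.X.z2
          rw [hzi, hS.X.cen _ b.2, inv_mul_cancel_left]
        rw [h1]
        exact hzc
  by_cases htriv : ∀ e ∈ E, (t : G) * e * (t : G)⁻¹ = e ∨ (t : G) * e * (t : G)⁻¹ = z * e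
  · exact hfE (hS.inn t htz htriv)
  · push Not at htriv
    obtain ⟨e₀, he₀, h01, h02⟩ := htriv
    let φ : E → E := fun e => ⟨(t : G) * e * (t : G)⁻¹, hS.nor t htz e e.2⟩
    have hφmul : ∀ a b, φ (a * b) = φ a * φ b := by
      intro a b
      apply Subtype.ext
      show (t : G) * (a * b : G) * (t : G)⁻¹ = (t : G) * a * (t : G)⁻¹ * ((t : G) * b * (t : G)⁻¹)
      group
    have hφq : ∀ a b, q a = q b → q (φ a) = q (φ b) := by
      intro a b h
      rw [hq] at h ⊢
      rcases h with h | h
      · left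
        show (t : G) * a * (t : G)⁻¹ = (t : G) * b * (t : G)⁻¹
        rw [h]
      · right
        show (t : G) * a * (t : G)⁻¹ = z * ((t : G) * b * (t : G)⁻¹)
        rw [h]
        simp only [← mul_assoc]
        rw [htz]
    have hφinj : ∀ a b, q (φ a) = q (φ b) → q a = q b := by
      intro a b h
      rw [hq] at h ⊢
      rcases h with h | h
      · left
        have h1 : (t : G) * a * (t : G)⁻¹ = (t : G) * b * (t : G)⁻¹ := h
        exact mul_left_cancel (mul_right_cancel h1)
      · right
        have h1 : (t : G) * a * (t : G)⁻¹ = z * ((t : G) * b * (t : G)⁻¹) := h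
        have h2 : (t : G) * a = (t : G) * (z * b) := by
          apply mul_right_cancel (b := (t : G)⁻¹)
          rw [h1]
          simp only [← mul_assoc]
          rw [htz]
        exact mul_left_cancel h2
    have hqmul : ∀ a b, q (a * b) = q a * q b := fun a b => rfl
    have hqsq : ∀ a, q a * q a = 1 := by
      intro a
      have : q (a * a) = q 1 := by
        rw [hq]
        rcases hS.X.sq a a.2 with h | h
        · left; exact h
        · right
          show (a * a : G) = z * 1
          rw [h, mul_one]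
      exact this
    have hqcomm : ∀ a b, q a * q b = q b * q a := by
      intro a b
      have : q (a * b) = q (b * a) := by
        rw [hq]
        exact hS.X.com a a.2 b b.2
      exact this
    set v₀ : E := ⟨e₀, he₀⟩ with hv₀
    set v₁ : E := φ v₀ with hv₁
    have hne01 : q v₁ ≠ q v₀ := by
      intro h
      rw [hq] at h
      rcases h with h | h
      · exact h01 h
      · exact h02 h
    have hφ1 : q (φ 1) = 1 := by
      have : φ 1 = 1 := by
        apply Subtype.ext
        show (t : G) * 1 * (t : G)⁻¹ = 1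
        rw [mul_one, mul_inv_cancel]
      rw [this]
      rfl
    have hne0 : q v₀ ≠ 1 := by
      intro h
      apply hne01
      rw [h]
      have h1 : q v₀ = q 1 := h
      rw [hv₁, hφq _ _ h1, hφ1]
    have hne1 : q v₁ ≠ 1 := by
      intro h
      apply hne0
      have h1 : q (φ v₀) = q (φ 1) := by rw [hφ1]; exact h
      exact hφinj _ _ h1
    have hcardV : Nat.card (E ⧸ Subgroup.center E) ≤ 4 := by
      have h1 := Subgroup.card_eq_card_quotient_mul_card_subgroup (Subgroup.center E)
      have h2 : 2 ≤ Nat.card (Subgroup.center E) := by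
        rw [Nat.succ_le_iff, Subgroup.one_lt_card_iff_ne_bot]
        intro h
        rw [h, Subgroup.mem_bot] at hzc
        exact hS.X.ne (congrArg Subtype.val hzc)
      have h3 : Nat.card (E ⧸ Subgroup.center E) * 2 ≤ Nat.card E := by
        rw [h1]
        exact Nat.mul_le_mul_left _ h2
      omega
    haveI : Fintype (E ⧸ Subgroup.center E) := Fintype.ofFinite _
    have hmulne : ∀ a b : E, q a ≠ q b → q a * q b ≠ 1 := by
      intro a b h h'
      apply h
      have h1 : q a * q b = q b * q b := by rw [h', hqsq]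
      exact mul_right_cancel h1
    have hall : ∀ v : E ⧸ Subgroup.center E, v = 1 ∨ v = q v₀ ∨ v = q v₁ ∨ v = q v₀ * q v₁ := by
      have h1 : ({1, q v₀, q v₁, q v₀ * q v₁} : Finset (E ⧸ Subgroup.center E)) = Finset.univ := by
        apply Finset.eq_univ_of_card
        apply le_antisymm (Finset.card_le_univ _)
        rw [← Nat.card_eq_fintype_card]
        refine hcardV.trans ?_
        rw [Finset.card_insert_of_notMem, Finset.card_insert_of_notMem, Finset.card_insert_of_notMem,
          Finset.card_singleton]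
        · intro h
          rw [Finset.mem_singleton] at h
          apply hne0
          have : 1 * q v₁ = q v₀ * q v₁ := by rw [one_mul]; exact h
          exact (mul_right_cancel this).symm
        · intro h
          rw [Finset.mem_insert, Finset.mem_singleton] at h
          rcases h with h | h
          · exact hne01 h.symm
          · apply hne1
            have : q v₀ * 1 = q v₀ * q v₁ := by rw [mul_one]; exact h
            exact (mul_left_cancel this).symm
        · intro h
          rw [Finset.mem_insert, Finset.mem_insert, Finset.mem_singleton] at h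
          rcases h with h | h | h
          · exact hne0 h.symm
          · exact hne1 h.symm
          · exact hmulne v₀ v₁ (Ne.symm hne01) h.symm
      intro v
      have h2 : v ∈ ({1, q v₀, q v₁, q v₀ * q v₁} : Finset (E ⧸ Subgroup.center E)) := by
        rw [h1]; exact Finset.mem_univ v
      simpa using h2
    have hφqmul : ∀ a b, q (φ (a * b)) = q (φ a) * q (φ b) := by
      intro a b
      rw [hφmul]
      rfl
    -- representatives
    have hrep : ∀ e : E, q e = q 1 ∨ q e = q v₀ ∨ q e = q v₁ ∨ q e = q (v₀ * v₁) := fun e => hall (q e)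
    have h3 := hall (q (φ v₁))
    have hφv1 : q (φ v₁) = q v₀ ∨ q (φ v₁) = q (v₀ * v₁) := by
      rcases h3 with h | h | h | h
      · exfalso
        apply hne1
        apply hφinj
        rw [h, hφ1]
      · exact Or.inl h
      · exfalso
        exact hne01 (hφinj _ _ h)
      · exact Or.inr h
    rcases hφv1 with h4 | h4
    · -- `t²` acts trivially
      have h5 : ∀ e : E, q (φ (φ e)) = q e := by
        intro e
        have h50 : q (φ (φ v₀)) = q v₀ := h4
        have h51 : q (φ (φ v₁)) = q v₁ := hφq _ _ h4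
        rcases hrep e with h | h | h | h
        · rw [hφq _ _ (hφq _ _ h), h]
          rw [hφq (φ 1) 1 hφ1, hφ1]
          rfl
        · rw [hφq _ _ (hφq _ _ h), h, h50]
        · rw [hφq _ _ (hφq _ _ h), h, h51]
        · rw [hφq _ _ (hφq _ _ h), h, hφq _ _ (show q (φ (v₀ * v₁)) = q (φ v₀ * φ v₁) by rw [hφmul]),
            hφqmul, h50, h51]
          rfl
      have h6 : (t : G) * t ∈ E := by
        apply hS.inn
        · rw [mul_assoc, htz, ← mul_assoc, htz, mul_assoc]
        · intro e he
          have h7 := (hq _ _).1 (h5 ⟨e, he⟩)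
          have e1 : (t : G) * t * e * ((t : G) * t)⁻¹ = (t : G) * ((t : G) * e * (t : G)⁻¹) * (t : G)⁻¹ := by group
          rw [e1]
          exact h7
      have h8' : q (φ ⟨(t : G) * t, h6⟩) = q ⟨(t : G) * t, h6⟩ := by
        congr 1
        apply Subtype.ext
        show (t : G) * (t * t) * (t : G)⁻¹ = t * t
        group
      have hcl : q ⟨(t : G) * t, h6⟩ = q 1 ∨ q ⟨(t : G) * t, h6⟩ = q (v₀ * v₁) := by
        rcases hrep ⟨(t : G) * t, h6⟩ with h | h | h | h
        · exact Or.inl h
        · exfalso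
          rw [hφq _ _ h, h] at h8'
          exact hne01 h8'
        · exfalso
          rw [hφq _ _ h, h, h4] at h8'
          exact hne01 h8'.symm
        · exact Or.inr h
      rw [← map_pow]
      rcases hcl with h | h
      · apply hfz1
        rw [SubmonoidClass.coe_pow, pow_two]
        rcases (hq _ _).1 h with h9 | h9
        · left; exact h9
        · right
          have h10 : (t : G) * t = z * 1 := h9
          rw [h10, mul_one]
      · -- `t² = e₀ t e₀ t⁻¹` up to `z`
        have h11 : ∃ w : H, ((w : G) = 1 ∨ (w : G) = z) ∧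
            t ^ 2 = w * (⟨e₀, hEH e₀ he₀⟩ * (t * ⟨e₀, hEH e₀ he₀⟩ * t⁻¹)) := by
          rcases (hq _ _).1 h with h9 | h9
          · refine ⟨1, Or.inl rfl, ?_⟩
            apply Subtype.ext
            show (t : G) ^ 2 = 1 * (e₀ * (t * e₀ * (t : G)⁻¹))
            rw [pow_two, one_mul]
            exact h9
          · refine ⟨⟨z, hEH z hS.X.hz⟩, Or.inr rfl, ?_⟩
            apply Subtype.ext
            show (t : G) ^ 2 = z * (e₀ * (t * e₀ * (t : G)⁻¹))
            rw [pow_two]
            exact h9
        obtain ⟨w, hw, hw2⟩ := h11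
        rw [hw2]
        simp only [map_mul, map_inv]
        rw [hfz1 w hw, one_mul]
        have h12 : f ⟨e₀, hEH e₀ he₀⟩ * f ⟨e₀, hEH e₀ he₀⟩ = 1 := by
          rw [← map_mul]
          apply hfz1
          exact hS.X.sq e₀ he₀
        calc f ⟨e₀, hEH e₀ he₀⟩ * (f t * f ⟨e₀, hEH e₀ he₀⟩ * (f t)⁻¹)
            = (f ⟨e₀, hEH e₀ he₀⟩ * f ⟨e₀, hEH e₀ he₀⟩) * (f t * (f t)⁻¹) := by
              simp only [mul_comm, mul_left_comm, mul_assoc]
          _ = 1 := by rw [h12, mul_inv_cancel, mul_one]
    · -- `t³` acts trivially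
      apply hfE
      have h50 : q (φ (φ (φ v₀))) = q v₀ := by
        have h51 : q (φ (φ v₁)) = q (φ (v₀ * v₁)) := hφq _ _ h4
        show q (φ (φ v₁)) = q v₀
        rw [h51, hφqmul]
        show q v₁ * q (φ v₁) = q v₀
        rw [h4, hqmul, ← mul_assoc, hqcomm v₁ v₀, mul_assoc, hqsq, mul_one]
      have h52 : q (φ (φ (φ v₁))) = q v₁ := hφq _ _ h50
      have hφφ : ∀ a b, q (φ (φ (a * b))) = q (φ (φ a)) * q (φ (φ b)) := by
        intro a b
        rw [hφmul, hφmul]
        rfl
      have hφφφ : ∀ a b, q (φ (φ (φ (a * b)))) = q (φ (φ (φ a))) * q (φ (φ (φ b))) := by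
        intro a b
        rw [hφmul, hφmul, hφmul]
        rfl
      have h5 : ∀ e : E, q (φ (φ (φ e))) = q e := by
        intro e
        rcases hrep e with h | h | h | h
        · rw [hφq _ _ (hφq _ _ (hφq _ _ h)), h]
          rw [hφq _ _ (hφq (φ 1) 1 hφ1), hφq (φ 1) 1 hφ1, hφ1]
          rfl
        · rw [hφq _ _ (hφq _ _ (hφq _ _ h)), h, h50]
        · rw [hφq _ _ (hφq _ _ (hφq _ _ h)), h, h52]
        · rw [hφq _ _ (hφq _ _ (hφq _ _ h)), h, hφφφ, h50, h52]
          rfl
      have h6 : (t : G) ^ 3 ∈ E := by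
        apply hS.inn
        · exact (Commute.pow_left (show Commute (t : G) z from htz) 3).eq
        · intro e he
          have h7 := (hq _ _).1 (h5 ⟨e, he⟩)
          have e1 : (t : G) ^ 3 * e * ((t : G) ^ 3)⁻¹ =
              (t : G) * ((t : G) * ((t : G) * e * (t : G)⁻¹) * (t : G)⁻¹) * (t : G)⁻¹ := by
            rw [pow_succ, pow_two]
            group
          rw [e1]
          exact h7
      have hord : orderOf (t : G) = 2 ^ k := by rw [← hk]; exact Subgroup.orderOf_coe t
      have hcop : Nat.Coprime (orderOf (t : G)) 3 := by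
        rw [hord]
        exact Nat.Coprime.pow_left k (by decide)
      obtain ⟨m, hm⟩ := exists_pow_eq_self_of_coprime hcop.symm
      rw [← hm]
      exact E.pow_mem h6 m

theorem exists_char {B : Type*} [CommGroup B] [Finite B] (q : B) (k : ℕ) (hk : orderOf q = 2 ^ k)
    (hcon : q ^ 2 ≠ 1) : ∃ n : B →* ℤˣ, (∀ b, b ^ 2 = 1 → n b = 1) ∧ ∃ d, n d = -1 := by
  classical
  let sq : B →* B := powMonoidHom 2
  let W : Subgroup B := sq.ker ⊔ sq.range
  have hWne : W ≠ ⊤ := by
    intro hW
    -- the restriction of `sq` to its range is onto, hence injective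
    have hsurj : Function.Surjective (fun b : sq.range => (⟨sq b, ⟨b, rfl⟩⟩ : sq.range)) := by
      rintro ⟨_, ⟨b, rfl⟩⟩
      have hb : b ∈ W := by rw [hW]; exact Subgroup.mem_top b
      obtain ⟨u, hu, v, hv, huv⟩ := Subgroup.mem_sup.1 hb
      refine ⟨⟨v, hv⟩, Subtype.ext ?_⟩
      show sq v = sq b
      rw [← huv, map_mul, (MonoidHom.mem_ker).1 hu, one_mul]
    have hinj := Finite.injective_iff_surjective.2 hsurj
    have hk2 : 2 ≤ k := by
      by_contra h
      apply hcon
      have h4 : orderOf q ∣ 2 := by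
        rw [hk]
        exact (pow_dvd_pow 2 (show k ≤ 1 by omega)).trans (by norm_num)
      exact orderOf_dvd_iff_pow_eq_one.1 h4
    -- `r = q^(2^(k-1))`
    have hr1 : q ^ 2 ^ (k - 1) ≠ 1 := by
      intro h
      have h4 := orderOf_dvd_of_pow_eq_one h
      rw [hk, Nat.pow_dvd_pow_iff_le_right (by norm_num)] at h4
      omega
    have hr2 : (q ^ 2 ^ (k - 1)) ^ 2 = 1 := by
      rw [← pow_mul, ← pow_succ, show k - 1 + 1 = k by omega, ← hk]
      exact pow_orderOf_eq_one q
    have hr3 : q ^ 2 ^ (k - 1) = sq (q ^ 2 ^ (k - 2)) := by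
      show _ = (q ^ 2 ^ (k - 2)) ^ 2
      rw [← pow_mul, ← pow_succ, show k - 2 + 1 = k - 1 by omega]
    apply hr1
    have h5 : (⟨q ^ 2 ^ (k - 1), ⟨_, hr3.symm⟩⟩ : sq.range) = ⟨1, Subgroup.one_mem _⟩ := by
      apply hinj
      apply Subtype.ext
      show (q ^ 2 ^ (k - 1)) ^ 2 = sq 1
      rw [hr2, map_one]
    exact congrArg Subtype.val h5
  obtain ⟨d, hd⟩ : ∃ d, d ∉ W := by
    by_contra h
    push Not at h
    exact hWne (eq_top_iff.2 fun x _ => h x)
  obtain ⟨n, hnW, hnd⟩ := sep W (fun x => Subgroup.mem_sup_right ⟨x, by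
    show x ^ 2 = x * x
    rw [pow_two]⟩) d hd
  exact ⟨n, fun b hb => hnW b (Subgroup.mem_sup_left hb), d, hnd⟩

theorem main301 [Finite G] {z : G} {E : Subgroup G} (hS : Sit z E) (hres : Cfsg.pResidual 2 G = ⊤)
    (q : Abelianization ↥(Subgroup.centralizer ({z} : Set G))) (hq : ∃ k : ℕ, orderOf q = 2 ^ k) : q ^ 2 = 1 := by
  classical
  obtain ⟨k, hk⟩ := hq
  by_cases h8 : Nat.card E ≤ 8
  · obtain ⟨t, ht⟩ := QuotientGroup.mk_surjective q
    have ht' : Abelianization.of t = q := ht
    -- take the `2`-part of `t`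
    obtain ⟨a, m, hm, ham⟩ := Nat.exists_eq_two_pow_mul_odd (n := orderOf t) (orderOf_pos t).ne'
    have hcop : Nat.Coprime m (orderOf q) := by
      rw [hk]
      exact Nat.Coprime.pow_right k (Nat.coprime_two_right.2 hm)
    obtain ⟨j, hj⟩ := exists_pow_eq_self_of_coprime hcop
    have h1 : Abelianization.of (t ^ m) ^ j = q := by
      rw [map_pow, ht']
      exact hj
    have h2 : orderOf (t ^ m) = 2 ^ a := by
      rw [orderOf_pow, ham, Nat.gcd_eq_right (Dvd.intro_left _ rfl)]
      exact Nat.mul_div_cancel _ hm.pos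
    have h3 := small_case hS h8 (Subgroup.centralizer ({z} : Set G)) (fun g => mem_cz_iff)
      (Abelianization.of) (t ^ m) a h2
    rw [← h1, ← pow_mul, mul_comm, pow_mul, h3, one_pow]
  · by_contra hcon
    push Not at h8
    obtain ⟨n, hn2, d, hnd⟩ := exists_char q k hk hcon
    let μ : G → ℤˣ := fun g => if h : g ∈ Subgroup.centralizer ({z} : Set G) then n (Abelianization.of ⟨g, h⟩) else 1
    have hμ : ∀ x ∈ Subgroup.centralizer ({z} : Set G), ∀ y ∈ Subgroup.centralizer ({z} : Set G),
      μ (x * y) = μ x * μ y := by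
      intro x hx y hy
      simp only [μ, hx, hy, Subgroup.mul_mem _ hx hy, dif_pos]
      rw [← map_mul, ← map_mul]
      rfl
    have hμ2 : ∀ x ∈ Subgroup.centralizer ({z} : Set G), ∀ y ∈ Subgroup.centralizer ({z} : Set G),
      x * x = y * y → μ x = μ y := by
      intro x hx y hy hxy
      simp only [μ, hx, hy, dif_pos]
      have h3 := hn2 (Abelianization.of (⟨x, hx⟩ : Subgroup.centralizer ({z} : Set G)) *
          (Abelianization.of (⟨y, hy⟩ : Subgroup.centralizer ({z} : Set G)))⁻¹) (by
        rw [mul_pow, inv_pow, ← map_pow, ← map_pow]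
        have h2 : (⟨x, hx⟩ : Subgroup.centralizer ({z} : Set G)) ^ 2 = ⟨y, hy⟩ ^ 2 := by
          apply Subtype.ext
          show x ^ 2 = y ^ 2
          rw [pow_two, pow_two, hxy]
        rw [h2, mul_inv_cancel])
      rw [map_mul, map_inv] at h3
      exact mul_inv_eq_one.1 h3
    obtain ⟨d', hd'⟩ := QuotientGroup.mk_surjective d
    have hd'' : Abelianization.of d' = d := hd'
    have h6 := key301 hS hres μ hμ hμ2 h8 d' d'.2
    simp only [μ, d'.2, dif_pos] at h6
    rw [← hd''] at hnd
    have h7 : n (Abelianization.of d') = 1 := h6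
    rw [h7] at hnd
    exact absurd hnd (by decide)

end H12.TransA
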