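import Cfsg.Agent.Lib.H12.TransA
import Mathlib.GroupTheory.PGroup
import Mathlib.Algebra.Group.Action.Pointwise.Finset

/-!
# Fusion of the central involution into the extraspecial core
-/

set_option autoImplicit false
set_option linter.all false

open scoped commutatorElement Pointwise

namespace H12.TransB

open H12.TransX H12.TransSit H12.TransA

variable {G : Type*} [Group G]

/-- An involution outside `E` cannot centralize a subgroup of index two of `E`. -/
theorem invol_index {z : G} {E : Subgroup G} (hS : Sit z E) (y : G) (hy2 : y * y = 1)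
    (hyz : y * z = z * y) (hyE : y ∉ E) (x : G) (hx : x ∈ E)
    (hcov : ∀ f ∈ E, f * y = y * f ∨ (x⁻¹ * f) * y = y * (x⁻¹ * f)) : False := by
  have hyi : y⁻¹ = y := inv_eq_of_mul_eq_one_left hy2
  have h1 : ¬ ∀ e ∈ E, y * e * y⁻¹ = e ∨ y * e * y⁻¹ = z * e := fun h => hyE (hS.inn y hyz h)
  push Not at h1
  obtain ⟨e, he, he1, he2⟩ := h1
  have heD : ¬ e * y = y * e := by
    intro h
    apply he1
    rw [← h, mul_inv_cancel_right]
  have hxe : (x⁻¹ * e) * y = y * (x⁻¹ * e) := (hcov e he).resolve_left heD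
  have hcov' : ∀ f ∈ E, f * y = y * f ∨ (e⁻¹ * f) * y = y * (e⁻¹ * f) := by
    intro f hf
    rcases hcov f hf with h | h
    · exact Or.inl h
    · right
      have h2 : Commute (x⁻¹ * e) y := hxe
      have h3 : Commute (x⁻¹ * f) y := h
      have h4 := h2.inv_left.mul_left h3
      have e1 : (x⁻¹ * e)⁻¹ * (x⁻¹ * f) = e⁻¹ * f := by group
      rw [e1] at h4
      exact h4
  have hyey : y * e * y⁻¹ ∈ E := hS.nor y hyz e he
  obtain ⟨u, hu⟩ : ∃ u, u = e⁻¹ * (y * e * y⁻¹) := ⟨_, rfl⟩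
  have huE : u ∈ E := by rw [hu]; exact E.mul_mem (E.inv_mem he) hyey
  have heu : y * e * y⁻¹ = e * u := by rw [hu, mul_inv_cancel_left]
  have hu1 : u ≠ 1 := by
    intro h
    apply he1
    rw [heu, h, mul_one]
  have huz : u ≠ z := by
    intro h
    apply he2
    rw [heu, h, hS.X.cen e he]
  -- `u` commutes with `D`
  have hc1 : ∀ d ∈ E, d * y = y * d → u * d = d * u := by
    intro d hd hdy
    have hdy' : y * d * y⁻¹ = d := by rw [← hdy, mul_inv_cancel_right]
    have hzy' : y * z * y⁻¹ = z := by rw [hyz, mul_inv_cancel_right]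
    rcases hS.X.com e he d hd with h | h
    · have h2 : (y * e * y⁻¹) * (y * d * y⁻¹) = (y * d * y⁻¹) * (y * e * y⁻¹) := by
        have : y * (e * d) * y⁻¹ = y * (d * e) * y⁻¹ := by rw [h]
        calc (y * e * y⁻¹) * (y * d * y⁻¹) = y * (e * d) * y⁻¹ := by group
          _ = y * (d * e) * y⁻¹ := this
          _ = _ := by group
      rw [hdy', heu, ← mul_assoc, ← h, mul_assoc, mul_assoc] at h2
      exact mul_left_cancel h2
    · have h2 : (y * e * y⁻¹) * (y * d * y⁻¹) = (y * z * y⁻¹) * ((y * d * y⁻¹) * (y * e * y⁻¹)) := by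
        have : y * (e * d) * y⁻¹ = y * (z * (d * e)) * y⁻¹ := by rw [h]
        calc (y * e * y⁻¹) * (y * d * y⁻¹) = y * (e * d) * y⁻¹ := by group
          _ = y * (z * (d * e)) * y⁻¹ := this
          _ = _ := by group
      rw [hdy', hzy', heu, ← mul_assoc d, ← mul_assoc z, ← h, mul_assoc, mul_assoc] at h2
      exact mul_left_cancel h2
  -- `u` does not commute with `e`
  have hue : ¬ u * e = e * u := by
    intro h
    rcases hS.X.cent u huE (fun f hf => by
      rcases hcov' f hf with h2 | h2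
      · exact hc1 f hf h2
      · have h3 : Commute u (e⁻¹ * f) := hc1 _ (E.mul_mem (E.inv_mem he) hf) h2
        have h4 : Commute u e := h
        have h5 := h4.mul_right h3
        rw [mul_inv_cancel_left] at h5
        exact h5.eq) with h6 | h6
    · exact hu1 h6
    · exact huz h6
  have huD : u * y = y * u := by
    rcases hcov' u huE with h | h
    · exact h
    · exfalso
      apply hue
      have h3 : u * (e⁻¹ * u) = (e⁻¹ * u) * u := hc1 _ (E.mul_mem (E.inv_mem he) huE) h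
      have h4 : u * e⁻¹ = e⁻¹ * u := by
        apply mul_right_cancel (b := u)
        rw [mul_assoc, h3]
      have h5 : Commute u e⁻¹ := h4
      exact (Commute.inv_right_iff.1 h5).eq
  have huu : u * u = 1 := by
    have h2 : y * (y * e * y⁻¹) * y⁻¹ = e := by
      rw [hyi]
      calc y * (y * e * y) * y = (y * y) * e * (y * y) := by simp only [mul_assoc]
        _ = e := by rw [hy2, one_mul, mul_one]
    have h3 : y * (e * u) * y⁻¹ = e * u * u := by
      calc y * (e * u) * y⁻¹ = (y * e * y⁻¹) * (y * u * y⁻¹) := by group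
        _ = e * u * u := by rw [heu, ← huD, mul_inv_cancel_right]
    rw [heu, h3, mul_assoc] at h2
    have h4 : e * (u * u) = e * 1 := by rw [h2, mul_one]
    exact mul_left_cancel h4
  apply hue
  have h2 : (e * u) * (e * u) = e * e := by
    rw [← heu]
    calc y * e * y⁻¹ * (y * e * y⁻¹) = y * (e * e) * y⁻¹ := by group
      _ = e * e := by
        rcases hS.X.sq e he with h | h
        · rw [h, mul_one, mul_inv_cancel]
        · rw [h, hyz, mul_inv_cancel_right]
  have h3 : u * (e * u) = e := by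
    apply mul_left_cancel (a := e)
    rw [← mul_assoc]
    exact h2
  have h4 : u * e * (u * u) = e * u := by
    rw [← mul_assoc, mul_assoc u e u, h3]
  rwa [huu, mul_one] at h4

/-- equivariant fixed point free involutions -/
theorem exists_sigma {Ω : Type*} [MulAction G Ω] [Finite Ω] (X E : Subgroup G) [Finite E] [Finite X] (z : G)
    (hX : IsPGroup 2 X) (hEX : E ≤ X) (hnor : ∀ x ∈ X, ∀ e ∈ E, x * e * x⁻¹ ∈ E)
    (hsq : ∀ e ∈ E, e * e = 1 ∨ e * e = z) (s : Finset Ω) (hsX : ∀ x ∈ X, ∀ ω ∈ s, x • ω ∈ s)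
    (hz : ∀ ω ∈ s, z • ω = ω) (hne : ∀ ω ∈ s, ∃ e ∈ E, e • ω ≠ ω) :
    ∃ σ : Ω → Ω, ∀ ω ∈ s, (∃ e ∈ E, σ ω = e • ω) ∧ σ ω ≠ ω ∧ σ (σ ω) = ω ∧ ∀ x ∈ X, σ (x • ω) = x • σ ω := by
  classical
  haveI : Fact (Nat.Prime 2) := ⟨Nat.prime_two⟩
  -- the fixed points
  have hex : ∀ ω ∈ s, ∃ e ∈ E, e • ω ≠ ω ∧ ∀ h ∈ X, h • ω = ω → h • e • ω = e • ω := by
    intro ω hω
    let P : Subgroup G := X ⊓ MulAction.stabilizer G ω
    have hPfix : ∀ p : P, (p : G) • ω = ω := fun p => MulAction.mem_stabilizer_iff.1 p.2.2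
    have hP : IsPGroup 2 P := hX.to_le inf_le_left
    let α := {ω' : Ω // ω' ∈ MulAction.orbit E ω}
    letI : MulAction P α :=
      { smul := fun p a => ⟨(p : G) • (a : Ω), by
          obtain ⟨e, he⟩ := a.2
          refine ⟨⟨p * e * (p : G)⁻¹, hnor p p.2.1 e e.2⟩, ?_⟩
          show ((p : G) * e * (p : G)⁻¹) • ω = (p : G) • (a : Ω)
          have h1 : (e : G) • ω = a := he
          have h2 : (p : G)⁻¹ • ω = ω := by rw [inv_smul_eq_iff, hPfix]
          rw [mul_smul, h2, mul_smul, h1]⟩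
        one_smul := fun a => Subtype.ext (one_smul G (a : Ω))
        mul_smul := fun p q a => Subtype.ext (mul_smul (p : G) (q : G) (a : Ω)) }
    have hE2 : IsPGroup 2 E := hX.to_le hEX
    have hcard : 2 ∣ Nat.card α := by
      obtain ⟨n, hn⟩ := hE2.card_orbit ω
      have hn' : Nat.card α = 2 ^ n := hn
      rw [hn']
      apply dvd_pow_self
      rintro rfl
      rw [pow_zero, Nat.card_eq_one_iff_unique] at hn'
      obtain ⟨e, he, hew⟩ := hne ω hω
      apply hew
      haveI := hn'.1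
      have h3 : (⟨e • ω, ⟨⟨e, he⟩, rfl⟩⟩ : α) = ⟨ω, MulAction.mem_orbit_self ω⟩ := Subsingleton.elim _ _
      exact congrArg Subtype.val h3
    have hfix : (⟨ω, MulAction.mem_orbit_self ω⟩ : α) ∈ MulAction.fixedPoints P α := by
      intro p
      exact Subtype.ext (hPfix p)
    obtain ⟨b, hb, hab⟩ := hP.exists_fixed_point_of_prime_dvd_card_of_fixed_point α hcard hfix
    obtain ⟨e, he⟩ := b.2
    have he' : (e : G) • ω = b := he
    refine ⟨e, e.2, ?_, ?_⟩
    · intro h
      apply hab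
      apply Subtype.ext
      show ω = b
      rw [← he', h]
    · intro h hh hhw
      have h4 := hb ⟨h, hh, MulAction.mem_stabilizer_iff.2 hhw⟩
      have h5 : h • (b : Ω) = b := congrArg Subtype.val h4
      rw [he', h5]
  obtain ⟨b, x, hbx, hb⟩ := base (Ω := Ω) X
  have hxb : ∀ ω, (x ω)⁻¹ • ω = b ω := by
    intro ω
    rw [inv_smul_eq_iff]
    exact (hbx ω).2.symm
  have hbs : ∀ ω ∈ s, b ω ∈ s := by
    intro ω hω
    rw [← hxb]
    exact hsX _ (X.inv_mem (hbx ω).1) ω hω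
  have hex' : ∀ ω, ∃ e, ω ∈ s → (e ∈ E ∧ e • ω ≠ ω ∧ ∀ h ∈ X, h • ω = ω → h • e • ω = e • ω) := by
    intro ω
    by_cases hω : ω ∈ s
    · obtain ⟨e, he⟩ := hex ω hω
      exact ⟨e, fun _ => he⟩
    · exact ⟨1, fun h => absurd h hω⟩
  choose e1 he1 using hex'
  let σ : Ω → Ω := fun ω => x ω • e1 (b ω) • b ω
  have hσx : ∀ ω ∈ s, ∀ g ∈ X, σ (g • ω) = g • σ ω := by
    intro ω hω g hg
    obtain ⟨h1, h2, h3⟩ := he1 (b ω) (hbs ω hω)
    show x (g • ω) • e1 (b (g • ω)) • b (g • ω) = g • x ω • e1 (b ω) • b ω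
    rw [hb g hg ω]
    have h4 : ((g * x ω)⁻¹ * x (g • ω)) • b ω = b ω := by
      rw [mul_smul, inv_smul_eq_iff, mul_smul, (hbx ω).2]
      have := (hbx (g • ω)).2
      rw [hb g hg ω] at this
      exact this
    have h5 := h3 _ (X.mul_mem (X.inv_mem (X.mul_mem hg (hbx ω).1)) (hbx (g • ω)).1) h4
    rw [mul_smul, inv_smul_eq_iff, mul_smul] at h5
    exact h5
  have hσE : ∀ ω ∈ s, σ ω = (x ω * e1 (b ω) * (x ω)⁻¹) • ω := by
    intro ω hω
    show x ω • e1 (b ω) • b ω = _
    rw [mul_smul, mul_smul, hxb]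
  refine ⟨σ, ?_⟩
  intro ω hω
  obtain ⟨h1, h2, h3⟩ := he1 (b ω) (hbs ω hω)
  refine ⟨⟨_, hnor _ (hbx ω).1 _ h1, hσE ω hω⟩, ?_, ?_, hσx ω hω⟩
  · intro h
    apply h2
    have h4 : x ω • e1 (b ω) • b ω = x ω • b ω := by
      rw [(hbx ω).2]; exact h
    exact MulAction.injective _ h4
  · have hgX : x ω * e1 (b ω) * (x ω)⁻¹ ∈ X := hEX (hnor _ (hbx ω).1 _ h1)
    conv_lhs => rw [hσE ω hω]
    rw [hσx ω hω _ hgX, hσE ω hω, ← mul_smul]
    have e2 : x ω * e1 (b ω) * (x ω)⁻¹ * (x ω * e1 (b ω) * (x ω)⁻¹) = x ω * (e1 (b ω) * e1 (b ω)) * (x ω)⁻¹ := by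
      group
    rw [e2, mul_smul, hxb, mul_smul]
    have h5 : (e1 (b ω) * e1 (b ω)) • b ω = b ω := by
      rcases hsq _ h1 with h | h
      · rw [h, one_smul]
      · rw [h, hz _ (hbs ω hω)]
    rw [h5, (hbx ω).2]

/-- the pair argument -/
theorem pair_prod {Ω : Type*} [MulAction G Ω] [Finite Ω] [Finite G] (X E : Subgroup G) (z t : G)
    (hE : XData E z)
    (hX : IsPGroup 2 X) (hEX : E ≤ X) (hnor : ∀ x ∈ X, ∀ e ∈ E, x * e * x⁻¹ ∈ E) (ht : t ∈ X)
    (htz : t * z * t⁻¹ = z)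
    (c : G → Ω → ℤˣ) (hc : ∀ g h ω, c (g * h) ω = c g (h • ω) * c h ω)
    (s : Finset Ω) (hsX : ∀ x ∈ X, ∀ ω ∈ s, x • ω ∈ s)
    (hz : ∀ ω ∈ s, z • ω = ω) (hcz : ∀ ω ∈ s, c z ω ≠ 1) (h32 : 32 < Nat.card E) :
    ∏ ω ∈ s, c t ω = 1 := by
  classical
  -- stabilisers are elementary abelian
  have hD2 : ∀ ω ∈ s, ∀ e ∈ E, e • ω = ω → e * e = 1 := by
    intro ω hω e he heω
    rcases hE.sq e he with h | h
    · exact h
    · exfalso
      apply hcz ω hω
      rw [← h, hc, heω]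
      exact sq1 _
  have hDab : ∀ ω ∈ s, ∀ e ∈ E ⊓ MulAction.stabilizer G ω, ∀ f ∈ E ⊓ MulAction.stabilizer G ω, e * f = f * e := by
    rintro ω hω e ⟨he, he'⟩ f ⟨hf, hf'⟩
    have he'' : e • ω = ω := MulAction.mem_stabilizer_iff.1 he'
    have hf'' : f • ω = ω := MulAction.mem_stabilizer_iff.1 hf'
    have h1 := hD2 ω hω e he he''
    have h2 := hD2 ω hω f hf hf''
    have h3 := hD2 ω hω (e * f) (E.mul_mem he hf) (by rw [mul_smul, hf'', he''])
    have hei : e⁻¹ = e := inv_eq_of_mul_eq_one_left h1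
    have hfi : f⁻¹ = f := inv_eq_of_mul_eq_one_left h2
    have hefi : (e * f)⁻¹ = e * f := inv_eq_of_mul_eq_one_left h3
    rw [mul_inv_rev, hei, hfi] at hefi
    exact hefi.symm
  -- the main bound
  have hbound : ∀ ω ∈ s, ∀ e₁ ∈ E, ∀ x ∈ E, ¬ ∀ y ∈ E, y • ({ω, e₁ • ω} : Finset Ω) = {ω, e₁ • ω} ∨
      (x⁻¹ * y) • ({ω, e₁ • ω} : Finset Ω) = {ω, e₁ • ω} := by
    intro ω hω e₁ he₁ x hx hcov
    let D : Subgroup G := E ⊓ MulAction.stabilizer G ω
    let D₂ : Subgroup G := E ⊓ MulAction.stabilizer G ({ω, e₁ • ω} : Finset Ω)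
    have hD₂ : ∀ f ∈ D₂, f ∈ D ∨ e₁⁻¹ * f ∈ D := by
      rintro f ⟨hf, hf'⟩
      have h1 : f • ({ω, e₁ • ω} : Finset Ω) = {ω, e₁ • ω} := MulAction.mem_stabilizer_iff.1 hf'
      have h2 : f • ω ∈ ({ω, e₁ • ω} : Finset Ω) := by
        rw [← h1]
        exact Finset.smul_mem_smul_finset (Finset.mem_insert_self _ _)
      rw [Finset.mem_insert, Finset.mem_singleton] at h2
      rcases h2 with h2 | h2
      · exact Or.inl ⟨hf, MulAction.mem_stabilizer_iff.2 h2⟩
      · right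
        refine ⟨E.mul_mem (E.inv_mem he₁) hf, MulAction.mem_stabilizer_iff.2 ?_⟩
        rw [mul_smul, h2, inv_smul_smul]
    have hED₂ : ∀ f ∈ E, f ∈ D₂ ∨ x⁻¹ * f ∈ D₂ := by
      intro f hf
      rcases hcov f hf with h | h
      · exact Or.inl ⟨hf, MulAction.mem_stabilizer_iff.2 h⟩
      · exact Or.inr ⟨E.mul_mem (E.inv_mem hx) hf, MulAction.mem_stabilizer_iff.2 h⟩
    have k1 := card_le_two_mul E D₂ x hED₂
    have k2 := card_le_two_mul D₂ D e₁ hD₂
    have k3 := half hE D inf_le_left e₁ he₁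
    have k4 := half hE (D ⊓ Subgroup.centralizer ({e₁} : Set G)) (inf_le_left.trans inf_le_left) x hx
    have k5 : Nat.card (D ⊓ Subgroup.centralizer ({e₁} : Set G) ⊓ Subgroup.centralizer ({x} : Set G) : Subgroup G) ≤ 2 := by
      apply card_le_two_of (z := z)
      rintro w ⟨⟨hwD, hw1⟩, hw2⟩
      have hw1' : Commute w e₁ := mem_cz_iff.1 hw1
      have hw2' : Commute w x := mem_cz_iff.1 hw2
      apply hE.cent w hwD.1
      have hwD₂ : ∀ f ∈ D₂, Commute w f := by
        intro f hf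
        rcases hD₂ f hf with h | h
        · exact hDab ω hω w hwD f h
        · have h6 : Commute w (e₁⁻¹ * f) := hDab ω hω w hwD _ h
          have h7 := hw1'.mul_right h6
          rwa [mul_inv_cancel_left] at h7
      intro f hf
      rcases hED₂ f hf with h | h
      · exact (hwD₂ f h).eq
      · have h7 := hw2'.mul_right (hwD₂ _ h)
        rw [mul_inv_cancel_left] at h7
        exact h7.eq
    omega
  have hne : ∀ ω ∈ s, ∃ e ∈ E, e • ω ≠ ω := by
    intro ω hω
    by_contra hcon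
    push Not at hcon
    apply hbound ω hω 1 E.one_mem 1 E.one_mem
    intro y hy
    left
    rw [one_smul, Finset.smul_finset_insert, Finset.smul_finset_singleton, hcon y hy]
  obtain ⟨σ, hσ⟩ := exists_sigma X E z hX hEX hnor hE.sq s hsX hz hne
  have hσs : ∀ ω ∈ s, σ ω ∈ s := by
    intro ω hω
    obtain ⟨⟨e, he, h⟩, -⟩ := hσ ω hω
    rw [h]
    exact hsX e (hEX he) ω hω
  let S₂ : Finset (Finset Ω) := s.image (fun ω => ({ω, σ ω} : Finset Ω))
  let c₂ : G → Finset Ω → ℤˣ := fun g p => ∏ ω ∈ p, c g ω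
  have hc₂ : ∀ g h p, c₂ (g * h) p = c₂ g (h • p) * c₂ h p := by
    intro g h p
    show ∏ ω ∈ p, c (g * h) ω = (∏ ω ∈ h • p, c g ω) * ∏ ω ∈ p, c h ω
    have h1 : ∏ ω ∈ h • p, c g ω = ∏ ω ∈ p, c g (h • ω) := by
      rw [Finset.smul_finset_def]
      exact Finset.prod_image (fun _ _ _ _ hh => MulAction.injective h hh)
    rw [h1, ← Finset.prod_mul_distrib]
    exact Finset.prod_congr rfl (fun ω _ => hc g h ω)
  have hprod : ∏ p ∈ S₂, c₂ t p = ∏ ω ∈ s, c t ω := by
    rw [← Finset.prod_fiberwise_of_maps_to (s := s) (t := S₂) (g := fun ω => ({ω, σ ω} : Finset Ω))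
      (fun ω hω => Finset.mem_image_of_mem _ hω)]
    apply Finset.prod_congr rfl
    intro p hp
    show ∏ ω ∈ p, c t ω = _
    apply Finset.prod_congr _ (fun _ _ => rfl)
    obtain ⟨ω, hω, rfl⟩ := Finset.mem_image.1 hp
    ext x
    rw [Finset.mem_filter]
    constructor
    · intro hx
      rw [Finset.mem_insert, Finset.mem_singleton] at hx
      rcases hx with rfl | rfl
      · exact ⟨hω, rfl⟩
      · refine ⟨hσs ω hω, ?_⟩
        rw [(hσ ω hω).2.2.1, Finset.pair_comm]
    · rintro ⟨hx, hxp⟩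
      rw [← hxp]
      exact Finset.mem_insert_self _ _
  rw [← hprod]
  have hinv : ∀ x ∈ X, ∀ p ∈ S₂, x • p ∈ S₂ := by
    intro x hx p hp
    obtain ⟨ω, hω, rfl⟩ := Finset.mem_image.1 hp
    refine Finset.mem_image.2 ⟨x • ω, hsX x hx ω hω, ?_⟩
    show ({x • ω, σ (x • ω)} : Finset Ω) = x • ({ω, σ ω} : Finset Ω)
    rw [(hσ ω hω).2.2.2 x hx, Finset.smul_finset_insert, Finset.smul_finset_singleton]
  refine prod_eq_one c₂ hc₂ E z t hE (hnor t ht) htz S₂ (fun e he p hp => hinv e (hEX he) p hp)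
    (hinv t ht) ?_ ?_ ?_
  · intro p hp _
    obtain ⟨ω, hω, rfl⟩ := Finset.mem_image.1 hp
    show ∏ ω' ∈ ({ω, σ ω} : Finset Ω), c z ω' = 1
    rw [Finset.prod_pair (Ne.symm (hσ ω hω).2.1), (Int.units_eq_one_or _).resolve_left (hcz ω hω),
      (Int.units_eq_one_or _).resolve_left (hcz _ (hσs ω hω))]
    rfl
  · intro p hp _
    obtain ⟨ω, hω, rfl⟩ := Finset.mem_image.1 hp
    obtain ⟨⟨e, he, h⟩, -⟩ := hσ ω hω
    by_contra hcon
    push Not at hcon
    apply hbound ω hω e he 1 E.one_mem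
    intro y hy
    left
    rw [← h]
    exact hcon y hy
  · intro p hp _ _ x hx hxp
    obtain ⟨ω, hω, rfl⟩ := Finset.mem_image.1 hp
    obtain ⟨⟨e, he, h⟩, -⟩ := hσ ω hω
    by_contra hcon
    push Not at hcon
    apply hbound ω hω e he x hx
    intro y hy
    rw [← h]
    by_cases hyp : y • ({ω, σ ω} : Finset Ω) = {ω, σ ω}
    · exact Or.inl hyp
    · exact Or.inr (hcon y hy hyp)

theorem key300 [Finite G] {z : G} {E : Subgroup G} (hS : Sit z E) (hres : Cfsg.pResidual 2 G = ⊤)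
    (hE2 : IsPGroup 2 E)
    (μ : G → ℤˣ) (hμ : ∀ x ∈ Subgroup.centralizer ({z} : Set G), ∀ y ∈ Subgroup.centralizer ({z} : Set G),
      μ (x * y) = μ x * μ y)
    (hfus : ∀ g : G, g * z * g⁻¹ ∈ E → g * z * g⁻¹ = z)
    (h32 : 32 < Nat.card E) (t : G) (ht : t ∈ Subgroup.centralizer ({z} : Set G)) (k : ℕ)
    (htk : orderOf t = 2 ^ k) : μ t = 1 := by
  classical
  haveI : Fintype (G ⧸ Subgroup.centralizer ({z} : Set G)) := Fintype.ofFinite _
  set H := Subgroup.centralizer ({z} : Set G) with hH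
  have htz : t * z = z * t := mem_cz_iff.1 ht
  have hEH : ∀ e ∈ E, e ∈ H := fun e he => mem_cz_iff.2 (hS.X.cen e he).symm
  have hfix1 : ∀ h ∈ H, h • ((1 : G) : G ⧸ H) = ((1 : G) : G ⧸ H) := by
    intro h hh
    show ((h * 1 : G) : G ⧸ H) = _
    rw [mul_one, QuotientGroup.eq, mul_one]
    exact H.inv_mem hh
  have hpres : ∀ h ∈ H, ∀ q ∈ Finset.univ.erase ((1 : G) : G ⧸ H), h • q ∈ Finset.univ.erase ((1 : G) : G ⧸ H) := by
    intro h hh q hq
    rw [Finset.mem_erase] at hq ⊢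
    refine ⟨fun h1 => hq.1 ?_, Finset.mem_univ _⟩
    have h2 : q = h⁻¹ • ((1 : G) : G ⧸ H) := by rw [← h1, inv_smul_smul]
    rw [h2]
    exact hfix1 _ (H.inv_mem hh)
  -- the invariant predicate
  let Pr : G ⧸ H → Prop := fun q => z • q = q ∧ cc H μ z q ≠ 1
  have hPr1 : ∀ h ∈ H, ∀ q, Pr q → Pr (h • q) := by
    rintro h hh q ⟨h1, h2⟩
    have hhz : h * z = z * h := mem_cz_iff.1 hh
    refine ⟨?_, ?_⟩
    · rw [← mul_smul, ← hhz, mul_smul, h1]
    · have h3 := c_conj (cc H μ) (cc_mul H μ hμ) h z q h1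
      rw [hhz, mul_inv_cancel_right] at h3
      rw [h3]
      exact h2
  have hPr : ∀ h ∈ H, ∀ q, Pr (h • q) ↔ Pr q := by
    intro h hh q
    constructor
    · intro h1
      have h2 := hPr1 h⁻¹ (H.inv_mem hh) _ h1
      rwa [inv_smul_smul] at h2
    · exact hPr1 h hh q
  have hmove : ∀ q ∈ Finset.univ.erase ((1 : G) : G ⧸ H), Quotient.out q ∉ H := by
    intro q hq h2
    rw [Finset.mem_erase] at hq
    apply hq.1
    have h3 : ((Quotient.out q : G) : G ⧸ H) = q := QuotientGroup.out_eq' q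
    rw [← h3]
    rw [QuotientGroup.eq, mul_one]
    exact H.inv_mem h2
  have hconjne : ∀ q ∈ Finset.univ.erase ((1 : G) : G ⧸ H),
      Quotient.out q * z * (Quotient.out q)⁻¹ ≠ z := by
    intro q hq h1
    apply hmove q hq
    apply mem_cz_iff.2
    have := congrArg (· * Quotient.out q) h1
    simpa using this
  -- stabilisers
  have hstab : ∀ (q : G ⧸ H) (e : G), e • q = q ↔ e * (Quotient.out q * z * (Quotient.out q)⁻¹) =
      (Quotient.out q * z * (Quotient.out q)⁻¹) * e := by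
    intro q e
    have hm : (Quotient.out q)⁻¹ * e * Quotient.out q ∈ H ↔
        (Quotient.out q)⁻¹ * e * Quotient.out q * z = z * ((Quotient.out q)⁻¹ * e * Quotient.out q) := mem_cz_iff
    rw [fix_iff, hm]
    constructor
    · intro h
      calc e * (Quotient.out q * z * (Quotient.out q)⁻¹)
          = Quotient.out q * ((Quotient.out q)⁻¹ * e * Quotient.out q * z) * (Quotient.out q)⁻¹ := by group
        _ = Quotient.out q * (z * ((Quotient.out q)⁻¹ * e * Quotient.out q)) * (Quotient.out q)⁻¹ := by rw [h]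
        _ = _ := by group
    · intro h
      calc (Quotient.out q)⁻¹ * e * Quotient.out q * z
          = (Quotient.out q)⁻¹ * (e * (Quotient.out q * z * (Quotient.out q)⁻¹)) * Quotient.out q := by group
        _ = (Quotient.out q)⁻¹ * ((Quotient.out q * z * (Quotient.out q)⁻¹) * e) * Quotient.out q := by rw [h]
        _ = _ := by group
  apply transfer_eq_one H μ hμ hres t ht
  rw [← Finset.prod_filter_mul_prod_filter_not _ Pr]
  have hA : ∏ q ∈ (Finset.univ.erase ((1 : G) : G ⧸ H)).filter (fun q => ¬ Pr q), cc H μ t q = 1 := by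
    refine prod_eq_one (cc H μ) (cc_mul H μ hμ) E z t hS.X (hS.nor t htz) ?_ _ ?_ ?_ ?_ ?_ ?_
    · rw [htz, mul_inv_cancel_right]
    · intro e he q hq
      rw [Finset.mem_filter] at hq ⊢
      exact ⟨hpres e (hEH e he) q hq.1, fun h => hq.2 ((hPr e (hEH e he) q).1 h)⟩
    · intro q hq
      rw [Finset.mem_filter] at hq ⊢
      exact ⟨hpres t ht q hq.1, fun h => hq.2 ((hPr t ht q).1 h)⟩
    · intro q hq hzq
      rw [Finset.mem_filter] at hq
      by_contra h
      exact hq.2 ⟨hzq, h⟩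
    · intro q hq hzq
      rw [Finset.mem_filter] at hq
      by_contra hcon
      push Not at hcon
      exact hconjne q hq.1 (exists_move hS (Quotient.out q) (fun e he => (fix_iff H e q).1 (hcon e he)))
    · rintro q hq hzq - x hx hxq
      rw [Finset.mem_filter] at hq
      by_contra hcon
      push Not at hcon
      apply invol_index hS (Quotient.out q * z * (Quotient.out q)⁻¹) _ _ _ x hx
      · intro f hf
        by_cases hfq : f • q = q
        · exact Or.inl ((hstab q f).1 hfq)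
        · exact Or.inr ((hstab q _).1 (hcon f hf hfq))
      · have e1 : Quotient.out q * z * (Quotient.out q)⁻¹ * (Quotient.out q * z * (Quotient.out q)⁻¹) =
          Quotient.out q * (z * z) * (Quotient.out q)⁻¹ := by group
        rw [e1, hS.X.z2]
        group
      · exact ((hstab q z).1 hzq).symm
      · intro h
        exact hconjne q hq.1 (hfus _ h)
  have hB : ∏ q ∈ (Finset.univ.erase ((1 : G) : G ⧸ H)).filter Pr, cc H μ t q = 1 := by
    -- the 2-group `X = E ⟨t⟩`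
    let X : Subgroup G := E ⊔ Subgroup.zpowers t
    have hXH : X ≤ H := by
      apply sup_le (fun e he => hEH e he)
      rw [Subgroup.zpowers_le]
      exact ht
    have hnor : ∀ x ∈ X, ∀ e ∈ E, x * e * x⁻¹ ∈ E := fun x hx =>
      hS.nor x (mem_cz_iff.1 (hXH hx))
    have hX2 : IsPGroup 2 X := by
      have hT : IsPGroup 2 (Subgroup.zpowers t) := by
        apply IsPGroup.of_card (n := k)
        rw [Nat.card_zpowers, htk]
      have h1 : Subgroup.zpowers t ≤ Subgroup.normalizer (E : Set G) := by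
        rw [Subgroup.zpowers_le, Subgroup.mem_normalizer_iff]
        intro h
        constructor
        · exact hS.nor t htz h
        · intro h2
          have h3 : t⁻¹ * z = z * t⁻¹ := by
            have : Commute t z := htz
            exact this.inv_left.eq
          have h4 := hS.nor t⁻¹ h3 _ h2
          have e1 : t⁻¹ * (t * h * t⁻¹) * t⁻¹⁻¹ = h := by group
          rwa [e1] at h4
      exact IsPGroup.to_sup_of_normal_left' hE2 hT h1
    refine pair_prod X E z t hS.X hX2 le_sup_left hnor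
      (Subgroup.mem_sup_right (Subgroup.mem_zpowers t)) (by rw [htz, mul_inv_cancel_right]) (cc H μ)
      (cc_mul H μ hμ) _ ?_ ?_ ?_ h32
    · intro x hx q hq
      rw [Finset.mem_filter] at hq ⊢
      exact ⟨hpres x (hXH hx) q hq.1, (hPr x (hXH hx) q).2 hq.2⟩
    · intro q hq
      rw [Finset.mem_filter] at hq
      exact hq.2.1
    · intro q hq
      rw [Finset.mem_filter] at hq
      exact hq.2.2
  rw [hA, hB, mul_one]

theorem main300 [Finite G] {z : G} {E : Subgroup G} (hS : Sit z E) (hres : Cfsg.pResidual 2 G = ⊤)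
    (hE2 : IsPGroup 2 E) (h32 : 32 < Nat.card E)
    (K : Subgroup G) (hKH : K ≤ Subgroup.centralizer ({z} : Set G))
    (hKi : K.relIndex (Subgroup.centralizer ({z} : Set G)) = 2) :
    ∃ g : G, g * z * g⁻¹ ∈ E ∧ g * z * g⁻¹ ≠ z := by
  classical
  by_contra hcon
  push Not at hcon
  set H := Subgroup.centralizer ({z} : Set G) with hH
  let μ : G → ℤˣ := fun g => if g ∈ K then 1 else -1
  have h2 : (K.subgroupOf H).index = 2 := hKi
  have hμ : ∀ x ∈ H, ∀ y ∈ H, μ (x * y) = μ x * μ y := by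
    intro x hx y hy
    have h3 := Subgroup.mul_mem_iff_of_index_two h2 (a := ⟨x, hx⟩) (b := ⟨y, hy⟩)
    simp only [Subgroup.mem_subgroupOf] at h3
    have h4 : x * y ∈ K ↔ (x ∈ K ↔ y ∈ K) := h3
    show (if x * y ∈ K then (1 : ℤˣ) else -1) = (if x ∈ K then 1 else -1) * (if y ∈ K then 1 else -1)
    by_cases hxK : x ∈ K <;> by_cases hyK : y ∈ K <;> simp [h4, hxK, hyK]
  obtain ⟨h, hhH, hhK⟩ : ∃ h ∈ H, h ∉ K := by
    by_contra hall
    push Not at hall
    have h3 : K.relIndex H = 1 := Subgroup.relIndex_eq_one.2 hall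
    omega
  -- the 2-part
  obtain ⟨a, m, hm, ham⟩ := Nat.exists_eq_two_pow_mul_odd (n := orderOf h) (orderOf_pos h).ne'
  have h3 : orderOf (h ^ m) = 2 ^ a := by
    rw [orderOf_pow, ham, Nat.gcd_eq_right (Dvd.intro_left _ rfl)]
    exact Nat.mul_div_cancel _ hm.pos
  have h4 := key300 hS hres hE2 μ hμ hcon h32 (h ^ m) (H.pow_mem hhH m) a h3
  have h5 : μ h = -1 := by
    show (if h ∈ K then (1 : ℤˣ) else -1) = -1
    simp [hhK]
  have h6 : ∀ j : ℕ, μ (h ^ j) = (-1) ^ j := by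
    intro j
    induction j with
    | zero =>
      show (if h ^ 0 ∈ K then (1 : ℤˣ) else -1) = _
      simp [K.one_mem]
    | succ j ih => rw [pow_succ, hμ _ (H.pow_mem hhH j) _ hhH, ih, h5, pow_succ]
  rw [h6, hm.neg_one_pow] at h4
  exact absurd h4 (by decide)

end H12.TransB
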