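import Cfsg.Agent.Lib.H12.TransX
import Cfsg.Agent.Lib.H3.ExtraspecialHom
import Cfsg.Agent.Lib.H3.Residual
import Cfsg.Agent.Lib.H1.Cores

/-!
# Transfer with sign characters; the extraspecial core of an involution centralizer
-/

set_option autoImplicit false
set_option linter.all false

open scoped commutatorElement

namespace H12.TransSit

open H12.TransX

section Transfer

variable {G : Type*} [Group G] (H : Subgroup G) (μ : G → ℤˣ)

noncomputable def cc (g : G) (q : G ⧸ H) : ℤˣ := μ ((Quotient.out (g • q))⁻¹ * g * Quotient.out q)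

theorem out_mem (g : G) (q : G ⧸ H) : (Quotient.out (g • q))⁻¹ * g * Quotient.out q ∈ H := by
  rw [mul_assoc, ← QuotientGroup.eq]
  rw [QuotientGroup.out_eq']
  conv_lhs => rw [← QuotientGroup.out_eq' q]
  rfl

variable (hμ : ∀ x ∈ H, ∀ y ∈ H, μ (x * y) = μ x * μ y)

include hμ in
theorem cc_mul (g h : G) (q : G ⧸ H) : cc H μ (g * h) q = cc H μ g (h • q) * cc H μ h q := by
  unfold cc
  rw [← hμ _ (out_mem H g (h • q)) _ (out_mem H h q), mul_smul]
  congr 1
  group

theorem cc_fix (g : G) (q : G ⧸ H) (hq : g • q = q) :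
    cc H μ g q = μ ((Quotient.out q)⁻¹ * g * Quotient.out q) := by
  unfold cc
  rw [hq]

theorem fix_iff (g : G) (q : G ⧸ H) : g • q = q ↔ (Quotient.out q)⁻¹ * g * Quotient.out q ∈ H := by
  have h0 : ((g * Quotient.out q : G) : G ⧸ H) = g • q := by
    conv_rhs => rw [← QuotientGroup.out_eq' q]
    rfl
  rw [mul_assoc, ← QuotientGroup.eq, QuotientGroup.out_eq', h0]
  exact eq_comm

include hμ in
theorem transfer_eq_one [Finite G] (hres : Cfsg.pResidual 2 G = ⊤) [Fintype (G ⧸ H)]
    [DecidableEq (G ⧸ H)] (t : G) (ht : t ∈ H)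
    (hp : ∏ q ∈ Finset.univ.erase ((1 : G) : G ⧸ H), cc H μ t q = 1) : μ t = 1 := by
  haveI : Fact (Nat.Prime 2) := ⟨Nat.prime_two⟩
  let V : G →* ℤˣ :=
    { toFun := fun g => ∏ q : G ⧸ H, cc H μ g q
      map_one' := by
        apply Finset.prod_eq_one
        intro q _
        exact c_one (cc H μ) (cc_mul H μ hμ) q
      map_mul' := by
        intro g h
        simp only [cc_mul H μ hμ, Finset.prod_mul_distrib]
        congr 1
        exact Fintype.prod_equiv (MulAction.toPerm h) _ _ (fun q => rfl) }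
  have hV : V t = 1 := by
    have h1 := H3.Residual.pResidual_le_ker (p := 2) V (IsPGroup.of_card (n := 1) (by
      rw [pow_one, Nat.card_eq_fintype_card]; rfl))
    rw [hres] at h1
    exact h1 (Subgroup.mem_top t)
  have hV' : ∏ q : G ⧸ H, cc H μ t q = 1 := hV
  rw [← Finset.mul_prod_erase Finset.univ _ (Finset.mem_univ ((1 : G) : G ⧸ H)), hp, mul_one] at hV'
  have hfix : t • ((1 : G) : G ⧸ H) = ((1 : G) : G ⧸ H) := by
    show ((t * 1 : G) : G ⧸ H) = _
    rw [mul_one]
    rw [QuotientGroup.eq, mul_one]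
    exact H.inv_mem ht
  rw [cc_fix H μ t _ hfix] at hV'
  have hout : Quotient.out ((1 : G) : G ⧸ H) ∈ H := by
    have h2 : ((Quotient.out ((1 : G) : G ⧸ H) : G) : G ⧸ H) = ((1 : G) : G ⧸ H) := QuotientGroup.out_eq' _
    rw [QuotientGroup.eq, mul_one] at h2
    exact (H.inv_mem_iff).1 h2
  have hm1 : μ 1 = 1 := by
    have h3 := hμ 1 H.one_mem 1 H.one_mem
    rw [mul_one] at h3
    have h4 : μ 1 * 1 = μ 1 * μ 1 := by rw [mul_one]; exact h3
    exact (mul_left_cancel h4).symm
  rw [hμ _ (H.mul_mem (H.inv_mem hout) ht) _ hout, hμ _ (H.inv_mem hout) _ ht] at hV'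
  have h5 : μ (Quotient.out ((1 : G) : G ⧸ H))⁻¹ * μ (Quotient.out ((1 : G) : G ⧸ H)) = 1 := by
    rw [← hμ _ (H.inv_mem hout) _ hout, inv_mul_cancel, hm1]
  calc μ t = μ t * (μ (Quotient.out ((1 : G) : G ⧸ H))⁻¹ * μ (Quotient.out ((1 : G) : G ⧸ H))) := by
        rw [h5, mul_one]
    _ = μ (Quotient.out ((1 : G) : G ⧸ H))⁻¹ * μ t * μ (Quotient.out ((1 : G) : G ⧸ H)) := by
        simp only [mul_comm, mul_left_comm, mul_assoc]
    _ = 1 := hV'

end Transfer

/-- the situation: `E` is the extraspecial core of `C(z)` -/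
structure Sit {G : Type*} [Group G] (z : G) (E : Subgroup G) : Prop where
  X : XData E z
  nor : ∀ h, h * z = z * h → ∀ e ∈ E, h * e * h⁻¹ ∈ E
  cE : ∀ g, (∀ e ∈ E, g * e = e * g) → g ∈ E
  inn : ∀ t, t * z = z * t → (∀ e ∈ E, t * e * t⁻¹ = e ∨ t * e * t⁻¹ = z * e) → t ∈ E

theorem sit {G : Type*} [Group G] [Finite G] (z : G) (hz : orderOf z = 2)
    (E : Subgroup G) (hE : E = (Cfsg.pCore 2 ↥(Subgroup.centralizer ({z} : Set G))).map (Subgroup.centralizer ({z} : Set G)).subtype)
    (hext : Cfsg.IsExtraspecial 2 ↥E) (hcent : Subgroup.centralizer (E : Set G) ≤ E) : Sit z E := by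
  haveI : Fact (Nat.Prime 2) := ⟨Nat.prime_two⟩
  have hz1 : z ≠ 1 := by
    rintro rfl
    rw [orderOf_one] at hz
    omega
  have hz2 : z * z = 1 := by
    rw [← pow_two, ← hz]
    exact pow_orderOf_eq_one z
  have hEH : ∀ e ∈ E, z * e = e * z := by
    intro e he
    rw [hE] at he
    obtain ⟨⟨x, hx⟩, -, rfl⟩ := he
    exact Subgroup.mem_centralizer_iff.1 hx z rfl
  have hnor : ∀ h, h * z = z * h → ∀ e ∈ E, h * e * h⁻¹ ∈ E := by
    intro h hh e he
    rw [hE] at he ⊢
    obtain ⟨x, hx, rfl⟩ := he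
    have hhC : h ∈ Subgroup.centralizer ({z} : Set G) := by
      rw [Subgroup.mem_centralizer_iff]
      rintro y rfl
      exact hh.symm
    haveI : (Cfsg.pCore 2 ↥(Subgroup.centralizer ({z} : Set G))).Normal := H1.Cores.pCore_normal 2
    refine ⟨⟨h, hhC⟩ * x * ⟨h, hhC⟩⁻¹, ?_, rfl⟩
    exact Subgroup.Normal.conj_mem inferInstance x hx _
  have hzE : z ∈ E := by
    rw [hE]
    have hzC : z ∈ Subgroup.centralizer ({z} : Set G) := by
      rw [Subgroup.mem_centralizer_iff]
      rintro y rfl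
      rfl
    refine ⟨⟨z, hzC⟩, ?_, rfl⟩
    have hcen : (⟨z, hzC⟩ : Subgroup.centralizer ({z} : Set G)) ∈
        Subgroup.center (Subgroup.centralizer ({z} : Set G)) := by
      rw [Subgroup.mem_center_iff]
      rintro ⟨x, hx⟩
      exact Subtype.ext (Subgroup.mem_centralizer_iff.1 hx z rfl).symm
    haveI hn : (Subgroup.zpowers (⟨z, hzC⟩ : Subgroup.centralizer ({z} : Set G))).Normal := by
      constructor
      rintro _ ⟨k, rfl⟩ g
      have h1 : g * (⟨z, hzC⟩ : Subgroup.centralizer ({z} : Set G)) ^ k * g⁻¹ = (⟨z, hzC⟩ : Subgroup.centralizer ({z} : Set G)) ^ k := by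
        rw [Subgroup.mem_center_iff.1 (Subgroup.zpow_mem _ hcen k) g, mul_inv_cancel_right]
      show g * (⟨z, hzC⟩ : Subgroup.centralizer ({z} : Set G)) ^ k * g⁻¹ ∈ _
      rw [h1]
      exact Subgroup.zpow_mem _ (Subgroup.mem_zpowers _) k
    refine H1.Cores.le_pCore hn ?_ (Subgroup.mem_zpowers _)
    apply IsPGroup.of_card (n := 1)
    rw [Nat.card_zpowers, Subgroup.orderOf_mk, hz, pow_one]
  have hzc : (⟨z, hzE⟩ : E) ∈ Subgroup.center E := by
    rw [Subgroup.mem_center_iff]
    rintro ⟨x, hx⟩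
    exact Subtype.ext (hEH x hx).symm
  have hcen2 : ∀ x ∈ Subgroup.center E, x = 1 ∨ x = ⟨z, hzE⟩ := by
    intro x hx
    by_contra hcon
    push Not at hcon
    have h3 : 3 ≤ Nat.card (Subgroup.center E) := by
      have hinj : Function.Injective (fun i : Fin 3 => (![⟨1, Subgroup.one_mem _⟩, ⟨x, hx⟩, ⟨⟨z, hzE⟩, hzc⟩] i : Subgroup.center E)) := by
        have hz1' : (⟨z, hzE⟩ : E) ≠ 1 := fun h => hz1 (congrArg Subtype.val h)
        have hz1'' : (1 : E) ≠ ⟨z, hzE⟩ := Ne.symm hz1'
        have hx1 : x ≠ 1 := hcon.1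
        have hx2 : x ≠ ⟨z, hzE⟩ := hcon.2
        have hx1' := Ne.symm hx1
        have hx2' := Ne.symm hx2

        intro i j hij
        have hij' := congrArg Subtype.val hij
        fin_cases i <;> fin_cases j <;> first | rfl | (exfalso; first | exact hz1' hij' | exact hz1'' hij' | exact hx1 hij' | exact hx2 hij' | exact hx1' hij' | exact hx2' hij')
      have := Nat.card_le_card_of_injective _ hinj
      simpa using this
    rw [hext.2] at h3
    omega
  have hcomm := H3.Extraspecial.commutator_le hext.1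
  have hX : XData E z :=
    { hz := hzE
      ne := hz1
      z2 := hz2
      cen := hEH
      sq := by
        intro e he
        have h1 := H3.Extraspecial.pow_mem_center_of_special hext.1 ⟨e, he⟩
        rcases hcen2 _ h1 with h | h
        · left
          have := congrArg Subtype.val h
          rw [← pow_two]
          exact this
        · right
          have := congrArg Subtype.val h
          rw [← pow_two]
          exact this
      com := by
        intro x hx y hy
        have h1 := H3.ClassTwo.commutator_le_center_iff.1 hcomm (⟨x, hx⟩ : E) ⟨y, hy⟩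
        rcases hcen2 _ h1 with h | h
        · left
          have h2 := commutatorElement_eq_one_iff_mul_comm.1 h
          exact congrArg Subtype.val h2
        · right
          have h2 : x * y * x⁻¹ * y⁻¹ = z := congrArg Subtype.val h
          rw [← h2]
          group
      wit := by
        by_contra hcon
        push Not at hcon
        have hab : commutator E = ⊥ := by
          rw [eq_bot_iff, commutator_eq_closure, Subgroup.closure_le]
          rintro _ ⟨a, b, rfl⟩
          show ⁅a, b⁆ ∈ (⊥ : Subgroup E)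
          rw [Subgroup.mem_bot]
          have h1 := H3.ClassTwo.commutator_le_center_iff.1 hcomm a b
          rcases hcen2 _ h1 with h | h
          · exact h
          · exfalso
            have h2 : (a : G) * b * (a : G)⁻¹ * (b : G)⁻¹ = z := congrArg Subtype.val h
            apply hcon a a.2 b b.2
            rw [← h2]
            group
        have h2 := hext.2
        rw [← hext.1.2.2, hab] at h2
        simp at h2
      cent := by
        intro x hx hxy
        have h1 : (⟨x, hx⟩ : E) ∈ Subgroup.center E := by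
          rw [Subgroup.mem_center_iff]
          rintro ⟨y, hy⟩
          exact Subtype.ext (hxy y hy).symm
        rcases hcen2 _ h1 with h | h
        · exact Or.inl (congrArg Subtype.val h)
        · exact Or.inr (congrArg Subtype.val h) }
  have hcE : ∀ g, (∀ e ∈ E, g * e = e * g) → g ∈ E := by
    intro g hg
    apply hcent
    rw [Subgroup.mem_centralizer_iff]
    intro e he
    exact (hg e he).symm
  refine ⟨hX, hnor, hcE, ?_⟩
  intro t ht hte
  have hf0 : ∀ e : E, t * (e : G) * t⁻¹ * (e : G)⁻¹ ∈ E := fun e =>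
    E.mul_mem (hnor t ht e e.2) (E.inv_mem e.2)
  have hf1 : ∀ e : E, (⟨t * (e : G) * t⁻¹ * (e : G)⁻¹, hf0 e⟩ : E) ∈ Subgroup.center E := by
    intro e
    rcases hte e e.2 with h | h
    · have : (⟨t * (e : G) * t⁻¹ * (e : G)⁻¹, hf0 e⟩ : E) = 1 := by
        apply Subtype.ext
        show t * (e : G) * t⁻¹ * (e : G)⁻¹ = 1
        rw [h, mul_inv_cancel]
      rw [this]
      exact Subgroup.one_mem _
    · have : (⟨t * (e : G) * t⁻¹ * (e : G)⁻¹, hf0 e⟩ : E) = ⟨z, hzE⟩ := by
        apply Subtype.ext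
        show t * (e : G) * t⁻¹ * (e : G)⁻¹ = z
        rw [h, mul_inv_cancel_right]
      rw [this]
      exact hzc
  obtain ⟨x, hx⟩ := H3.ExtraspecialHom.hom_inner (p := 2) (Nat.card E) (G := E) hcomm hext.2 le_rfl
    (fun e => ⟨t * (e : G) * t⁻¹ * (e : G)⁻¹, hf0 e⟩) hf1 (by
      intro a b
      apply Subtype.ext
      show t * (a * b : G) * t⁻¹ * (a * b : G)⁻¹ = t * a * t⁻¹ * (a : G)⁻¹ * (t * b * t⁻¹ * (b : G)⁻¹)
      have h2 := Subgroup.mem_center_iff.1 (hf1 b) a
      have h3 : (a : G) * (t * b * t⁻¹ * (b : G)⁻¹) = t * b * t⁻¹ * (b : G)⁻¹ * a := congrArg Subtype.val h2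
      have h4 : (a : G)⁻¹ * (t * b * t⁻¹ * (b : G)⁻¹) = t * b * t⁻¹ * (b : G)⁻¹ * (a : G)⁻¹ := by
        rw [inv_mul_eq_iff_eq_mul, ← mul_assoc, h3, mul_inv_cancel_right]
      rw [mul_assoc (t * a * t⁻¹), h4]
      group) (by
      intro y hy
      apply Subtype.ext
      show t * (y : G) * t⁻¹ * (y : G)⁻¹ = 1
      rcases hcen2 y hy with h | h
      · rw [h]; simp
      · rw [h]
        show t * z * t⁻¹ * z⁻¹ = 1
        rw [ht, mul_inv_cancel_right, mul_inv_cancel])
  have h5 : (x : G)⁻¹ * t ∈ E := by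
    apply hcE
    intro e he
    have h6 : t * e * t⁻¹ * e⁻¹ = x * e * (x : G)⁻¹ * e⁻¹ := congrArg Subtype.val (hx ⟨e, he⟩)
    have h7 : t * e * t⁻¹ = x * e * (x : G)⁻¹ := mul_right_cancel h6
    have h8 : t * e = x * e * (x : G)⁻¹ * t := by rw [← h7, inv_mul_cancel_right]
    rw [mul_assoc, h8]
    simp only [mul_assoc, inv_mul_cancel_left]
  have h9 := E.mul_mem x.2 h5
  rwa [mul_inv_cancel_left] at h9

end H12.TransSit
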