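import Mathlib.GroupTheory.Transfer
import Mathlib.GroupTheory.Index
import Mathlib.Algebra.BigOperators.Group.Finset.Basic
import Mathlib.Data.Fintype.BigOperators
import Cfsg.Prelude.Def_Transfer

/-!
# Sign cocycles and products over an orbit of a group with an extraspecial normal subgroup
-/

set_option autoImplicit false
set_option linter.all false

namespace H12.TransX

/-- Separation: a subgroup containing all squares, and an element outside. -/
theorem sep {P : Type*} [Group P] [Finite P] (W : Subgroup P) (hsq : ∀ x : P, x * x ∈ W) (d : P)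
    (hd : d ∉ W) : ∃ n : P →* ℤˣ, (∀ w ∈ W, n w = 1) ∧ n d = -1 := by
  classical
  obtain ⟨M, hM⟩ := (Set.toFinite {M : Subgroup P | W ≤ M ∧ d ∉ M}).exists_maximal ⟨W, le_rfl, hd⟩
  have hWM : W ≤ M := hM.prop.1
  have hdM : d ∉ M := hM.prop.2
  have hMsq : ∀ x : P, x * x ∈ M := fun x => hWM (hsq x)
  have hnorm : M.Normal := by
    constructor
    intro m hm g
    have e : g * m * g⁻¹ = (g * m) * (g * m) * m⁻¹ * (g⁻¹ * g⁻¹) := by group
    rw [e]
    exact M.mul_mem (M.mul_mem (hMsq _) (M.inv_mem hm)) (hMsq _)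
  -- any element outside `M` lies in the coset of `d`
  have key : ∀ x : P, x ∉ M → x * d ∈ M := by
    intro x hx
    have h1 : d ∈ M ⊔ Subgroup.zpowers x := by
      by_contra h
      have h2 : M ⊔ Subgroup.zpowers x ≤ M := hM.le_of_ge ⟨hWM.trans le_sup_left, h⟩ le_sup_left
      exact hx (h2 (Subgroup.mem_sup_right (Subgroup.mem_zpowers x)))
    rw [Subgroup.mem_sup_of_normal_left] at h1
    obtain ⟨m, hm, y, hy, hmy⟩ := h1
    obtain ⟨k, rfl⟩ := Subgroup.mem_zpowers_iff.1 hy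
    rcases Int.even_or_odd' k with ⟨j, hj | hj⟩
    · exfalso
      apply hdM
      rw [← hmy, hj, zpow_mul, zpow_two]
      exact M.mul_mem hm (M.zpow_mem (hMsq x) j)
    · have h3 : x ^ k = (x * x) ^ j * x := by
        rw [hj, zpow_add, zpow_mul, zpow_two, zpow_one]
      rw [← hmy, h3]
      have e : x * (m * ((x * x) ^ j * x)) = x * (m * (x * x) ^ j) * x⁻¹ * (x * x) := by group
      rw [e]
      exact M.mul_mem (hnorm.conj_mem _ (M.mul_mem hm (M.zpow_mem (hMsq x) j)) x) (hMsq x)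
  have key2 : ∀ x y : P, x ∉ M → y ∉ M → x * y ∈ M := by
    intro x y hx hy
    have h1 := key x hx
    have h2 := key y hy
    have h3 : d⁻¹ * y⁻¹ ∈ M := by
      have := M.inv_mem h2
      rwa [mul_inv_rev] at this
    have h4 : x * d * (d⁻¹ * y⁻¹) ∈ M := M.mul_mem h1 h3
    have e : x * y = x * d * (d⁻¹ * y⁻¹) * (y * y) := by group
    rw [e]
    exact M.mul_mem h4 (hMsq y)
  refine ⟨{ toFun := fun x => if x ∈ M then 1 else -1, map_one' := by simp, map_mul' := ?_ }, ?_, ?_⟩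
  · intro x y
    by_cases hx : x ∈ M
    · by_cases hy : y ∈ M
      · simp [hx, hy, M.mul_mem hx hy]
      · have : x * y ∉ M := fun h => hy ((M.mul_mem_cancel_left hx).1 h)
        simp [hx, hy, this]
    · by_cases hy : y ∈ M
      · have : x * y ∉ M := fun h => hx ((M.mul_mem_cancel_right hy).1 h)
        simp [hx, hy, this]
      · simp [hx, hy, key2 x y hx hy]
  · intro w hw
    simp [hWM hw]
  · simp [hdM]

theorem base {G Ω : Type*} [Group G] [MulAction G Ω] (E : Subgroup G) :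
    ∃ (b : Ω → Ω) (x : Ω → G), (∀ ω, x ω ∈ E ∧ x ω • b ω = ω) ∧ (∀ e ∈ E, ∀ ω, b (e • ω) = b ω) := by
  classical
  let b : Ω → Ω := fun ω => Quotient.out (Quotient.mk (MulAction.orbitRel E Ω) ω)
  have hb : ∀ ω, ∃ x ∈ E, x • b ω = ω := by
    intro ω
    have h1 : (MulAction.orbitRel E Ω).r (b ω) ω := Quotient.mk_out (s := MulAction.orbitRel E Ω) ω
    have h2 : ω ∈ MulAction.orbit E (b ω) := by
      have := (MulAction.orbitRel E Ω).symm h1
      exact this
    obtain ⟨e, he⟩ := h2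
    exact ⟨e, e.2, he⟩
  choose x hx using hb
  refine ⟨b, x, hx, ?_⟩
  intro e he ω
  have h1 : Quotient.mk (MulAction.orbitRel E Ω) (e • ω) = Quotient.mk (MulAction.orbitRel E Ω) ω := by
    apply Quotient.sound
    exact ⟨⟨e, he⟩, rfl⟩
  show Quotient.out _ = Quotient.out _
  rw [h1]

section Cocycle

variable {G Ω : Type*} [Group G] [MulAction G Ω] (c : G → Ω → ℤˣ)
  (hc : ∀ g h ω, c (g * h) ω = c g (h • ω) * c h ω)

theorem sq1 (u : ℤˣ) : u * u = 1 := by rcases Int.units_eq_one_or u with h | h <;> rw [h] <;> rfl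

include hc in
theorem c_one (ω : Ω) : c 1 ω = 1 := by
  have h := hc 1 1 ω
  rw [one_smul, mul_one] at h
  have h2 : c 1 ω * 1 = c 1 ω * c 1 ω := by rw [mul_one]; exact h
  exact (mul_left_cancel h2).symm

include hc in
/-- transport of the stabiliser character -/
theorem c_conj (t d : G) (ω : Ω) (hd : d • ω = ω) : c (t * d * t⁻¹) (t • ω) = c d ω := by
  have h1 : c (t * d * t⁻¹ * t) ω = c (t * d * t⁻¹) (t • ω) * c t ω := hc _ _ _
  have h2 : c (t * d) ω = c t (d • ω) * c d ω := hc _ _ _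
  rw [hd] at h2
  rw [inv_mul_cancel_right, h2] at h1
  have h3 : c t ω * c d ω = c t ω * c (t * d * t⁻¹) (t • ω) := by rw [h1, mul_comm]
  exact (mul_left_cancel h3).symm

include hc in
theorem prod_eq_one_of_data (E : Subgroup G) (t : G) (htE : ∀ e ∈ E, t * e * t⁻¹ ∈ E)
    (s : Finset Ω) (hsE : ∀ e ∈ E, ∀ ω ∈ s, e • ω ∈ s) (hst : ∀ ω ∈ s, t • ω ∈ s)
    (n : Ω → G → ℤˣ) (hnmul : ∀ ω ∈ s, ∀ x ∈ E, ∀ y ∈ E, n ω (x * y) = n ω x * n ω y)
    (hnE : ∀ ω ∈ s, ∀ e ∈ E, n (e • ω) = n ω)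
    (hnc : ∀ ω ∈ s, ∀ e ∈ E, e • ω = ω → c e ω = n ω e)
    (a : Ω → G) (haE : ∀ ω ∈ s, a ω ∈ E) (ha0 : ∀ ω ∈ s, ∀ e ∈ E, a (e • ω) = a ω)
    (ha1 : ∀ ω ∈ s, a ω • ω ≠ ω) (ha2 : ∀ ω ∈ s, (a ω * a ω) • ω = ω)
    (ha3 : ∀ ω ∈ s, n (t • ω) (t * a ω * t⁻¹) = n ω (a ω)) :
    ∏ ω ∈ s, c t ω = 1 := by
  classical
  obtain ⟨b, x, hbx, hb⟩ := base (Ω := Ω) E
  have hbs : ∀ ω ∈ s, b ω ∈ s := by
    intro ω hω
    have h1 : (x ω)⁻¹ • ω = b ω := by
      rw [inv_smul_eq_iff]
      exact (hbx ω).2.symm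
    rw [← h1]
    exact hsE _ (E.inv_mem (hbx ω).1) ω hω
  let f : Ω → ℤˣ := fun ω => n ω (x ω) * c (x ω) (b ω)
  have hf : ∀ ω ∈ s, ∀ e ∈ E, f (e • ω) = n ω e * c e ω * f ω := by
    intro ω hω e he
    have hxω := (hbx ω).1
    have hxeω := (hbx (e • ω)).1
    set d := (x ω)⁻¹ * e⁻¹ * x (e • ω) with hd
    have hdE : d ∈ E := E.mul_mem (E.mul_mem (E.inv_mem hxω) (E.inv_mem he)) hxeω
    have hbω : b (e • ω) = b ω := hb e he ω
    have hdb : d • b ω = b ω := by
      rw [hd, mul_smul, mul_smul]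
      have h1 : x (e • ω) • b ω = e • ω := by
        rw [← hbω]
        exact (hbx (e • ω)).2
      rw [h1, inv_smul_smul, inv_smul_eq_iff]
      exact (hbx ω).2.symm
    have hx' : x (e • ω) = e * (x ω * d) := by rw [hd]; group
    show n (e • ω) (x (e • ω)) * c (x (e • ω)) (b (e • ω)) = _
    rw [hbω, hnE ω hω e he, hx', hnmul ω hω e he _ (E.mul_mem hxω hdE), hnmul ω hω _ hxω _ hdE, hc, hc,
      mul_smul, hdb, (hbx ω).2]
    have h2 : n ω d = c d (b ω) := by
      have h3 : n ω = n (b ω) := by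
        have := hnE (b ω) (hbs ω hω) (x ω) hxω
        rw [(hbx ω).2] at this
        exact this
      rw [h3]
      exact (hnc (b ω) (hbs ω hω) d hdE hdb).symm
    rw [h2]
    show _ = n ω e * c e ω * (n ω (x ω) * c (x ω) (b ω))
    have h4 : c d (b ω) * c d (b ω) = 1 := sq1 _
    calc n ω e * (n ω (x ω) * c d (b ω)) * (c e ω * (c (x ω) (b ω) * c d (b ω)))
        = n ω e * c e ω * (n ω (x ω) * c (x ω) (b ω)) * (c d (b ω) * c d (b ω)) := by
          simp only [mul_comm, mul_left_comm, mul_assoc]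
      _ = _ := by rw [h4, mul_one]
  let c' : G → Ω → ℤˣ := fun g ω => c g ω * (f (g • ω) * f ω)
  have hc' : ∀ g h ω, c' (g * h) ω = c' g (h • ω) * c' h ω := by
    intro g h ω
    show c (g * h) ω * (f ((g * h) • ω) * f ω) = c g (h • ω) * (f (g • h • ω) * f (h • ω)) *
      (c h ω * (f (h • ω) * f ω))
    rw [hc, mul_smul]
    have h4 : f (h • ω) * f (h • ω) = 1 := sq1 _
    calc c g (h • ω) * c h ω * (f (g • h • ω) * f ω)
        = c g (h • ω) * c h ω * (f (g • h • ω) * f ω) * (f (h • ω) * f (h • ω)) := by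
          rw [h4, mul_one]
      _ = _ := by simp only [mul_comm, mul_left_comm, mul_assoc]
  have hc'E : ∀ ω ∈ s, ∀ e ∈ E, c' e ω = n ω e := by
    intro ω hω e he
    show c e ω * (f (e • ω) * f ω) = n ω e
    rw [hf ω hω e he]
    have h4 : f ω * f ω = 1 := sq1 _
    have h5 : c e ω * c e ω = 1 := sq1 _
    calc c e ω * (n ω e * c e ω * f ω * f ω) = n ω e * (c e ω * c e ω) * (f ω * f ω) := by
          simp only [mul_comm, mul_left_comm, mul_assoc]
      _ = n ω e := by rw [h4, h5, mul_one, mul_one]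
  have hkey : ∀ ω ∈ s, c' t (a ω • ω) = c' t ω := by
    intro ω hω
    have h1 : c' (t * a ω) ω = c' t (a ω • ω) * c' (a ω) ω := hc' _ _ _
    have h2 : c' (t * a ω * t⁻¹ * t) ω = c' (t * a ω * t⁻¹) (t • ω) * c' t ω := hc' _ _ _
    rw [inv_mul_cancel_right, h1, hc'E ω hω _ (haE ω hω), hc'E _ (hst ω hω) _ (htE _ (haE ω hω)),
      ha3 ω hω, mul_comm] at h2
    exact mul_left_cancel h2
  have hprod : ∏ ω ∈ s, c' t ω = ∏ ω ∈ s, c t ω := by
    show ∏ ω ∈ s, c t ω * (f (t • ω) * f ω) = _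
    rw [Finset.prod_mul_distrib, Finset.prod_mul_distrib]
    have h1 : ∏ ω ∈ s, f (t • ω) = ∏ ω ∈ s, f ω := by
      have himg : s.image (fun ω => t • ω) = s := by
        apply Finset.eq_of_subset_of_card_le
        · intro y hy
          obtain ⟨ω, hω, rfl⟩ := Finset.mem_image.1 hy
          exact hst ω hω
        · rw [Finset.card_image_of_injective _ (MulAction.injective t)]
      calc ∏ ω ∈ s, f (t • ω) = ∏ ω ∈ s.image (fun ω => t • ω), f ω :=
            (Finset.prod_image (fun _ _ _ _ h => MulAction.injective t h)).symm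
        _ = _ := by rw [himg]
    rw [h1, sq1, mul_one]
  rw [← hprod]
  refine Finset.prod_involution (fun ω _ => a ω • ω) ?_ ?_ ?_ ?_
  · intro ω hω
    show c' t ω * c' t (a ω • ω) = 1
    rw [hkey ω hω]
    exact sq1 _
  · intro ω hω _
    exact ha1 ω hω
  · intro ω hω
    exact hsE _ (haE ω hω) ω hω
  · intro ω hω
    show a (a ω • ω) • a ω • ω = ω
    rw [ha0 ω hω _ (haE ω hω), ← mul_smul]
    exact ha2 ω hω

/-- elementwise data of an extraspecial 2-group -/
structure XData (E : Subgroup G) (z : G) : Prop where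
  hz : z ∈ E
  ne : z ≠ 1
  z2 : z * z = 1
  cen : ∀ e ∈ E, z * e = e * z
  sq : ∀ e ∈ E, e * e = 1 ∨ e * e = z
  com : ∀ x ∈ E, ∀ y ∈ E, x * y = y * x ∨ x * y = z * (y * x)
  wit : ∃ x ∈ E, ∃ y ∈ E, x * y = z * (y * x)
  cent : ∀ x ∈ E, (∀ y ∈ E, x * y = y * x) → x = 1 ∨ x = z

theorem XData.hom_z {E : Subgroup G} {z : G} (hE : XData E z) (N : G → ℤˣ)
    (hN : ∀ x ∈ E, ∀ y ∈ E, N (x * y) = N x * N y) : N z = 1 := by
  obtain ⟨x, hx, y, hy, hxy⟩ := hE.wit
  have h1 := hN x hx y hy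
  rw [hxy, hN z hE.hz _ (E.mul_mem hy hx), hN y hy x hx] at h1
  have h2 : N z * (N y * N x) = 1 * (N y * N x) := by rw [h1, one_mul, mul_comm]
  exact mul_right_cancel h2

include hc in
theorem exists_N (E : Subgroup G) [Finite E] (z : G) (hE : XData E z) (ω : Ω)
    (h1 : z • ω = ω → c z ω = 1) :
    ∃ N : G → ℤˣ, (∀ x ∈ E, ∀ y ∈ E, N (x * y) = N x * N y) ∧
      (∀ e ∈ E, e • ω = ω → c e ω = N e) ∧
      ((∀ d ∈ E, d • ω = ω → c d ω = 1) → ∀ g, N g = 1) := by
  classical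
  by_cases hall : ∀ d ∈ E, d • ω = ω → c d ω = 1
  · exact ⟨fun _ => 1, fun _ _ _ _ => (one_mul _).symm, hall, fun _ _ => rfl⟩
  · push Not at hall
    obtain ⟨d, hdE, hd, hcd⟩ := hall
    have hcc := c_one c hc
    have hcz : ∀ g : G, z ∈ E → g ∈ E → z * g = g * z := fun g _ hg => hE.cen g hg
    let W : Subgroup E :=
      { carrier := {w | ((w : G) • ω = ω ∧ c w ω = 1) ∨ ((w * z : G) • ω = ω ∧ c (w * z) ω = 1)}
        one_mem' := Or.inl ⟨one_smul _ _, hcc ω⟩
        mul_mem' := by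
          rintro ⟨v, hv⟩ ⟨w, hw⟩ h h'
          show ((v * w : G) • ω = ω ∧ c (v * w) ω = 1) ∨ ((v * w * z : G) • ω = ω ∧ c (v * w * z) ω = 1)
          rcases h with ⟨ha, hb⟩ | ⟨ha, hb⟩ <;> rcases h' with ⟨ha', hb'⟩ | ⟨ha', hb'⟩
          · simp only at ha hb ha' hb'
            left
            rw [mul_smul, ha', ha, hc, ha', hb, hb', mul_one]
            exact ⟨rfl, rfl⟩
          · simp only at ha hb ha' hb'
            right
            rw [mul_assoc, mul_smul, ha', ha, hc, ha', hb, hb', mul_one]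
            exact ⟨rfl, rfl⟩
          · simp only at ha hb ha' hb'
            right
            have e : v * w * z = (v * z) * w := by
              rw [mul_assoc, ← hE.cen w hw, mul_assoc]
            rw [e, mul_smul, ha', ha, hc, ha', hb, hb', mul_one]
            exact ⟨rfl, rfl⟩
          · simp only at ha hb ha' hb'
            left
            have e : v * w = (v * z) * (w * z) := by
              rw [← hE.cen w hw, mul_assoc, ← mul_assoc z z w, hE.z2, one_mul]
            rw [e, mul_smul, ha', ha, hc, ha', hb, hb', mul_one]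
            exact ⟨rfl, rfl⟩
        inv_mem' := by
          rintro ⟨v, hv⟩ h
          show ((v⁻¹ : G) • ω = ω ∧ c (v⁻¹) ω = 1) ∨ ((v⁻¹ * z : G) • ω = ω ∧ c (v⁻¹ * z) ω = 1)
          have hinv : ∀ g : G, g • ω = ω → c g ω = 1 → g⁻¹ • ω = ω ∧ c g⁻¹ ω = 1 := by
            intro g hg hg'
            have h2 : g⁻¹ • ω = ω := by rw [inv_smul_eq_iff]; exact hg.symm
            refine ⟨h2, ?_⟩
            have h3 := hc g g⁻¹ ω
            rw [mul_inv_cancel, hcc, h2, hg', one_mul] at h3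
            exact h3.symm
          rcases h with ⟨ha, hb⟩ | ⟨ha, hb⟩
          · left
            exact hinv v ha hb
          · right
            have h4 := hinv (v * z) ha hb
            have e : v⁻¹ * z = (v * z)⁻¹ := by
              have hzi : z⁻¹ = z := inv_eq_of_mul_eq_one_left hE.z2
              rw [mul_inv_rev, hzi, hE.cen _ (E.inv_mem hv)]
            rw [e]
            exact h4 }
    have hWsq : ∀ x : E, x * x ∈ W := by
      rintro ⟨x, hx⟩
      show ((x * x : G) • ω = ω ∧ c (x * x) ω = 1) ∨ ((x * x * z : G) • ω = ω ∧ c (x * x * z) ω = 1)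
      rcases hE.sq x hx with h | h
      · left; rw [h]; exact ⟨one_smul _ _, hcc ω⟩
      · right; rw [h, hE.z2]; exact ⟨one_smul _ _, hcc ω⟩
    have hdW : (⟨d, hdE⟩ : E) ∉ W := by
      rintro (⟨ha, hb⟩ | ⟨ha, hb⟩)
      · exact hcd hb
      · simp only at ha hb
        have hzω : z • ω = ω := by
          rw [← hE.cen d hdE, mul_smul, hd] at ha
          exact ha
        rw [hc, hzω, h1 hzω, mul_one] at hb
        exact hcd hb
    obtain ⟨N, hNW, hNd⟩ := sep W hWsq ⟨d, hdE⟩ hdW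
    refine ⟨fun g => if h : g ∈ E then N ⟨g, h⟩ else 1, ?_, ?_, ?_⟩
    · intro x hx y hy
      simp only [hx, hy, E.mul_mem hx hy, dif_pos]
      rw [← map_mul]
      rfl
    · intro e he heω
      simp only [he, dif_pos]
      by_cases h2 : c e ω = 1
      · rw [hNW ⟨e, he⟩ (Or.inl ⟨heω, h2⟩), h2]
      · have h3 : c e ω = -1 := (Int.units_eq_one_or _).resolve_left h2
        have h4 : c d ω = -1 := (Int.units_eq_one_or _).resolve_left hcd
        have h5 : (⟨e, he⟩ * ⟨d, hdE⟩ : E) ∈ W := by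
          left
          show (e * d) • ω = ω ∧ c (e * d) ω = 1
          rw [mul_smul, hd, heω, hc, hd, h3, h4]
          exact ⟨rfl, rfl⟩
        have h6 := hNW _ h5
        rw [map_mul, hNd] at h6
        rw [h3]
        have h7 : N ⟨e, he⟩ * -1 = (-1) * -1 := by rw [h6]; rfl
        exact (mul_right_cancel h7).symm
    · intro h
      exact absurd (h d hdE hd) hcd

include hc in
theorem prod_eq_one (E : Subgroup G) [Finite E] (z t : G) (hE : XData E z)
    (htE : ∀ e ∈ E, t * e * t⁻¹ ∈ E) (htz : t * z * t⁻¹ = z)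
    (s : Finset Ω) (hsE : ∀ e ∈ E, ∀ ω ∈ s, e • ω ∈ s) (hst : ∀ ω ∈ s, t • ω ∈ s)
    (h1 : ∀ ω ∈ s, z • ω = ω → c z ω = 1)
    (h2 : ∀ ω ∈ s, z • ω = ω → ∃ e ∈ E, e • ω ≠ ω)
    (h3 : ∀ ω ∈ s, z • ω = ω → (∃ d ∈ E, d • ω = ω ∧ c d ω ≠ 1) → ∀ x ∈ E, x • ω ≠ ω →
      ∃ y ∈ E, y • ω ≠ ω ∧ (x⁻¹ * y) • ω ≠ ω) :
    ∏ ω ∈ s, c t ω = 1 := by
  classical
  obtain ⟨b, x, hbx, hb⟩ := base (Ω := Ω) E
  have hbs : ∀ ω ∈ s, b ω ∈ s := by
    intro ω hω
    have h1 : (x ω)⁻¹ • ω = b ω := by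
      rw [inv_smul_eq_iff]
      exact (hbx ω).2.symm
    rw [← h1]
    exact hsE _ (E.inv_mem (hbx ω).1) ω hω
  have hN0 : ∀ ω, ∃ N : G → ℤˣ, ω ∈ s → ((∀ x ∈ E, ∀ y ∈ E, N (x * y) = N x * N y) ∧
      (∀ e ∈ E, e • ω = ω → c e ω = N e) ∧
      ((∀ d ∈ E, d • ω = ω → c d ω = 1) → ∀ g, N g = 1)) := by
    intro ω
    by_cases hω : ω ∈ s
    · obtain ⟨N, hN⟩ := exists_N c hc E z hE ω (h1 ω hω)
      exact ⟨N, fun _ => hN⟩
    · exact ⟨fun _ => 1, fun h => absurd h hω⟩
  choose N hN using hN0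
  let n : Ω → G → ℤˣ := fun ω => N (b ω)
  have hnmul : ∀ ω ∈ s, ∀ x ∈ E, ∀ y ∈ E, n ω (x * y) = n ω x * n ω y :=
    fun ω hω => (hN (b ω) (hbs ω hω)).1
  have hnE : ∀ ω ∈ s, ∀ e ∈ E, n (e • ω) = n ω := by
    intro ω hω e he
    show N (b (e • ω)) = N (b ω)
    rw [hb e he]
  have hxb : ∀ ω, (x ω)⁻¹ • ω = b ω := by
    intro ω
    rw [inv_smul_eq_iff]
    exact (hbx ω).2.symm
  have hbb : ∀ ω, b (b ω) = b ω := by
    intro ω
    have h := hb (x ω)⁻¹ (E.inv_mem (hbx ω).1) ω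
    rw [hxb ω] at h
    exact h
  have hnc : ∀ ω ∈ s, ∀ e ∈ E, e • ω = ω → c e ω = n ω e := by
    intro ω hω e he heω
    have hxE := (hbx ω).1
    have h4 : ((x ω)⁻¹ * e * (x ω)) • b ω = b ω := by
      rw [mul_smul, mul_smul, (hbx ω).2, heω, hxb]
    have h5 := (hN (b ω) (hbs ω hω)).2.1 _ (E.mul_mem (E.mul_mem (E.inv_mem hxE) he) hxE) h4
    have h6 := c_conj c hc (x ω) _ _ h4
    rw [(hbx ω).2] at h6
    have e1 : x ω * ((x ω)⁻¹ * e * x ω) * (x ω)⁻¹ = e := by group
    rw [e1, h5] at h6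
    rw [h6]
    show N (b ω) ((x ω)⁻¹ * e * x ω) = N (b ω) e
    have hm := (hN (b ω) (hbs ω hω)).1
    have hm1 : N (b ω) 1 = 1 := by
      have := hm 1 E.one_mem 1 E.one_mem
      rw [mul_one] at this
      have h8 : N (b ω) 1 * 1 = N (b ω) 1 * N (b ω) 1 := by rw [mul_one]; exact this
      exact (mul_left_cancel h8).symm
    rw [hm _ (E.mul_mem (E.inv_mem hxE) he) _ hxE, hm _ (E.inv_mem hxE) _ he]
    have h7 : N (b ω) (x ω)⁻¹ * N (b ω) (x ω) = 1 := by
      rw [← hm _ (E.inv_mem hxE) _ hxE, inv_mul_cancel, hm1]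
    calc N (b ω) (x ω)⁻¹ * N (b ω) e * N (b ω) (x ω)
        = N (b ω) e * (N (b ω) (x ω)⁻¹ * N (b ω) (x ω)) := by
          simp only [mul_comm, mul_left_comm, mul_assoc]
      _ = _ := by rw [h7, mul_one]
  -- triviality
  have hntriv : ∀ ω ∈ s, (∀ d ∈ E, d • ω = ω → c d ω = 1) → ∀ g, n ω g = 1 := by
    intro ω hω h g
    apply (hN (b ω) (hbs ω hω)).2.2
    intro d hd hdb
    have hxE := (hbx ω).1
    have h6 := c_conj c hc (x ω) _ _ hdb
    rw [(hbx ω).2] at h6
    rw [← h6]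
    apply h _ (E.mul_mem (E.mul_mem hxE hd) (E.inv_mem hxE))
    rw [mul_smul, mul_smul, hxb, hdb, (hbx ω).2]
  -- the element `a`
  have hA0 : ∀ ω, ∃ A : G, ω ∈ s → (A ∈ E ∧ A • ω ≠ ω ∧ (A * A) • ω = ω ∧
      n (t • ω) (t * A * t⁻¹) = n ω A ∧ (z • ω = ω ∨ A = z)) := by
    intro ω
    by_cases hω : ω ∈ s
    · by_cases hzω : z • ω = ω
      · have hsqω : ∀ A ∈ E, (A * A) • ω = ω := by
          intro A hA
          rcases hE.sq A hA with h | h
          · rw [h, one_smul]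
          · rw [h, hzω]
        by_cases htr : ∀ d ∈ E, d • ω = ω → c d ω = 1
        · obtain ⟨A, hA, hAω⟩ := h2 ω hω hzω
          refine ⟨A, fun _ => ⟨hA, hAω, hsqω A hA, ?_, Or.inl hzω⟩⟩
          rw [hntriv ω hω htr]
          apply hntriv _ (hst ω hω)
          intro d hd hdt
          have hinv : t⁻¹ * d * t ∈ E := by
            -- `t` induces a bijection of the finite group `E`
            have hinj : Function.Injective (fun e : E => (⟨t * e * t⁻¹, htE e e.2⟩ : E)) := by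
              intro e f hef
              have h9 : t * (e : G) * t⁻¹ = t * f * t⁻¹ := congrArg Subtype.val hef
              exact Subtype.ext (mul_left_cancel (mul_right_cancel h9))
            obtain ⟨e, he⟩ := (Finite.injective_iff_surjective.1 hinj) ⟨d, hd⟩
            have h9 : t * (e : G) * t⁻¹ = d := congrArg Subtype.val he
            have h10 : t⁻¹ * d * t = e := by rw [← h9]; group
            rw [h10]
            exact e.2
          have h11 : (t⁻¹ * d * t) • ω = ω := by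
            rw [mul_smul, mul_smul, hdt, inv_smul_smul]
          have h12 := c_conj c hc t _ _ h11
          have e1 : t * (t⁻¹ * d * t) * t⁻¹ = d := by group
          rw [e1] at h12
          rw [h12]
          exact htr _ hinv h11
        · push Not at htr
          obtain ⟨d, hd, hdω, hcd⟩ := htr
          have h3' := h3 ω hω hzω ⟨d, hd, hdω, hcd⟩
          let S : G → ℤˣ := fun e => n (t • ω) (t * e * t⁻¹) * n ω e
          have hSmul : ∀ x ∈ E, ∀ y ∈ E, S (x * y) = S x * S y := by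
            intro x hx y hy
            show n (t • ω) (t * (x * y) * t⁻¹) * n ω (x * y) = _
            have e1 : t * (x * y) * t⁻¹ = (t * x * t⁻¹) * (t * y * t⁻¹) := by group
            rw [e1, hnmul _ (hst ω hω) _ (htE x hx) _ (htE y hy), hnmul _ hω _ hx _ hy]
            simp only [S, mul_comm, mul_left_comm, mul_assoc]
          have hSD : ∀ e ∈ E, e • ω = ω → S e = 1 := by
            intro e he heω
            show n (t • ω) (t * e * t⁻¹) * n ω e = 1
            have h13 : (t * e * t⁻¹) • t • ω = t • ω := by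
              rw [← mul_smul, inv_mul_cancel_right, mul_smul, heω]
            rw [← hnc _ (hst ω hω) _ (htE e he) h13, ← hnc ω hω e he heω, c_conj c hc t e ω heω]
            exact sq1 _
          have hSinv : ∀ e ∈ E, S e⁻¹ = S e := by
            intro e he
            have h14 := hSmul e he e⁻¹ (E.inv_mem he)
            rw [mul_inv_cancel, hSD 1 E.one_mem (one_smul _ _)] at h14
            have h15 : S e * S e = S e * S e⁻¹ := by rw [← h14]; exact sq1 _
            exact (mul_left_cancel h15).symm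
          have hfin : ∀ A ∈ E, S A = 1 → n (t • ω) (t * A * t⁻¹) = n ω A := by
            intro A hA h
            have h16 : n (t • ω) (t * A * t⁻¹) * n ω A = n ω A * n ω A := by
              rw [sq1]; exact h
            exact mul_right_cancel h16
          obtain ⟨e0, he0, he0ω⟩ := h2 ω hω hzω
          by_cases hS0 : S e0 = 1
          · exact ⟨e0, fun _ => ⟨he0, he0ω, hsqω _ he0, hfin _ he0 hS0, Or.inl hzω⟩⟩
          · obtain ⟨y, hy, hyω, hyω'⟩ := h3' e0 he0 he0ω
            by_cases hSy : S y = 1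
            · exact ⟨y, fun _ => ⟨hy, hyω, hsqω _ hy, hfin _ hy hSy, Or.inl hzω⟩⟩
            · refine ⟨e0⁻¹ * y, fun _ => ⟨E.mul_mem (E.inv_mem he0) hy, hyω',
                hsqω _ (E.mul_mem (E.inv_mem he0) hy), hfin _ (E.mul_mem (E.inv_mem he0) hy) ?_, Or.inl hzω⟩⟩
              rw [hSmul _ (E.inv_mem he0) _ hy, hSinv _ he0,
                (Int.units_eq_one_or _).resolve_left hS0, (Int.units_eq_one_or _).resolve_left hSy]
              rfl
      · refine ⟨z, fun _ => ⟨hE.hz, hzω, ?_, ?_, Or.inr rfl⟩⟩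
        · rw [hE.z2, one_smul]
        · rw [htz, hE.hom_z _ (hnmul _ (hst ω hω)), hE.hom_z _ (hnmul _ hω)]
    · exact ⟨1, fun h => absurd h hω⟩
  choose A hA using hA0
  refine prod_eq_one_of_data c hc E t htE s hsE hst n hnmul hnE hnc (fun ω => A (b ω)) ?_ ?_ ?_ ?_ ?_
  · intro ω hω
    exact (hA (b ω) (hbs ω hω)).1
  · intro ω hω e he
    show A (b (e • ω)) = A (b ω)
    rw [hb e he]
  · intro ω hω
    obtain ⟨hAE, hA1, -, -, hA3⟩ := hA (b ω) (hbs ω hω)
    intro h
    have hxE := (hbx ω).1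
    have h4 : (A (b ω) * x ω) • b ω = x ω • b ω := by
      rw [mul_smul, (hbx ω).2]; exact h
    have h5 : A (b ω) * x ω = x ω * A (b ω) ∨ (A (b ω) * x ω = z * (x ω * A (b ω)) ∧ z • b ω = b ω) := by
      rcases hA3 with h6 | h6
      · rcases hE.com _ hAE _ hxE with h7 | h7
        · exact Or.inl h7
        · exact Or.inr ⟨h7, h6⟩
      · left
        rw [h6]
        exact hE.cen _ hxE
    apply hA1
    rcases h5 with h5 | ⟨h5, h6⟩
    · rw [h5, mul_smul] at h4
      exact MulAction.injective _ h4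
    · have e1 : z * (x ω * A (b ω)) = x ω * (A (b ω) * z) := by
        rw [← hE.cen _ hAE, ← mul_assoc, hE.cen _ hxE, mul_assoc]
      rw [h5, e1, mul_smul, mul_smul, h6] at h4
      exact MulAction.injective _ h4
  · intro ω hω
    obtain ⟨hAE, hA1, hA2, -, hA3⟩ := hA (b ω) (hbs ω hω)
    have hxE := (hbx ω).1
    -- `A * A` is central
    have h4 : A (b ω) * A (b ω) * x ω = x ω * (A (b ω) * A (b ω)) := by
      rcases hE.sq _ hAE with h | h
      · rw [h, one_mul, mul_one]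
      · rw [h, hE.cen _ hxE]
    show (A (b ω) * A (b ω)) • ω = ω
    calc (A (b ω) * A (b ω)) • ω = (A (b ω) * A (b ω)) • x ω • b ω := by rw [(hbx ω).2]
      _ = x ω • (A (b ω) * A (b ω)) • b ω := by rw [← mul_smul, h4, mul_smul]
      _ = ω := by rw [hA2, (hbx ω).2]
  · intro ω hω
    obtain ⟨hAE, -, -, hA4, -⟩ := hA (b ω) (hbs ω hω)
    show n (t • ω) (t * A (b ω) * t⁻¹) = n ω (A (b ω))
    have h4 : n (t • ω) = n (t • b ω) := by
      have h5 : t • ω = (t * x ω * t⁻¹) • t • b ω := by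
        rw [← mul_smul, inv_mul_cancel_right, mul_smul, (hbx ω).2]
      rw [h5]
      exact hnE _ (hst _ (hbs ω hω)) _ (htE _ (hbx ω).1)
    have h6 : n ω = n (b ω) := by
      show N (b ω) = N (b (b ω))
      rw [hbb]
    rw [h4, h6]
    exact hA4

end Cocycle

end H12.TransX
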