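import Mathlib
import Cfsg.Agent.Lib.H12.Basic

/-! Subgroups of unitriangular groups are generated by at most `n² / 4` elements (via Mantel). -/

set_option autoImplicit false

open Subgroup
open scoped commutatorElement

namespace H12.UniFilt

variable {H V : Type*} [Group H] [Finite H] [AddCommGroup V]

/-- a full flag for the action `ρ` -/
structure Flag (ρ : H →* AddMonoid.End V) (F : ℕ → AddSubgroup V) (n : ℕ) : Prop where
  anti : Antitone F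
  bot : ∀ j, n ≤ j → F j = ⊥
  act : ∀ h j v, v ∈ F j → ρ h v - v ∈ F (j + 1)
  cyc : ∀ j, ∀ w ∈ F j, w ∉ F (j + 1) → ∀ v ∈ F j, ∃ m : ℤ, v - m • w ∈ F (j + 1)

variable {ρ : H →* AddMonoid.End V} {F : ℕ → AddSubgroup V} {n : ℕ}

theorem Flag.inv (hF : Flag ρ F n) (h : H) {j : ℕ} {v : V} (hv : v ∈ F j) : ρ h v ∈ F j := by
  have h1 := add_mem (hF.anti (Nat.le_succ j) (hF.act h j v hv)) hv
  rwa [sub_add_cancel] at h1

/-- the shift -/
def sh (d i l : ℕ) : ℕ := l + d + if l < i then 1 else 0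

theorem le_sh (d i l : ℕ) : l + d ≤ sh d i l := by unfold sh; omega

theorem sh_le (d i l : ℕ) : sh d i l ≤ l + d + 1 := by unfold sh; split <;> omega

theorem rho_mul (g h : H) (v : V) : ρ (g * h) v = ρ g (ρ h v) := by
  rw [map_mul]; rfl

theorem rho_inv_rho (h : H) (v : V) : ρ h⁻¹ (ρ h v) = v := by
  rw [← rho_mul, inv_mul_cancel, map_one]; rfl

theorem rho_rho_inv (h : H) (v : V) : ρ h (ρ h⁻¹ v) = v := by
  rw [← rho_mul, mul_inv_cancel, map_one]; rfl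

/-- the filtration -/
def K (hF : Flag ρ F n) (d i : ℕ) : Subgroup H where
  carrier := {h | ∀ l, ∀ v ∈ F l, ρ h v - v ∈ F (sh d i l)}
  mul_mem' := by
    intro a b ha hb l v hv
    have e : ρ (a * b) v - v = (ρ a (ρ b v) - ρ b v) + (ρ b v - v) := by
      rw [rho_mul]; abel
    rw [e]
    exact add_mem (ha l _ (hF.inv b hv)) (hb l v hv)
  one_mem' := by
    intro l v _
    rw [map_one]
    change v - v ∈ _
    rw [sub_self]; exact zero_mem _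
  inv_mem' := by
    intro a ha l v hv
    have h1 := ha l _ (hF.inv a⁻¹ hv)
    rw [rho_rho_inv] at h1
    have h2 := neg_mem h1
    rwa [neg_sub] at h2

theorem mem_K {hF : Flag ρ F n} {d i : ℕ} {h : H} :
    h ∈ K hF d i ↔ ∀ l, ∀ v ∈ F l, ρ h v - v ∈ F (sh d i l) := Iff.rfl

theorem K_anti_i (hF : Flag ρ F n) (d : ℕ) {i i' : ℕ} (h : i ≤ i') : K hF d i' ≤ K hF d i := by
  intro a ha l v hv
  refine hF.anti ?_ (ha l v hv)
  unfold sh
  split_ifs <;> omega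

theorem K_succ (hF : Flag ρ F n) (d : ℕ) : K hF d n ≤ K hF (d + 1) 0 := by
  intro a ha l v hv
  have h1 := ha l v hv
  unfold sh at h1 ⊢
  by_cases hl : l < n
  · rw [if_pos hl] at h1
    rw [if_neg (Nat.not_lt_zero _)]
    exact h1
  · rw [if_neg hl] at h1
    rw [hF.bot _ (by omega)] at h1
    rw [(AddSubgroup.mem_bot).1 h1]; exact zero_mem _

theorem K_le_succ (hF : Flag ρ F n) (d : ℕ) : K hF (d + 1) 0 ≤ K hF d n := by
  intro a ha l v hv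
  refine hF.anti ?_ (ha l v hv)
  unfold sh
  split_ifs <;> omega

theorem K_one (hF : Flag ρ F n) : K hF 1 0 = ⊤ := by
  rw [eq_top_iff]
  intro a _ l v hv
  have h1 := hF.act a l v hv
  unfold sh
  rw [if_neg (Nat.not_lt_zero _)]
  exact h1

theorem exists_of_not_mem (hF : Flag ρ F n) {d i : ℕ} {c : H} (hc : c ∈ K hF d i)
    (hc' : c ∉ K hF d (i + 1)) : ∃ v ∈ F i, ρ c v - v ∉ F (i + d + 1) := by
  rw [mem_K] at hc'
  push Not at hc'
  obtain ⟨l, v, hv, h1⟩ := hc'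
  have h2 := hc l v hv
  have hl : l = i := by
    by_contra hne
    apply h1
    have e : sh d (i + 1) l = sh d i l := by
      unfold sh
      split_ifs <;> omega
    rw [e]; exact h2
  subst hl
  refine ⟨v, hv, ?_⟩
  unfold sh at h1
  rwa [if_pos (Nat.lt_succ_self l)] at h1

theorem mem_of_gen (hF : Flag ρ F n) {d i : ℕ} {c : H} (hc : c ∈ K hF d i) {v₀ : V} (hv₀ : v₀ ∈ F i)
    (hv₀' : v₀ ∉ F (i + 1)) (h : ρ c v₀ - v₀ ∈ F (i + d + 1)) : c ∈ K hF d (i + 1) := by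
  intro l v hv
  by_cases hl : l = i
  · subst hl
    have e : sh d (l + 1) l = l + d + 1 := by
      unfold sh
      rw [if_pos (Nat.lt_succ_self l)]
    rw [e]
    obtain ⟨m, hm⟩ := hF.cyc l v₀ hv₀ hv₀' v hv
    have e2 : ρ c v - v = (ρ c (v - m • v₀) - (v - m • v₀)) + m • (ρ c v₀ - v₀) := by
      rw [map_sub, map_zsmul, smul_sub]; abel
    rw [e2]
    refine add_mem ?_ (zsmul_mem h m)
    have h1 := hc (l + 1) _ hm
    refine hF.anti ?_ h1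
    unfold sh
    split_ifs <;> omega
  · have e : sh d (i + 1) l = sh d i l := by
      unfold sh
      split_ifs <;> omega
    rw [e]; exact hc l v hv

theorem theta_mul (hF : Flag ρ F n) {d i : ℕ} {v₀ : V} (hv₀ : v₀ ∈ F i) {x y : H}
    (hy : y ∈ K hF d i) :
    (ρ (x * y) v₀ - v₀) - ((ρ x v₀ - v₀) + (ρ y v₀ - v₀)) ∈ F (i + d + 1) := by
  have e : (ρ (x * y) v₀ - v₀) - ((ρ x v₀ - v₀) + (ρ y v₀ - v₀)) =
      ρ x (ρ y v₀ - v₀) - (ρ y v₀ - v₀) := by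
    rw [rho_mul, map_sub]; abel
  rw [e]
  have h1 := hy i v₀ hv₀
  have h2 : sh d i i = i + d := by unfold sh; rw [if_neg (lt_irrefl _), add_zero]
  rw [h2] at h1
  exact hF.act x _ _ h1

theorem theta_zpow (hF : Flag ρ F n) {d i : ℕ} {v₀ : V} (hv₀ : v₀ ∈ F i) {x : H}
    (hx : x ∈ K hF d i) (m : ℤ) :
    (ρ (x ^ m) v₀ - v₀) - m • (ρ x v₀ - v₀) ∈ F (i + d + 1) := by
  have hnat : ∀ k : ℕ, (ρ (x ^ k) v₀ - v₀) - k • (ρ x v₀ - v₀) ∈ F (i + d + 1) := by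
    intro k
    induction k with
    | zero =>
      rw [pow_zero, map_one, zero_smul, sub_zero]
      change v₀ - v₀ ∈ _
      rw [sub_self]; exact zero_mem _
    | succ k ih =>
      have h1 := theta_mul hF (x := x ^ k) hv₀ hx
      rw [← pow_succ] at h1
      have h2 := add_mem h1 ih
      have e : ρ (x ^ (k + 1)) v₀ - v₀ - (ρ (x ^ k) v₀ - v₀ + (ρ x v₀ - v₀)) +
        (ρ (x ^ k) v₀ - v₀ - k • (ρ x v₀ - v₀)) = ρ (x ^ (k + 1)) v₀ - v₀ - (k + 1) • (ρ x v₀ - v₀) := by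
        rw [succ_nsmul]; abel
      rwa [e] at h2
  obtain ⟨k, rfl | rfl⟩ := m.eq_nat_or_neg
  · rw [zpow_natCast, natCast_zsmul]; exact hnat k
  · have h1 := theta_mul hF (x := x ^ (-(k : ℤ))) hv₀ (pow_mem hx k)
    rw [zpow_neg, zpow_natCast, inv_mul_cancel, map_one] at h1
    have h2 : ((1 : AddMonoid.End V) v₀ - v₀) = 0 := sub_self v₀
    rw [h2] at h1
    have h3 := neg_mem (add_mem h1 (hnat k))
    rw [zpow_neg, zpow_natCast, neg_smul, natCast_zsmul]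
    have e : -(0 - (ρ (x ^ k)⁻¹ v₀ - v₀ + (ρ (x ^ k) v₀ - v₀)) + (ρ (x ^ k) v₀ - v₀ - k • (ρ x v₀ - v₀))) =
      ρ (x ^ k)⁻¹ v₀ - v₀ - -(k • (ρ x v₀ - v₀)) := by abel
    rwa [e] at h3

/-- the exchange lemma -/
theorem exch (hF : Flag ρ F n) {d i : ℕ} {c f : H} (hc : c ∈ K hF d i)
    (hc' : c ∉ K hF d (i + 1)) (hf : f ∈ K hF d i) : ∃ m : ℤ, f * (c ^ m)⁻¹ ∈ K hF d (i + 1) := by
  obtain ⟨v₀, hv₀, hu⟩ := exists_of_not_mem hF hc hc'
  have h2 : sh d i i = i + d := by unfold sh; rw [if_neg (lt_irrefl _), add_zero]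
  have hv₀' : v₀ ∉ F (i + 1) := by
    intro h1
    apply hu
    have h3 := hc (i + 1) v₀ h1
    refine hF.anti ?_ h3
    unfold sh
    split_ifs <;> omega
  have h3 := hc i v₀ hv₀
  have h4 := hf i v₀ hv₀
  rw [h2] at h3 h4
  obtain ⟨m, hm⟩ := hF.cyc (i + d) _ h3 hu _ h4
  refine ⟨m, ?_⟩
  apply mem_of_gen hF (mul_mem hf (inv_mem (zpow_mem hc m))) hv₀ hv₀'
  have h5 := theta_mul hF (x := f) hv₀ (zpow_mem hc (-m))
  have h6 := theta_zpow hF hv₀ hc (-m)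
  have h7 := add_mem (add_mem h5 h6) hm
  rw [zpow_neg] at h7
  have e : ρ (f * (c ^ m)⁻¹) v₀ - v₀ - (ρ f v₀ - v₀ + (ρ (c ^ m)⁻¹ v₀ - v₀)) +
    (ρ (c ^ m)⁻¹ v₀ - v₀ - -m • (ρ c v₀ - v₀)) + (ρ f v₀ - v₀ - m • (ρ c v₀ - v₀)) =
    ρ (f * (c ^ m)⁻¹) v₀ - v₀ := by
    rw [neg_smul]; abel
  rwa [e] at h7

/-- commutators -/
theorem comm_apply (g h : H) (w : V) : ρ ⁅g, h⁆ w - w =
    (ρ g (ρ h (ρ (h * g)⁻¹ w) - ρ (h * g)⁻¹ w) - (ρ h (ρ (h * g)⁻¹ w) - ρ (h * g)⁻¹ w)) -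
    (ρ h (ρ g (ρ (h * g)⁻¹ w) - ρ (h * g)⁻¹ w) - (ρ g (ρ (h * g)⁻¹ w) - ρ (h * g)⁻¹ w)) := by
  obtain ⟨v, hv⟩ : ∃ v, v = ρ (h * g)⁻¹ w := ⟨_, rfl⟩
  have hw : w = ρ (h * g) v := by rw [hv, rho_rho_inv]
  rw [← hv]
  have h1 : ρ ⁅g, h⁆ w = ρ (g * h) v := by
    rw [hw, ← rho_mul]
    congr 2
    rw [commutatorElement_def]; group
  rw [h1, hw, rho_mul, rho_mul, map_sub, map_sub]
  abel

theorem comm_mem (hF : Flag ρ F n) {d e i j : ℕ} (hij : i < j) {h g : H} (hh : h ∈ K hF d i)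
    (hg : g ∈ K hF e j) : ⁅g, h⁆ ∈ K hF (d + e) i := by
  intro l w hw
  rw [comm_apply]
  have hv : ρ (h * g)⁻¹ w ∈ F l := hF.inv _ hw
  obtain ⟨v, hv'⟩ : ∃ v, v = ρ (h * g)⁻¹ w := ⟨_, rfl⟩
  rw [← hv'] at hv ⊢
  apply sub_mem
  · refine hF.anti ?_ (hg _ _ (hh l v hv))
    unfold sh
    split_ifs <;> omega
  · refine hF.anti ?_ (hh _ _ (hg l v hv))
    unfold sh
    split_ifs <;> omega

theorem comm_not_mem (hF : Flag ρ F n) {d e i j : ℕ} (hj : j = i + d) (hd : 1 ≤ d) {h g : H}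
    (hh : h ∈ K hF d i) (hh' : h ∉ K hF d (i + 1)) (hg : g ∈ K hF e j) (hg' : g ∉ K hF e (j + 1)) :
    ⁅g, h⁆ ∉ K hF (d + e) (i + 1) := by
  obtain ⟨v₀, hv₀, hu⟩ := exists_of_not_mem hF hh hh'
  intro hc
  have h1 := hc i _ (hF.inv (h * g) hv₀)
  rw [comm_apply, rho_inv_rho] at h1
  have e1 : sh (d + e) (i + 1) i = j + e + 1 := by
    unfold sh
    rw [if_pos (Nat.lt_succ_self i)]; omega
  rw [e1] at h1
  have h2 : ρ h (ρ g v₀ - v₀) - (ρ g v₀ - v₀) ∈ F (j + e + 1) := by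
    refine hF.anti ?_ (hh _ _ (hg i v₀ hv₀))
    unfold sh
    split_ifs <;> omega
  have h3 := add_mem h1 h2
  rw [sub_add_cancel] at h3
  apply hg'
  have h4 := hh i v₀ hv₀
  have e2 : sh d i i = j := by unfold sh; rw [if_neg (lt_irrefl _), add_zero, hj]
  rw [e2] at h4
  rw [← hj] at hu
  exact mem_of_gen hF hg h4 hu h3

end H12.UniFilt
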