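import Mathlib
import Cfsg.Agent.Lib.H12.UniFilt

/-! Generation of a group modulo `D` from a full flag of an action (Mantel). -/

set_option autoImplicit false

open Subgroup
open scoped commutatorElement

namespace H12.UniGen

open H12.UniFilt

variable {H V : Type*} [Group H] [Finite H] [AddCommGroup V]
variable {ρ : H →* AddMonoid.End V} {F : ℕ → AddSubgroup V} {n : ℕ}

/-- the edges -/
def Ed (hF : Flag ρ F n) (D : Subgroup H) (d i : ℕ) : Prop :=
  ∃ c ∈ K hF d i, c ∉ K hF d (i + 1) ⊔ D

theorem Ed.lt {hF : Flag ρ F n} {D : Subgroup H} {d i : ℕ} (h : Ed hF D d i) : i + d < n := by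
  obtain ⟨c, hc, hc'⟩ := h
  obtain ⟨v, hv, h1⟩ := exists_of_not_mem hF hc (fun h => hc' (mem_sup_left h))
  by_contra hlt
  apply h1
  have h2 := hc i v hv
  have h3 : sh d i i = i + d := by unfold sh; rw [if_neg (lt_irrefl _), add_zero]
  rw [h3, hF.bot _ (by omega)] at h2
  rw [AddSubgroup.mem_bot.1 h2]
  exact zero_mem _

theorem no_triangle (hF : Flag ρ F n) {D : Subgroup H} (hD : _root_.commutator H ≤ D) {d e i : ℕ}
    (hd : 1 ≤ d) (h1 : Ed hF D d i) (h2 : Ed hF D e (i + d)) : ¬ Ed hF D (d + e) i := by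
  rintro ⟨c, hc, hc'⟩
  obtain ⟨h, hh, hh'⟩ := h1
  obtain ⟨g, hg, hg'⟩ := h2
  have hb := comm_mem hF (by omega : i < i + d) hh hg
  have hb' := comm_not_mem hF rfl hd hh (fun h => hh' (mem_sup_left h)) hg
    (fun h => hg' (mem_sup_left h))
  obtain ⟨m, hm⟩ := exch hF hb hb' hc
  apply hc'
  have hbD : ⁅g, h⁆ ∈ D := hD (Subgroup.commutator_mem_commutator (mem_top g) (mem_top h))
  have e : c = c * (⁅g, h⁆ ^ m)⁻¹ * ⁅g, h⁆ ^ m := by group
  rw [e]
  exact mul_mem (mem_sup_left hm) (mem_sup_right (zpow_mem hbD m))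

open Classical in
/-- the number of edges is at most `n² / 4`. -/
theorem card_edges (hF : Flag ρ F n) {D : Subgroup H} (hD : _root_.commutator H ≤ D) :
    ((Finset.univ : Finset (Fin n × Fin n)).filter
      (fun x => x.1 < x.2 ∧ Ed hF D (x.2 - x.1) x.1)).card ≤ n ^ 2 / 4 := by
  let G : SimpleGraph (Fin n) :=
    { Adj := fun i j => (i < j ∧ Ed hF D (j - i) i) ∨ (j < i ∧ Ed hF D (i - j) j)
      symm := ⟨by
        intro i j h
        exact h.symm⟩
      loopless := ⟨by
        intro i h
        rcases h with h | h <;> exact lt_irrefl _ h.1⟩ }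
  have key : ∀ i j l : Fin n, i < j → j < l → G.Adj i j → G.Adj j l → G.Adj i l → False := by
    intro i j l hij hjl h1 h2 h3
    have a1 : Ed hF D (j - i) i := by
      rcases h1 with h | h
      · exact h.2
      · exact absurd h.1 (not_lt.2 hij.le)
    have a2 : Ed hF D (l - j) j := by
      rcases h2 with h | h
      · exact h.2
      · exact absurd h.1 (not_lt.2 hjl.le)
    have a3 : Ed hF D (l - i) i := by
      rcases h3 with h | h
      · exact h.2
      · exact absurd h.1 (not_lt.2 (hij.trans hjl).le)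
    have hij' : (i : ℕ) < j := hij
    have hjl' : (j : ℕ) < l := hjl
    have e1 : (j : ℕ) = i + (j - i) := by omega
    have e2 : (l : ℕ) - i = (j - i) + (l - j) := by omega
    rw [e1] at a2
    rw [e2] at a3
    have e3 : (l : ℕ) - (i + (j - i)) = l - j := by omega
    rw [e3] at a2
    exact no_triangle hF hD (by omega) a1 a2 a3
  have hfree : G.CliqueFree 3 := by
    intro s hs
    rw [SimpleGraph.is3Clique_iff] at hs
    obtain ⟨a, b, c, hab, hac, hbc, -⟩ := hs
    rcases lt_trichotomy a b with h1 | h1 | h1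
    · rcases lt_trichotomy b c with h2 | h2 | h2
      · exact key a b c h1 h2 hab hbc hac
      · exact hbc.ne h2
      · rcases lt_trichotomy a c with h3 | h3 | h3
        · exact key a c b h3 h2 hac hbc.symm hab
        · exact hac.ne h3
        · exact key c a b h3 h1 hac.symm hab hbc.symm
    · exact hab.ne h1
    · rcases lt_trichotomy b c with h2 | h2 | h2
      · rcases lt_trichotomy a c with h3 | h3 | h3
        · exact key b a c h1 h3 hab.symm hac hbc
        · exact hac.ne h3
        · exact key b c a h2 h3 hbc hac.symm hab.symm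
      · exact hbc.ne h2
      · exact key c b a h2 h1 hbc.symm hab.symm hac.symm
  have hT := SimpleGraph.CliqueFree.card_edgeFinset_le (r := 2) hfree
  simp only [Fintype.card_fin] at hT
  have hT2 : G.edgeFinset.card ≤ n ^ 2 / 4 := by
    refine hT.trans ?_
    have h1 : (n % 2).choose 2 = 0 := Nat.choose_eq_zero_of_lt (Nat.mod_lt _ (by norm_num))
    rw [h1, add_zero]
    norm_num
    exact Nat.div_le_div_right (Nat.sub_le _ _)
  refine le_trans ?_ hT2
  apply Finset.card_le_card_of_injOn (fun x => s(x.1, x.2))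
  · intro x hx
    rw [Finset.mem_coe, Finset.mem_filter] at hx
    rw [Finset.mem_coe, SimpleGraph.mem_edgeFinset, SimpleGraph.mem_edgeSet]
    exact Or.inl hx.2
  · intro x hx y hy hxy
    rw [Finset.mem_coe, Finset.mem_filter] at hx hy
    have h1 := hx.2.1
    have h2 := hy.2.1
    have h3 := Sym2.eq_iff.1 hxy
    rcases h3 with h3 | h3
    · exact Prod.ext h3.1 h3.2
    · rw [h3.1, h3.2] at h1
      exact absurd h1 (not_lt.2 h2.le)

open Classical in
/-- generation modulo `D` -/
theorem exists_gen (hF : Flag ρ F n) (hF0 : F 0 = ⊤) {D : Subgroup H}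
    (hD : _root_.commutator H ≤ D) (hker : ∀ h, (∀ v, ρ h v = v) → h ∈ D) :
    ∃ S : Finset H, S.card ≤ n ^ 2 / 4 ∧ Subgroup.closure (S : Set H) ⊔ D = ⊤ := by
  have hc : ∀ d i : ℕ, ∃ c : H, Ed hF D d i → c ∈ K hF d i ∧ c ∉ K hF d (i + 1) ⊔ D := by
    intro d i
    by_cases h : Ed hF D d i
    · obtain ⟨c, h1, h2⟩ := h
      exact ⟨c, fun _ => ⟨h1, h2⟩⟩
    · exact ⟨1, fun h' => absurd h' h⟩
  choose c hc using hc
  refine ⟨((Finset.univ : Finset (Fin n × Fin n)).filter
      (fun x => x.1 < x.2 ∧ Ed hF D (x.2 - x.1) x.1)).image (fun x => c (x.2 - x.1) x.1),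
      Finset.card_image_le.trans (card_edges hF hD), ?_⟩
  set S : Finset H := ((Finset.univ : Finset (Fin n × Fin n)).filter
      (fun x => x.1 < x.2 ∧ Ed hF D (x.2 - x.1) x.1)).image (fun x => c (x.2 - x.1) x.1) with hS
  have hcS : ∀ d i, 1 ≤ d → Ed hF D d i → c d i ∈ S := by
    intro d i hd h
    have h1 := h.lt
    rw [hS, Finset.mem_image]
    refine ⟨(⟨i, by omega⟩, ⟨i + d, h1⟩), ?_, ?_⟩
    · rw [Finset.mem_filter]
      refine ⟨Finset.mem_univ _, ?_, ?_⟩
      · change i < i + d
        omega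
      · change Ed hF D (i + d - i) i
        rwa [Nat.add_sub_cancel_left]
    · change c (i + d - i) i = _
      rw [Nat.add_sub_cancel_left]
  have hA : ∀ d i, 1 ≤ d → K hF d i ≤ Subgroup.closure (S : Set H) ⊔ D ⊔ K hF d (i + 1) := by
    intro d i hd f hf
    by_cases h : Ed hF D d i
    · obtain ⟨h1, h2⟩ := hc d i h
      obtain ⟨m, hm⟩ := exch hF h1 (fun h => h2 (mem_sup_left h)) hf
      have e : f = f * (c d i ^ m)⁻¹ * c d i ^ m := by group
      rw [e]
      exact mul_mem (mem_sup_right hm) (mem_sup_left (mem_sup_left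
        (zpow_mem (Subgroup.subset_closure (hcS d i hd h)) m)))
    · by_contra h2
      apply h
      refine ⟨f, hf, fun h3 => h2 ?_⟩
      have h4 : K hF d (i + 1) ⊔ D ≤ Subgroup.closure (S : Set H) ⊔ D ⊔ K hF d (i + 1) :=
        sup_le le_sup_right (le_sup_right.trans le_sup_left)
      exact h4 h3
  have hB : ∀ d i, 1 ≤ d → K hF d 0 ≤ Subgroup.closure (S : Set H) ⊔ D ⊔ K hF d i := by
    intro d i hd
    induction i with
    | zero => exact le_sup_right
    | succ i ih =>
      refine ih.trans (sup_le le_sup_left (hA d i hd))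
  have hC : ∀ d, 1 ≤ d → (⊤ : Subgroup H) ≤ Subgroup.closure (S : Set H) ⊔ D ⊔ K hF d 0 := by
    intro d hd
    induction d, hd using Nat.le_induction with
    | base => rw [K_one]; exact le_sup_right
    | succ d hd ih =>
      refine ih.trans (sup_le le_sup_left ?_)
      refine (hB d n hd).trans (sup_le le_sup_left ((K_succ hF d).trans le_sup_right))
  have hK : K hF (n + 1) 0 ≤ D := by
    intro h hh
    apply hker
    intro v
    have h1 := hh 0 v (by rw [hF0]; exact AddSubgroup.mem_top _)
    rw [hF.bot _ (by have := le_sh (n + 1) 0 0; omega)] at h1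
    exact sub_eq_zero.1 (AddSubgroup.mem_bot.1 h1)
  have h1 := hC (n + 1) (by omega)
  rw [eq_top_iff]
  exact h1.trans (sup_le le_rfl (hK.trans le_sup_right))

end H12.UniGen
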