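import Mathlib
import Cfsg.Agent.Lib.H1.Coprime2
import Cfsg.Agent.Lib.H12.UniGen

/-! A full flag of a normal abelian subgroup of a `p`-group. -/

set_option autoImplicit false

open Subgroup
open scoped commutatorElement IsMulCommutative

namespace H12.UniChain

variable {P : Type*} [Group P] [Finite P] {p : ℕ} [Fact p.Prime]

theorem exists_chain (hP : IsPGroup p P) (k : ℕ) : ∀ A : Subgroup P, A.Normal → Nat.card A ≤ p ^ k →
    ∃ C : ℕ → Subgroup P, C 0 = A ∧ (∀ j, k ≤ j → C j = ⊥) ∧ Antitone C ∧
      (∀ (h : P) (j : ℕ), ∀ v ∈ C j, h * v * h⁻¹ * v⁻¹ ∈ C (j + 1)) ∧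
      (∀ j, ∀ w ∈ C j, w ∉ C (j + 1) → ∀ v ∈ C j, ∃ m : ℤ, v * (w ^ m)⁻¹ ∈ C (j + 1)) := by
  induction k with
  | zero =>
    intro A hA hc
    have hA' : A = ⊥ := by
      rw [pow_zero] at hc
      exact Subgroup.eq_bot_of_card_le A hc
    subst hA'
    refine ⟨fun _ => ⊥, rfl, fun _ _ => rfl, fun _ _ _ => le_rfl, ?_, ?_⟩
    · intro h j v hv
      rw [Subgroup.mem_bot] at hv ⊢
      rw [hv]; group
    · intro j w hw hw'
      exact absurd hw hw'
  | succ k ih =>
    intro A hA hc
    by_cases hbot : A = ⊥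
    · subst hbot
      refine ⟨fun _ => ⊥, rfl, fun _ _ => rfl, fun _ _ _ => le_rfl, ?_, ?_⟩
      · intro h j v hv
        rw [Subgroup.mem_bot] at hv ⊢
        rw [hv]; group
      · intro j w hw hw'
        exact absurd hw hw'
    have hlt : ⁅A, (⊤ : Subgroup P)⁆ < A :=
      H1.Coprime2.commutator_lt_of_isPGroup (hP.to_subgroup ⊤) (hP.to_subgroup A)
        (by rw [Subgroup.normalizer_eq_top_iff.2 hA]) hbot
    obtain ⟨B, hB1, hB2⟩ := Finite.exists_le_maximal
      (p := fun B : Subgroup P => ⁅A, (⊤ : Subgroup P)⁆ ≤ B ∧ B < A) ⟨le_rfl, hlt⟩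
    have hBA : B < A := hB2.prop.2
    have hcomm : ∀ (h : P), ∀ v ∈ A, h * v * h⁻¹ * v⁻¹ ∈ B := by
      intro h v hv
      apply hB1
      rw [Subgroup.commutator_comm]
      exact Subgroup.commutator_mem_commutator (mem_top h) hv
    have hBn : B.Normal := ⟨by
      intro b hb g
      have h1 := mul_mem (hcomm g b (hBA.le hb)) hb
      rwa [inv_mul_cancel_right] at h1⟩
    have hBc : Nat.card B ≤ p ^ k := by
      obtain ⟨a, ha⟩ := IsPGroup.iff_card.1 (hP.to_subgroup A)
      obtain ⟨b, hb⟩ := IsPGroup.iff_card.1 (hP.to_subgroup B)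
      have h1 : Nat.card B < Nat.card A := Set.Finite.card_lt_card (Set.toFinite _) hBA
      have h2 : 1 < p := (Fact.out : p.Prime).one_lt
      rw [ha, hb] at h1
      have h3 : b < a := (Nat.pow_lt_pow_iff_right h2).1 h1
      rw [ha] at hc
      have h4 : a ≤ k + 1 := (Nat.pow_le_pow_iff_right h2).1 hc
      rw [hb]
      exact Nat.pow_le_pow_right h2.le (by omega)
    obtain ⟨C, hC0, hCk, hCa, hC1, hC2⟩ := ih B hBn hBc
    refine ⟨fun j => if j = 0 then A else C (j - 1), if_pos rfl, ?_, ?_, ?_, ?_⟩
    · intro j hj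
      change (if j = 0 then A else C (j - 1)) = ⊥
      rw [if_neg (by omega)]
      exact hCk _ (by omega)
    · apply antitone_nat_of_succ_le
      intro j
      change (if j + 1 = 0 then A else C (j + 1 - 1)) ≤ (if j = 0 then A else C (j - 1))
      rw [if_neg (by omega)]
      by_cases hj : j = 0
      · subst hj
        rw [if_pos rfl]
        change C 0 ≤ A
        rw [hC0]; exact hBA.le
      · rw [if_neg hj]
        exact hCa (by omega)
    · intro h j v hv
      change v ∈ (if j = 0 then A else C (j - 1)) at hv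
      change _ ∈ (if j + 1 = 0 then A else C (j + 1 - 1))
      rw [if_neg (by omega), Nat.add_sub_cancel]
      by_cases hj : j = 0
      · subst hj
        rw [if_pos rfl] at hv
        rw [hC0]
        exact hcomm h v hv
      · rw [if_neg hj] at hv
        have h1 := hC1 h _ v hv
        have e : j - 1 + 1 = j := by omega
        rwa [e] at h1
    · intro j w hw hw' v hv
      change w ∈ (if j = 0 then A else C (j - 1)) at hw
      change v ∈ (if j = 0 then A else C (j - 1)) at hv
      change w ∉ (if j + 1 = 0 then A else C (j + 1 - 1)) at hw'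
      change ∃ m : ℤ, v * (w ^ m)⁻¹ ∈ (if j + 1 = 0 then A else C (j + 1 - 1))
      rw [if_neg (by omega), Nat.add_sub_cancel] at hw' ⊢
      by_cases hj : j = 0
      · subst hj
        rw [if_pos rfl] at hv hw
        rw [hC0] at hw' ⊢
        have h1 : A ≤ B ⊔ zpowers w := by
          by_contra hnot
          have h3 : B ⊔ zpowers w ≤ A := sup_le hBA.le (by rwa [zpowers_le])
          have h4 : B ⊔ zpowers w < A := lt_of_le_of_ne h3 (fun h => hnot h.ge)
          have h5 := hB2.le_of_ge ⟨hB1.trans le_sup_left, h4⟩ le_sup_left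
          exact hw' (h5 (mem_sup_right (mem_zpowers w)))
        have h2 := h1 hv
        rw [← SetLike.mem_coe, Subgroup.normal_mul] at h2
        obtain ⟨b, hb, z, hz, hbz⟩ := h2
        obtain ⟨m, rfl⟩ := hz
        refine ⟨m, ?_⟩
        rw [← hbz]
        simpa using hb
      · rw [if_neg hj] at hv hw
        have e : j - 1 + 1 = j := by omega
        have h1 := hC2 (j - 1) w hw (by rwa [e]) v hv
        rwa [e] at h1

/-- the conjugation action on an abelian normal subgroup -/
def conjEnd (A : Subgroup P) [A.Normal] [IsMulCommutative A] (H : Subgroup P) :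
    H →* AddMonoid.End (Additive A) where
  toFun h :=
    { toFun := fun a => Additive.ofMul (MulAut.conjNormal (h : P) a.toMul)
      map_zero' := by
        change Additive.ofMul (MulAut.conjNormal (h : P) (1 : A)) = 0
        rw [map_one]; rfl
      map_add' := by
        intro a b
        change Additive.ofMul (MulAut.conjNormal (h : P) (a.toMul * b.toMul)) = _
        rw [map_mul]; rfl }
  map_one' := by
    ext a
    change ((Additive.toMul (Additive.ofMul (MulAut.conjNormal ((1 : H) : P) a.toMul)) : A) : P) =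
      ((a.toMul : A) : P)
    simp
  map_mul' := by
    intro x y
    ext a
    change ((Additive.toMul (Additive.ofMul (MulAut.conjNormal ((x * y : H) : P) a.toMul)) : A) : P) =
      ((MulAut.conjNormal (x : P) (MulAut.conjNormal (y : P) a.toMul) : A) : P)
    simp [mul_assoc]

theorem conjEnd_coe (A : Subgroup P) [A.Normal] [IsMulCommutative A] (H : Subgroup P) (h : H)
    (a : Additive A) : (((conjEnd A H h a).toMul : A) : P) = h * (a.toMul : A) * (h : P)⁻¹ := by
  change ((MulAut.conjNormal (h : P) a.toMul : A) : P) = _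
  simp

theorem gen_mod (hP : IsPGroup p P) (k : ℕ) (A : Subgroup P) [A.Normal] [IsMulCommutative A]
    (hA : Nat.card A ≤ p ^ k) (H : Subgroup P) (D : Subgroup H)
    (hD : _root_.commutator H ≤ D) (hker : ∀ h : H, (h : P) ∈ centralizer (A : Set P) → h ∈ D) :
    ∃ S : Finset H, S.card ≤ k ^ 2 / 4 ∧ Subgroup.closure (S : Set H) ⊔ D = ⊤ := by
  obtain ⟨C, hC0, hCk, hCa, hC1, hC2⟩ := exists_chain hP k A inferInstance hA
  let F : ℕ → @AddSubgroup (Additive A) AddCommGroup.toAddGroup := fun j =>
    { carrier := {v | ((v.toMul : A) : P) ∈ C j}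
      zero_mem' := one_mem (C j)
      add_mem' := fun {a b} ha hb => mul_mem (s := C j) ha hb
      neg_mem' := fun {a} ha => Subgroup.inv_mem (C j) ha }
  have hmem : ∀ j v, v ∈ F j ↔ ((v.toMul : A) : P) ∈ C j := fun _ _ => Iff.rfl
  have hFl : UniFilt.Flag (conjEnd A H) F k := by
    refine ⟨?_, ?_, ?_, ?_⟩
    · intro i j hij v hv
      exact hCa hij hv
    · intro j hj
      rw [eq_bot_iff]
      intro v hv
      rw [hmem, hCk j hj, Subgroup.mem_bot] at hv
      rw [AddSubgroup.mem_bot]
      apply Additive.toMul.injective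
      exact Subtype.ext hv
    · intro h j v hv
      rw [hmem] at hv ⊢
      have e : (((conjEnd A H h v - v).toMul : A) : P) =
          (((conjEnd A H h v).toMul : A) : P) * ((v.toMul : A) : P)⁻¹ := by
        rw [toMul_sub]
        exact div_eq_mul_inv _ _
      rw [e, conjEnd_coe]
      exact hC1 h j _ hv
    · intro j w hw hw' v hv
      obtain ⟨m, hm⟩ := hC2 j _ hw hw' _ hv
      refine ⟨m, ?_⟩
      rw [hmem]
      have e : (((v - m • w).toMul : A) : P) =
          ((v.toMul : A) : P) * (((w.toMul : A) : P) ^ m)⁻¹ := by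
        rw [toMul_sub, toMul_zsmul]
        exact div_eq_mul_inv _ _
      rw [e]
      exact hm
  exact UniGen.exists_gen hFl (by
    rw [eq_top_iff]; intro v _
    rw [hmem, hC0]; exact (v.toMul).2) hD (by
    intro h hh
    apply hker
    rw [Subgroup.mem_centralizer_iff]
    intro a ha
    have h1 := congrArg (fun z : Additive A => ((z.toMul : A) : P)) (hh (Additive.ofMul ⟨a, ha⟩))
    simp only [conjEnd_coe] at h1
    change (h : P) * a * (h : P)⁻¹ = a at h1
    rw [mul_inv_eq_iff_eq_mul] at h1
    exact h1.symm)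

end H12.UniChain
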