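import Mathlib
import Cfsg.Agent.Lib.H12.OmegaC
import Cfsg.Agent.Lib.H12.UniChain

/-! Subgroups of a `p`-group (`p` odd) all of whose normal abelian subgroups are `k`-generated. -/

set_option autoImplicit false

open Subgroup
open scoped commutatorElement Pointwise

namespace H12.UniMain

open Classical in
theorem card_closure_le {P : Type*} [Group P] [Finite P] {p : ℕ} (hp : 0 < p) (S : Finset P) :
    (∀ x ∈ S, ∀ y ∈ S, x * y = y * x) → (∀ x ∈ S, x ^ p = 1) →
    Nat.card (Subgroup.closure (S : Set P)) ≤ p ^ S.card := by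
  induction S using Finset.induction_on with
  | empty =>
    intro _ _
    simp
  | insert a S ha ih =>
    intro h1 h2
    have h3 := ih (fun x hx y hy => h1 x (Finset.mem_insert_of_mem hx) y (Finset.mem_insert_of_mem hy))
      (fun x hx => h2 x (Finset.mem_insert_of_mem hx))
    rw [Finset.card_insert_of_notMem ha, Finset.coe_insert, Set.insert_eq, Subgroup.closure_union,
      ← Subgroup.zpowers_eq_closure]
    have h4 : zpowers a ≤ normalizer (Subgroup.closure (S : Set P) : Set P) := by
      rw [Subgroup.zpowers_le]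
      apply Subgroup.centralizer_le_normalizer
      rw [Subgroup.centralizer_closure, Subgroup.mem_centralizer_iff]
      intro x hx
      exact h1 x (Finset.mem_insert_of_mem hx) a (Finset.mem_insert_self _ _)
    have h5 := Subgroup.coe_mul_of_left_le_normalizer_right _ _ h4
    have h6 : Nat.card (zpowers a ⊔ Subgroup.closure (S : Set P) : Subgroup P) =
        Nat.card ((zpowers a : Set P) * (Subgroup.closure (S : Set P) : Set P) : Set P) := by
      rw [← h5]; rfl
    rw [h6]
    refine Set.natCard_mul_le.trans ?_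
    rw [pow_succ, mul_comm (p ^ S.card)]
    refine Nat.mul_le_mul ?_ h3
    change Nat.card (zpowers a) ≤ p
    rw [Nat.card_zpowers]
    exact orderOf_le_of_pow_eq_one hp (h2 a (Finset.mem_insert_self _ _))

theorem main {P : Type*} [Group P] [Finite P] {p : ℕ} [hpp : Fact p.Prime]
    (hp : p ≠ 2) (hP : IsPGroup p P) (k : ℕ)
    (hab : ∀ A : Subgroup P, A.Normal → IsMulCommutative A →
      ∃ S : Finset P, S.card ≤ k ∧ Subgroup.closure (S : Set P) = A) (H : Subgroup P) :
    ∃ S : Finset P, S.card ≤ k * (k + 4) / 4 ∧ Subgroup.closure (S : Set P) = H := by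
  classical
  obtain ⟨A, -, hA⟩ := Finite.exists_le_maximal
    (p := fun B : Subgroup P => B.Normal ∧ (∀ a ∈ B, ∀ b ∈ B, a * b = b * a) ∧ ∀ b ∈ B, b ^ p = 1)
    (a := ⊥) ⟨inferInstance, by
      intro a ha b hb
      rw [Subgroup.mem_bot] at ha hb
      rw [ha, hb], by
      intro b hb
      rw [Subgroup.mem_bot] at hb
      rw [hb, one_pow]⟩
  obtain ⟨hAn, hAab, hAexp⟩ := hA.prop
  have hAc : IsMulCommutative A := ⟨⟨fun a b => Subtype.ext (hAab a a.2 b b.2)⟩⟩
  have hcard : Nat.card A ≤ p ^ k := by
    obtain ⟨S, hS, hSA⟩ := hab A hAn hAc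
    have hmem : ∀ x ∈ S, x ∈ A := fun x hx => by
      rw [← hSA]; exact Subgroup.subset_closure hx
    have h1 := card_closure_le hpp.out.pos S (fun x hx y hy => hAab x (hmem x hx) y (hmem y hy))
      (fun x hx => hAexp x (hmem x hx))
    rw [hSA] at h1
    exact h1.trans (Nat.pow_le_pow_right hpp.out.pos hS)
  have halp : ∀ x ∈ centralizer (A : Set P), x ^ p = 1 → x ∈ A := by
    intro x hx hxp
    refine OmegaC.alperin hp hP hAab hAexp ?_ _ x hx hxp le_rfl
    intro B hBn hBab hBexp hAB
    exact hA.le_of_ge ⟨hBn, hBab, hBexp⟩ hAB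
  set N : Subgroup H := (centralizer (A : Set P)).subgroupOf H with hN
  have hH : IsPGroup p H := hP.to_subgroup H
  have hHnil : Group.IsNilpotent H := hH.isNilpotent
  have hNp : IsPGroup p N := hH.to_subgroup N
  obtain ⟨S, hS, hSD⟩ := UniChain.gen_mod hP k A hcard H (frattini H ⊔ N)
    (H1.Frat.commutator_le_frattini.trans le_sup_left)
    (fun h hh => mem_sup_right (Subgroup.mem_subgroupOf.2 hh))
  have hSN : Subgroup.closure (S : Set H) ⊔ N = ⊤ := by
    apply frattini_nongenerating
    rw [← hSD, sup_assoc, sup_comm N]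
  have hmemA : ∀ x : N, x ^ p = 1 → ((x : H) : P) ∈ A := by
    intro x hx
    apply halp _ (Subgroup.mem_subgroupOf.1 x.2)
    have := congrArg (fun y : N => ((y : H) : P)) hx
    simpa using this
  have hΩ : ∀ x : N, x ^ p = 1 → x ∈ center N := by
    intro x hx
    rw [Subgroup.mem_center_iff]
    intro g
    apply Subtype.ext
    apply Subtype.ext
    exact (Subgroup.mem_centralizer_iff.1 (Subgroup.mem_subgroupOf.1 g.2) _ (hmemA x hx)).symm
  have hidx : (frattini N).index ≤ p ^ k := by
    refine (OmegaC.index_le hp hNp hΩ).trans (le_trans ?_ hcard)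
    refine Nat.card_le_card_of_injective
      (fun x : {x : N // x ^ p = 1} => (⟨((x : N) : H), hmemA x.1 x.2⟩ : A)) ?_
    intro x y hxy
    simp only [Subtype.mk.injEq] at hxy
    exact Subtype.ext (Subtype.ext (Subtype.ext hxy))
  obtain ⟨T, hT, hTN⟩ := OmegaC.exists_gen_of_index hNp k hidx
  refine ⟨(S ∪ T.image N.subtype).image H.subtype, ?_, ?_⟩
  · refine Finset.card_image_le.trans ((Finset.card_union_le _ _).trans ?_)
    have h1 : (T.image N.subtype).card ≤ k := Finset.card_image_le.trans hT
    have h2 : k * (k + 4) / 4 = k ^ 2 / 4 + k := by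
      have : k * (k + 4) = k ^ 2 + k * 4 := by ring
      rw [this, Nat.add_mul_div_right _ _ (by norm_num)]
    omega
  · rw [Finset.coe_image, ← MonoidHom.map_closure, Finset.coe_union, Finset.coe_image,
      Subgroup.closure_union, ← MonoidHom.map_closure, hTN, ← MonoidHom.range_eq_map,
      Subgroup.range_subtype, hSN, ← MonoidHom.range_eq_map, Subgroup.range_subtype]

end H12.UniMain
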