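import Cfsg.Agent.Lib.H12.Y2Def

/-!
# 2-transitive groups with Z-group stabilisers: local structure (helper12, S3252)
-/

set_option autoImplicit false

universe u v

namespace H12.Y2

open Subgroup MulAction

variable {X : Type u} [Group X] {Ω : Type v} [MulAction X Ω] {Γ : Subgroup X}

/-- the self-centralising cyclic normal subgroup of a point stabiliser -/
structure FD (a : Ω) (F : Subgroup X) : Prop where
  le : F ≤ stabilizer X a
  cyc : IsCyclic F
  nrm : ∀ g ∈ stabilizer X a, ∀ x ∈ F, g * x * g⁻¹ ∈ F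
  cent : ∀ g ∈ stabilizer X a, (∀ x ∈ F, g * x = x * g) → g ∈ F
  com : ∀ g ∈ stabilizer X a, ∀ k ∈ stabilizer X a, g * k * g⁻¹ * k⁻¹ ∈ F

/-- a finite Z-group has a self-centralising cyclic normal subgroup with abelian quotient -/
theorem zgroup_F (H : Type*) [Group H] [Finite H] [IsZGroup H] : ∃ C : Subgroup H, C.Normal ∧ IsCyclic C ∧
    (∀ g : H, (∀ x ∈ C, g * x = x * g) → g ∈ C) ∧ ∀ g k : H, g * k * g⁻¹ * k⁻¹ ∈ C := by
  have hN : IsCyclic (commutator H) := IsZGroup.isCyclic_commutator H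
  have hcomm : ∀ g k : H, g * k * g⁻¹ * k⁻¹ ∈ commutator H := fun g k =>
    commutator_mem_commutator (mem_top g) (mem_top k)
  have hNC : commutator H ≤ centralizer (commutator H : Set H) := by
    intro x hx
    rw [mem_centralizer_iff]
    intro y hy
    letI := IsCyclic.commGroup (α := commutator H)
    exact congrArg Subtype.val (mul_comm (⟨y, hy⟩ : commutator H) ⟨x, hx⟩)
  have hz : IsZGroup (centralizer (commutator H : Set H)) := inferInstance
  have hn : Group.IsNilpotent (centralizer (commutator H : Set H)) := by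
    apply Group.of_quotient_center_nilpotent
    have hq : ∀ a b : (centralizer (commutator H : Set H)) ⧸ center (centralizer (commutator H : Set H)), a * b = b * a := by
      intro a b
      obtain ⟨x, rfl⟩ := QuotientGroup.mk'_surjective _ a
      obtain ⟨y, rfl⟩ := QuotientGroup.mk'_surjective _ b
      rw [← map_mul, ← map_mul]
      refine QuotientGroup.eq.2 ?_
      rw [mem_center_iff]
      intro w
      apply Subtype.ext
      have h1 : ((x : H) * y)⁻¹ * (y * x) ∈ commutator H := by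
        have h3 := hcomm (y : H)⁻¹ (x : H)⁻¹
        have h4 : ((x : H) * y)⁻¹ * (y * x) = (y : H)⁻¹ * (x : H)⁻¹ * (y : H)⁻¹⁻¹ * (x : H)⁻¹⁻¹ := by group
        rw [h4]; exact h3
      exact (mem_centralizer_iff.1 w.2 _ h1).symm
    let _ : CommGroup ((centralizer (commutator H : Set H)) ⧸ center (centralizer (commutator H : Set H))) :=
      { (inferInstance : Group ((centralizer (commutator H : Set H)) ⧸ center (centralizer (commutator H : Set H)))) with
        mul_comm := hq }
    exact (inferInstance : Group.IsNilpotent ((centralizer (commutator H : Set H)) ⧸ center (centralizer (commutator H : Set H))))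
  refine ⟨centralizer (commutator H : Set H), inferInstance, inferInstance, ?_, fun g k => hNC (hcomm g k)⟩
  intro g hg
  rw [mem_centralizer_iff]
  intro x hx
  exact (hg x (hNC hx)).symm

variable [Finite X]

theorem exists_FD (h : Hyp Ω Γ) (a : Ω) : ∃ F : Subgroup X, FD a F := by
  haveI := h.zg a
  obtain ⟨C, hC1, hC2, hC3, hC4⟩ := zgroup_F (stabilizer X a)
  refine ⟨C.map (stabilizer X a).subtype, ?_, ?_, ?_, ?_, ?_⟩
  · exact map_subtype_le _
  · exact isCyclic_of_surjective _ (C.equivMapOfInjective _ (subtype_injective _)).surjective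
  · rintro g hg _ ⟨x, hx, rfl⟩
    exact ⟨⟨g, hg⟩ * x * ⟨g, hg⟩⁻¹, hC1.conj_mem x hx _, rfl⟩
  · intro g hg hcg
    refine ⟨⟨g, hg⟩, hC3 ⟨g, hg⟩ (fun x hx => Subtype.ext (hcg x ⟨x, hx, rfl⟩)), rfl⟩
  · intro g hg k hk
    exact ⟨_, hC4 ⟨g, hg⟩ ⟨k, hk⟩, rfl⟩

omit [Finite X] in
theorem FD.comm {a : Ω} {F : Subgroup X} (hF : FD a F) : ∀ x ∈ F, ∀ y ∈ F, x * y = y * x := by
  intro x hx y hy
  haveI := hF.cyc
  letI := IsCyclic.commGroup (α := F)
  exact congrArg Subtype.val (mul_comm (⟨x, hx⟩ : F) ⟨y, hy⟩)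

omit [Finite X] in
theorem FD.pow {a : Ω} {F : Subgroup X} (hF : FD a F) {g : X} (hg : g ∈ stabilizer X a) :
    ∃ m : ℤ, ∀ x ∈ F, g * x * g⁻¹ = x ^ m := by
  haveI := hF.cyc
  let σ : F →* F :=
    { toFun := fun x => ⟨g * x * g⁻¹, hF.nrm g hg x x.2⟩
      map_one' := Subtype.ext (by change g * 1 * g⁻¹ = 1; group)
      map_mul' := fun x y => Subtype.ext (by change g * (x * y) * g⁻¹ = g * x * g⁻¹ * (g * y * g⁻¹); group) }
  obtain ⟨m, hm⟩ := MonoidHom.map_cyclic σ
  exact ⟨m, fun x hx => congrArg Subtype.val (hm ⟨x, hx⟩)⟩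

omit [Finite X] in
theorem zpow_fix {x : X} {b : Ω} (h : x • b = b) (m : ℤ) : x ^ m • b = b := by
  have : x ∈ stabilizer X b := h
  exact (stabilizer X b).zpow_mem this m

omit [Finite X] in
theorem FD.semi (h : Hyp Ω Γ) {a b : Ω} {F : Subgroup X} (hF : FD a F) (hab : a ≠ b) {x : X} (hx : x ∈ F)
    (hxb : x • b = b) : x = 1 := by
  apply h.faith
  intro w
  by_cases hw : a = w
  · rw [← hw]; exact hF.le hx
  · obtain ⟨g, hg1, hg2⟩ := h.two a b a w hab hw
    have hg : g⁻¹ ∈ stabilizer X a := inv_mem (show g ∈ stabilizer X a from hg1)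
    obtain ⟨m, hm⟩ := hF.pow hg
    have h3 := hm x hx
    rw [inv_inv] at h3
    calc x • w = (g * (g⁻¹ * x * g)) • b := by rw [← hg2, ← mul_smul]; group
      _ = g • (x ^ m • b) := by rw [h3, mul_smul]
      _ = w := by rw [zpow_fix hxb, hg2]

omit [Finite X] in
theorem ab_comm (h : Hyp Ω Γ) {a b : Ω} {F : Subgroup X} (hF : FD a F) (hab : a ≠ b) {g k : X}
    (hga : g • a = a) (hgb : g • b = b) (hka : k • a = a) (hkb : k • b = b) : g * k = k * g := by
  have h1 : g * k * g⁻¹ * k⁻¹ ∈ F := hF.com g hga k hka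
  have h2 : (g * k * g⁻¹ * k⁻¹) • b = b := by
    have hg : g ∈ stabilizer X b := hgb
    have hk : k ∈ stabilizer X b := hkb
    exact mul_mem (mul_mem (mul_mem hg hk) (inv_mem hg)) (inv_mem hk)
  have h3 := hF.semi h hab h1 h2
  rw [mul_inv_eq_one, mul_inv_eq_iff_eq_mul] at h3
  exact h3

theorem ab_cyc (h : Hyp Ω Γ) {a b : Ω} (hab : a ≠ b) : IsCyclic (stabilizer X a ⊓ stabilizer X b : Subgroup X) := by
  obtain ⟨F, hF⟩ := exists_FD h a
  haveI := h.zg a
  haveI : IsZGroup (stabilizer X a ⊓ stabilizer X b : Subgroup X) :=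
    IsZGroup.of_injective (f := inclusion (inf_le_left : stabilizer X a ⊓ stabilizer X b ≤ stabilizer X a))
      (inclusion_injective _)
  let _ : CommGroup (stabilizer X a ⊓ stabilizer X b : Subgroup X) :=
    { (inferInstance : Group (stabilizer X a ⊓ stabilizer X b : Subgroup X)) with
      mul_comm := fun x y => Subtype.ext (ab_comm h hF hab (mem_inf.1 x.2).1 (mem_inf.1 x.2).2 (mem_inf.1 y.2).1
        (mem_inf.1 y.2).2) }
  have hn : Group.IsNilpotent (stabilizer X a ⊓ stabilizer X b : Subgroup X) := inferInstance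
  exact (inferInstance : IsCyclic (stabilizer X a ⊓ stabilizer X b : Subgroup X))

/-- uniqueness of involutions in a cyclic group -/
theorem cyc_invol {H : Type*} [Group H] [Finite H] [IsCyclic H] {s t : H} (hs1 : s ≠ 1) (hs : s * s = 1) (ht1 : t ≠ 1)
    (ht : t * t = 1) : s = t := by
  classical
  haveI : Fintype H := Fintype.ofFinite H
  by_contra hne
  have h1 := IsCyclic.card_pow_eq_one_le (α := H) (n := 2) (by norm_num)
  have h2 : ({1, s, t} : Finset H) ⊆ Finset.univ.filter (fun a : H => a ^ 2 = 1) := by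
    intro x hx
    simp only [Finset.mem_insert, Finset.mem_singleton] at hx
    simp only [Finset.mem_filter, Finset.mem_univ, true_and]
    rcases hx with rfl | rfl | rfl
    · exact one_pow 2
    · rw [pow_two]; exact hs
    · rw [pow_two]; exact ht
  have h3 := Finset.card_le_card h2
  rw [Finset.card_insert_of_notMem, Finset.card_insert_of_notMem, Finset.card_singleton] at h3
  · omega
  · simpa using hne
  · simp only [Finset.mem_insert, Finset.mem_singleton, not_or]
    exact ⟨fun h => hs1 h.symm, fun h => ht1 h.symm⟩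

theorem ab_uniq (h : Hyp Ω Γ) {a b : Ω} (hab : a ≠ b) {s t : X} (hs1 : s ≠ 1) (hs : s * s = 1) (hsa : s • a = a)
    (hsb : s • b = b) (ht1 : t ≠ 1) (ht : t * t = 1) (hta : t • a = a) (htb : t • b = b) : s = t := by
  haveI := ab_cyc h hab
  have h1 := cyc_invol (H := (stabilizer X a ⊓ stabilizer X b : Subgroup X)) (s := ⟨s, mem_inf.2 ⟨hsa, hsb⟩⟩)
    (t := ⟨t, mem_inf.2 ⟨hta, htb⟩⟩) (fun h => hs1 (congrArg Subtype.val h)) (Subtype.ext hs)
    (fun h => ht1 (congrArg Subtype.val h)) (Subtype.ext ht)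
  exact congrArg Subtype.val h1

theorem card_fix_parity {B : Type*} [Finite B] (f : B → B) (hf : ∀ b, f (f b) = b) :
    Nat.card B ≡ Nat.card {b // f b = b} [MOD 2] := by
  classical
  haveI : Fintype B := Fintype.ofFinite B
  haveI : Fact (Nat.Prime 2) := ⟨Nat.prime_two⟩
  let g : Function.End B := f
  have hg : g ^ 2 ^ 1 = 1 := by
    rw [pow_one, pow_two]
    funext b
    exact hf b
  have h1 := Equiv.Perm.card_fixedPoints_modEq (α := B) (f := g) (p := 2) (n := 1) hg
  rw [← Nat.card_eq_fintype_card, ← Nat.card_eq_fintype_card] at h1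
  exact h1

variable [Finite Ω]

/-- parity of the number of fixed points of an involution -/
theorem even_fix (h : Hyp Ω Γ) {t : X} (ht : t * t = 1) : Even (Nat.card {w : Ω // t • w = w}) := by
  have h1 := card_fix_parity (fun w : Ω => t • w) (fun w => by rw [← mul_smul, ht, one_smul])
  rw [Nat.even_iff]
  have h2 := Nat.even_iff.1 h.ev
  unfold Nat.ModEq at h1
  omega

theorem exists_second {B : Type*} [Finite B] (he : Even (Nat.card B)) (c : B) : ∃ d : B, d ≠ c := by
  by_contra hcon
  push Not at hcon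
  have : Nat.card B = 1 := by
    rw [Nat.card_eq_one_iff_unique]
    exact ⟨⟨fun x y => by rw [hcon x, hcon y]⟩, ⟨c⟩⟩
  rw [this] at he
  exact absurd he (by decide)

/-- commuting involutions with a common fixed point are equal -/
theorem eq_of_commute (h : Hyp Ω Γ) {s t : X} (hs1 : s ≠ 1) (hs : s * s = 1) (ht1 : t ≠ 1)
    (ht : t * t = 1) (hst : s * t = t * s) {c : Ω} (hsc : s • c = c) (htc : t • c = c) : s = t := by
  have h1 := card_fix_parity (fun w : {w : Ω // s • w = w} => (⟨t • (w : Ω), by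
    rw [← mul_smul, hst, mul_smul, w.2]⟩ : {w : Ω // s • w = w})) (fun w => Subtype.ext (by
      change t • t • (w : Ω) = w
      rw [← mul_smul, ht, one_smul]))
  have h2 := even_fix h hs
  have h3 : Even (Nat.card {b : {w : Ω // s • w = w} // (⟨t • (b : Ω), by
    rw [← mul_smul, hst, mul_smul, b.2]⟩ : {w : Ω // s • w = w}) = b}) := by
    rw [Nat.even_iff] at h2 ⊢
    unfold Nat.ModEq at h1
    omega
  obtain ⟨d, hd⟩ := exists_second h3 ⟨⟨c, hsc⟩, Subtype.ext htc⟩
  have hdc : c ≠ (d.1 : Ω) := by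
    intro hcd
    apply hd
    apply Subtype.ext
    apply Subtype.ext
    exact hcd.symm
  exact ab_uniq h hdc hs1 hs hsc d.1.2 ht1 ht htc (congrArg Subtype.val d.2)

end H12.Y2
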