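import Cfsg.Agent.Lib.H12.Y2A

/-!
# 2-transitive groups with Z-group stabilisers: involutions (helper12, S3252)
-/

set_option autoImplicit false

universe u v

namespace H12.Y2

open Subgroup MulAction

variable {X : Type u} [Group X] {Ω : Type v} [MulAction X Ω] {Γ : Subgroup X} [Finite X] [Finite Ω]

omit [Finite X] [Finite Ω] in
theorem Hyp.pretrans (h : Hyp Ω Γ) : IsPretransitive X Ω :=
  ⟨fun a b => by obtain ⟨g, -, hg⟩ := h.tr a b; exact ⟨g, hg⟩⟩

omit [Finite X] [Finite Ω] in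
theorem Hyp.pretransΓ (h : Hyp Ω Γ) : IsPretransitive Γ Ω :=
  ⟨fun a b => by obtain ⟨g, hg, hgb⟩ := h.tr a b; exact ⟨⟨g, hg⟩, hgb⟩⟩

omit [Finite X] [Finite Ω] in
theorem card_Γ (h : Hyp Ω Γ) (a : Ω) : Nat.card Γ = Nat.card Ω := by
  refine Nat.card_congr (Equiv.ofBijective (fun g : Γ => (g : X) • a) ⟨?_, ?_⟩)
  · intro g k hgk
    have h1 : ((g : X)⁻¹ * k) • a = a := by
      rw [mul_smul]
      have : (g : X) • a = (k : X) • a := hgk
      rw [← this, inv_smul_smul]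
    exact Subtype.ext (inv_mul_eq_one.1 (h.sr _ (mul_mem (inv_mem g.2) k.2) a h1))
  · intro b
    obtain ⟨g, hg, hgb⟩ := h.tr a b
    exact ⟨⟨g, hg⟩, hgb⟩

/-- if the degree is more than 2, the point stabilisers contain involutions -/
theorem exists_invol (h : Hyp Ω Γ) (hn : 2 < Nat.card Ω) (a : Ω) : ∃ t : X, t ≠ 1 ∧ t * t = 1 ∧ t • a = a := by
  classical
  haveI : Fact (Nat.Prime 2) := ⟨Nat.prime_two⟩
  by_contra hcon
  push Not at hcon
  -- the stabiliser has odd order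
  have hodd : ¬ 2 ∣ Nat.card (stabilizer X a) := by
    intro hd
    obtain ⟨t, ht⟩ := exists_prime_orderOf_dvd_card' 2 hd
    refine hcon t ?_ ?_ t.2
    · intro h1
      have : t = 1 := Subtype.ext h1
      rw [this, orderOf_one] at ht
      omega
    · have := pow_orderOf_eq_one t
      rw [ht, pow_two] at this
      exact congrArg Subtype.val this
  haveI := h.pretrans
  have hidx : (stabilizer X a).index = Nat.card Ω := index_stabilizer_of_transitive X a
  have hcard : Nat.card X = Nat.card Γ * Nat.card (stabilizer X a) := by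
    rw [card_Γ h a, ← hidx, mul_comm, Subgroup.card_mul_index]
  have h2X : 2 ∣ Nat.card X := by
    rw [hcard, card_Γ h a]
    exact Dvd.dvd.mul_right (even_iff_two_dvd.1 h.ev) _
  -- a Sylow 2-subgroup of Γ is Sylow in X
  obtain ⟨P⟩ : Nonempty (Sylow 2 Γ) := inferInstance
  have hPidx : ¬ 2 ∣ ((P : Subgroup Γ).map Γ.subtype).index := by
    rw [Subgroup.index_map, Subgroup.ker_subtype, sup_bot_eq, Subgroup.range_subtype]
    intro hd
    rcases (Nat.Prime.dvd_mul Nat.prime_two).1 hd with hd | hd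
    · exact P.not_dvd_index hd
    · apply hodd
      have h1 := Γ.card_mul_index
      rw [hcard] at h1
      have h3 : Γ.index = Nat.card (stabilizer X a) := Nat.eq_of_mul_eq_mul_left Nat.card_pos h1
      rw [← h3]; exact hd
  let S : Sylow 2 X := (P.2.map Γ.subtype).toSylow hPidx
  haveI := h.cyc
  have hSc : IsCyclic S := by
    have : IsCyclic ((P : Subgroup Γ).map Γ.subtype) :=
      isCyclic_of_surjective _ ((P : Subgroup Γ).equivMapOfInjective _ (subtype_injective _)).surjective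
    exact this
  have hmin : (Nat.card X).minFac = 2 := (Nat.minFac_eq_two_iff _).2 h2X
  have hK := IsCyclic.isComplement' hmin hSc
  set K := (MonoidHom.transferSylow S (hSc.normalizer_le_centralizer hmin)).ker with hKdef
  have hKn : K.Normal := MonoidHom.normal_ker _
  have hKodd : ¬ 2 ∣ Nat.card K := by
    have h1 := hK.index_eq_card
    rw [← h1]
    exact S.not_dvd_index
  have hK1 : K = ⊥ := by
    by_contra hne
    obtain ⟨k, hk, hk1⟩ := (Subgroup.ne_bot_iff_exists_ne_one.1 hne : ∃ k : K, k ≠ 1) |>.elim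
      (fun k hk1 => (⟨k.1, k.2, fun h => hk1 (Subtype.ext h)⟩ : ∃ k : X, k ∈ K ∧ k ≠ 1))
    obtain ⟨w, hw⟩ : ∃ w : Ω, k • w ≠ w := by
      by_contra hc
      push Not at hc
      exact hk1 (h.faith k hc)
    have htr : IsPretransitive K Ω := by
      refine ⟨fun c d => ?_⟩
      by_cases hcd : c = d
      · exact ⟨1, by rw [hcd, one_smul]⟩
      · obtain ⟨g, hg1, hg2⟩ := h.two w (k • w) c d hw.symm hcd
        refine ⟨⟨g * k * g⁻¹, hKn.conj_mem k hk g⟩, ?_⟩
        change (g * k * g⁻¹) • c = d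
        rw [mul_smul, mul_smul, ← hg1, inv_smul_smul, hg2]
    have h1 : (stabilizer K a).index = Nat.card Ω := index_stabilizer_of_transitive K a
    apply hKodd
    have h3 : Nat.card Ω ∣ Nat.card K := by rw [← h1]; exact Subgroup.index_dvd_card _
    exact (even_iff_two_dvd.1 h.ev).trans h3
  have hXP : IsPGroup 2 X := by
    have h1 := hK.card_mul_card
    rw [hK1, Subgroup.card_bot, one_mul] at h1
    have h3 : (S : Subgroup X) = ⊤ := Subgroup.eq_top_of_card_eq _ h1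
    have h4 := S.isPGroup'
    intro x
    have hx : x ∈ (S : Subgroup X) := by rw [h3]; trivial
    obtain ⟨k, hk⟩ := h4 ⟨x, hx⟩
    exact ⟨k, congrArg Subtype.val hk⟩
  -- two points different from `a`
  haveI : Fintype Ω := Fintype.ofFinite Ω
  rw [Nat.card_eq_fintype_card, Fintype.two_lt_card_iff] at hn
  have h3 : ∃ b c : Ω, a ≠ b ∧ a ≠ c ∧ b ≠ c := by
    obtain ⟨x, y, z, hxy, hxz, hyz⟩ := hn
    by_cases h1 : a = x
    · subst h1; exact ⟨y, z, hxy, hxz, hyz⟩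
    · by_cases h2 : a = y
      · subst h2; exact ⟨x, z, fun h => h1 h, hyz, hxz⟩
      · exact ⟨x, y, h1, h2, hxy⟩
  obtain ⟨b, c, hab, hac, hbc⟩ := h3
  obtain ⟨g, hg1, hg2⟩ := h.two a b a c hab hac
  have hg : (⟨g, hg1⟩ : stabilizer X a) ≠ 1 := by
    intro h1
    have : g = 1 := congrArg Subtype.val h1
    rw [this, one_smul] at hg2
    exact hbc hg2
  obtain ⟨m, hm⟩ := hXP g
  have h5 : orderOf (⟨g, hg1⟩ : stabilizer X a) ∣ 2 ^ m := orderOf_dvd_of_pow_eq_one (Subtype.ext hm)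
  obtain ⟨j, -, hj⟩ := (Nat.dvd_prime_pow Nat.prime_two).1 h5
  have hj0 : j ≠ 0 := by
    rintro rfl
    rw [pow_zero, orderOf_eq_one_iff] at hj
    exact hg hj
  apply hodd
  exact (dvd_pow_self 2 hj0).trans (hj ▸ orderOf_dvd_natCard _)

/-- the involution fixing two given points -/
theorem exists_ab (h : Hyp Ω Γ) (hn : 2 < Nat.card Ω) {a b : Ω} (hab : a ≠ b) :
    ∃ t : X, t ≠ 1 ∧ t * t = 1 ∧ t • a = a ∧ t • b = b := by
  obtain ⟨t, ht1, ht, hta⟩ := exists_invol h hn a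
  obtain ⟨d, hd⟩ := exists_second (even_fix h ht) ⟨a, hta⟩
  have had : a ≠ (d : Ω) := fun h => hd (Subtype.ext h.symm)
  obtain ⟨g, hg1, hg2⟩ := h.two a d a b had hab
  refine ⟨g * t * g⁻¹, ?_, ?_, ?_, ?_⟩
  · intro h1
    apply ht1
    calc t = g⁻¹ * (g * t * g⁻¹) * g := by group
      _ = 1 := by rw [h1]; group
  · calc g * t * g⁻¹ * (g * t * g⁻¹) = g * (t * t) * g⁻¹ := by group
      _ = 1 := by rw [ht]; group
  · rw [mul_smul, mul_smul]
    have : g⁻¹ • a = a := by rw [inv_smul_eq_iff]; exact hg1.symm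
    rw [this, hta, hg1]
  · rw [mul_smul, mul_smul]
    have : g⁻¹ • b = (d : Ω) := by rw [inv_smul_eq_iff]; exact hg2.symm
    rw [this, d.2, hg2]

/-- involutions with a fixed point have at least two -/
theorem exists_fix2 (h : Hyp Ω Γ) {t : X} (ht : t * t = 1) {a : Ω} (hta : t • a = a) : ∃ b : Ω, a ≠ b ∧ t • b = b := by
  obtain ⟨d, hd⟩ := exists_second (even_fix h ht) ⟨a, hta⟩
  exact ⟨d, fun h => hd (Subtype.ext h.symm), d.2⟩

/-- the involution of `Γ` -/
theorem exists_γ (h : Hyp Ω Γ) [Nonempty Ω] : ∃ γ ∈ Γ, γ ≠ 1 ∧ γ * γ = 1 := by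
  haveI : Fact (Nat.Prime 2) := ⟨Nat.prime_two⟩
  obtain ⟨a⟩ := (inferInstance : Nonempty Ω)
  have hd : 2 ∣ Nat.card Γ := by rw [card_Γ h a]; exact even_iff_two_dvd.1 h.ev
  obtain ⟨t, ht⟩ := exists_prime_orderOf_dvd_card' 2 hd
  refine ⟨t, t.2, ?_, ?_⟩
  · intro h1
    have : t = 1 := Subtype.ext h1
    rw [this, orderOf_one] at ht
    omega
  · have := pow_orderOf_eq_one t
    rw [ht, pow_two] at this
    exact congrArg Subtype.val this

omit [Finite X] [Finite Ω] in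
theorem Γ_comm (h : Hyp Ω Γ) {g k : X} (hg : g ∈ Γ) (hk : k ∈ Γ) : g * k = k * g := by
  haveI := h.cyc
  letI := IsCyclic.commGroup (α := Γ)
  exact congrArg Subtype.val (mul_comm (⟨g, hg⟩ : Γ) ⟨k, hk⟩)

omit [Finite X] [Finite Ω] in
theorem γ_ne (h : Hyp Ω Γ) {γ : X} (hγ : γ ∈ Γ) (hγ1 : γ ≠ 1) (c : Ω) : c ≠ γ • c :=
  fun hc => hγ1 (h.sr γ hγ c hc.symm)

/-- conjugates of involutions with fixed points -/
theorem conj_fix {t g : X} (ht1 : t ≠ 1) (ht : t * t = 1) {c : Ω} (hc : t • c = c) :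
    g * t * g⁻¹ ≠ 1 ∧ (g * t * g⁻¹) * (g * t * g⁻¹) = 1 ∧ (g * t * g⁻¹) • (g • c) = g • c := by
  refine ⟨?_, ?_, ?_⟩
  · intro h1
    apply ht1
    calc t = g⁻¹ * (g * t * g⁻¹) * g := by group
      _ = 1 := by rw [h1]; group
  · calc g * t * g⁻¹ * (g * t * g⁻¹) = g * (t * t) * g⁻¹ := by group
      _ = 1 := by rw [ht]; group
  · rw [← mul_smul]
    have : g * t * g⁻¹ * g = g * t := by group
    rw [this, mul_smul, hc]

/-- Step I: the involutions with fixed points commuting with `γ` are conjugate under `Γ` -/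
theorem conj_of_commute (h : Hyp Ω Γ) {γ : X} (hγ : γ ∈ Γ) (hγ1 : γ ≠ 1) {s t : X}
    (hs1 : s ≠ 1) (hs : s * s = 1) (hsγ : s * γ = γ * s) {c : Ω} (hsc : s • c = c)
    (ht1 : t ≠ 1) (ht : t * t = 1) (htγ : t * γ = γ * t) {d : Ω} (htd : t • d = d) :
    ∃ g ∈ Γ, g * s * g⁻¹ = t := by
  obtain ⟨g, hg, hgd⟩ := h.tr c d
  refine ⟨g, hg, ?_⟩
  obtain ⟨h1, h2, h3⟩ := conj_fix (g := g) hs1 hs hsc
  rw [hgd] at h3
  have hsc' : s • γ • c = γ • c := by rw [← mul_smul, hsγ, mul_smul, hsc]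
  obtain ⟨-, -, h4⟩ := conj_fix (g := g) hs1 hs hsc'
  have h5 : g • γ • c = γ • d := by rw [← mul_smul, Γ_comm h hg hγ, mul_smul, hgd]
  rw [h5] at h4
  exact ab_uniq h (γ_ne h hγ hγ1 d) h1 h2 h3 h4 ht1 ht htd (by rw [← mul_smul, htγ, mul_smul, htd])

end H12.Y2
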