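import Cfsg.Agent.Lib.H12.Y2B

/-!
# 2-transitive groups with Z-group stabilisers: the case of involutions with two fixed points (helper12, S3252)
-/

set_option autoImplicit false

universe u v

namespace H12.Y2

open Subgroup MulAction

variable {X : Type u} [Group X] {Ω : Type v} [MulAction X Ω] {Γ : Subgroup X} [Finite X] [Finite Ω]

theorem odd_F (h : Hyp Ω Γ) {a : Ω} {F : Subgroup X} (hF : FD a F) {x : X} (hx : x ∈ F) : Odd (orderOf x) := by
  by_contra hcon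
  rw [Nat.not_odd_iff_even] at hcon
  obtain ⟨m, hm⟩ := hcon
  have hm0 : 0 < m := by
    have := orderOf_pos x
    omega
  have hs : x ^ m * x ^ m = 1 := by rw [← pow_add, ← hm, pow_orderOf_eq_one]
  have hs1 : x ^ m ≠ 1 := by
    intro h1
    have := orderOf_dvd_of_pow_eq_one h1
    have := Nat.le_of_dvd hm0 this
    omega
  have hsF : x ^ m ∈ F := F.pow_mem hx m
  obtain ⟨b, hab, hb⟩ := exists_fix2 h hs (hF.le hsF)
  exact hs1 (hF.semi h hab hsF hb)

theorem lemI (h : Hyp Ω Γ) {a : Ω} {F : Subgroup X} (hF : FD a F) {z : X} (hz : z * z = 1)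
    (hza : z • a = a) {c : Ω} (hc : a ≠ c) : ∃ y ∈ F, z * y * z⁻¹ = y⁻¹ ∧ z • y • c = y • c := by
  have hzi : z⁻¹ = z := inv_eq_of_mul_eq_one_left hz
  -- `z c = x c`
  obtain ⟨b, hab, hzb⟩ := exists_fix2 h hz hza
  obtain ⟨g, hg1, hg2⟩ := h.two a b a c hab hc
  have hg : g ∈ stabilizer X a := hg1
  have hx' : g⁻¹ * z * g⁻¹⁻¹ * z⁻¹ ∈ F := hF.com g⁻¹ (inv_mem hg) z hza
  set x' := g⁻¹ * z * g⁻¹⁻¹ * z⁻¹ with hx'def
  have hxF : g * x' * g⁻¹ ∈ F := hF.nrm g hg x' hx'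
  set x := g * x' * g⁻¹ with hxdef
  have hzc : z • c = x • c := by
    have h1 : z * g = x * g * z := by
      rw [hxdef, hx'def]; group
    calc z • c = (z * g) • b := by rw [mul_smul, hg2]
      _ = x • c := by rw [h1, mul_smul, mul_smul, hzb, hg2]
  have hzx : z * x * z⁻¹ = x⁻¹ := by
    have h1 : (z * x * z⁻¹ * x) • c = c := by
      rw [mul_smul, ← hzc, mul_smul, inv_smul_smul, mul_smul, ← hzc, ← mul_smul, hz, one_smul]
    have h3 := hF.semi h hc (mul_mem (hF.nrm z hza x hxF) hxF) h1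
    exact eq_inv_of_mul_eq_one_left h3
  obtain ⟨m, hm⟩ := odd_F h hF hxF
  refine ⟨x ^ (m + 1), F.pow_mem hxF _, ?_, ?_⟩
  · rw [← conj_pow, hzx, inv_pow]
  · have h1 : z * x ^ (m + 1) * z⁻¹ = (x ^ (m + 1))⁻¹ := by rw [← conj_pow, hzx, inv_pow]
    have h3 : x = x ^ (m + 1) * x ^ (m + 1) := by
      rw [← pow_add]
      have : m + 1 + (m + 1) = orderOf x + 1 := by omega
      rw [this, pow_succ, pow_orderOf_eq_one, one_mul]
    have h4 : z * x ^ (m + 1) = (x ^ (m + 1))⁻¹ * z := by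
      rw [← h1]; group
    rw [← mul_smul, h4, mul_smul, hzc]
    nth_rw 2 [h3]
    rw [← mul_smul]
    congr 1
    group

/-- the involution fixing `c` and `z c` -/
theorem exists_sc (h : Hyp Ω Γ) (hn : 2 < Nat.card Ω) {z : X} (hz1 : z ≠ 1) (hz : z * z = 1) {c : Ω} (hc : c ≠ z • c) :
    ∃ s : X, s ≠ 1 ∧ s * s = 1 ∧ s • c = c ∧ s • z • c = z • c ∧ s * z = z * s ∧ s ≠ z := by
  obtain ⟨s, hs1, hs, hsc, hszc⟩ := exists_ab h hn hc
  have hzi : z⁻¹ = z := inv_eq_of_mul_eq_one_left hz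
  obtain ⟨h1, h3, h4⟩ := conj_fix (g := z) hs1 hs hsc
  obtain ⟨-, -, h5⟩ := conj_fix (g := z) hs1 hs hszc
  have hzzc : z • z • c = c := by rw [← mul_smul, hz, one_smul]
  rw [hzzc] at h5
  have h6 := ab_uniq h hc h1 h3 h5 h4 hs1 hs hsc hszc
  refine ⟨s, hs1, hs, hsc, hszc, ?_, ?_⟩
  · calc s * z = z * s * z⁻¹ * z := by rw [h6]
      _ = z * s := by group
  · rintro rfl
    exact hc hsc.symm

/-- involutions with exactly two fixed points -/
def F2 (X : Type u) [Group X] (Ω : Type v) [MulAction X Ω] : Prop :=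
  ∀ t : X, t ≠ 1 → t * t = 1 → ∀ a b c : Ω, a ≠ b → c ≠ a → c ≠ b → t • a = a → t • b = b → t • c = c → False

/-- in the case `f = 2`: `F` is regular on the remaining points and inverted by `z` -/
theorem F_reg (h : Hyp Ω Γ) (hf2 : F2 X Ω) {a b : Ω} (hab : a ≠ b) {F : Subgroup X} (hF : FD a F) {z : X}
    (hz1 : z ≠ 1) (hz : z * z = 1) (hza : z • a = a) (hzb : z • b = b) :
    (∀ c, a ≠ c → ∃ x ∈ F, x • b = c) ∧ ∀ x ∈ F, z * x * z⁻¹ = x⁻¹ := by
  have key : ∀ c, a ≠ c → ∃ y ∈ F, z * y * z⁻¹ = y⁻¹ ∧ y • c = b := by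
    intro c hc
    obtain ⟨y, hy, hzy, hyc⟩ := lemI h hF hz hza hc
    refine ⟨y, hy, hzy, ?_⟩
    by_contra hne
    have hya : y • a = a := hF.le hy
    refine hf2 z hz1 hz a b (y • c) hab ?_ hne hza hzb hyc
    intro h1
    apply hc
    rw [← hya] at h1
    exact (MulAction.injective y h1).symm
  refine ⟨fun c hc => ?_, fun x hx => ?_⟩
  · obtain ⟨y, hy, -, hyc⟩ := key c hc
    exact ⟨y⁻¹, inv_mem hy, by rw [← hyc, inv_smul_smul]⟩
  · have hxb : a ≠ x • b := by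
      intro h1
      apply hab
      have hxa : x • a = a := hF.le hx
      rw [← hxa] at h1
      exact MulAction.injective x h1
    obtain ⟨y, hy, hzy, hyc⟩ := key (x • b) hxb
    have h1 : (y * x) • b = b := by rw [mul_smul, hyc]
    have h3 := hF.semi h hab (mul_mem hy hx) h1
    have h4 : x = y⁻¹ := eq_inv_of_mul_eq_one_right h3
    rw [h4, inv_inv]
    calc z * y⁻¹ * z⁻¹ = (z * y * z⁻¹)⁻¹ := by group
      _ = y := by rw [hzy, inv_inv]

theorem card_F (h : Hyp Ω Γ) (hf2 : F2 X Ω) {a b : Ω} (hab : a ≠ b) {F : Subgroup X} (hF : FD a F) {z : X}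
    (hz1 : z ≠ 1) (hz : z * z = 1) (hza : z • a = a) (hzb : z • b = b) : Nat.card F = Nat.card Ω - 1 := by
  classical
  obtain ⟨h1, -⟩ := F_reg h hf2 hab hF hz1 hz hza hzb
  have h3 : Nat.card F = Nat.card {c : Ω // a ≠ c} := by
    refine Nat.card_congr (Equiv.ofBijective (fun x : F => (⟨(x : X) • b, ?_⟩ : {c : Ω // a ≠ c})) ⟨?_, ?_⟩)
    · intro h4
      apply hab
      have hxa : (x : X) • a = a := hF.le x.2
      rw [← hxa] at h4
      exact MulAction.injective (x : X) h4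
    · intro x y hxy
      have h4 : (x : X) • b = (y : X) • b := congrArg Subtype.val hxy
      have h5 : ((x : X)⁻¹ * y) • b = b := by rw [mul_smul, ← h4, inv_smul_smul]
      exact Subtype.ext (inv_mul_eq_one.1 (hF.semi h hab (mul_mem (inv_mem x.2) y.2) h5))
    · rintro ⟨c, hc⟩
      obtain ⟨x, hx, hxc⟩ := h1 c hc
      exact ⟨⟨x, hx⟩, Subtype.ext hxc⟩
  rw [h3]
  haveI : Fintype Ω := Fintype.ofFinite Ω
  rw [Nat.card_eq_fintype_card, Nat.card_eq_fintype_card]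
  have h4 := Fintype.card_subtype_compl (fun c : Ω => a = c)
  rw [Fintype.card_subtype_eq'] at h4
  convert h4 using 2

end H12.Y2
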