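import Cfsg.Agent.Lib.H12.Y2C

/-!
# 2-transitive groups with Z-group stabilisers: Theorem A (helper12, S3252)
-/

set_option autoImplicit false

universe u v

namespace H12.Y2

open Subgroup MulAction

variable {X : Type u} [Group X] {Ω : Type v} [MulAction X Ω] {Γ : Subgroup X} [Finite X] [Finite Ω]

/-- the elements of the two-point stabiliser inverted by `γ` -/
def Inv (h : Hyp Ω Γ) (a b : Ω) (hab : a ≠ b) (γ : X) : Subgroup X where
  carrier := {x | x • a = a ∧ x • b = b ∧ γ * x * γ⁻¹ = x⁻¹}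
  one_mem' := ⟨one_smul _ _, one_smul _ _, by group⟩
  mul_mem' := by
    obtain ⟨F, hF⟩ := exists_FD h a
    rintro x y ⟨hxa, hxb, hx⟩ ⟨hya, hyb, hy⟩
    refine ⟨by rw [mul_smul, hya, hxa], by rw [mul_smul, hyb, hxb], ?_⟩
    rw [ab_comm h hF hab hxa hxb hya hyb]
    calc γ * (y * x) * γ⁻¹ = γ * y * γ⁻¹ * (γ * x * γ⁻¹) := by group
      _ = (y * x)⁻¹ := by
        rw [hx, hy, ab_comm h hF hab hya hyb hxa hxb, mul_inv_rev]
  inv_mem' := by
    rintro x ⟨hxa, hxb, hx⟩
    refine ⟨by rw [inv_smul_eq_iff, hxa], by rw [inv_smul_eq_iff, hxb], ?_⟩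
    calc γ * x⁻¹ * γ⁻¹ = (γ * x * γ⁻¹)⁻¹ := by group
      _ = x⁻¹⁻¹ := by rw [hx]

theorem card_Inv (h : Hyp Ω Γ) (hn : 2 < Nat.card Ω) (hf2 : F2 X Ω) {γ : X} (hγ : γ ∈ Γ) (hγ1 : γ ≠ 1)
    (hγγ : γ * γ = 1) (a : Ω) : Nat.card Ω ≤ 2 * Nat.card (Inv h a (γ • a) (γ_ne h hγ hγ1 a) γ) := by
  classical
  haveI : Fintype Ω := Fintype.ofFinite Ω
  haveI : Fintype X := Fintype.ofFinite X
  set b := γ • a with hb
  have hab : a ≠ b := γ_ne h hγ hγ1 a
  obtain ⟨z, hz1, hz, hza, hzb⟩ := exists_ab h hn hab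
  have hγi : γ⁻¹ = γ := inv_eq_of_mul_eq_one_left hγγ
  have hγb : γ • b = a := by rw [hb, ← mul_smul, hγγ, one_smul]
  have key : ∀ c : Ω, ∃ x : X, c ≠ a → c ≠ b → x ∈ Inv h a b hab γ ∧ x ≠ 1 ∧ γ * x ≠ 1 ∧ (γ * x) * (γ * x) = 1 ∧
      (γ * x) • c = c := by
    intro c
    by_cases hca : c = a
    · exact ⟨1, fun h1 => (h1 hca).elim⟩
    by_cases hcb : c = b
    · exact ⟨1, fun _ h1 => (h1 hcb).elim⟩
    have hzc : c ≠ z • c := fun h1 => hf2 z hz1 hz a b c hab hca hcb hza hzb h1.symm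
    obtain ⟨s, hs1, hs, hsc, -, hsz, hsz'⟩ := exists_sc h hn hz1 hz hzc
    have hsi : s⁻¹ = s := inv_eq_of_mul_eq_one_left hs
    have hsa : s • a = b := by
      by_contra hne
      have h1 : z • s • a = s • a := by rw [← mul_smul, ← hsz, mul_smul, hza]
      refine hf2 z hz1 hz a b (s • a) hab ?_ hne hza hzb h1
      intro h2
      exact hsz' (eq_of_commute h hs1 hs hz1 hz hsz h2 hza)
    have hsb : s • b = a := by rw [← hsa, ← mul_smul, hs, one_smul]
    have hgs : γ * (γ * s) = s := by rw [← mul_assoc, hγγ, one_mul]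
    refine ⟨γ * s, fun _ _ => ⟨⟨?_, ?_, ?_⟩, ?_, ?_, ?_, ?_⟩⟩
    · rw [mul_smul, hsa, hγb]
    · rw [mul_smul, hsb]
    · rw [mul_inv_rev, hsi, hγi, ← mul_assoc, hγγ, one_mul]
    · intro h1
      have h2 : s = γ := by
        have := eq_inv_of_mul_eq_one_right h1
        rw [this, hγi]
      rw [h2] at hsc
      exact hγ1 (h.sr γ hγ c hsc)
    · rw [hgs]; exact hs1
    · rw [hgs]; exact hs
    · rw [hgs]; exact hsc
  choose f hf using key
  set S : Finset Ω := Finset.univ \ {a, b} with hS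
  have hScard : S.card = Nat.card Ω - 2 := by
    rw [hS, Finset.card_sdiff_of_subset (Finset.subset_univ _), Finset.card_univ, Finset.card_pair hab,
      Nat.card_eq_fintype_card]
  have hmem : ∀ c ∈ S, c ≠ a ∧ c ≠ b := by
    intro c hc
    simp only [hS, Finset.mem_sdiff, Finset.mem_univ, true_and, Finset.mem_insert, Finset.mem_singleton, not_or] at hc
    exact hc
  have h1 : S.card ≤ 2 * (S.image f).card := by
    refine Finset.card_le_mul_card_image S 2 ?_
    intro x hx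
    by_contra hcon
    rw [not_le, Finset.two_lt_card] at hcon
    obtain ⟨c, hc, d, hd, e, he, hcd, hce, hde⟩ := hcon
    rw [Finset.mem_filter] at hc hd he
    obtain ⟨-, -, hc1, hc2, hc3⟩ := hf c (hmem c hc.1).1 (hmem c hc.1).2
    obtain ⟨-, -, -, -, hd3⟩ := hf d (hmem d hd.1).1 (hmem d hd.1).2
    obtain ⟨-, -, -, -, he3⟩ := hf e (hmem e he.1).1 (hmem e he.1).2
    rw [hc.2] at hc1 hc2 hc3
    rw [hd.2] at hd3
    rw [he.2] at he3
    exact hf2 _ hc1 hc2 c d e hcd hce.symm hde.symm hc3 hd3 he3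
  have h2 : S.image f ⊆ ((Inv h a b hab γ : Set X).toFinset).erase 1 := by
    intro x hx
    rw [Finset.mem_image] at hx
    obtain ⟨c, hc, rfl⟩ := hx
    obtain ⟨h3, h4, -⟩ := hf c (hmem c hc).1 (hmem c hc).2
    rw [Finset.mem_erase, Set.mem_toFinset]
    exact ⟨h4, h3⟩
  have h3 := Finset.card_le_card h2
  rw [Finset.card_erase_of_mem (by rw [Set.mem_toFinset]; exact one_mem (Inv h a b hab γ)), Set.toFinset_card] at h3
  have h4 : Fintype.card (Inv h a b hab γ : Set X) = Nat.card (Inv h a b hab γ) := by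
    rw [← Nat.card_eq_fintype_card]; rfl
  rw [h4] at h3
  have h5 : 0 < Nat.card (Inv h a b hab γ) := Nat.card_pos
  change Nat.card Ω ≤ 2 * Nat.card (Inv h a b hab γ)
  omega

omit [Finite Ω] in
/-- `X_ab` acts faithfully on `F` -/
theorem ab_embed (h : Hyp Ω Γ) {a b : Ω} (hab : a ≠ b) {F : Subgroup X} (hF : FD a F) :
    ∃ ρ : (stabilizer X a ⊓ stabilizer X b : Subgroup X) →* MulAut F, Function.Injective ρ := by
  have hle : (stabilizer X a ⊓ stabilizer X b : Subgroup X) ≤ normalizer (F : Set X) := by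
    intro x hx
    rw [mem_normalizer_iff]
    intro y
    refine ⟨fun hy => hF.nrm x (mem_inf.1 hx).1 y hy, fun hy => ?_⟩
    have := hF.nrm x⁻¹ (inv_mem (mem_inf.1 hx).1) _ hy
    have h1 : x⁻¹ * (x * y * x⁻¹) * x⁻¹⁻¹ = y := by group
    rwa [h1] at this
  refine ⟨F.normalizerMonoidHom.comp (inclusion hle), ?_⟩
  rw [injective_iff_map_eq_one]
  intro x hx
  rw [MonoidHom.comp_apply, ← MonoidHom.mem_ker, normalizerMonoidHom_ker, mem_subgroupOf, mem_centralizer_iff] at hx
  have hxx := mem_inf.1 x.2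
  have h1 : (x : X) ∈ F := hF.cent x hxx.1 (fun y hy => (hx y hy).symm)
  exact Subtype.ext (hF.semi h hab h1 hxx.2)

omit [Finite Ω] in
/-- `F` and `X_ab` have coprime orders -/
theorem F_coprime (h : Hyp Ω Γ) {a b : Ω} (hab : a ≠ b) {F : Subgroup X} (hF : FD a F) {r : ℕ} (hr : r.Prime)
    {m : ℕ} (hFc : Nat.card F = r ^ m)
    (hr2 : r ∣ Nat.card (stabilizer X a ⊓ stabilizer X b : Subgroup X)) : False := by
  haveI : Fact r.Prime := ⟨hr⟩
  haveI := h.zg a
  obtain ⟨x, hx⟩ := exists_prime_orderOf_dvd_card' r hr2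
  have hxx := mem_inf.1 x.2
  set x' : stabilizer X a := ⟨x, hxx.1⟩ with hx'
  have hx'o : orderOf x' = r := by
    rw [← hx, ← Subgroup.orderOf_coe, ← Subgroup.orderOf_coe]
  have hP : IsPGroup r (zpowers x') := IsPGroup.of_card (n := 1) (by rw [Nat.card_zpowers, hx'o, pow_one])
  have hFn : (F.subgroupOf (stabilizer X a)).Normal := ⟨fun y hy g => by
    rw [mem_subgroupOf] at hy ⊢
    exact hF.nrm g g.2 y hy⟩
  have hF' : IsPGroup r (F.subgroupOf (stabilizer X a)) := IsPGroup.of_card (n := m) (by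
    rw [Nat.card_congr (subgroupOfEquivOfLe hF.le).toEquiv, hFc])
  have hPF := hP.to_sup_of_normal_right hF'
  haveI := hPF.isCyclic_of_isZGroup
  letI := IsCyclic.commGroup (α := (zpowers x' ⊔ F.subgroupOf (stabilizer X a) : Subgroup (stabilizer X a)))
  have hxF : (x : X) ∈ F := by
    refine hF.cent x hxx.1 (fun y hy => ?_)
    have h1 := mul_comm (⟨x', (le_sup_left : zpowers x' ≤ zpowers x' ⊔ F.subgroupOf (stabilizer X a))
      (mem_zpowers x')⟩ : (zpowers x' ⊔ F.subgroupOf (stabilizer X a) : Subgroup (stabilizer X a)))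
      ⟨⟨y, hF.le hy⟩, (le_sup_right : F.subgroupOf (stabilizer X a) ≤ zpowers x' ⊔ F.subgroupOf (stabilizer X a))
        (by rw [mem_subgroupOf]; exact hy)⟩
    exact congrArg Subtype.val (congrArg Subtype.val h1)
  have h1 : (x : X) = 1 := hF.semi h hab hxF hxx.2
  have h2 : x = 1 := Subtype.ext h1
  rw [h2, orderOf_one] at hx
  exact hr.one_lt.ne hx

/-- Theorem A -/
theorem thmA (h : Hyp Ω Γ) (hn : 2 < Nat.card Ω) (hf2 : F2 X Ω) {γ : X} (hγ : γ ∈ Γ) (hγ1 : γ ≠ 1)
    (hγγ : γ * γ = 1) (a₀ : Ω) : Conc X Ω ∧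
    ∀ a : Ω, ∀ x : X, x • a = a → x • γ • a = γ • a → γ * x * γ⁻¹ = x⁻¹ := by
  classical
  have main : ∀ a : Ω, Nat.card (stabilizer X a ⊓ stabilizer X (γ • a) : Subgroup X) = Nat.card Ω - 2 ∧
      (Nat.card Ω - 1).Prime ∧
      Inv h a (γ • a) (γ_ne h hγ hγ1 a) γ = (stabilizer X a ⊓ stabilizer X (γ • a) : Subgroup X) := by
    intro a
    have hI := card_Inv h hn hf2 hγ hγ1 hγγ a
    set b := γ • a with hb
    have hab : a ≠ b := γ_ne h hγ hγ1 a
    change Nat.card Ω ≤ 2 * Nat.card (Inv h a b hab γ) at hI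
    obtain ⟨z, hz1, hz, hza, hzb⟩ := exists_ab h hn hab
    obtain ⟨F, hF⟩ := exists_FD h a
    have hcF := card_F h hf2 hab hF hz1 hz hza hzb
    obtain ⟨ρ, hρ⟩ := ab_embed h hab hF
    have hle : Inv h a b hab γ ≤ (stabilizer X a ⊓ stabilizer X b : Subgroup X) := by
      rintro x ⟨hxa, hxb, -⟩
      exact mem_inf.2 ⟨hxa, hxb⟩
    have hd1 : Nat.card (Inv h a b hab γ) ∣ Nat.card (stabilizer X a ⊓ stabilizer X b : Subgroup X) :=
      card_dvd_of_le hle
    haveI := hF.cyc
    have hd2 : Nat.card (stabilizer X a ⊓ stabilizer X b : Subgroup X) ∣ Nat.totient (Nat.card F) := by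
      rw [← IsCyclic.card_mulAut]
      exact card_dvd_of_injective ρ hρ
    rw [hcF] at hd2
    have hφ : Nat.totient (Nat.card Ω - 1) < Nat.card Ω - 1 := Nat.totient_lt _ (by omega)
    have hφ0 : 0 < Nat.totient (Nat.card Ω - 1) := Nat.totient_pos.2 (by omega)
    have hX0 : 0 < Nat.card (stabilizer X a ⊓ stabilizer X b : Subgroup X) := Nat.card_pos
    have hI0 : 0 < Nat.card (Inv h a b hab γ) := Nat.card_pos
    have e1 : Nat.card (stabilizer X a ⊓ stabilizer X b : Subgroup X) = Nat.card (Inv h a b hab γ) := by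
      obtain ⟨k, hk⟩ := hd1
      have h3 := Nat.le_of_dvd hφ0 hd2
      have hk2 : k < 2 := by
        by_contra hcon
        have : Nat.card (Inv h a b hab γ) * 2 ≤ Nat.card (Inv h a b hab γ) * k := Nat.mul_le_mul_left _ (by omega)
        omega
      have : k = 1 := by
        rcases Nat.lt_or_ge k 1 with h5 | h5
        · have : k = 0 := by omega
          rw [this] at hk; omega
        · omega
      rw [hk, this, mul_one]
    have e2 : Nat.totient (Nat.card Ω - 1) = Nat.card (stabilizer X a ⊓ stabilizer X b : Subgroup X) := by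
      obtain ⟨k, hk⟩ := hd2
      have hk2 : k < 2 := by
        by_contra hcon
        have : Nat.card (stabilizer X a ⊓ stabilizer X b : Subgroup X) * 2 ≤
          Nat.card (stabilizer X a ⊓ stabilizer X b : Subgroup X) * k := Nat.mul_le_mul_left _ (by omega)
        omega
      have : k = 1 := by
        rcases Nat.lt_or_ge k 1 with h5 | h5
        · have : k = 0 := by omega
          rw [this] at hk; omega
        · omega
      rw [hk, this, mul_one]
    have hcyc : IsCyclic (ZMod (Nat.card Ω - 1))ˣ := by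
      haveI := ab_cyc h hab
      have hbij : Function.Bijective ρ := by
        rw [Nat.bijective_iff_injective_and_card]
        refine ⟨hρ, ?_⟩
        rw [IsCyclic.card_mulAut, hcF, e2]
      haveI : IsCyclic (MulAut F) := isCyclic_of_surjective ρ hbij.2
      have := isCyclic_of_surjective (IsCyclic.mulAutMulEquiv F) (IsCyclic.mulAutMulEquiv F).surjective
      rwa [hcF] at this
    have hodd : Odd (Nat.card Ω - 1) := by
      obtain ⟨k, hk⟩ := h.ev
      exact ⟨k - 1, by omega⟩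
    obtain ⟨r, m, hr, hr2, hrm⟩ := (ZMod.isCyclic_units_iff_of_odd hodd).1 hcyc
    have hm0 : m ≠ 0 := by
      rintro rfl
      rw [pow_zero] at hrm
      omega
    have hm1 : m = 1 := by
      by_contra hm1
      refine F_coprime h hab hF hr (m := m) (by rw [hcF, hrm]) ?_
      rw [← e2, hrm, Nat.totient_prime_pow hr (by omega)]
      exact Dvd.dvd.mul_right (dvd_pow_self r (by omega)) _
    rw [hm1, pow_one] at hrm
    refine ⟨?_, by rw [hrm]; exact hr, ?_⟩
    · rw [← e2, hrm, Nat.totient_prime hr]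
      omega
    · exact Subgroup.eq_of_le_of_card_ge hle e1.le
  have tr : ∀ a b : Ω, a ≠ b → ∃ g : X, g • a = a₀ ∧ g • b = γ • a₀ := fun a b hab =>
    h.two a b a₀ (γ • a₀) hab (γ_ne h hγ hγ1 a₀)
  obtain ⟨hm1, hm2, -⟩ := main a₀
  refine ⟨⟨hm2, ?_, ?_⟩, ?_⟩
  · -- sharpness
    have hab : a₀ ≠ γ • a₀ := γ_ne h hγ hγ1 a₀
    have hs0 : ∀ c : Ω, c ≠ a₀ → c ≠ γ • a₀ → ∀ g : X, g • a₀ = a₀ → g • γ • a₀ = γ • a₀ → g • c = c → g = 1 := by
      intro c hca hcb g hga hgb hgc
      obtain ⟨z, hz1, hz, hza, hzb⟩ := exists_ab h hn hab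
      obtain ⟨F, hF⟩ := exists_FD h a₀
      have hcF := card_F h hf2 hab hF hz1 hz hza hzb
      obtain ⟨y, hy, hyc⟩ := (F_reg h hf2 hab hF hz1 hz hza hzb).1 c hca.symm
      have hy1 : y ≠ 1 := by
        rintro rfl
        rw [one_smul] at hyc
        exact hcb hyc.symm
      have hgy : g * y * g⁻¹ = y := by
        have h1 : (y⁻¹ * (g * y * g⁻¹)) • γ • a₀ = γ • a₀ := by
          have : g⁻¹ • γ • a₀ = γ • a₀ := by rw [inv_smul_eq_iff, hgb]
          rw [mul_smul, mul_smul, this, mul_smul, hyc, hgc, inv_smul_eq_iff, hyc]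
        have h2 := hF.semi h hab (mul_mem (inv_mem hy) (hF.nrm g hga y hy)) h1
        exact (inv_mul_eq_one.1 h2).symm
      haveI : Fact (Nat.card F).Prime := ⟨by rw [hcF]; exact hm2⟩
      have hgF : g ∈ F := by
        refine hF.cent g hga (fun x hx => ?_)
        have h1 := mem_zpowers_of_prime_card (p := Nat.card F) rfl (g := (⟨y, hy⟩ : F)) (g' := ⟨x, hx⟩)
          (fun h => hy1 (congrArg Subtype.val h))
        rw [mem_zpowers_iff] at h1
        obtain ⟨k, hk⟩ := h1
        have hk' : y ^ k = x := congrArg Subtype.val hk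
        have hc : Commute g y := by
          change g * y = y * g
          calc g * y = g * y * g⁻¹ * g := by group
            _ = y * g := by rw [hgy]
        rw [← hk']
        exact (hc.zpow_right k)
      exact hF.semi h hab hgF hgb
    intro a b c hab' hca hcb g hga hgb hgc
    obtain ⟨k, hk1, hk2⟩ := tr a b hab'
    have h1 := hs0 (k • c) (by rw [← hk1]; exact fun h => hca (MulAction.injective k h))
      (by rw [← hk2]; exact fun h => hcb (MulAction.injective k h)) (k * g * k⁻¹)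
      (by rw [← hk1, ← mul_smul]; simp only [inv_mul_cancel_right, mul_smul, hga])
      (by rw [← hk2, ← mul_smul]; simp only [inv_mul_cancel_right, mul_smul, hgb])
      (by rw [← mul_smul]; simp only [inv_mul_cancel_right, mul_smul, hgc])
    calc g = k⁻¹ * (k * g * k⁻¹) * k := by group
      _ = 1 := by rw [h1]; group
  · intro a b hab'
    obtain ⟨k, hk1, hk2⟩ := tr a b hab'
    rw [← hm1]
    refine Nat.card_congr ⟨fun x => ⟨k * x * k⁻¹, mem_inf.2 ⟨?_, ?_⟩⟩, fun x => ⟨k⁻¹ * x * k, mem_inf.2 ⟨?_, ?_⟩⟩, ?_, ?_⟩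
    · change (k * x * k⁻¹) • a₀ = a₀
      have := (mem_inf.1 x.2).1
      rw [mem_stabilizer_iff] at this
      rw [← hk1, ← mul_smul]; simp only [inv_mul_cancel_right, mul_smul, this]
    · change (k * x * k⁻¹) • γ • a₀ = γ • a₀
      have := (mem_inf.1 x.2).2
      rw [mem_stabilizer_iff] at this
      rw [← hk2, ← mul_smul]; simp only [inv_mul_cancel_right, mul_smul, this]
    · change (k⁻¹ * x * k) • a = a
      have := (mem_inf.1 x.2).1
      rw [mem_stabilizer_iff] at this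
      rw [mul_smul, hk1, mul_smul, this, ← hk1, inv_smul_smul]
    · change (k⁻¹ * x * k) • b = b
      have := (mem_inf.1 x.2).2
      rw [mem_stabilizer_iff] at this
      rw [mul_smul, hk2, mul_smul, this, ← hk2, inv_smul_smul]
    · intro x; apply Subtype.ext; change k⁻¹ * (k * x * k⁻¹) * k = x; group
    · intro x; apply Subtype.ext; change k * (k⁻¹ * x * k) * k⁻¹ = x; group
  · intro a x hxa hxb
    obtain ⟨-, -, h3⟩ := main a
    have : x ∈ Inv h a (γ • a) (γ_ne h hγ hγ1 a) γ := by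
      rw [h3]; exact mem_inf.2 ⟨hxa, hxb⟩
    exact this.2.2

end H12.Y2
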