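import Mathlib

/-!
# 2-transitive groups of even degree with a regular cyclic subgroup whose point stabilisers are Z-groups:
interface (helper12, S3252)
-/

set_option autoImplicit false

universe u v

namespace H12.Y2

open Subgroup MulAction

/-- the hypotheses: faithful, 2-transitive, even degree, stabilisers are Z-groups, `Γ` cyclic and regular -/
structure Hyp {X : Type u} [Group X] (Ω : Type v) [MulAction X Ω] (Γ : Subgroup X) : Prop where
  faith : ∀ g : X, (∀ w : Ω, g • w = w) → g = 1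
  two : ∀ a b c d : Ω, a ≠ b → c ≠ d → ∃ g : X, g • a = c ∧ g • b = d
  ev : Even (Nat.card Ω)
  zg : ∀ a : Ω, IsZGroup (stabilizer X a)
  cyc : IsCyclic Γ
  tr : ∀ a b : Ω, ∃ g ∈ Γ, g • a = b
  sr : ∀ g ∈ Γ, ∀ a : Ω, g • a = a → g = 1

/-- the conclusion: sharply 3-transitive of degree `r + 1`, `r` prime -/
structure Conc (X : Type u) [Group X] (Ω : Type v) [MulAction X Ω] : Prop where
  prime : (Nat.card Ω - 1).Prime
  sharp : ∀ a b c : Ω, a ≠ b → c ≠ a → c ≠ b → ∀ g : X, g • a = a → g • b = b → g • c = c → g = 1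
  card : ∀ a b : Ω, a ≠ b → Nat.card (stabilizer X a ⊓ stabilizer X b : Subgroup X) = Nat.card Ω - 2

/-- the theorem -/
def Y2T : Prop := ∀ (X : Type u) [Group X] [Finite X] (Ω : Type v) [Finite Ω] [Nonempty Ω] [MulAction X Ω] (Γ : Subgroup X),
  Hyp Ω Γ → Nat.card Ω = 2 ∨ Conc X Ω

end H12.Y2
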