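import Cfsg.Agent.Lib.H12.Y2D

/-!
# 2-transitive groups with Z-group stabilisers: the group on the fixed points of an involution (helper12, S3252)
-/

set_option autoImplicit false

universe u v

namespace H12.Y2

open Subgroup MulAction

variable {X : Type u} [Group X] {Ω : Type v} [MulAction X Ω] {Γ : Subgroup X}

theorem cz_comm {z : X} (g : centralizer ({z} : Set X)) : (g : X) * z = z * g := by
  have := mem_centralizer_iff.1 g.2 z rfl
  exact this.symm

theorem mem_cz {z g : X} : g ∈ centralizer ({z} : Set X) ↔ g * z = z * g := by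
  rw [mem_centralizer_iff]
  constructor
  · intro h; exact (h z rfl).symm
  · rintro h _ rfl; exact h.symm

/-- the centraliser of `z` acts on the fixed points of `z` -/
def actC (Ω : Type v) [MulAction X Ω] (z : X) : MulAction (centralizer ({z} : Set X)) {w : Ω // z • w = w} where
  smul g w := ⟨(g : X) • (w : Ω), by rw [← mul_smul, ← cz_comm, mul_smul, w.2]⟩
  one_smul w := Subtype.ext (one_smul X (w : Ω))
  mul_smul g k w := Subtype.ext (mul_smul (g : X) (k : X) (w : Ω))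

/-- the permutation representation -/
def permC (Ω : Type v) [MulAction X Ω] (z : X) : centralizer ({z} : Set X) →* Equiv.Perm {w : Ω // z • w = w} :=
  letI := actC Ω z
  MulAction.toPermHom _ _

theorem permC_apply (z : X) (g : centralizer ({z} : Set X)) (w : {w : Ω // z • w = w}) :
    ((permC Ω z g w : {w : Ω // z • w = w}) : Ω) = (g : X) • (w : Ω) := rfl

/-- the group induced on the fixed points -/
abbrev YG (Ω : Type v) [MulAction X Ω] (z : X) : Subgroup (Equiv.Perm {w : Ω // z • w = w}) := (permC Ω z).range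

/-- the image of an element -/
def toY (Ω : Type v) [MulAction X Ω] (z : X) {g : X} (hg : g * z = z * g) : YG Ω z :=
  (permC Ω z).rangeRestrict ⟨g, mem_cz.2 hg⟩

theorem toY_smul {z : X} {g : X} (hg : g * z = z * g) (w : {w : Ω // z • w = w}) :
    ((toY Ω z hg • w : {w : Ω // z • w = w}) : Ω) = g • (w : Ω) := rfl

theorem exists_toY {z : X} (y : YG Ω z) : ∃ (g : X) (hg : g * z = z * g), toY Ω z hg = y := by
  obtain ⟨y, ⟨g, rfl⟩⟩ := y
  exact ⟨g, cz_comm g, rfl⟩

/-- the regular cyclic subgroup -/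
abbrev ΔY (Ω : Type v) [MulAction X Ω] (z : X) (Γ : Subgroup X) : Subgroup (YG Ω z) :=
  (Γ.subgroupOf (centralizer ({z} : Set X))).map (permC Ω z).rangeRestrict

theorem toY_mem_Δ {z g : X} (hg : g * z = z * g) (hΓ : g ∈ Γ) : toY Ω z hg ∈ ΔY Ω z Γ :=
  ⟨⟨g, mem_cz.2 hg⟩, by rw [SetLike.mem_coe, mem_subgroupOf]; exact hΓ, rfl⟩

theorem exists_toY_Δ {z : X} {y : YG Ω z} (hy : y ∈ ΔY Ω z Γ) : ∃ (g : X) (hg : g * z = z * g), g ∈ Γ ∧ toY Ω z hg = y := by
  obtain ⟨g, hg, rfl⟩ := hy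
  rw [SetLike.mem_coe, mem_subgroupOf] at hg
  exact ⟨g, cz_comm g, hg, rfl⟩

variable [Finite X] [Finite Ω]

/-- 2-transitivity of the centraliser on the fixed points -/
theorem two_fix (h : Hyp Ω Γ) {z : X} (hz1 : z ≠ 1) (hz : z * z = 1) {a b c d : Ω} (hab : a ≠ b) (hcd : c ≠ d)
    (ha : z • a = a) (hb : z • b = b) (hc : z • c = c) (hd : z • d = d) :
    ∃ g : X, g * z = z * g ∧ g • a = c ∧ g • b = d := by
  obtain ⟨g, hg1, hg2⟩ := h.two a b c d hab hcd
  refine ⟨g, ?_, hg1, hg2⟩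
  obtain ⟨h1, h2, h3⟩ := conj_fix (g := g) hz1 hz ha
  obtain ⟨-, -, h4⟩ := conj_fix (g := g) hz1 hz hb
  rw [hg1] at h3
  rw [hg2] at h4
  have h5 := ab_uniq h hcd h1 h2 h3 h4 hz1 hz hc hd
  exact mul_inv_eq_iff_eq_mul.1 h5

/-- transitivity of the centraliser in `Γ` on the fixed points -/
theorem Γ_fix (h : Hyp Ω Γ) {z : X} (hz1 : z ≠ 1) (hz : z * z = 1) {γ : X} (hγ : γ ∈ Γ) (hγ1 : γ ≠ 1)
    (hzγ : z * γ = γ * z) {a b : Ω} (ha : z • a = a) (hb : z • b = b) :
    ∃ g ∈ Γ, g * z = z * g ∧ g • a = b := by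
  obtain ⟨g, hg, hgb⟩ := h.tr a b
  refine ⟨g, hg, ?_, hgb⟩
  obtain ⟨h1, h2, h3⟩ := conj_fix (g := g) hz1 hz ha
  have hγa : z • γ • a = γ • a := by rw [← mul_smul, hzγ, mul_smul, ha]
  have hγb : z • γ • b = γ • b := by rw [← mul_smul, hzγ, mul_smul, hb]
  obtain ⟨-, -, h4⟩ := conj_fix (g := g) hz1 hz hγa
  have h6 : g • γ • a = γ • b := by rw [← mul_smul, Γ_comm h hg hγ, mul_smul, hgb]
  rw [hgb] at h3
  rw [h6] at h4
  have h5 := ab_uniq h (γ_ne h hγ hγ1 b) h1 h2 h3 h4 hz1 hz hb hγb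
  exact mul_inv_eq_iff_eq_mul.1 h5

theorem hypY (h : Hyp Ω Γ) {z : X} (hz1 : z ≠ 1) (hz : z * z = 1) {γ : X} (hγ : γ ∈ Γ) (hγ1 : γ ≠ 1)
    (hzγ : z * γ = γ * z) : Hyp (X := YG Ω z) {w : Ω // z • w = w} (ΔY Ω z Γ) where
  faith g hg := Subtype.ext (Equiv.ext hg)
  two a b c d hab hcd := by
    obtain ⟨g, hg, h1, h2⟩ := two_fix h hz1 hz (fun h => hab (Subtype.ext h)) (fun h => hcd (Subtype.ext h))
      a.2 b.2 c.2 d.2
    exact ⟨toY Ω z hg, Subtype.ext h1, Subtype.ext h2⟩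
  ev := even_fix h hz
  zg a := by
    haveI := h.zg (a : Ω)
    let S := (stabilizer X (a : Ω)).subgroupOf (centralizer ({z} : Set X))
    let f1 : S →* stabilizer X (a : Ω) :=
      { toFun := fun x => ⟨((x : centralizer ({z} : Set X)) : X), x.2⟩
        map_one' := rfl
        map_mul' := fun _ _ => rfl }
    haveI : IsZGroup S := IsZGroup.of_injective (f := f1) (by
      intro x y hxy
      exact Subtype.ext (Subtype.ext (congrArg (fun t : stabilizer X (a : Ω) => (t : X)) hxy)))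
    let f2 : S →* stabilizer (YG Ω z) a :=
      ((permC Ω z).rangeRestrict.comp S.subtype).codRestrict _ (fun x => by
        rw [mem_stabilizer_iff]
        exact Subtype.ext x.2)
    refine IsZGroup.of_surjective (f := f2) ?_
    rintro ⟨y, hy⟩
    obtain ⟨g, hg, rfl⟩ := exists_toY y
    rw [mem_stabilizer_iff] at hy
    exact ⟨⟨⟨g, mem_cz.2 hg⟩, congrArg Subtype.val hy⟩, rfl⟩
  cyc := by
    haveI := h.cyc
    haveI : IsCyclic (Γ.subgroupOf (centralizer ({z} : Set X))) := by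
      let f1 : (Γ.subgroupOf (centralizer ({z} : Set X))) →* Γ :=
        { toFun := fun x => ⟨((x : centralizer ({z} : Set X)) : X), x.2⟩
          map_one' := rfl
          map_mul' := fun _ _ => rfl }
      exact isCyclic_of_injective f1 (by
        intro x y hxy
        exact Subtype.ext (Subtype.ext (congrArg (fun t : Γ => (t : X)) hxy)))
    exact isCyclic_of_surjective _ ((permC Ω z).rangeRestrict.subgroupMap_surjective
      (Γ.subgroupOf (centralizer ({z} : Set X))))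
  tr a b := by
    obtain ⟨g, hg, hgz, hgb⟩ := Γ_fix h hz1 hz hγ hγ1 hzγ a.2 b.2
    exact ⟨toY Ω z hgz, toY_mem_Δ hgz hg, Subtype.ext hgb⟩
  sr y hy a hya := by
    obtain ⟨g, hgz, hg, rfl⟩ := exists_toY_Δ hy
    have h1 : g = 1 := h.sr g hg a (congrArg Subtype.val hya)
    subst h1
    exact Subtype.ext (Equiv.ext fun w => Subtype.ext (one_smul X (w : Ω)))

end H12.Y2
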