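import Cfsg.Agent.Lib.H12.Y2E

/-!
# 2-transitive groups with Z-group stabilisers: centralisers of involutions (helper12, S3252)
-/

set_option autoImplicit false

universe u v

namespace H12.Y2

open Subgroup MulAction

theorem card_dvd_of_free {H S : Type*} [Group H] [Finite H] [Finite S] [MulAction H S]
    (hfree : ∀ (g : H) (s : S), g • s = s → g = 1) : Nat.card H ∣ Nat.card S := by
  have e := MulAction.selfEquivOrbitsQuotientProd (G := H) (X := S) (fun b => by
    rw [eq_bot_iff]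
    intro g hg
    rw [mem_stabilizer_iff] at hg
    exact mem_bot.2 (hfree g b hg))
  rw [Nat.card_congr e, Nat.card_prod]
  exact Dvd.intro_left _ rfl

variable {X : Type u} [Group X] {Ω : Type v} [MulAction X Ω] {Γ : Subgroup X}

/-- the local facts -/
structure Loc (Ω : Type v) [MulAction X Ω] (Γ : Subgroup X) (z γ : X) : Prop where
  z1 : z ≠ 1
  zz : z * z = 1
  γΓ : γ ∈ Γ
  γ1 : γ ≠ 1
  γγ : γ * γ = 1
  zγ : z * γ = γ * z
  third : ∃ a c : Ω, z • a = a ∧ z • c = c ∧ c ≠ a ∧ c ≠ γ • a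
  sharp : ∀ g, g * z = z * g → ∀ c d e : Ω, z • c = c → z • d = d → z • e = e → c ≠ d → e ≠ c → e ≠ d →
    g • c = c → g • d = d → g • e = e → ∀ w : Ω, z • w = w → g • w = w
  inv : ∀ c : Ω, z • c = c → ∀ x : X, x • c = c → x • γ • c = γ • c → ∀ w : Ω, z • w = w → (γ * x * γ⁻¹ * x) • w = w
  tr3 : ∀ c d e e' : Ω, z • c = c → z • d = d → z • e = e → z • e' = e' → c ≠ d → e ≠ c → e ≠ d → e' ≠ c → e' ≠ d →
    ∃ m : X, m * z = z * m ∧ m • c = c ∧ m • d = d ∧ m • e = e'
  trF : ∀ (c : Ω) (F : Subgroup X), z • c = c → FD c F → ∀ d e : Ω, z • d = d → z • e = e → d ≠ c → e ≠ c →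
    ∃ x ∈ F, x * z = z * x ∧ x • d = e

variable [Finite X] [Finite Ω]

theorem exists_Loc (h : Hyp Ω Γ) {z γ : X} (z1 : z ≠ 1) (zz : z * z = 1) (γΓ : γ ∈ Γ) (γ1 : γ ≠ 1)
    (γγ : γ * γ = 1) (zγ : z * γ = γ * z) {a : Ω} (za : z • a = a) (hf : 2 < Nat.card {w : Ω // z • w = w})
    (hC : Conc (YG Ω z) {w : Ω // z • w = w}) : Loc Ω Γ z γ := by
  classical
  have hY := hypY h z1 zz γΓ γ1 zγ
  haveI : Nonempty {w : Ω // z • w = w} := ⟨⟨a, za⟩⟩
  have hF2 : F2 (YG Ω z) {w : Ω // z • w = w} := by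
    intro t ht1 _ a b c hab hca hcb hta htb htc
    exact ht1 (hC.sharp a b c hab hca hcb t hta htb htc)
  have hγz : γ * z = z * γ := zγ.symm
  have hγY1 : toY Ω z hγz ≠ 1 := by
    intro h1
    have h2 : toY Ω z hγz • (⟨a, za⟩ : {w : Ω // z • w = w}) = ⟨a, za⟩ := by rw [h1, one_smul]
    exact γ_ne h γΓ γ1 a (congrArg Subtype.val h2).symm
  have hγY : toY Ω z hγz * toY Ω z hγz = 1 := by
    refine Subtype.ext (Equiv.ext fun w => Subtype.ext ?_)
    change γ • γ • (w : Ω) = w
    rw [← mul_smul, γγ, one_smul]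
  have hA := (thmA hY hf hF2 (toY_mem_Δ hγz γΓ) hγY1 hγY ⟨a, za⟩).2
  have hγa : z • γ • a = γ • a := by rw [← mul_smul, zγ, mul_smul, za]
  have hab : a ≠ γ • a := γ_ne h γΓ γ1 a
  -- the third point
  have hthird : ∀ p q : {w : Ω // z • w = w}, p ≠ q → ∃ c : {w : Ω // z • w = w}, c ≠ p ∧ c ≠ q := by
    intro p q hpq
    haveI : Fintype {w : Ω // z • w = w} := Fintype.ofFinite _
    by_contra hcon
    push Not at hcon
    rw [Nat.card_eq_fintype_card, ← Finset.card_univ] at hf
    have : (Finset.univ : Finset {w : Ω // z • w = w}) ⊆ {p, q} := by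
      intro c _
      rw [Finset.mem_insert, Finset.mem_singleton]
      by_cases hc : c = p
      · left; exact hc
      · right; exact hcon c hc
    have := Finset.card_le_card this
    rw [Finset.card_pair hpq] at this
    omega
  have hf4 : 4 ≤ Nat.card {w : Ω // z • w = w} := by
    obtain ⟨k, hk⟩ := hY.ev
    omega
  have hsharp : ∀ g, g * z = z * g → ∀ c d e : Ω, z • c = c → z • d = d → z • e = e → c ≠ d → e ≠ c → e ≠ d →
      g • c = c → g • d = d → g • e = e → ∀ w : Ω, z • w = w → g • w = w := by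
    intro g hg c d e hc hd he hcd hec hed hgc hgd hge w hw
    have h1 := hC.sharp ⟨c, hc⟩ ⟨d, hd⟩ ⟨e, he⟩ (fun h => hcd (congrArg Subtype.val h))
      (fun h => hec (congrArg Subtype.val h)) (fun h => hed (congrArg Subtype.val h)) (toY Ω z hg)
      (Subtype.ext hgc) (Subtype.ext hgd) (Subtype.ext hge)
    have h2 : toY Ω z hg • (⟨w, hw⟩ : {w : Ω // z • w = w}) = ⟨w, hw⟩ := by rw [h1, one_smul]
    exact congrArg Subtype.val h2
  have habz : ∀ c d : Ω, z • c = c → z • d = d → c ≠ d → ∀ x : X, x • c = c → x • d = d → x * z = z * x := by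
    intro c d hc hd hcd x hxc hxd
    obtain ⟨F, hF⟩ := exists_FD h c
    exact ab_comm h hF hcd hxc hxd hc hd
  refine ⟨z1, zz, γΓ, γ1, γγ, zγ, ?_, hsharp, ?_, ?_, ?_⟩
  · obtain ⟨c, hc1, hc2⟩ := hthird ⟨a, za⟩ ⟨γ • a, hγa⟩ (fun h => hab (congrArg Subtype.val h))
    exact ⟨a, c, za, c.2, fun h => hc1 (Subtype.ext h), fun h => hc2 (Subtype.ext h)⟩
  · intro c hc x hxc hxγc w hw
    have hγc : z • γ • c = γ • c := by rw [← mul_smul, zγ, mul_smul, hc]
    have hxz := habz c (γ • c) hc hγc (γ_ne h γΓ γ1 c) x hxc hxγc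
    have h1 := hA ⟨c, hc⟩ (toY Ω z hxz) (Subtype.ext hxc) (Subtype.ext hxγc)
    have h2 : (toY Ω z hγz * toY Ω z hxz * (toY Ω z hγz)⁻¹ * toY Ω z hxz) • (⟨w, hw⟩ : {w : Ω // z • w = w}) = ⟨w, hw⟩ := by
      rw [h1, inv_mul_cancel, one_smul]
    have hinv : (toY Ω z hγz)⁻¹ = toY Ω z hγz := inv_eq_of_mul_eq_one_left hγY
    have hinv' : γ⁻¹ = γ := inv_eq_of_mul_eq_one_left γγ
    rw [hinv, mul_smul, mul_smul, mul_smul] at h2
    rw [hinv', mul_smul, mul_smul, mul_smul]
    exact congrArg Subtype.val h2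
  · -- 3-transitivity
    intro c d e e' hc hd he he' hcd hec hed hec' hed'
    set B := {w : Ω // z • w = w} with hB
    let c' : B := ⟨c, hc⟩
    let d' : B := ⟨d, hd⟩
    have hcd' : c' ≠ d' := fun h => hcd (congrArg Subtype.val h)
    have hcard := hC.card c' d' hcd'
    haveI : Fintype B := Fintype.ofFinite B
    let f : (stabilizer (YG Ω z) c' ⊓ stabilizer (YG Ω z) d' : Subgroup (YG Ω z)) → {w : B // w ∉ ({c', d'} : Finset B)} :=
      fun y => ⟨(y : YG Ω z) • (⟨e, he⟩ : B), by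
        have h1 := (mem_inf.1 y.2).1
        have h2 := (mem_inf.1 y.2).2
        rw [mem_stabilizer_iff] at h1 h2
        rw [Finset.mem_insert, Finset.mem_singleton, not_or]
        constructor
        · intro h3
          nth_rw 2 [← h1] at h3
          exact hec (congrArg Subtype.val (MulAction.injective _ h3))
        · intro h3
          nth_rw 2 [← h2] at h3
          exact hed (congrArg Subtype.val (MulAction.injective _ h3))⟩
    have hfi : Function.Injective f := by
      intro x y hxy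
      have h3 : (x : YG Ω z) • (⟨e, he⟩ : B) = (y : YG Ω z) • (⟨e, he⟩ : B) := congrArg Subtype.val hxy
      have h4 := hC.sharp c' d' ⟨e, he⟩ hcd' (fun h => hec (congrArg Subtype.val h))
        (fun h => hed (congrArg Subtype.val h)) ((x : YG Ω z)⁻¹ * y)
        (mem_inf.1 (x⁻¹ * y).2).1 (mem_inf.1 (x⁻¹ * y).2).2 (by rw [mul_smul, ← h3, inv_smul_smul])
      exact Subtype.ext (inv_mul_eq_one.1 h4)
    have hcard2 : Nat.card {w : B // w ∉ ({c', d'} : Finset B)} = Nat.card B - 2 := by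
      rw [Nat.card_eq_fintype_card, Nat.card_eq_fintype_card, Fintype.card_subtype_compl, Fintype.card_coe,
        Finset.card_pair hcd']
    have hfb : Function.Bijective f := by
      rw [Nat.bijective_iff_injective_and_card]
      exact ⟨hfi, by rw [hcard, hcard2]⟩
    obtain ⟨y, hy⟩ := hfb.2 ⟨⟨e', he'⟩, by
      rw [Finset.mem_insert, Finset.mem_singleton, not_or]
      exact ⟨fun h => hec' (congrArg Subtype.val h), fun h => hed' (congrArg Subtype.val h)⟩⟩
    obtain ⟨m, hm, hmy⟩ := exists_toY (y : YG Ω z)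
    have h1 := (mem_inf.1 y.2).1
    have h2 := (mem_inf.1 y.2).2
    rw [mem_stabilizer_iff] at h1 h2
    have h3 : (y : YG Ω z) • (⟨e, he⟩ : B) = ⟨e', he'⟩ := congrArg Subtype.val hy
    rw [← hmy] at h1 h2 h3
    exact ⟨m, hm, congrArg Subtype.val h1, congrArg Subtype.val h2, congrArg Subtype.val h3⟩
  · -- transitivity of `C_F(z)`
    intro c F hc hF d e hd he hdc hec
    set B := {w : Ω // z • w = w} with hB
    haveI : Fintype B := Fintype.ofFinite B
    have hne : ∃ x ∈ F, x ≠ 1 ∧ x * z = z * x := by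
      by_contra hcon
      push Not at hcon
      have hab : ∀ g k : X, g • c = c → k • c = c → g * z = z * g → k * z = z * k → g * k = k * g := by
        intro g k hg hk hgz hkz
        have h1 : g * k * g⁻¹ * k⁻¹ ∈ F := hF.com g hg k hk
        have hgz' : Commute g z := hgz
        have hkz' : Commute k z := hkz
        have h2 : (g * k * g⁻¹ * k⁻¹) * z = z * (g * k * g⁻¹ * k⁻¹) :=
          (((hgz'.mul_left hkz').mul_left hgz'.inv_left).mul_left hkz'.inv_left)
        by_contra hne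
        refine hcon _ h1 ?_ h2
        intro h3
        apply hne
        rw [mul_inv_eq_one, mul_inv_eq_iff_eq_mul] at h3
        exact h3
      let c' : B := ⟨c, hc⟩
      let d' : B := ⟨d, hd⟩
      have hcd' : c' ≠ d' := fun h => hdc (congrArg Subtype.val h).symm
      have hcard := hC.card c' d' hcd'
      have h1 : Nat.card (stabilizer (YG Ω z) c' ⊓ stabilizer (YG Ω z) d' : Subgroup (YG Ω z)) = 1 := by
        rw [Subgroup.card_eq_one, eq_bot_iff]
        intro y hy
        rw [mem_inf, mem_stabilizer_iff, mem_stabilizer_iff] at hy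
        obtain ⟨m, hm, rfl⟩ := exists_toY y
        rw [mem_bot]
        refine Subtype.ext (Equiv.ext fun w => Subtype.ext ?_)
        change m • (w : Ω) = w
        have hmc : m • c = c := congrArg Subtype.val hy.1
        have hmd : m • d = d := congrArg Subtype.val hy.2
        by_cases hwc : (w : Ω) = c
        · rw [hwc]; exact hmc
        · obtain ⟨g, hg, hgc, hgd⟩ := two_fix h z1 zz (Ne.symm hdc) (Ne.symm hwc) hc hd hc w.2
          rw [← hgd, ← mul_smul, hab m g hmc hgc hm hg, mul_smul, hmd]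
      have h5 : 1 = Nat.card B - 2 := h1.symm.trans hcard
      omega
    obtain ⟨x₀, hx₀, hx₀1, hx₀z⟩ := hne
    let C : Subgroup X := F ⊓ centralizer ({z} : Set X)
    have hCm : ∀ x : C, (x : X) ∈ F ∧ (x : X) * z = z * x := fun x => ⟨(mem_inf.1 x.2).1, mem_cz.1 (mem_inf.1 x.2).2⟩
    let S := {w : B // w ≠ ⟨c, hc⟩}
    have hSfix : ∀ (x : C) (w : B), w ≠ ⟨c, hc⟩ → z • (x : X) • (w : Ω) = (x : X) • (w : Ω) ∧ (x : X) • (w : Ω) ≠ c := by
      intro x w hw
      refine ⟨by rw [← mul_smul, ← (hCm x).2, mul_smul, w.2], ?_⟩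
      intro h1
      have h2 : (x : X) • c = c := hF.le (hCm x).1
      rw [← h2] at h1
      exact hw (Subtype.ext (MulAction.injective _ h1))
    letI : MulAction C S :=
      { smul := fun x w => ⟨⟨(x : X) • ((w : B) : Ω), (hSfix x w w.2).1⟩, fun h1 =>
          (hSfix x w w.2).2 (congrArg Subtype.val h1)⟩
        one_smul := fun w => Subtype.ext (Subtype.ext (one_smul X ((w : B) : Ω)))
        mul_smul := fun g k w => Subtype.ext (Subtype.ext (mul_smul (g : X) (k : X) ((w : B) : Ω))) }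
    have hfree : ∀ (g : C) (s : S), g • s = s → g = 1 := by
      intro g s hgs
      have h1 : (g : X) • ((s : B) : Ω) = ((s : B) : Ω) := congrArg (fun t : S => ((t : B) : Ω)) hgs
      exact Subtype.ext (hF.semi h (fun h2 => s.2 (Subtype.ext h2.symm)) (hCm g).1 h1)
    have hdvd := card_dvd_of_free hfree
    have hScard : Nat.card S = Nat.card B - 1 := by
      change Nat.card {w : B // ¬ (w = ⟨c, hc⟩)} = Nat.card B - 1
      rw [Nat.card_eq_fintype_card, Nat.card_eq_fintype_card, Fintype.card_subtype_compl, Fintype.card_subtype_eq]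
    have hC1 : Nat.card C ≠ 1 := by
      intro h1
      rw [Subgroup.card_eq_one, eq_bot_iff] at h1
      exact hx₀1 (mem_bot.1 (h1 (mem_inf.2 ⟨hx₀, mem_cz.2 hx₀z⟩)))
    rw [hScard] at hdvd
    have hcc : Nat.card C = Nat.card B - 1 := (hC.prime.eq_one_or_self_of_dvd _ hdvd).resolve_left hC1
    have hbij : Function.Bijective (fun x : C => x • (⟨⟨d, hd⟩, fun h => hdc (congrArg Subtype.val h)⟩ : S)) := by
      rw [Nat.bijective_iff_injective_and_card]
      refine ⟨?_, by rw [hcc, hScard]⟩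
      intro x y hxy
      have h1 : (x⁻¹ * y) • (⟨⟨d, hd⟩, fun h => hdc (congrArg Subtype.val h)⟩ : S) = ⟨⟨d, hd⟩, fun h => hdc (congrArg Subtype.val h)⟩ := by
        rw [mul_smul, ← (show x • (⟨⟨d, hd⟩, fun h => hdc (congrArg Subtype.val h)⟩ : S) = y • ⟨⟨d, hd⟩, _⟩ from hxy), inv_smul_smul]
      exact inv_mul_eq_one.1 (hfree _ _ h1)
    obtain ⟨x, hx⟩ := hbij.2 ⟨⟨e, he⟩, fun h => hec (congrArg Subtype.val h)⟩
    exact ⟨x, (hCm x).1, (hCm x).2, congrArg (fun t : S => ((t : B) : Ω)) hx⟩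

end H12.Y2
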