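import Cfsg.Agent.Lib.H12.Y2F

/-!
# 2-transitive groups with Z-group stabilisers: the kernel on the fixed points is central (helper12, S3252)
-/

set_option autoImplicit false

universe u v

namespace H12.Y2

open Subgroup MulAction

variable {X : Type u} [Group X] {Ω : Type v} [MulAction X Ω] {Γ : Subgroup X}

/-- the pointwise stabiliser of the fixed points of `z` -/
def KK (Ω : Type v) [MulAction X Ω] (z : X) : Subgroup X where
  carrier := {g | ∀ w : Ω, z • w = w → g • w = w}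
  one_mem' := fun w _ => one_smul X w
  mul_mem' := by
    intro x y hx hy w hw
    rw [mul_smul, hy w hw, hx w hw]
  inv_mem' := by
    intro x hx w hw
    rw [inv_smul_eq_iff, hx w hw]

theorem mem_KK {z g : X} : g ∈ KK Ω z ↔ ∀ w : Ω, z • w = w → g • w = w := Iff.rfl

variable [Finite X] [Finite Ω] {z γ : X}

omit [Finite X] [Finite Ω] in
theorem Loc.γB (L : Loc Ω Γ z γ) {w : Ω} (hw : z • w = w) : z • γ • w = γ • w := by
  rw [← mul_smul, L.zγ, mul_smul, hw]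

omit [Finite X] [Finite Ω] in
theorem czB {g : X} (hg : g * z = z * g) {w : Ω} (hw : z • w = w) : z • g • w = g • w := by
  rw [← mul_smul, ← hg, mul_smul, hw]

omit [Finite X] [Finite Ω] in
theorem Loc.third' (h : Hyp Ω Γ) (L : Loc Ω Γ z γ) (p q : Ω) : ∃ e : Ω, z • e = e ∧ e ≠ p ∧ e ≠ q := by
  obtain ⟨a, c, ha, hc, hca, hcb⟩ := L.third
  have hab := γ_ne h L.γΓ L.γ1 a
  by_cases h1 : a ≠ p ∧ a ≠ q
  · exact ⟨a, ha, h1⟩
  by_cases h2 : γ • a ≠ p ∧ γ • a ≠ q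
  · exact ⟨γ • a, L.γB ha, h2⟩
  refine ⟨c, hc, ?_, ?_⟩
  · rintro rfl
    apply h1
    refine ⟨hca.symm, ?_⟩
    rintro rfl
    exact h2 ⟨hcb.symm, hab.symm⟩
  · rintro rfl
    apply h1
    refine ⟨?_, hca.symm⟩
    rintro rfl
    exact h2 ⟨hab.symm, hcb.symm⟩

omit [Finite Ω] in
theorem ab_comm' (h : Hyp Ω Γ) {c d : Ω} (hcd : c ≠ d) {x y : X} (hxc : x • c = c) (hxd : x • d = d) (hyc : y • c = c)
    (hyd : y • d = d) : x * y = y * x := by
  obtain ⟨F, hF⟩ := exists_FD h c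
  exact ab_comm h hF hcd hxc hxd hyc hyd

omit [Finite Ω] in
theorem Loc.Kz (h : Hyp Ω Γ) (L : Loc Ω Γ z γ) {k : X} (hk : k ∈ KK Ω z) : k * z = z * k := by
  obtain ⟨a, c, ha, hc, hca, hcb⟩ := L.third
  exact ab_comm' h hca (hk c hc) (hk a ha) hc ha

omit [Finite Ω] in
/-- `K` is central in the centraliser of `z` -/
theorem Loc.central (h : Hyp Ω Γ) (L : Loc Ω Γ z γ) {k g : X} (hk : k ∈ KK Ω z) (hg : g * z = z * g) :
    k * g = g * k := by
  have hkz := L.Kz h hk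
  -- commutes with `C_F(z)`
  have key : ∀ (c d : Ω) (F : Subgroup X), z • c = c → z • d = d → c ≠ d → FD c F → ∀ x ∈ F, x * z = z * x →
      Commute k x := by
    intro c d F hc hd hcd hF x hx hxz
    have h1 : k * x * k⁻¹ * x⁻¹ ∈ F := mul_mem (hF.nrm k (hk c hc) x hx) (inv_mem hx)
    have h2 : (k * x * k⁻¹ * x⁻¹) • d = d := by
      have hxz' : Commute x z := hxz
      have h3 : z • x⁻¹ • d = x⁻¹ • d := czB hxz'.inv_left hd
      have h4 : k⁻¹ • x⁻¹ • d = x⁻¹ • d := (inv_mem hk : k⁻¹ ∈ KK Ω z) _ h3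
      rw [mul_smul, mul_smul, mul_smul, h4, smul_inv_smul, hk d hd]
    have h3 := hF.semi h hcd h1 h2
    rw [mul_inv_eq_one, mul_inv_eq_iff_eq_mul] at h3
    exact h3
  obtain ⟨a, c₀, ha, hc₀, hca, hcb⟩ := L.third
  have hab := γ_ne h L.γΓ L.γ1 a
  have hb := L.γB ha
  set b := γ • a with hbdef
  obtain ⟨e, he, hea, hea'⟩ := L.third' h a (g • a)
  obtain ⟨F1, hF1⟩ := exists_FD h e
  obtain ⟨F2, hF2⟩ := exists_FD h (g • a)
  have hga := czB hg ha
  have hgb := czB hg hb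
  obtain ⟨x1, hx1, hx1z, hx1a⟩ := L.trF e F1 he hF1 a (g • a) ha hga hea.symm hea'.symm
  have hb1 := czB hx1z hb
  have hne1 : x1 • b ≠ g • a := by
    rw [← hx1a]
    exact fun h => hab (MulAction.injective x1 h).symm
  have hne2 : g • b ≠ g • a := fun h => hab (MulAction.injective g h).symm
  obtain ⟨x2, hx2, hx2z, hx2b⟩ := L.trF (g • a) F2 hga hF2 (x1 • b) (g • b) hb1 hgb hne1 hne2
  have hc1 := key e a F1 he ha hea hF1 x1 hx1 hx1z
  have hc2 := key (g • a) (g • b) F2 hga hgb hne2.symm hF2 x2 hx2 hx2z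
  have hx2a : x2 • g • a = g • a := hF2.le hx2
  have h3 : Commute k ((x2 * x1)⁻¹ * g) := by
    refine ab_comm' h hab (hk a ha) (hk b hb) ?_ ?_
    · rw [mul_smul, inv_smul_eq_iff, mul_smul, hx1a, hx2a]
    · rw [mul_smul, inv_smul_eq_iff, mul_smul, hx2b]
  have h4 := (hc2.mul_right hc1).mul_right h3
  rw [mul_inv_cancel_left] at h4
  exact h4

omit [Finite X] [Finite Ω] in
theorem Loc.zK (L : Loc Ω Γ z γ) : z ∈ KK Ω z := fun _ hw => hw

omit [Finite Ω] in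
/-- the involution of `K` -/
theorem Loc.Kinv (h : Hyp Ω Γ) (L : Loc Ω Γ z γ) {k : X} (hk : k * k = 1) {c d : Ω} (hcd : c ≠ d) (hc : z • c = c)
    (hd : z • d = d) (hkc : k • c = c) (hkd : k • d = d) : k = 1 ∨ k = z := by
  by_cases h1 : k = 1
  · exact Or.inl h1
  · exact Or.inr (ab_uniq h hcd h1 hk hkc hkd L.z1 L.zz hc hd)

/-- elements interchanging two points are involutions modulo `K` -/
theorem Loc.swap (h : Hyp Ω Γ) (L : Loc Ω Γ z γ) {g : X} (hg : g * z = z * g) {c d : Ω} (hcd : c ≠ d) (hc : z • c = c)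
    (hd : z • d = d) (h1 : g • c = d) (h2 : g • d = c) : g * g ∈ KK Ω z := by
  obtain ⟨a, -, ha, -, -, -⟩ := L.third
  have hab := γ_ne h L.γΓ L.γ1 a
  obtain ⟨k, hk, hkc, hkd⟩ := two_fix h L.z1 L.zz hcd hab hc hd ha (L.γB ha)
  have hkg : (k * g * k⁻¹) * z = z * (k * g * k⁻¹) := by
    have hk' : Commute k z := hk
    have hg' : Commute g z := hg
    exact (hk'.mul_left hg').mul_left hk'.inv_left
  have hγγ : ∀ w : Ω, γ • γ • w = w := fun w => by rw [← mul_smul, L.γγ, one_smul]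
  have hka : k⁻¹ • a = c := by rw [inv_smul_eq_iff, hkc]
  have hkb : k⁻¹ • γ • a = d := by rw [inv_smul_eq_iff, hkd]
  have h3 : ∀ w : Ω, z • w = w → (γ * (γ * (k * g * k⁻¹)) * γ⁻¹ * (γ * (k * g * k⁻¹))) • w = w := by
    refine L.inv a ha (γ * (k * g * k⁻¹)) ?_ ?_
    · rw [mul_smul, mul_smul, mul_smul, hka, h1, hkd, hγγ]
    · rw [mul_smul, mul_smul, mul_smul, hkb, h2, hkc]
  have h4 : γ * (γ * (k * g * k⁻¹)) * γ⁻¹ * (γ * (k * g * k⁻¹)) = k * (g * g) * k⁻¹ := by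
    calc γ * (γ * (k * g * k⁻¹)) * γ⁻¹ * (γ * (k * g * k⁻¹)) = (γ * γ) * (k * (g * g) * k⁻¹) := by group
      _ = k * (g * g) * k⁻¹ := by rw [L.γγ, one_mul]
  rw [h4] at h3
  have h5 := L.central h h3 hk
  have h6 : k * (g * g) = k * (k * (g * g) * k⁻¹) := by
    rw [← h5]; group
  have h7 : g * g = k * (g * g) * k⁻¹ := mul_left_cancel h6
  rw [h7]
  exact h3

end H12.Y2
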