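import Cfsg.Agent.Lib.H12.Y2G

/-!
# 2-transitive groups with Z-group stabilisers: no involution with more than two fixed points, I (helper12, S3252)
-/

set_option autoImplicit false

universe u v

namespace H12.Y2

open Subgroup MulAction

variable {X : Type u} [Group X] {Ω : Type v} [MulAction X Ω] {Γ : Subgroup X} {z γ : X} [Finite X] [Finite Ω]

/-- a generator of the regular cyclic subgroup -/
theorem Loc.exists_σ (h : Hyp Ω Γ) (_L : Loc Ω Γ z γ) : ∃ σ ∈ Γ, σ * z = z * σ ∧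
    ∀ τ ∈ Γ, τ * z = z * τ → ∃ m : ℤ, σ ^ m = τ := by
  haveI := h.cyc
  have hcyc : IsCyclic (Γ ⊓ centralizer ({z} : Set X) : Subgroup X) := Subgroup.isCyclic_of_le inf_le_left
  obtain ⟨⟨σ, hσ⟩, hgen⟩ := hcyc.exists_generator
  refine ⟨σ, (mem_inf.1 hσ).1, mem_cz.1 (mem_inf.1 hσ).2, ?_⟩
  intro τ hτ hτz
  obtain ⟨m, hm⟩ := mem_zpowers_iff.1 (hgen ⟨τ, mem_inf.2 ⟨hτ, mem_cz.2 hτz⟩⟩)
  exact ⟨m, congrArg Subtype.val hm⟩

/-- data: the generator `σ`, a point `a` -/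
structure Sd (Ω : Type v) [MulAction X Ω] (Γ : Subgroup X) (z γ σ : X) (a : Ω) : Prop where
  za : z • a = a
  σΓ : σ ∈ Γ
  σz : σ * z = z * σ
  gen : ∀ τ ∈ Γ, τ * z = z * τ → ∃ m : ℤ, σ ^ m = τ
  ne1 : σ • a ≠ a
  ne2 : σ • a ≠ σ⁻¹ • a
  σγ : σ ≠ γ

theorem Loc.exists_Sd (h : Hyp Ω Γ) (L : Loc Ω Γ z γ) : ∃ σ a, Sd Ω Γ z γ σ a := by
  obtain ⟨σ, hσ, hσz, hgen⟩ := L.exists_σ h
  obtain ⟨a, c, ha, hc, hca, hcb⟩ := L.third
  have hσσ : σ * σ ≠ 1 := by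
    intro h1
    -- then `Γ_f = {1, σ}`
    have h2 : ∀ τ ∈ Γ, τ * z = z * τ → τ = 1 ∨ τ = σ := by
      intro τ hτ hτz
      obtain ⟨m, rfl⟩ := hgen τ hτ hτz
      rcases Int.even_or_odd' m with ⟨k, rfl | rfl⟩
      · left; rw [zpow_mul, zpow_two, h1, one_zpow]
      · right; rw [zpow_add, zpow_mul, zpow_two, h1, one_zpow, one_mul, zpow_one]
    have h3 := (h2 γ L.γΓ L.zγ.symm).resolve_left L.γ1
    obtain ⟨g, hg, hgz, hgc⟩ := Γ_fix h L.z1 L.zz L.γΓ L.γ1 L.zγ ha hc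
    rcases h2 g hg hgz with h4 | h4
    · rw [h4, one_smul] at hgc; exact hca hgc.symm
    · rw [h4, ← h3] at hgc; exact hcb hgc.symm
  refine ⟨σ, a, ha, hσ, hσz, hgen, ?_, ?_, ?_⟩
  · intro h1
    apply hσσ
    rw [h.sr σ hσ a h1, one_mul]
  · intro h1
    apply hσσ
    refine h.sr (σ * σ) (mul_mem hσ hσ) a ?_
    rw [mul_smul, h1, smul_inv_smul]
  · rintro rfl
    exact hσσ L.γγ

/-- the involution `q` of `X_ab` modulo `K` inverts `σ` -/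
theorem Loc.exists_q (h : Hyp Ω Γ) (L : Loc Ω Γ z γ) {σ : X} {a : Ω} (S : Sd Ω Γ z γ σ a) :
    ∃ q κ : X, q * z = z * q ∧ q • a = a ∧ q ∉ KK Ω z ∧ q * q ∈ KK Ω z ∧ κ ∈ KK Ω z ∧ q * σ * q⁻¹ = σ⁻¹ * κ := by
  have hσz' : Commute σ z := S.σz
  have hσi : σ⁻¹ * z = z * σ⁻¹ := hσz'.inv_left
  have hσa := czB S.σz S.za
  have hσia := czB hσi S.za
  have hne3 : σ⁻¹ • a ≠ a := by
    intro h1
    rw [inv_smul_eq_iff] at h1
    exact S.ne1 h1.symm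
  obtain ⟨g, hg, hga, hgσ⟩ := two_fix h L.z1 L.zz S.ne1.symm hne3.symm S.za hσa S.za hσia
  have he := czB hg hσia
  have hea : g • σ⁻¹ • a ≠ a := by
    intro h1
    nth_rw 2 [← hga] at h1
    exact hne3 (MulAction.injective g h1)
  have heb : g • σ⁻¹ • a ≠ σ⁻¹ • a := by
    intro h1
    rw [← hgσ] at h1
    have h2 := MulAction.injective g h1
    rw [hgσ] at h2
    exact S.ne2 h2.symm
  obtain ⟨m, hm, hma, hmb, hme⟩ := L.tr3 a (σ⁻¹ • a) (g • σ⁻¹ • a) (σ • a) S.za hσia he hσa hne3.symm hea heb S.ne1 S.ne2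
  have hqz : (m * g) * z = z * (m * g) := by
    have hm' : Commute m z := hm
    have hg' : Commute g z := hg
    exact hm'.mul_left hg'
  set q := m * g with hq
  have hqa : q • a = a := by rw [hq, mul_smul, hga, hma]
  have hq1 : q • σ • a = σ⁻¹ • a := by rw [hq, mul_smul, hgσ, hmb]
  have hq2 : q • σ⁻¹ • a = σ • a := by rw [hq, mul_smul, hme]
  have hqq : q * q ∈ KK Ω z := L.swap h hqz S.ne2 hσa hσia hq1 hq2
  have hqσz : (q * σ) * z = z * (q * σ) := by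
    have hq' : Commute q z := hqz
    exact hq'.mul_left hσz'
  have hqσ : (q * σ) * (q * σ) ∈ KK Ω z := by
    refine L.swap h hqσz hne3.symm S.za hσia ?_ ?_
    · rw [mul_smul, hq1]
    · rw [mul_smul, smul_inv_smul, hqa]
  refine ⟨q, σ * (q * σ * q⁻¹), hqz, hqa, ?_, hqq, ?_, by group⟩
  · intro h1
    have := h1 (σ • a) hσa
    rw [hq1] at this
    exact S.ne2 this.symm
  · -- `σ q σ q⁻¹ = q⁻¹ (q σ q σ) (q q)⁻¹ q`
    have h1 : σ * (q * σ * q⁻¹) = q⁻¹ * (((q * σ) * (q * σ)) * (q * q)⁻¹) * q := by group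
    have h2 := L.central h (mul_mem hqσ (inv_mem hqq)) hqz
    rw [h1, mul_assoc, h2, ← mul_assoc, inv_mul_cancel, one_mul]
    exact mul_mem hqσ (inv_mem hqq)

omit [Finite X] [Finite Ω] in
/-- powers of the inversion relation -/
theorem inv_pow_rel {q σ κ : X} (hrel : q * σ * q⁻¹ = σ⁻¹ * κ) (hc : Commute κ σ) (m : ℤ) :
    q * σ ^ m * q⁻¹ = (σ ^ m)⁻¹ * κ ^ m := by
  have h1 : q * σ ^ m * q⁻¹ = (q * σ * q⁻¹) ^ m := by rw [conj_zpow]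
  rw [h1, hrel, (hc.inv_right.symm).mul_zpow, inv_zpow]

/-- uniqueness of `q` modulo `K` -/
theorem Loc.q_uniq (h : Hyp Ω Γ) (L : Loc Ω Γ z γ) {c d : Ω} (hcd : c ≠ d) (hc : z • c = c) (hd : z • d = d)
    {q y : X} (hqc : q • c = c) (hqd : q • d = d) (hyc : y • c = c) (hyd : y • d = d) (hq : q ∉ KK Ω z)
    (hqq : q * q ∈ KK Ω z) (hyy : y * y ∈ KK Ω z) : y ∈ KK Ω z ∨ q⁻¹ * y ∈ KK Ω z := by
  by_cases hy : y ∈ KK Ω z
  · exact Or.inl hy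
  right
  haveI := ab_cyc h hcd
  set A := (stabilizer X c ⊓ stabilizer X d : Subgroup X) with hA
  let K' : Subgroup A := (KK Ω z).subgroupOf A
  haveI hK' : K'.Normal := ⟨fun n hn g => by
    have hgz : (g : X) * z = z * g := ab_comm' h hcd (mem_inf.1 g.2).1 (mem_inf.1 g.2).2 hc hd
    have h1 := L.central h (mem_subgroupOf.1 hn) hgz
    rw [mem_subgroupOf]
    have h2 : ((g * n * g⁻¹ : A) : X) = n := by
      change (g : X) * n * (g : X)⁻¹ = n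
      rw [← h1]; group
    rw [h2]
    exact mem_subgroupOf.1 hn⟩
  haveI : IsCyclic (A ⧸ K') := isCyclic_of_surjective (QuotientGroup.mk' K') (QuotientGroup.mk'_surjective K')
  let q' : A := ⟨q, mem_inf.2 ⟨hqc, hqd⟩⟩
  let y' : A := ⟨y, mem_inf.2 ⟨hyc, hyd⟩⟩
  have h1 : (QuotientGroup.mk' K') q' = (QuotientGroup.mk' K') y' := by
    refine cyc_invol ?_ ?_ ?_ ?_
    · rw [Ne, QuotientGroup.mk'_apply, QuotientGroup.eq_one_iff]; exact hq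
    · rw [← map_mul, QuotientGroup.mk'_apply, QuotientGroup.eq_one_iff]; exact hqq
    · rw [Ne, QuotientGroup.mk'_apply, QuotientGroup.eq_one_iff]; exact hy
    · rw [← map_mul, QuotientGroup.mk'_apply, QuotientGroup.eq_one_iff]; exact hyy
  rw [QuotientGroup.mk'_apply, QuotientGroup.mk'_apply, QuotientGroup.eq] at h1
  exact h1

/-- normal form of elements interchanging two points -/
theorem Loc.swap_form (h : Hyp Ω Γ) (L : Loc Ω Γ z γ) {a : Ω} (ha : z • a = a) {x₀ : X}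
    (hx₀ : ∀ x : X, x • a = a → x • γ • a = γ • a → ∃ m : ℤ, x₀ ^ m = x) {g : X} (hg : g * z = z * g) {c : Ω}
    (hc : z • c = c) (hgc : g • c ≠ c) (hgg : g • g • c = c) :
    ∃ (k : X) (m : ℤ), k * z = z * k ∧ k * g * k⁻¹ = γ * x₀ ^ m := by
  have hab := γ_ne h L.γΓ L.γ1 a
  obtain ⟨k, hk, hkc, hkd⟩ := two_fix h L.z1 L.zz hgc.symm hab hc (czB hg hc) ha (L.γB ha)
  have hγγ : ∀ w : Ω, γ • γ • w = w := fun w => by rw [← mul_smul, L.γγ, one_smul]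
  have hka : k⁻¹ • a = c := by rw [inv_smul_eq_iff, hkc]
  have hkb : k⁻¹ • γ • a = g • c := by rw [inv_smul_eq_iff, hkd]
  obtain ⟨m, hm⟩ := hx₀ (γ * (k * g * k⁻¹)) (by rw [mul_smul, mul_smul, mul_smul, hka, hkd, hγγ])
    (by rw [mul_smul, mul_smul, mul_smul, hkb, hgg, hkc])
  refine ⟨k, m, hk, ?_⟩
  rw [hm, ← mul_assoc, L.γγ, one_mul]

/-- conjugation changes the exponent by even numbers -/
theorem Loc.even_conj (h : Hyp Ω Γ) (L : Loc Ω Γ z γ) {a : Ω} (ha : z • a = a) {x₀ : X}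
    (hxa : x₀ • a = a) (hxb : x₀ • γ • a = γ • a) (i m : ℤ) :
    ∃ κ ∈ KK Ω z, x₀ ^ (-i) * (γ * x₀ ^ m) * (x₀ ^ (-i))⁻¹ = γ * x₀ ^ (m + 2 * i) * κ := by
  have h1 := L.inv a ha (x₀ ^ (-i)) (zpow_fix hxa _) (zpow_fix hxb _)
  change γ * x₀ ^ (-i) * γ⁻¹ * x₀ ^ (-i) ∈ KK Ω z at h1
  have hxz : x₀ * z = z * x₀ := ab_comm' h (γ_ne h L.γΓ L.γ1 a) hxa hxb ha (L.γB ha)
  have hxz' : Commute x₀ z := hxz
  set κ := γ * x₀ ^ (-i) * γ⁻¹ * x₀ ^ (-i) with hκ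
  have h2 := L.central h h1 ((hxz'.zpow_left (m + 2 * i)).eq)
  refine ⟨κ, h1, ?_⟩
  have hγi : γ⁻¹ = γ := inv_eq_of_mul_eq_one_left L.γγ
  calc x₀ ^ (-i) * (γ * x₀ ^ m) * (x₀ ^ (-i))⁻¹
      = γ * (γ⁻¹ * x₀ ^ (-i) * γ) * (x₀ ^ (-i)) * x₀ ^ (m + 2 * i) := by
        rw [zpow_add, zpow_mul, zpow_two, zpow_neg]
        have hc : Commute (x₀ ^ m) (x₀ ^ i) := (Commute.refl x₀).zpow_zpow m i
        have e : ((x₀ ^ i) ^ (2 : ℤ)) = x₀ ^ i * x₀ ^ i := zpow_two _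
        simp only [inv_inv]
        have h5 : (x₀ * x₀) ^ i = x₀ ^ i * x₀ ^ i := (Commute.refl x₀).mul_zpow i
        rw [h5, ← mul_assoc (x₀ ^ m), hc.eq]
        calc (x₀ ^ i)⁻¹ * (γ * x₀ ^ m) * x₀ ^ i = (x₀ ^ i)⁻¹ * γ * (x₀ ^ m * x₀ ^ i) := by group
          _ = (x₀ ^ i)⁻¹ * γ * (x₀ ^ i * x₀ ^ m) := by rw [hc.eq]
          _ = _ := by
            have h6 : x₀ ^ i * x₀ ^ m * x₀ ^ i = x₀ ^ i * (x₀ ^ i * x₀ ^ m) := by
              rw [mul_assoc, hc.eq]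
            rw [h6]; group
    _ = γ * κ * x₀ ^ (m + 2 * i) := by rw [hκ, hγi]; group
    _ = γ * x₀ ^ (m + 2 * i) * κ := by rw [mul_assoc, h2, ← mul_assoc]

end H12.Y2
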