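import Cfsg.Agent.Lib.H12.Y2H

/-!
# 2-transitive groups with Z-group stabilisers: no involution with more than two fixed points, II (helper12, S3252)
-/

set_option autoImplicit false

universe u v

namespace H12.Y2

open Subgroup MulAction

variable {X : Type u} [Group X] {Ω : Type v} [MulAction X Ω] {Γ : Subgroup X} {z γ : X} [Finite X] [Finite Ω]

omit [Finite X] [Finite Ω] in
theorem inv_cz {k : X} (hk : k * z = z * k) : k⁻¹ * z = z * k⁻¹ := by
  have hk' : Commute k z := hk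
  exact hk'.inv_left

omit [Finite X] [Finite Ω] in
theorem mul_cz {k l : X} (hk : k * z = z * k) (hl : l * z = z * l) : (k * l) * z = z * (k * l) := by
  have hk' : Commute k z := hk
  have hl' : Commute l z := hl
  exact hk'.mul_left hl'

/-- fixed-point-free involutions modulo `K` are conjugate to `γ` modulo `K` -/
theorem Loc.conj_γ (h : Hyp Ω Γ) (L : Loc Ω Γ z γ) {g : X} (hg : g * z = z * g) {c : Ω} (hc : z • c = c)
    (hgg : g • g • c = c) (hfpf : ∀ w : Ω, z • w = w → g • w ≠ w) :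
    ∃ k κ : X, k * z = z * k ∧ κ ∈ KK Ω z ∧ k * g * k⁻¹ = γ * κ := by
  obtain ⟨σ, a, S⟩ := L.exists_Sd h
  obtain ⟨q, -, hqz, hqa, hqK, hqq, -, -⟩ := L.exists_q h S
  have ha := S.za
  have hab := γ_ne h L.γΓ L.γ1 a
  obtain ⟨x₀, hxa, hxb, hx₀⟩ : ∃ x₀ : X, x₀ • a = a ∧ x₀ • γ • a = γ • a ∧
      ∀ x : X, x • a = a → x • γ • a = γ • a → ∃ m : ℤ, x₀ ^ m = x := by
    haveI := ab_cyc h hab
    obtain ⟨⟨x₀, hx₀⟩, hgen⟩ := IsCyclic.exists_generator (α := (stabilizer X a ⊓ stabilizer X (γ • a) : Subgroup X))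
    refine ⟨x₀, (mem_inf.1 hx₀).1, (mem_inf.1 hx₀).2, ?_⟩
    intro x hxa hxb
    obtain ⟨m, hm⟩ := mem_zpowers_iff.1 (hgen ⟨x, mem_inf.2 ⟨hxa, hxb⟩⟩)
    exact ⟨m, congrArg Subtype.val hm⟩
  have hxz : x₀ * z = z * x₀ := ab_comm' h hab hxa hxb ha (L.γB ha)
  have hxz' : Commute x₀ z := hxz
  obtain ⟨k₁, m, hk₁, hm⟩ := L.swap_form h ha hx₀ hg hc (hfpf c hc) hgg
  rcases Int.even_or_odd' m with ⟨i, hi | hi⟩
  · obtain ⟨κ, hκ, hκ'⟩ := L.even_conj h ha hxa hxb (-i) m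
    have e : m + 2 * -i = 0 := by rw [hi]; ring
    rw [e, zpow_zero, mul_one, ← hm] at hκ'
    refine ⟨x₀ ^ (- -i) * k₁, κ, mul_cz (hxz'.zpow_left _) hk₁, hκ, ?_⟩
    rw [← hκ']; group
  · exfalso
    obtain ⟨e, he, hqe⟩ : ∃ e : Ω, z • e = e ∧ q • e ≠ e := by
      by_contra hcon
      push Not at hcon
      exact hqK hcon
    have hqqe : q • q • e = e := by rw [← mul_smul]; exact hqq e he
    obtain ⟨k₂, m', hk₂, hm'⟩ := L.swap_form h ha hx₀ hqz he hqe hqqe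
    rcases Int.even_or_odd' m' with ⟨j, hj | hj⟩
    · obtain ⟨κ, hκ, hκ'⟩ := L.even_conj h ha hxa hxb (-j) m'
      have e : m' + 2 * -j = 0 := by rw [hj]; ring
      rw [e, zpow_zero, mul_one, ← hm'] at hκ'
      have hp : z • (x₀ ^ (- -j) • k₂ • a) = x₀ ^ (- -j) • k₂ • a :=
        czB (hxz'.zpow_left _) (czB hk₂ ha)
      have h1 : (x₀ ^ (- -j) * (k₂ * q * k₂⁻¹) * (x₀ ^ (- -j))⁻¹) • (x₀ ^ (- -j) • k₂ • a) = x₀ ^ (- -j) • k₂ • a := by
        rw [mul_smul, inv_smul_smul, mul_smul, mul_smul, inv_smul_smul, mul_smul, hqa]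
      rw [hκ', mul_smul, hκ _ hp] at h1
      exact γ_ne h L.γΓ L.γ1 _ h1.symm
    · obtain ⟨κ, hκ, hκ'⟩ := L.even_conj h ha hxa hxb (j - i) m
      have e : m + 2 * (j - i) = m' := by rw [hi, hj]; ring
      rw [e, ← hm, ← hm'] at hκ'
      have hp : z • (k₂ • a) = k₂ • a := czB hk₂ ha
      have h1 : (k₂ * q * k₂⁻¹ * κ) • (k₂ • a) = k₂ • a := by
        rw [mul_smul, hκ _ hp, mul_smul, inv_smul_smul, mul_smul, hqa]
      rw [← hκ'] at h1
      set y := x₀ ^ (-(j - i)) with hy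
      have hyz : y * z = z * y := hxz'.zpow_left _
      have h2 : g • (k₁⁻¹ • y⁻¹ • k₂ • a) = k₁⁻¹ • y⁻¹ • k₂ • a := by
        rw [mul_smul, mul_smul, mul_smul, mul_smul] at h1
        have h3 := congrArg (fun t => k₁⁻¹ • y⁻¹ • t) h1
        simp only [inv_smul_smul] at h3
        exact h3
      exact hfpf _ (czB (inv_cz hk₁) (czB (inv_cz hyz) hp)) h2

/-- `γ z` has fixed points -/
theorem Loc.γz_fix (h : Hyp Ω Γ) (L : Loc Ω Γ z γ) (hn : 2 < Nat.card Ω) : ∃ c : Ω, (γ * z) • c = c := by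
  obtain ⟨c, hc⟩ : ∃ c : Ω, z • c ≠ c := by
    by_contra hcon
    push Not at hcon
    exact L.z1 (h.faith z hcon)
  obtain ⟨s, hs1, hs, hsc, -, hsz, hsz'⟩ := exists_sc h hn L.z1 L.zz (Ne.symm hc)
  obtain ⟨a, -, ha, -, -, -⟩ := L.third
  obtain ⟨k, κ, hk, hκ, hkκ⟩ := L.conj_γ h hsz ha (by rw [← mul_smul, hs, one_smul]) (fun w hw hsw =>
    hsz' (eq_of_commute h hs1 hs L.z1 L.zz hsz hsw hw))
  have h1 : (γ * κ) • k • c = k • c := by
    rw [← hkκ, mul_smul, inv_smul_smul, mul_smul, hsc]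
  have hκγ := L.central h hκ L.zγ.symm
  have h2 : κ * κ = 1 := by
    have h3 : (γ * κ) * (γ * κ) = 1 := by
      rw [← hkκ]
      calc k * s * k⁻¹ * (k * s * k⁻¹) = k * (s * s) * k⁻¹ := by group
        _ = 1 := by rw [hs]; group
    calc κ * κ = (γ * γ) * (κ * κ) := by rw [L.γγ, one_mul]
      _ = γ * (γ * κ) * κ := by group
      _ = γ * (κ * γ) * κ := by rw [hκγ]
      _ = (γ * κ) * (γ * κ) := by group
      _ = 1 := h3
  rcases L.Kinv h h2 (γ_ne h L.γΓ L.γ1 a) ha (L.γB ha) (hκ a ha) (hκ _ (L.γB ha)) with h3 | h3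
  · rw [h3, mul_one] at h1
    exact absurd h1.symm (γ_ne h L.γΓ L.γ1 _)
  · exact ⟨k • c, by rw [← h3]; exact h1⟩

/-- the relations satisfied by `q` and the involution `u` -/
theorem Loc.exists_u (h : Hyp Ω Γ) (L : Loc Ω Γ z γ) (hn : 2 < Nat.card Ω) {σ : X} {a : Ω} (S : Sd Ω Γ z γ σ a)
    {q κ : X} (hqz : q * z = z * q) (hqa : q • a = a) (hκ : κ ∈ KK Ω z)
    (hrel : q * σ * q⁻¹ = σ⁻¹ * κ) :
    ∃ u κ' : X, κ' ∈ KK Ω z ∧ u = q * σ * κ' ∧ u ≠ 1 ∧ u * u = 1 ∧ (∃ c : Ω, u • c = c) ∧ q * γ = γ * q := by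
  have hσz := S.σz
  have hκσ : Commute κ σ := L.central h hκ hσz
  have hqσz := mul_cz hqz hσz
  have hqi : q⁻¹ • a = a := by rw [inv_smul_eq_iff, hqa]
  -- `q σ` is fixed-point-free on the fixed points of `z`
  obtain ⟨i, hi⟩ := S.gen γ L.γΓ L.zγ.symm
  have hfpf : ∀ w : Ω, z • w = w → (q * σ) • w ≠ w := by
    intro w hw hqw
    obtain ⟨τ, hτ, hτz, hτa⟩ := Γ_fix h L.z1 L.zz L.γΓ L.γ1 L.zγ S.za hw
    obtain ⟨j, hj⟩ := S.gen τ hτ hτz
    have h1 := inv_pow_rel hrel hκσ (1 + j)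
    have h2 : (q * σ ^ (1 + j) * q⁻¹) • a = τ • a := by
      rw [mul_smul, hqi, zpow_add, zpow_one, hj, ← mul_assoc, mul_smul, hτa, hqw]
    rw [h1, mul_smul] at h2
    have h3 : κ ^ (1 + j) • a = a := zpow_fix (hκ a S.za) _
    rw [h3, inv_smul_eq_iff, ← hj, ← mul_smul, ← zpow_add] at h2
    have h4 := h.sr (σ ^ (1 + j + j)) (Γ.zpow_mem S.σΓ _) a h2.symm
    -- `γ ^ (1 + 2 j) = 1`
    have h5 : γ ^ (1 + j + j) = 1 := by
      rw [← hi, ← zpow_mul, mul_comm, zpow_mul, h4, one_zpow]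
    have h6 : γ ^ (1 + j + j) = γ := by
      have : 1 + j + j = 1 + 2 * j := by ring
      rw [this, zpow_add, zpow_one, zpow_mul, zpow_two, L.γγ, one_zpow, mul_one]
    rw [h6] at h5
    exact L.γ1 h5
  have hsw : (q * σ) • (q * σ) • σ⁻¹ • a = σ⁻¹ • a := by
    have h1 : (q * σ) • σ⁻¹ • a = a := by rw [mul_smul, smul_inv_smul, hqa]
    have h2 : q * σ = σ⁻¹ * κ * q := by rw [← hrel]; group
    rw [h1, h2, mul_smul, hqa, mul_smul, hκ a S.za]
  have hσia := czB (inv_cz hσz) S.za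
  obtain ⟨k, κ₁, hk, hκ₁, hkκ⟩ := L.conj_γ h hqσz hσia hsw hfpf
  obtain ⟨c, hc⟩ := L.γz_fix h hn
  have hκ₁k := L.central h hκ₁ hk
  -- the involution `u`
  have hu : k⁻¹ * (γ * z) * k = q * σ * (κ₁⁻¹ * z) := by
    have h1 : k⁻¹ * γ * k = q * σ * κ₁⁻¹ := by
      have h2 : γ = k * (q * σ) * k⁻¹ * κ₁⁻¹ := by rw [hkκ]; group
      have h3 : κ₁⁻¹ * k = k * κ₁⁻¹ := by
        have : Commute κ₁ k := hκ₁k
        exact this.inv_left
      rw [h2]
      calc k⁻¹ * (k * (q * σ) * k⁻¹ * κ₁⁻¹) * k = (q * σ) * k⁻¹ * (κ₁⁻¹ * k) := by group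
        _ = q * σ * κ₁⁻¹ := by rw [h3]; group
    calc k⁻¹ * (γ * z) * k = k⁻¹ * γ * (z * k) := by group
      _ = k⁻¹ * γ * k * z := by rw [← hk]; group
      _ = q * σ * (κ₁⁻¹ * z) := by rw [h1]; group
  have hγz1 : γ * z ≠ 1 := by
    intro h1
    have h2 : γ = z := by
      rw [eq_inv_of_mul_eq_one_left h1, inv_eq_of_mul_eq_one_left L.zz]
    have h3 := S.za
    rw [← h2] at h3
    exact γ_ne h L.γΓ L.γ1 a h3.symm
  have hγzz : (γ * z) * (γ * z) = 1 := by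
    calc (γ * z) * (γ * z) = γ * (z * γ) * z := by group
      _ = (γ * γ) * (z * z) := by rw [L.zγ]; group
      _ = 1 := by rw [L.γγ, L.zz, one_mul]
  -- `q` commutes with `γ`
  have hqγ : q * γ * q⁻¹ = γ * κ ^ i := by
    have h1 := inv_pow_rel hrel hκσ i
    rw [hi] at h1
    rw [h1, inv_eq_of_mul_eq_one_left L.γγ]
  have hκi : κ ^ i ∈ KK Ω z := (KK Ω z).zpow_mem hκ i
  have hκiγ := L.central h hκi L.zγ.symm
  have h2 : κ ^ i * κ ^ i = 1 := by
    have h3 : (γ * κ ^ i) * (γ * κ ^ i) = 1 := by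
      rw [← hqγ]
      calc q * γ * q⁻¹ * (q * γ * q⁻¹) = q * (γ * γ) * q⁻¹ := by group
        _ = 1 := by rw [L.γγ]; group
    calc κ ^ i * κ ^ i = (γ * γ) * (κ ^ i * κ ^ i) := by rw [L.γγ, one_mul]
      _ = γ * (γ * κ ^ i) * κ ^ i := by simp only [mul_assoc]
      _ = γ * (κ ^ i * γ) * κ ^ i := by rw [hκiγ]
      _ = (γ * κ ^ i) * (γ * κ ^ i) := by simp only [mul_assoc]
      _ = 1 := h3
  have hqγ' : q * γ = γ * q := by
    rcases L.Kinv h h2 (γ_ne h L.γΓ L.γ1 a) S.za (L.γB S.za) (hκi a S.za) (hκi _ (L.γB S.za)) with h3 | h3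
    · rw [h3, mul_one] at hqγ
      exact mul_inv_eq_iff_eq_mul.1 hqγ
    · exfalso
      rw [h3] at hqγ
      have h4 : γ • q⁻¹ • c = q⁻¹ • c := by
        have h5 : (q * γ * q⁻¹) • c = c := by rw [hqγ]; exact hc
        rw [mul_smul, mul_smul] at h5
        rw [eq_inv_smul_iff]
        exact h5
      exact γ_ne h L.γΓ L.γ1 _ h4.symm
  refine ⟨q * σ * (κ₁⁻¹ * z), κ₁⁻¹ * z, mul_mem (inv_mem hκ₁) L.zK, rfl, ?_, ?_, ⟨k⁻¹ • c, ?_⟩, hqγ'⟩
  · rw [← hu]
    intro h1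
    apply hγz1
    calc γ * z = k * (k⁻¹ * (γ * z) * k) * k⁻¹ := by group
      _ = 1 := by rw [h1]; group
  · rw [← hu]
    calc k⁻¹ * (γ * z) * k * (k⁻¹ * (γ * z) * k) = k⁻¹ * ((γ * z) * (γ * z)) * k := by group
      _ = 1 := by rw [hγzz]; group
  · rw [← hu, mul_smul, smul_inv_smul, mul_smul, hc]

/-- the final contradiction -/
theorem Loc.false (h : Hyp Ω Γ) (L : Loc Ω Γ z γ) (hn : 2 < Nat.card Ω) : False := by
  obtain ⟨σ, a, S⟩ := L.exists_Sd h
  obtain ⟨q, κ, hqz, hqa, hqK, hqq, hκ, hrel⟩ := L.exists_q h S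
  obtain ⟨u, κ', hκ', hu, hu1, huu, ⟨c, hc⟩, hqγ⟩ := L.exists_u h hn S hqz hqa hκ hrel
  have hσz := S.σz
  have hab := γ_ne h L.γΓ L.γ1 a
  have hκσ : Commute κ σ := L.central h hκ hσz
  have hκq : Commute κ q := L.central h hκ hqz
  have hκ'σ : Commute κ' σ := L.central h hκ' hσz
  have hκ'q : Commute κ' q := L.central h hκ' hqz
  have hγσ : Commute γ σ := Γ_comm h L.γΓ S.σΓ
  have hqγ' : Commute q γ := hqγ
  have hκ'γ : Commute κ' γ := L.central h hκ' L.zγ.symm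
  have huγ : Commute u γ := by
    rw [hu]
    exact (hqγ'.mul_left hγσ.symm).mul_left hκ'γ
  have huz : u * z = z * u := by
    rw [hu]
    exact mul_cz (mul_cz hqz hσz) (L.Kz h hκ')
  -- `u σ u⁻¹ = σ⁻¹ κ`
  have huσ : u * σ * u⁻¹ = σ⁻¹ * κ := by
    rw [hu, ← hrel]
    calc q * σ * κ' * σ * (q * σ * κ')⁻¹ = q * σ * (κ' * σ) * κ'⁻¹ * σ⁻¹ * q⁻¹ := by group
      _ = q * σ * q⁻¹ := by rw [hκ'σ.eq]; group
  -- `κ q² κ'² = 1`
  have hκrel : κ * (q * q) * (κ' * κ') = 1 := by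
    have h1 : q * σ = σ⁻¹ * κ * q := by rw [← hrel]; group
    calc κ * (q * q) * (κ' * κ') = σ⁻¹ * (σ * κ) * (q * q) * (κ' * κ') := by group
      _ = σ⁻¹ * (κ * σ) * (q * q) * (κ' * κ') := by rw [hκσ.eq]
      _ = σ⁻¹ * κ * (σ * (q * q)) * (κ' * κ') := by group
      _ = σ⁻¹ * κ * ((q * q) * σ) * (κ' * κ') := by rw [(L.central h hqq hσz)]
      _ = (σ⁻¹ * κ * q) * q * σ * κ' * κ' := by group
      _ = (q * σ) * q * (σ * κ') * κ' := by rw [← h1]; group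
      _ = (q * σ) * q * (κ' * σ) * κ' := by rw [hκ'σ.eq]
      _ = (q * σ) * (q * κ') * σ * κ' := by group
      _ = (q * σ) * (κ' * q) * σ * κ' := by rw [hκ'q.eq]
      _ = (q * σ * κ') * (q * σ * κ') := by group
      _ = 1 := by rw [← hu]; exact huu
  -- `z` is a power of `κ`
  have hzκ : ∃ m : ℤ, κ ^ m = z := by
    rcases Nat.even_or_odd' (orderOf κ) with ⟨m, hm | hm⟩
    · have hm0 : 0 < m := by have := orderOf_pos κ; omega
      have h1 : κ ^ m * κ ^ m = 1 := by rw [← pow_add, ← two_mul, ← hm, pow_orderOf_eq_one]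
      have h2 : κ ^ m ≠ 1 := by
        intro h3
        have := Nat.le_of_dvd hm0 (orderOf_dvd_of_pow_eq_one h3)
        omega
      have h3 : κ ^ m ∈ KK Ω z := pow_mem hκ m
      refine ⟨m, ?_⟩
      rw [zpow_natCast]
      exact (L.Kinv h h1 hab S.za (L.γB S.za) (h3 a S.za) (h3 _ (L.γB S.za))).resolve_left h2
    · exfalso
      set lam := κ ^ (m + 1) with hlam
      have hl : lam * lam = κ := by
        rw [hlam, ← pow_add]
        have : m + 1 + (m + 1) = orderOf κ + 1 := by omega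
        rw [this, pow_succ, pow_orderOf_eq_one, one_mul]
      have hlK : lam ∈ KK Ω z := pow_mem hκ _
      have hlq : Commute lam q := L.central h hlK hqz
      have hlκ' : Commute lam κ' := L.central h hlK (L.Kz h hκ')
      have h1 : (lam * q * κ') * (lam * q * κ') = 1 := by
        rw [← hκrel, ← hl]
        calc (lam * q * κ') * (lam * q * κ') = lam * q * (κ' * lam) * q * κ' := by group
          _ = lam * (q * lam) * κ' * q * κ' := by rw [← hlκ'.eq]; group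
          _ = lam * lam * q * (κ' * q) * κ' := by rw [← hlq.eq]; group
          _ = lam * lam * (q * q) * (κ' * κ') := by rw [hκ'q.eq]; group
      have hqb : q • γ • a = γ • a := by rw [← mul_smul, hqγ, mul_smul, hqa]
      have hza := S.za
      have hzb := L.γB S.za
      have h2 := L.Kinv h h1 hab hza hzb (by rw [mul_smul, mul_smul, hκ' _ hza, hqa, hlK _ hza])
        (by rw [mul_smul, mul_smul, hκ' _ hzb, hqb, hlK _ hzb])
      have h3 : lam * q * κ' ∈ KK Ω z := by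
        rcases h2 with h2 | h2
        · rw [h2]; exact one_mem _
        · rw [h2]; exact L.zK
      apply hqK
      have h4 : q = lam⁻¹ * (lam * q * κ') * κ'⁻¹ := by group
      rw [h4]
      exact mul_mem (mul_mem (inv_mem hlK) h3) (inv_mem hκ')
  obtain ⟨m, hzκ⟩ := hzκ
  -- the element `g ∈ Γ` with `g z g⁻¹ = γ z`
  obtain ⟨d, hd⟩ := L.γz_fix h hn
  have hγz1 : γ * z ≠ 1 := by
    intro h1
    have h2 : γ = z := by
      rw [eq_inv_of_mul_eq_one_left h1, inv_eq_of_mul_eq_one_left L.zz]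
    have h3 := S.za
    rw [← h2] at h3
    exact hab h3.symm
  have hγzz : (γ * z) * (γ * z) = 1 := by
    calc (γ * z) * (γ * z) = γ * (z * γ) * z := by group
      _ = (γ * γ) * (z * z) := by rw [L.zγ]; group
      _ = 1 := by rw [L.γγ, L.zz, one_mul]
  have hγzγ : (γ * z) * γ = γ * (γ * z) := by rw [mul_assoc, L.zγ]
  obtain ⟨g, hg, hgz⟩ := conj_of_commute h L.γΓ L.γ1 L.z1 L.zz L.zγ S.za hγz1 hγzz hγzγ hd
  have hgγ : Commute g γ := Γ_comm h hg L.γΓ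
  have hgσ : Commute g σ := Γ_comm h hg S.σΓ
  have hgz' : g⁻¹ * z * g = γ * z := by
    have h1 : z = g⁻¹ * (γ * z) * g := by rw [← hgz]; group
    calc g⁻¹ * z * g = (γ * γ) * (g⁻¹ * z * g) := by rw [L.γγ, one_mul]
      _ = γ * (γ * g⁻¹) * z * g := by group
      _ = γ * (g⁻¹ * γ) * z * g := by rw [hgγ.inv_left.eq]
      _ = γ * (g⁻¹ * (γ * z) * g) := by group
      _ = γ * z := by rw [← h1]
  set e := g * u * g⁻¹ with he
  have hez : e * z = z * e := by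
    have h1 : Commute u (γ * z) := huγ.mul_right huz
    calc e * z = g * u * (g⁻¹ * z * g) * g⁻¹ := by rw [he]; group
      _ = g * (u * (γ * z)) * g⁻¹ := by rw [hgz']; group
      _ = g * ((γ * z) * u) * g⁻¹ := by rw [h1.eq]
      _ = (g * (g⁻¹ * z * g)) * u * g⁻¹ := by rw [hgz']; group
      _ = z * e := by rw [he]; group
  have heγ : Commute e γ := by
    rw [he]
    exact (hgγ.mul_left huγ).mul_left hgγ.inv_left
  have he1 : e ≠ 1 := by
    intro h1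
    apply hu1
    calc u = g⁻¹ * e * g := by rw [he]; group
      _ = 1 := by rw [h1]; group
  have hee : e * e = 1 := by
    calc e * e = g * (u * u) * g⁻¹ := by rw [he]; group
      _ = 1 := by rw [huu]; group
  have hec : e • g • c = g • c := by rw [he, mul_smul, inv_smul_smul, mul_smul, hc]
  -- normal form of `e`
  have hea := czB hez S.za
  obtain ⟨τ, hτ, hτz, hτa⟩ := Γ_fix h L.z1 L.zz L.γΓ L.γ1 L.zγ hea S.za
  have hτγ : Commute τ γ := Γ_comm h hτ L.γΓ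
  have hτσ : Commute τ σ := Γ_comm h hτ S.σΓ
  have hya : (τ * e) • a = a := by rw [mul_smul, hτa]
  have hyγ : Commute (τ * e) γ := hτγ.mul_left heγ
  have hyb : (τ * e) • γ • a = γ • a := by rw [← mul_smul, hyγ.eq, mul_smul, hya]
  have hyy : (τ * e) * (τ * e) ∈ KK Ω z := by
    have h1 := L.inv a S.za (τ * e) hya hyb
    change γ * (τ * e) * γ⁻¹ * (τ * e) ∈ KK Ω z at h1
    rw [← hyγ.eq, mul_inv_cancel_right] at h1
    exact h1
  have hqb : q • γ • a = γ • a := by rw [← mul_smul, hqγ, mul_smul, hqa]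
  rcases L.q_uniq h hab S.za (L.γB S.za) hqa hqb hya hyb hqK hqq hyy with h1 | h1
  · -- case (ii)
    set κ₅ := τ * e with hκ₅
    have hκ₅e : Commute κ₅ e := L.central h h1 hez
    have hτ' : τ = κ₅ * e := by rw [hκ₅, mul_assoc, hee, mul_one]
    have hττ : τ * τ = κ₅ * κ₅ := by
      nth_rw 1 [hτ']
      nth_rw 1 [hτ']
      calc κ₅ * e * (κ₅ * e) = κ₅ * (e * κ₅) * e := by group
        _ = κ₅ * κ₅ * (e * e) := by rw [← hκ₅e.eq]; group
        _ = κ₅ * κ₅ := by rw [hee, mul_one]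
    have hττ1 : τ * τ = 1 := by
      refine h.sr (τ * τ) (mul_mem hτ hτ) a ?_
      rw [hττ]
      exact mul_mem h1 h1 a S.za
    have hκκ : κ₅ * κ₅ = 1 := by rw [← hττ, hττ1]
    have hκ₅' : κ₅ = 1 ∨ κ₅ = z := L.Kinv h hκκ hab S.za (L.γB S.za) hya hyb
    have hτ2 : τ = 1 ∨ τ = γ := by
      by_cases hτ1 : τ = 1
      · exact Or.inl hτ1
      · right
        haveI := h.cyc
        have := cyc_invol (H := Γ) (s := ⟨τ, hτ⟩) (t := ⟨γ, L.γΓ⟩) (fun h => hτ1 (congrArg Subtype.val h))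
          (Subtype.ext hττ1) (fun h => L.γ1 (congrArg Subtype.val h)) (Subtype.ext L.γγ)
        exact congrArg Subtype.val this
    have he' : e = τ * κ₅ := by rw [hκ₅, ← mul_assoc, hττ1, one_mul]
    have hua : u • a = q • σ • a := by rw [hu, mul_smul, mul_smul, hκ' a S.za]
    have hug : u = g⁻¹ * e * g := by rw [he]; group
    have hzor : e = z ∨ e = γ * z := by
      rcases hτ2 with h2 | h2 <;> rcases hκ₅' with h3 | h3
      · rw [h2, h3, one_mul] at he'; exact absurd he' he1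
      · rw [h2, h3, one_mul] at he'; exact Or.inl he'
      · rw [h2, h3, mul_one] at he'
        rw [he'] at hec
        exact absurd hec.symm (γ_ne h L.γΓ L.γ1 _)
      · rw [h2, h3] at he'; exact Or.inr he'
    have hqi : q⁻¹ • a = a := by rw [inv_smul_eq_iff, hqa]
    rcases hzor with h2 | h2
    · -- `u = γ z`
      rw [h2, hgz'] at hug
      rw [hug, mul_smul, S.za] at hua
      have h3 : σ • a = γ • a := by
        have h4 : q • σ • a = q • γ • a := by rw [← hua, hqb]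
        exact MulAction.injective q h4
      apply S.σγ
      have h4 := h.sr (γ⁻¹ * σ) (mul_mem (inv_mem L.γΓ) S.σΓ) a (by rw [mul_smul, h3, inv_smul_smul])
      exact (inv_mul_eq_one.1 h4).symm
    · -- `u = z`
      have h3 : g⁻¹ * (γ * z) * g = z := by rw [← hgz]; group
      rw [h2, h3] at hug
      rw [hug, S.za] at hua
      have h4 : q • σ • a = q • a := by rw [← hua, hqa]
      exact S.ne1 (MulAction.injective q h4)
  · -- case (i)
    set κ₆ := q⁻¹ * (τ * e) with hκ₆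
    have he' : e = τ⁻¹ * q * κ₆ := by rw [hκ₆]; group
    have hκ₆σ : Commute κ₆ σ := L.central h h1 hσz
    have hτκ : Commute κ τ := L.central h hκ hτz
    have h2 : e * σ * e⁻¹ = σ⁻¹ * κ := by
      rw [he']
      calc τ⁻¹ * q * κ₆ * σ * (τ⁻¹ * q * κ₆)⁻¹ = τ⁻¹ * q * (κ₆ * σ) * κ₆⁻¹ * q⁻¹ * τ := by group
        _ = τ⁻¹ * (q * σ * q⁻¹) * τ := by rw [hκ₆σ.eq]; group
        _ = τ⁻¹ * σ⁻¹ * (κ * τ) := by rw [hrel]; group
        _ = τ⁻¹ * (σ⁻¹ * τ) * κ := by rw [hτκ.eq]; group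
        _ = σ⁻¹ * κ := by rw [hτσ.symm.inv_left.eq]; group
    have h3 : e * σ * e⁻¹ = σ⁻¹ * (g * κ * g⁻¹) := by
      rw [he]
      calc g * u * g⁻¹ * σ * (g * u * g⁻¹)⁻¹ = g * u * (g⁻¹ * σ) * g * u⁻¹ * g⁻¹ := by group
        _ = g * (u * σ * u⁻¹) * g⁻¹ := by rw [hgσ.inv_left.eq]; group
        _ = (g * σ⁻¹) * κ * g⁻¹ := by rw [huσ]; group
        _ = σ⁻¹ * (g * κ * g⁻¹) := by rw [hgσ.inv_right.eq]; group
    have h4 : g * κ * g⁻¹ = κ := by
      rw [h2] at h3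
      exact (mul_left_cancel h3).symm
    have h5 : g * z * g⁻¹ = z := by
      rw [← hzκ]
      calc g * κ ^ m * g⁻¹ = (g * κ * g⁻¹) ^ m := by rw [conj_zpow]
        _ = κ ^ m := by rw [h4]
    rw [hgz] at h5
    exact L.γ1 (mul_eq_right.1 h5)

end H12.Y2
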