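import Cfsg.Agent.Lib.H12.Y2I

/-!
# 2-transitive groups of even degree with a regular cyclic subgroup whose point stabilisers are Z-groups:
the theorem (helper12, S3252)
-/

set_option autoImplicit false

universe u v

namespace H12.Y2

open Subgroup MulAction

/-- the inductive step -/
theorem step {X : Type u} [Group X] {Ω : Type v} [MulAction X Ω] {Γ : Subgroup X} [Finite X] [Finite Ω] [Nonempty Ω]
    (IH : ∀ (Y : Type v) [Group Y] [Finite Y] (B : Type v) [Finite B] [Nonempty B] [MulAction Y B] (Δ : Subgroup Y),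
      Hyp B Δ → Nat.card B < Nat.card Ω → Nat.card B = 2 ∨ Conc Y B)
    (h : Hyp Ω Γ) : Nat.card Ω = 2 ∨ Conc X Ω := by
  classical
  by_cases hn2 : Nat.card Ω = 2
  · exact Or.inl hn2
  right
  have hn : 2 < Nat.card Ω := by
    have h1 : 0 < Nat.card Ω := Nat.card_pos
    obtain ⟨k, hk⟩ := h.ev
    omega
  obtain ⟨γ, γΓ, γ1, γγ⟩ := exists_γ h
  obtain ⟨a₀⟩ := (inferInstance : Nonempty Ω)
  by_cases hf2 : F2 X Ω
  · exact (thmA h hn hf2 γΓ γ1 γγ a₀).1
  exfalso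
  unfold F2 at hf2
  push Not at hf2
  obtain ⟨t, ht1, ht, a, b, c, hab, hca, hcb, hta, htb, htc, -⟩ := hf2
  have hab₀ := γ_ne h γΓ γ1 a₀
  obtain ⟨g, hga, hgb⟩ := h.two a b a₀ (γ • a₀) hab hab₀
  obtain ⟨z1, zz, hza⟩ := conj_fix (g := g) ht1 ht hta
  obtain ⟨-, -, hzb⟩ := conj_fix (g := g) ht1 ht htb
  obtain ⟨-, -, hzc⟩ := conj_fix (g := g) ht1 ht htc
  rw [hga] at hza
  rw [hgb] at hzb
  set z := g * t * g⁻¹ with hz
  have zγ : z * γ = γ * z := by
    obtain ⟨h1, h2, h3⟩ := conj_fix (g := γ) z1 zz hza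
    obtain ⟨-, -, h4⟩ := conj_fix (g := γ) z1 zz hzb
    have h5 : γ • γ • a₀ = a₀ := by rw [← mul_smul, γγ, one_smul]
    rw [h5] at h4
    have h6 := ab_uniq h hab₀ h1 h2 h4 h3 z1 zz hza hzb
    exact (mul_inv_eq_iff_eq_mul.1 h6).symm
  haveI : Fintype Ω := Fintype.ofFinite Ω
  have hf : 2 < Nat.card {w : Ω // z • w = w} := by
    rw [Nat.card_eq_fintype_card, Fintype.two_lt_card_iff]
    refine ⟨⟨a₀, hza⟩, ⟨γ • a₀, hzb⟩, ⟨g • c, hzc⟩, ?_, ?_, ?_⟩
    · exact fun h => hab₀ (congrArg Subtype.val h)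
    · intro h1
      have h2 : a₀ = g • c := congrArg Subtype.val h1
      rw [← hga] at h2
      exact hca (MulAction.injective g h2).symm
    · intro h1
      have h2 : γ • a₀ = g • c := congrArg Subtype.val h1
      rw [← hgb] at h2
      exact hcb (MulAction.injective g h2).symm
  have hlt : Nat.card {w : Ω // z • w = w} < Nat.card Ω := by
    obtain ⟨d, hd⟩ : ∃ d : Ω, z • d ≠ d := by
      by_contra hcon
      push Not at hcon
      exact z1 (h.faith z hcon)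
    rw [Nat.card_eq_fintype_card, Nat.card_eq_fintype_card]
    exact Fintype.card_subtype_lt hd
  haveI : Nonempty {w : Ω // z • w = w} := ⟨⟨a₀, hza⟩⟩
  rcases IH (YG Ω z) {w : Ω // z • w = w} (ΔY Ω z Γ) (hypY h z1 zz γΓ γ1 zγ) hlt with h1 | h1
  · omega
  · exact (exists_Loc h z1 zz γΓ γ1 γγ zγ hza hf h1).false h hn

theorem y2t_same : Y2T.{v, v} := by
  have key : ∀ n : ℕ, ∀ (X : Type v) [Group X] [Finite X] (Ω : Type v) [Finite Ω] [Nonempty Ω] [MulAction X Ω]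
      (Γ : Subgroup X), Hyp Ω Γ → Nat.card Ω = n → Nat.card Ω = 2 ∨ Conc X Ω := by
    intro n
    induction n using Nat.strong_induction_on with
    | _ n ih =>
      intro X _ _ Ω _ _ _ Γ h hn
      refine step (fun Y _ _ B _ _ _ Δ hB hlt => ?_) h
      exact ih (Nat.card B) (by omega) Y B Δ hB rfl
  intro X _ _ Ω _ _ _ Γ h
  exact key _ X Ω Γ h rfl

/-- the theorem -/
theorem y2t : Y2T.{u, v} := by
  intro X _ _ Ω _ _ _ Γ h
  exact step (fun Y _ _ B _ _ _ Δ hB _ => y2t_same Y B Δ hB) h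

end H12.Y2
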